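import Cfsg.Agent.Lib.D4S.Defs
import Cfsg.Agent.Lib.Stein.RGD
import Cfsg.Agent.Lib.Twist.D4

/-! # Standard components of type `³D₄(2ⁿ)`: definitions for the bridge to the matrix group. -/

set_option autoImplicit false
set_option linter.unusedSectionVars false

namespace H89.D4S
open Subgroup H69 U12

/-- the root system of type `G₂` on `Fin 12` -/
def rts : H63.St.Roots (Fin 12) (Fin 2) where
  Pos i := i ≤ 5
  neg i := i + 6
  α := ![0, 5]
  refl r := ⟨fun s => r + r + 6 - s, fun s => r + r + 6 - s, fun s => by simp, fun s => by simp⟩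
  Itv r s := {k | (0 < k - r ∧ k - r < s - r ∧ s - r < 6) ∨ (0 < k - s ∧ k - s < r - s ∧ r - s < 6)}
  neg_neg := by decide
  pos_neg := by decide
  pos_α := by decide
  refl_α := by decide
  refl_neg := by decide
  refl_refl := by decide
  refl_conj := by decide
  refl_pos := by decide
  itv_symm _ _ _ h := h.symm
  itv_refl := by simp only [Set.mem_ofPred_eq]; decide +kernel
  itv_neg := by simp only [Set.mem_ofPred_eq]; decide +kernel
  itv_pos := by simp only [Set.mem_ofPred_eq]; decide +kernel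
  α_not_itv := by simp only [Set.mem_ofPred_eq]; decide +kernel
  itv_sub := by simp only [Set.subset_def, Set.mem_ofPred_eq]; decide +kernel
  ind P h0 h1 r hr := by
    have a : P 0 := h0 0
    have b : P 5 := h0 1
    have c : ∀ r : Fin 12, r ≤ 5 → r = 0 ∨ r = 5 ∨
      ((0 < r - 0 ∧ r - 0 < 5 - 0 ∧ (5 - 0 : Fin 12) < 6) ∨ (0 < r - 5 ∧ r - 5 < 0 - 5 ∧ (0 - 5 : Fin 12) < 6)) := by
      decide
    rcases c r hr with rfl | rfl | e
    exacts [a, b, h1 0 5 r (by decide) (by decide) (by decide) a b e]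

theorem rts_σ0 (i : Fin 12) : rts.σ 0 i = 6 - i := by revert i; decide
theorem rts_σ1 (i : Fin 12) : rts.σ 1 i = 4 - i := by revert i; decide

namespace Pin
section
variable {K J G : Type*} [CommRing K] [CommRing J] [Cub K J] [CharP K 2] [CharP J 2] [Group G]
  (P : Pin J G)
/-- the group generated by the negative root elements -/
def V : Subgroup G := closure {g | ∃ i a, 6 ≤ i ∧ g = P.X i a}
def Faith : Prop := ∀ g ∈ P.U, g ∈ P.V → g = 1
end
variable {F E G : Type*} [Field F] [Field E] [Cub F E] [CharP F 2] [CharP E 2] [Group G] (P : Pin E G)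
/-- `g` acts as the torus element with parameters `l`, `m` -/
def Tor (g : G) (l : Eˣ) (m : Fˣ) : Prop := ∀ i a, g * P.X i a * g⁻¹ = P.X i (wt l m i * a)
/-- every automorphism is inner times field -/
def Aut : Prop := ∀ β : P.L ≃* P.L, ∃ l ∈ P.L, ∃ σ : E ≃+* E, ∀ i a,
  (β ⟨P.X i a, P.X_mem i a⟩ : G) = l * P.X i (σ a) * l⁻¹
end Pin

/-- the roots of `D₄` over the positive roots of `G₂` -/
def vp : Fin 6 → Fin 3 → Fin 4 → ℤ :=
  ![![![1, 0, 0, 0], ![0, 0, 1, 0], ![0, 0, 0, 1]], fun _ => ![1, 1, 1, 1],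
    ![![0, 1, 1, 1], ![1, 1, 0, 1], ![1, 1, 1, 0]], fun _ => ![1, 2, 1, 1],
    ![![1, 1, 0, 0], ![0, 1, 1, 0], ![0, 1, 0, 1]], fun _ => ![0, 1, 0, 0]]
/-- the roots of `D₄` over the root `i` of `G₂` -/
def vt (i : Fin 12) (j : Fin 3) : Fin 4 → ℤ :=
  if h : i.val < 6 then vp ⟨i, h⟩ j else -vp ⟨i - 6, by omega⟩ j

/-- `P` consists of the root elements of the twisted group -/
def IsModel {F E G : Type*} {ι : Type} [Field F] [Field E] [Cub F E] [CharP F 2] [CharP E 2] [Group G]
    {R : H38.RS ι (Fin 4)} (El : H38.Elts R E G) (q : ℕ) (P : Pin E G) : Prop :=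
  ∃ r : Fin 12 → Fin 3 → ι, (∀ i j, R.rt (r i j) = vt i j) ∧
    ∀ i a, P.X i a = El.x (r i 0) a * (El.x (r i 1) (a ^ q) * El.x (r i 2) ((a ^ q) ^ q))

end H89.D4S
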