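import Cfsg.Agent.Lib.D4S.Defs

/-! Standard components of type `³D₄(2ⁿ)`, package Bas1: see `blueprint/D4S/README.md`. -/

set_option autoImplicit false
set_option linter.unusedSectionVars false

namespace H89.D4S
open Subgroup H69 U12
open H89.G2S (KK ιK σK)
open scoped commutatorElement

variable {K J G : Type*} [CommRing K] [CommRing J] [Cub K J] [CharP K 2] [CharP J 2] [Group G]

/-- two maps that are multiplicative on `Q` and agree on the root subgroups agree on `Q` -/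
theorem Q_ext {f g : U12 J → G} (hf : ∀ u v, u.p0 = 0 → v.p0 = 0 → f (u * v) = f u * f v)
    (hg : ∀ u v, u.p0 = 0 → v.p0 = 0 → g (u * v) = g u * g v) (h5 : ∀ a, f (g5 a) = g (g5 a))
    (h4 : ∀ a, f (g4 a) = g (g4 a)) (h2 : ∀ a, f (g2 a) = g (g2 a)) (h1 : ∀ a, f (g1 a) = g (g1 a))
    (h3 : ∀ a, f (g3 a) = g (g3 a)) {u : U12 J} (hu : u.p0 = 0) : f u = g u := by
  have e : u = g5 u.p5 * g4 u.p4 * g2 u.p2 * g1 u.p1 * g3 u.p3 := by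
    ext <;> simp [g1, g2, g3, g4, g5, hu]
  rw [e, hf, hf, hf, hf, hg, hg, hg, hg, h5, h4, h2, h1, h3] <;> simp [g1, g2, g3, g4, g5]

/-- the relations between the five root subgroups of `Q` -/
structure Rel5 (Y1 : K → G) (Y2 : J → G) (Y3 : K → G) (Y4 : J → G) (Y5 : K → G) : Prop where
  a1 : ∀ a b, Y1 (a + b) = Y1 a * Y1 b
  a2 : ∀ a b, Y2 (a + b) = Y2 a * Y2 b
  a3 : ∀ a b, Y3 (a + b) = Y3 a * Y3 b
  a4 : ∀ a b, Y4 (a + b) = Y4 a * Y4 b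
  a5 : ∀ a b, Y5 (a + b) = Y5 a * Y5 b
  c12 : ∀ a b, Y1 a * Y2 b = Y2 b * Y1 a
  c13 : ∀ a b, Y1 a * Y3 b = Y3 b * Y1 a
  c14 : ∀ a b, Y1 a * Y4 b = Y4 b * Y1 a
  c23 : ∀ a b, Y2 a * Y3 b = Y3 b * Y2 a
  c25 : ∀ a b, Y2 a * Y5 b = Y5 b * Y2 a
  c34 : ∀ a b, Y3 a * Y4 b = Y4 b * Y3 a
  c35 : ∀ a b, Y3 a * Y5 b = Y5 b * Y3 a
  c45 : ∀ a b, Y4 a * Y5 b = Y5 b * Y4 a
  r24 : ∀ a b, Y2 a * Y4 b = Y4 b * Y2 a * Y3 (T (a * b))
  r15 : ∀ a b, Y1 a * Y5 b = Y5 b * Y1 a * Y3 (a * b)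

theorem Rel5.exists {Y1 Y3 Y5 : K → G} {Y2 Y4 : J → G} (h : Rel5 Y1 Y2 Y3 Y4 Y5) : ∃ ψ : U12 J → G,
    (∀ u v, u.p0 = 0 → v.p0 = 0 → ψ (u * v) = ψ u * ψ v) ∧
    (∀ u, ψ u = Y5 u.p5 * Y4 u.p4 * Y2 u.p2 * Y1 u.p1 * Y3 u.p3) ∧ (∀ a, ψ (g1 a) = Y1 a) ∧
    (∀ a, ψ (g2 a) = Y2 a) ∧ (∀ a, ψ (g3 a) = Y3 a) ∧ (∀ a, ψ (g4 a) = Y4 a) ∧ ∀ a, ψ (g5 a) = Y5 a := by
  have z : ∀ {Y : K → G}, (∀ a b, Y (a + b) = Y a * Y b) → Y 0 = 1 := fun {Y} h => by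
    have := h 0 0; rw [add_zero] at this; exact left_eq_mul.1 this
  have z' : ∀ {Y : J → G}, (∀ a b, Y (a + b) = Y a * Y b) → Y 0 = 1 := fun {Y} h => by
    have := h 0 0; rw [add_zero] at this; exact left_eq_mul.1 this
  refine ⟨fun u => Y5 u.p5 * Y4 u.p4 * Y2 u.p2 * Y1 u.p1 * Y3 u.p3, fun u v hu hv => ?_, fun _ => rfl,
    ?_, ?_, ?_, ?_, ?_⟩
  · simp only [mul_p5, mul_p4, mul_p2, mul_p1, mul_p3, hu, zero_mul, mul_zero, add_zero, map_zero,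
      N_zero, sh_zero, zero_cr, h.a1, h.a2, h.a3, h.a4, h.a5, mul_assoc]
    congr 1
    have l : ∀ {a b c : G} (x : G), a * b = c → a * (b * x) = c * x := fun x e => by
      rw [← mul_assoc, e]
    simp only [l _ (h.c35 _ _), l _ (h.r15 _ _), l _ (h.c25 _ _), l _ (h.c45 _ _), l _ (h.c34 _ _),
      l _ (h.c14 _ _), l _ (h.r24 _ _), l _ (h.c23 _ _).symm, l _ (h.c12 _ _), l _ (h.c13 _ _).symm,
      mul_assoc]
    simp only [← h.a3]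
    congr 8; ring
  all_goals simp [g1, g2, g3, g4, g5, z h.a1, z' h.a2, z h.a3, z' h.a4, z h.a5]

theorem exists_hom {ψ : U12 J → G} (hψ : ∀ u v, u.p0 = 0 → v.p0 = 0 → ψ (u * v) = ψ u * ψ v)
    {Y0 : J → G} (ha : ∀ a b, Y0 (a + b) = Y0 a * Y0 b)
    (hc : ∀ k u, u.p0 = 0 → Y0 k * ψ u * Y0 k = ψ (g0 k * u * g0 k)) :
    ∃ φ : U12 J →* G, (∀ u, u.p0 = 0 → φ u = ψ u) ∧ ∀ k, φ (g0 k) = Y0 k := by
  have z : Y0 0 = 1 := by have := ha 0 0; rw [add_zero] at this; exact left_eq_mul.1 this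
  have z2 : ∀ k, Y0 k * Y0 k = 1 := fun k => by rw [← ha, CharTwo.add_self_eq_zero, z]
  have o : ψ 1 = 1 := by have := hψ 1 1 rfl rfl; rw [one_mul] at this; exact left_eq_mul.1 this
  refine ⟨MonoidHom.mk' (fun u => ψ (u * g0 u.p0) * Y0 u.p0) fun u v => ?_, fun u hu => ?_, fun k => ?_⟩
  · have h1 : ∀ w : U12 J, (w * g0 w.p0).p0 = 0 := fun w => by simp [g0, CharTwo.add_self_eq_zero]
    have g00 : ∀ a b : J, g0 (a + b) = g0 a * g0 b := fun a b => by u12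
    have g01 : ∀ a : J, g0 a * g0 a = 1 := fun a => by u12
    have e : u * v * g0 (u * v).p0 = u * g0 u.p0 * (g0 u.p0 * (v * g0 v.p0) * g0 u.p0) := by
      rw [mul_p0, add_comm, g00]; simp only [mul_assoc]
      rw [← mul_assoc (g0 u.p0) (g0 u.p0), g01, one_mul]
    rw [e, hψ _ _ (h1 u) (by simp [g0]; grind), ← hc _ _ (h1 v), mul_p0, ha]
    simp only [mul_assoc]; rw [← mul_assoc (Y0 u.p0) (Y0 u.p0), z2, one_mul]
  · have : u * g0 u.p0 = u := by rw [hu]; u12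
    change ψ (u * g0 u.p0) * Y0 u.p0 = _
    rw [this, hu, z, mul_one]
  · have : g0 k * g0 k = 1 := by u12
    change ψ (g0 k * g0 k) * Y0 k = _
    rw [this, o, one_mul]

namespace Pin
variable (P : Pin J G)

theorem X_add0 {i : Fin 12} (hi : i = 3 ∨ i = 4) (a b : J) : P.X i (a + b) = P.X i a * P.X i b := by
  rcases hi with rfl | rfl
  · rw [← P.φ3, ← P.φ3, ← P.φ3, ← map_mul]; congr 1; u12
  · rw [← P.φ4, ← P.φ4, ← P.φ4, ← map_mul]; congr 1; u12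
theorem exists_w (i : Fin 12) : ∃ w ∈ closure ({P.n0, P.n5} : Set G), ∀ a,
    w * P.X (if i.val % 2 = 0 then 4 else 3) a * w⁻¹ = P.X i a := by
  have m0 : P.n0 ∈ closure ({P.n0, P.n5} : Set G) := subset_closure (by simp)
  have m5 : P.n5 ∈ closure ({P.n0, P.n5} : Set G) := subset_closure (by simp)
  have k : ∀ j i : Fin 12, (∃ w ∈ closure ({P.n0, P.n5} : Set G), ∀ a, w * P.X j a * w⁻¹ = P.X i a) →
      ∃ w ∈ closure ({P.n0, P.n5} : Set G), ∀ a, w * P.X j a * w⁻¹ = P.X (i + 2) a := by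
    rintro j i ⟨w, hw, h⟩
    refine ⟨P.n0 * P.n5 * w, mul_mem (mul_mem m0 m5) hw, fun a => ?_⟩
    rw [(by decide : ∀ i : Fin 12, i + 2 = 6 - (4 - i)) i, ← P.c0, ← P.c5, ← h]; group
  have k0 : ∀ j, ∃ w ∈ closure ({P.n0, P.n5} : Set G), ∀ a, w * P.X j a * w⁻¹ = P.X j a :=
    fun j => ⟨1, one_mem _, fun a => by simp⟩
  fin_cases i
  exacts [k _ _ (k _ _ (k _ _ (k _ _ (k0 4)))), k _ _ (k _ _ (k _ _ (k _ _ (k _ _ (k0 3))))),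
    k _ _ (k _ _ (k _ _ (k _ _ (k _ _ (k0 4))))), k0 3, k0 4, k _ _ (k0 3), k _ _ (k0 4),
    k _ _ (k _ _ (k0 3)), k _ _ (k _ _ (k0 4)), k _ _ (k _ _ (k _ _ (k0 3))),
    k _ _ (k _ _ (k _ _ (k0 4))), k _ _ (k _ _ (k _ _ (k _ _ (k0 3))))]
theorem X_add (i : Fin 12) (a b : J) : P.X i (a + b) = P.X i a * P.X i b := by
  obtain ⟨w, -, h⟩ := P.exists_w i
  rw [← h, ← h, ← h, P.X_add0 (by split_ifs <;> simp), conj_mul]
@[simp] theorem X_zero (i : Fin 12) : P.X i 0 = 1 := by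
  have := P.X_add i 0 0; rw [add_zero] at this; exact left_eq_mul.1 this
theorem X_sq (i : Fin 12) (a : J) : P.X i a * P.X i a = 1 := by
  rw [← X_add, CharTwo.add_self_eq_zero, X_zero]
theorem X_inv (i : Fin 12) (a : J) : (P.X i a)⁻¹ = P.X i a :=
  inv_eq_of_mul_eq_one_right (P.X_sq i a)
theorem X_T {i : Fin 12} (hi : i.val % 2 = 1) (a : J) : P.X i (ι (T a)) = P.X i a := by
  obtain ⟨w, -, h⟩ := P.exists_w i
  rw [if_neg (by omega)] at h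
  rw [← h, ← h, ← P.φ3', P.φ3]
theorem X_addι (i : Fin 12) (a b : K) : P.X i (ι (a + b)) = P.X i (ι a) * P.X i (ι b) := by
  rw [map_add, X_add]
theorem n0_sq : P.n0 * P.n0 = 1 := by
  rw [← mul_inv_eq_one.2 (rfl : P.n0 = P.n0)]; congr 1; simp [n0, X_inv, mul_assoc]
theorem n5_sq : P.n5 * P.n5 = 1 := by
  rw [← mul_inv_eq_one.2 (rfl : P.n5 = P.n5)]; congr 1; simp [n5, X_inv, mul_assoc]
theorem n0_inv : P.n0⁻¹ = P.n0 :=
  inv_eq_of_mul_eq_one_right P.n0_sq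
theorem n5_inv : P.n5⁻¹ = P.n5 :=
  inv_eq_of_mul_eq_one_right P.n5_sq
theorem n0_eq : P.n0 = P.X 0 1 * P.n0 * P.X 0 1 * P.n0 * P.X 0 1 := by
  have := P.c0 0 1; rw [n0_inv] at this
  rw [mul_assoc (P.X 0 1), mul_assoc (P.X 0 1), this]; rfl
theorem n5_eq : P.n5 = P.X 5 1 * P.n5 * P.X 5 1 * P.n5 * P.X 5 1 := by
  have := P.c5 5 1; rw [n5_inv] at this
  rw [mul_assoc (P.X 5 1), mul_assoc (P.X 5 1), this]; rfl
theorem φ_eq (u : U12 J) : P.φ u =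
    P.X 5 (ι u.p5) * P.X 4 u.p4 * P.X 2 u.p2 * P.X 1 (ι u.p1) * P.X 3 (ι u.p3) * P.X 0 u.p0 := by
  conv_lhs => rw [eq_prod u]
  simp only [map_mul, P.φ0, P.φ1', P.φ2, P.φ3', P.φ4, P.φ5']
theorem n0_φ {u : U12 J} (hu : u.p0 = 0) : P.n0 * P.φ u * P.n0⁻¹ = P.φ (na u) := by
  refine Q_ext (f := fun u => P.n0 * P.φ u * P.n0⁻¹) (g := fun u => P.φ (na u))
    (fun u v _ _ => by simp only [map_mul, conj_mul]) (fun u v h1 h2 => by simp only [na_mul h1 h2, map_mul])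
    ?_ ?_ ?_ ?_ ?_ hu <;> intro a
  · rw [P.φ5', P.c0, show na (g5 a : U12 J) = g1 a by u12, P.φ1']; rfl
  · rw [P.φ4, P.c0, show na (g4 a) = g2 a by u12, P.φ2]; rfl
  · rw [P.φ2, P.c0, show na (g2 a) = g4 a by u12, P.φ4]; rfl
  · rw [P.φ1', P.c0, show na (g1 a : U12 J) = g5 a by u12, P.φ5']; rfl
  · rw [P.φ3', P.c0, show na (g3 a : U12 J) = g3 a by u12, P.φ3']; rfl
theorem n5_φ {u : U12 J} (hu : u.p5 = 0) : P.n5 * P.φ u * P.n5⁻¹ = P.φ (nb u) := by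
  have e : nb u = g0 u.p4 * g2 u.p2 * g3 u.p1 * g1 u.p3 * g4 u.p0 := by u12
  rw [e, P.φ_eq u, hu, map_zero, X_zero, one_mul]
  simp only [map_mul, P.φ0, P.φ1', P.φ2, P.φ3', P.φ4, ← conj_mul, P.c5]; rfl
theorem mem_U {g : G} : g ∈ P.U ↔ ∃ u, P.φ u = g :=
  Iff.rfl
theorem mem_Q {g : G} : g ∈ P.Q ↔ ∃ u, u.p0 = 0 ∧ P.φ u = g :=
  Iff.rfl
theorem mem_Z {g : G} : g ∈ P.Z ↔ ∃ a : K, P.X 3 (ι a) = g :=
  ⟨fun ⟨_, h, e⟩ => by obtain ⟨c, rfl⟩ := mem_Z'.1 h; exact ⟨c, (P.φ3' c).symm.trans e⟩,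
    fun ⟨a, e⟩ => ⟨g3 a, mem_Z'.2 ⟨a, rfl⟩, (P.φ3' a).trans e⟩⟩
theorem mem_EA {g : G} : g ∈ P.EA ↔ ∃ a b : K, P.X 1 (ι a) * P.X 3 (ι b) = g :=
  ⟨fun ⟨_, h, e⟩ => by
      obtain ⟨a, c, rfl⟩ := mem_EA'.1 h; exact ⟨a, c, by rw [← e, map_mul, P.φ1', P.φ3']⟩,
    fun ⟨a, b, e⟩ => ⟨g1 a * g3 b, mem_EA'.2 ⟨a, b, rfl⟩, by rw [← e, map_mul, P.φ1', P.φ3']⟩⟩
theorem mem_E2 {g : G} : g ∈ P.E2 ↔ ∃ (c : J) (a b : K), P.X 2 c * P.X 1 (ι a) * P.X 3 (ι b) = g := by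
  refine ⟨fun ⟨u, h, e⟩ => ⟨u.p2, u.p1, u.p3, ?_⟩, fun ⟨c, a, b, e⟩ =>
    ⟨g2 c * g1 a * g3 b, ?_, by rw [← e, map_mul, map_mul, P.φ2, P.φ1', P.φ3']⟩⟩
  · rw [← e, φ_eq, h.1, h.2.1, h.2.2]; simp
  · exact U12.mem_E2.2 (by simp [g1, g2, g3])
theorem mem_R {g : G} : g ∈ P.R ↔ ∃ u, T u.p0 = 0 ∧ T u.p4 = 0 ∧ P.φ u = g :=
  ⟨fun ⟨u, h, e⟩ => ⟨u, h.1, h.2, e⟩, fun ⟨u, h, h', e⟩ => ⟨u, ⟨h, h'⟩, e⟩⟩
theorem φ_memU (u : U12 J) : P.φ u ∈ P.U :=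
  ⟨u, rfl⟩
theorem φ_memQ {u : U12 J} (hu : u.p0 = 0) : P.φ u ∈ P.Q :=
  ⟨u, hu, rfl⟩
theorem X3_mem (a : J) : P.X 3 a ∈ P.Z :=
  P.mem_Z.2 ⟨T a, P.X_T rfl a⟩
theorem X_memU {i : Fin 12} (hi : i ≤ 5) (a : J) : P.X i a ∈ P.U := by
  have : i = 0 ∨ i = 1 ∨ i = 2 ∨ i = 3 ∨ i = 4 ∨ i = 5 := by revert i; decide
  rcases this with rfl | rfl | rfl | rfl | rfl | rfl
  exacts [⟨_, P.φ0 a⟩, ⟨_, P.φ1 a⟩, ⟨_, P.φ2 a⟩, ⟨_, P.φ3 a⟩, ⟨_, P.φ4 a⟩, ⟨_, P.φ5 a⟩]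
theorem X_memQ {i : Fin 12} (h0 : 1 ≤ i) (hi : i ≤ 5) (a : J) : P.X i a ∈ P.Q := by
  have : i = 1 ∨ i = 2 ∨ i = 3 ∨ i = 4 ∨ i = 5 := by revert i; decide
  rcases this with rfl | rfl | rfl | rfl | rfl
  exacts [⟨_, rfl, P.φ1 a⟩, ⟨_, rfl, P.φ2 a⟩, ⟨_, rfl, P.φ3 a⟩, ⟨_, rfl, P.φ4 a⟩, ⟨_, rfl, P.φ5 a⟩]
theorem X_memP {i : Fin 12} (hi : i ≤ 6) (a : J) : P.X i a ∈ P.P0 :=
  subset_closure ⟨i, a, hi, rfl⟩
theorem X_memR {i : Fin 12} (hi : i = 1 ∨ i = 2 ∨ i = 3 ∨ i = 5) (a : J) : P.X i a ∈ P.R := by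
  have z : T (0 : J) = 0 := map_zero _
  rcases hi with rfl | rfl | rfl | rfl
  exacts [⟨_, ⟨z, z⟩, P.φ1 a⟩, ⟨_, ⟨z, z⟩, P.φ2 a⟩, ⟨_, ⟨z, z⟩, P.φ3 a⟩, ⟨_, ⟨z, z⟩, P.φ5 a⟩]
theorem X0_memR {a : J} (ha : T a = 0) : P.X 0 a ∈ P.R :=
  ⟨_, ⟨ha, map_zero _⟩, P.φ0 a⟩
theorem n0_memP : P.n0 ∈ P.P0 :=
  mul_mem (mul_mem (P.X_memP (by decide) _) (P.X_memP (by decide) _)) (P.X_memP (by decide) _)
theorem n0_mem : P.n0 ∈ P.L :=
  mul_mem (mul_mem (P.X_mem _ _) (P.X_mem _ _)) (P.X_mem _ _)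
theorem n5_mem : P.n5 ∈ P.L :=
  mul_mem (mul_mem (P.X_mem _ _) (P.X_mem _ _)) (P.X_mem _ _)
theorem φ_memP (u : U12 J) : P.φ u ∈ P.P0 := by
  rw [φ_eq]; refine mul_mem (mul_mem (mul_mem (mul_mem (mul_mem ?_ ?_) ?_) ?_) ?_) ?_ <;>
    exact P.X_memP (by decide) _
theorem φ_mem (u : U12 J) : P.φ u ∈ P.L := by
  rw [φ_eq]; refine mul_mem (mul_mem (mul_mem (mul_mem (mul_mem ?_ ?_) ?_) ?_) ?_) ?_ <;>
    exact P.X_mem _ _
theorem Z_le_Q : P.Z ≤ P.Q :=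
  map_mono fun _ h => h.1
theorem Z_le_EA : P.Z ≤ P.EA :=
  map_mono fun _ h => ⟨h.1, h.2.1, h.2.2.1, h.2.2.2.1⟩
theorem EA_le_E2 : P.EA ≤ P.E2 :=
  map_mono fun _ h => ⟨h.1, h.2.1, h.2.2.1⟩
theorem E2_le_Q : P.E2 ≤ P.Q :=
  map_mono fun _ h => h.1
theorem E2_le_R : P.E2 ≤ P.R :=
  map_mono fun u h => ⟨by rw [show u.p0 = 0 from h.1, map_zero], by rw [show u.p4 = 0 from h.2.2, map_zero]⟩
theorem R_le_U : P.R ≤ P.U :=
  fun _ ⟨u, _, e⟩ => ⟨u, e⟩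
theorem Q_le_U : P.Q ≤ P.U :=
  fun _ ⟨u, _, e⟩ => ⟨u, e⟩
theorem U_le_P0 : P.U ≤ P.P0 :=
  fun _ ⟨u, e⟩ => e ▸ P.φ_memP u
theorem P0_le_L : P.P0 ≤ P.L :=
  closure_mono fun _ ⟨i, a, _, e⟩ => ⟨i, a, e⟩
theorem U_le_L : P.U ≤ P.L :=
  P.U_le_P0.trans P.P0_le_L
theorem U_isP : IsPGroup 2 P.U :=
  isP.of_surjective _ P.φ.rangeRestrict_surjective
theorem E2_sq {x : G} (hx : x ∈ P.E2) : x * x = 1 := by
  obtain ⟨u, ⟨h0, h5, h4⟩, rfl⟩ := hx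
  rw [← map_mul, sq_Q h0, h5, h4, ← P.φ.map_one]; congr 1; u12
theorem R_comm {x : G} (hx : x ∈ P.R) : x * P.X 2 1 = P.X 2 1 * x := by
  obtain ⟨u, hu, rfl⟩ := hx
  rw [← P.φ2, ← map_mul, U12.R_comm hu, map_mul]
theorem X3_comm_φ (a : J) (u : U12 J) : P.X 3 a * P.φ u = P.φ u * P.X 3 a := by
  rw [← P.φ3, ← map_mul, g3_comm, map_mul]
theorem X3_comm_P0 (a : J) {p : G} (hp : p ∈ P.P0) : P.X 3 a * p = p * P.X 3 a := by
  refine closure_induction (p := fun p _ => P.X 3 a * p = p * P.X 3 a) ?_ (by simp)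
    (fun x y _ _ h1 h2 => by rw [← mul_assoc, h1, mul_assoc, h2, mul_assoc])
    (fun x _ h => (Commute.inv_right h).eq) hp
  rintro _ ⟨i, b, hi, rfl⟩
  by_cases h : i ≤ 5
  · obtain ⟨u, e⟩ := P.X_memU h b; rw [← e, X3_comm_φ]
  · obtain rfl : i = 6 := by revert i; decide
    have h3 : P.n0 * P.X 3 a * P.n0⁻¹ = P.X 3 a := P.c0 3 a
    have h0 : P.n0 * P.X 0 b * P.n0⁻¹ = P.X 6 b := P.c0 0 b
    rw [← h0, ← h3, conj_mul, conj_mul, ← P.φ0, X3_comm_φ]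
theorem P0_norm_Q : P.P0 ≤ 𝐍(P.Q) := by
  have hU : P.U ≤ 𝐍(P.Q) := by
    rintro _ ⟨u, rfl⟩
    have k : ∀ u, ∀ x ∈ P.Q, P.φ u * x * (P.φ u)⁻¹ ∈ P.Q := by
      rintro u _ ⟨v, hv, rfl⟩
      exact ⟨u * v * u⁻¹, by rw [SetLike.mem_coe, U12.mem_Q] at hv ⊢; simp [hv]; grind, by simp⟩
    refine mem_normalizer_iff.2 fun x => ⟨k u x, fun h => ?_⟩
    have := k u⁻¹ _ h; simpa [mul_assoc] using this
  have h0 : P.n0 ∈ 𝐍(P.Q) := by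
    have k : ∀ x ∈ P.Q, P.n0 * x * P.n0⁻¹ ∈ P.Q := by
      rintro _ ⟨v, hv, rfl⟩; rw [P.n0_φ hv]; exact P.φ_memQ rfl
    refine mem_normalizer_iff.2 fun x => ⟨k x, fun h => ?_⟩
    have := k _ h
    rwa [n0_inv, ← mul_assoc, ← mul_assoc, n0_sq, one_mul, mul_assoc, n0_sq, mul_one] at this
  refine (closure_le _).2 ?_
  rintro _ ⟨i, b, hi, rfl⟩
  by_cases h : i ≤ 5
  · exact hU (P.X_memU h b)
  · obtain rfl : i = 6 := by revert i; decide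
    have e : P.n0 * P.X 0 b * P.n0⁻¹ = P.X 6 b := P.c0 0 b
    exact e ▸ mul_mem (mul_mem h0 (hU (P.X_memU (by decide) b))) (inv_mem h0)
theorem comm51 (a b : K) : ⁅P.X 5 (ι a), P.X 1 (ι b)⁆ = P.X 3 (ι (a * b)) := by
  rw [← P.φ5', ← P.φ1', ← P.φ3', ← map_commutatorElement]; congr 1
  simp only [commutatorElement_def]; u12
theorem comm51' (b : J) : ⁅P.X 5 1, P.X 1 b⁆ = P.X 3 b := by
  have := P.comm51 1 (T b)
  rwa [map_one, one_mul, P.X_T rfl, P.X_T rfl] at this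
theorem comm02 (a b : J) : ⁅P.X 0 a, P.X 2 b⁆ = P.X 1 (a * b) := by
  rw [← P.φ0, ← P.φ2, ← P.φ1, ← map_commutatorElement]; congr 1
  simp only [commutatorElement_def]; u12
theorem comm42 (a b : J) : ⁅P.X 4 a, P.X 2 b⁆ = P.X 3 (a * b) := by
  rw [← P.φ4, ← P.φ2, ← P.φ3, ← map_commutatorElement]; congr 1
  simp only [commutatorElement_def]; u12
/-- an element commuting with the positive root elements commutes with `U` -/
theorem comm_φ {g : G} (h : ∀ i ≤ 5, ∀ a, g * P.X i a = P.X i a * g) (u : U12 J) :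
    g * P.φ u = P.φ u * g := by
  rw [φ_eq]
  exact (((((Commute.mul_right (h 5 (by decide) _) (h 4 (by decide) _)).mul_right
    (h 2 (by decide) _)).mul_right (h 1 (by decide) _)).mul_right (h 3 (by decide) _)).mul_right
    (h 0 (by decide) _)).eq
theorem comm_φQ {g : G} (h : ∀ i, 1 ≤ i → i ≤ 5 → ∀ a, g * P.X i a = P.X i a * g) {u : U12 J}
    (hu : u.p0 = 0) : g * P.φ u = P.φ u * g := by
  rw [φ_eq, hu, X_zero, mul_one]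
  exact ((((Commute.mul_right (h 5 (by decide) (by decide) _) (h 4 (by decide) (by decide) _)).mul_right
    (h 2 (by decide) (by decide) _)).mul_right (h 1 (by decide) (by decide) _)).mul_right
    (h 3 (by decide) (by decide) _)).eq
theorem comm_φQ2 {g : G} (h : ∀ i ≤ 4, ∀ a, g * P.X i a = P.X i a * g) {u : U12 J}
    (hu : u.p5 = 0) : g * P.φ u = P.φ u * g := by
  rw [φ_eq, hu, map_zero, X_zero, one_mul]
  exact ((((Commute.mul_right (h 4 (by decide) _) (h 2 (by decide) _)).mul_right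
    (h 1 (by decide) _)).mul_right (h 3 (by decide) _)).mul_right (h 0 (by decide) _)).eq
theorem comm_P0 {g : G} (h : ∀ i ≤ 6, ∀ a, g * P.X i a = P.X i a * g) {p : G} (hp : p ∈ P.P0) :
    g * p = p * g := by
  refine closure_induction (p := fun p _ => g * p = p * g) ?_ (by simp)
    (fun x y _ _ h1 h2 => by rw [← mul_assoc, h1, mul_assoc, h2, mul_assoc])
    (fun x _ h => (Commute.inv_right h).eq) hp
  rintro _ ⟨i, b, hi, rfl⟩; exact h i hi b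
theorem L_le {H : Subgroup G} : P.L ≤ H ↔ ∀ i a, P.X i a ∈ H :=
  ⟨fun h i a => h (P.X_mem i a), fun h => (closure_le _).2 fun _ ⟨i, a, e⟩ => e ▸ h i a⟩
theorem P0_le {H : Subgroup G} : P.P0 ≤ H ↔ ∀ i ≤ 6, ∀ a, P.X i a ∈ H :=
  ⟨fun h _ hi a => h (P.X_memP hi a), fun h => (closure_le _).2 fun _ ⟨i, a, hi, e⟩ => e ▸ h i hi a⟩
theorem U_le {H : Subgroup G} : P.U ≤ H ↔ ∀ i ≤ 5, ∀ a, P.X i a ∈ H := by
  refine ⟨fun h _ hi a => h (P.X_memU hi a), fun h => ?_⟩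
  rintro _ ⟨u, rfl⟩
  rw [φ_eq]; refine mul_mem (mul_mem (mul_mem (mul_mem (mul_mem ?_ ?_) ?_) ?_) ?_) ?_ <;>
    exact h _ (by decide) _
theorem Q_le {H : Subgroup G} : P.Q ≤ H ↔ ∀ i, 1 ≤ i → i ≤ 5 → ∀ a, P.X i a ∈ H := by
  refine ⟨fun h _ h0 hi a => h (P.X_memQ h0 hi a), fun h => ?_⟩
  rintro _ ⟨u, hu, rfl⟩
  rw [φ_eq, show u.p0 = 0 from hu, X_zero, mul_one]
  refine mul_mem (mul_mem (mul_mem (mul_mem ?_ ?_) ?_) ?_) ?_ <;> exact h _ (by decide) (by decide) _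
theorem ext' {P' : Pin J G} (h : ∀ i a, P.X i a = P'.X i a) : P = P' := by
  have hX : P.X = P'.X := funext fun i => funext (h i)
  have hφ : P.φ = P'.φ := MonoidHom.ext fun u => by rw [φ_eq, φ_eq, hX]
  cases P; cases P'; cases hX; cases hφ; rfl
variable {P}
theorem Cn.comm {g l : G} (h : P.Cn g) (hl : l ∈ P.L) : g * l = l * g := by
  refine closure_induction (p := fun p _ => g * p = p * g) ?_ (by simp)
    (fun x y _ _ h1 h2 => by rw [← mul_assoc, h1, mul_assoc, h2, mul_assoc])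
    (fun x _ h => (Commute.inv_right h).eq) hl
  rintro _ ⟨i, b, rfl⟩; exact h i b
theorem Cn.mul {g g' : G} (h : P.Cn g) (h' : P.Cn g') : P.Cn (g * g') :=
  fun i a => (Commute.mul_left (h i a) (h' i a)).eq
theorem Cn.inv {g : G} (h : P.Cn g) : P.Cn g⁻¹ :=
  fun i a => (Commute.inv_left (h i a)).eq
theorem Cn.pow {g : G} (h : P.Cn g) (n : ℕ) : P.Cn (g ^ n) :=
  fun i a => (Commute.pow_left (h i a) n).eq
theorem cn_iff {g : G} : P.Cn g ↔ g ∈ 𝐂(P.L) :=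
  ⟨fun h _ hl => (h.comm hl).symm, fun h i a => (h _ (P.X_mem i a)).symm⟩
theorem cn_iff_act {g : G} : P.Cn g ↔ P.Act g (RingEquiv.refl J) :=
  ⟨fun h => ⟨Tc.refl, fun i a => mul_inv_eq_iff_eq_mul.2 (h i a)⟩,
    fun h i a => mul_inv_eq_iff_eq_mul.1 (h.act i a)⟩
theorem cn_iff_act' {g : G} : P.Cn g ↔ P.Act g 1 :=
  cn_iff_act
theorem Act.φ {m : G} {ρ : J ≃+* J} (h : P.Act m ρ) (u : U12 J) :
    m * P.φ u * m⁻¹ = P.φ (U12.map h.tc u) := by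
  rw [φ_eq, φ_eq]; simp only [← conj_mul, h.act, map_p0, map_p1, map_p2, map_p3, map_p4, map_p5,
    Tc.ι_res]; rfl
theorem Act.actι {m : G} {ρ : J ≃+* J} (h : P.Act m ρ) (i : Fin 12) (a : K) :
    m * P.X i (ι a) * m⁻¹ = P.X i (ι (h.tc.res a)) := by
  rw [h.act, Tc.ι_res]; rfl
theorem Act.mul {m m' : G} {ρ ρ' : J ≃+* J} (h : P.Act m ρ) (h' : P.Act m' ρ') :
    P.Act (m * m') (ρ * ρ') :=
  ⟨h.tc.mul h'.tc, fun i a => by
    rw [show (ρ * ρ') a = ρ (ρ' a) from rfl, ← h.act, ← h'.act]; group⟩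
theorem Act.inv {m : G} {ρ : J ≃+* J} (h : P.Act m ρ) : P.Act m⁻¹ ρ⁻¹ :=
  ⟨h.tc.symm, fun i a => by
    have := h.act i (ρ.symm a); rw [RingEquiv.apply_symm_apply] at this; rw [← this]
    change _ = P.X i (ρ.symm a); group⟩
theorem Act.pow {m : G} {ρ : J ≃+* J} (h : P.Act m ρ) (n : ℕ) : P.Act (m ^ n) (ρ ^ n) := by
  induction n with
  | zero => rw [pow_zero, pow_zero]; exact cn_iff_act'.1 fun i a => by simp
  | succ n ih => rw [pow_succ, pow_succ]; exact ih.mul h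
theorem Act.n0 {m : G} {ρ : J ≃+* J} (h : P.Act m ρ) : m * P.n0 = P.n0 * m := by
  rw [← mul_inv_eq_iff_eq_mul, Pin.n0]; simp only [← conj_mul, h.act, map_one]
theorem Act.n5 {m : G} {ρ : J ≃+* J} (h : P.Act m ρ) : m * P.n5 = P.n5 * m := by
  rw [← mul_inv_eq_iff_eq_mul, Pin.n5]; simp only [← conj_mul, h.act, map_one]
theorem Act.uniq (hP : Function.Injective P.φ) {m : G} {ρ ρ' : J ≃+* J} (h : P.Act m ρ)
    (h' : P.Act m ρ') : ρ = ρ' :=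
  RingEquiv.ext fun a => by
  have := (h.act 0 a).symm.trans (h'.act 0 a)
  rw [← P.φ0, ← P.φ0] at this; exact congrArg U12.p0 (hP this)
/-- the automorphism is seen on `U/Q` -/
theorem Act.eq_one (hP : Function.Injective P.φ) {m : G} {ρ : J ≃+* J} (h : P.Act m ρ) {u : U12 J}
    (e : ∀ k, ⁅P.φ u * m, P.X 0 k⁆ ∈ P.Q) : ρ = 1 :=
  RingEquiv.ext fun k => by
  obtain ⟨v, hv, e1⟩ := e k
  have e2 : ⁅P.φ u * m, P.X 0 k⁆ = P.φ (u * g0 (ρ k) * u⁻¹ * (g0 k)⁻¹) := by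
    simp only [map_mul, map_inv, P.φ0, ← h.act, commutatorElement_def]; group
  have e3 := congrArg U12.p0 (hP (e1.trans e2))
  rw [show v.p0 = 0 from hv] at e3
  simp only [mul_p0, inv_p0, g0] at e3
  change ρ k = k
  grind
theorem Act.eq_one_of_mem (hP : Function.Injective P.φ) {m : G} {ρ : J ≃+* J} (h : P.Act m ρ)
    (e : m ∈ P.U) : ρ = 1 := by
  obtain ⟨v, rfl⟩ := e
  exact h.eq_one hP (u := v⁻¹) fun k => by simp
theorem X_inj (hP : Function.Injective P.φ) {i : Fin 12} (hi : i.val % 2 = 0) :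
    Function.Injective (P.X i) :=
  fun a b e => by
  obtain ⟨w, -, h⟩ := P.exists_w i
  rw [← h, ← h, mul_left_inj, mul_right_inj, if_pos hi] at e
  rw [← P.φ4, ← P.φ4] at e; exact congrArg U12.p4 (hP e)
theorem X_injι (hP : Function.Injective P.φ) (i : Fin 12) {a b : K} (h : P.X i (ι a) = P.X i (ι b)) :
    a = b := by
  obtain ⟨w, -, h'⟩ := P.exists_w i
  rw [← h', ← h', mul_left_inj, mul_right_inj] at h
  split_ifs at h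
  · rw [← P.φ4, ← P.φ4] at h; exact ι_inj (congrArg U12.p4 (hP h))
  · rw [← P.φ3', ← P.φ3'] at h; exact congrArg U12.p3 (hP h)
variable (P)
theorem No_norm {H : Subgroup G} (h : ∀ m ρ, P.Act m ρ → ∀ x ∈ H, m * x * m⁻¹ ∈ H) : P.No ≤ 𝐍(H) := by
  rintro m ⟨ρ, hm⟩
  refine mem_normalizer_iff.2 fun x => ⟨h m ρ hm x, fun hx => ?_⟩
  have := h _ _ hm.inv _ hx; simpa [mul_assoc] using this
theorem No_norm_L : P.No ≤ 𝐍(P.L) :=
  P.No_norm fun m ρ h x hx => by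
  have : P.L ≤ P.L.comap (MulAut.conj m).toMonoidHom := P.L_le.2 fun i a => by
    change m * _ * m⁻¹ ∈ P.L; rw [h.act]; exact P.X_mem _ _
  exact this hx
theorem No_norm_U : P.No ≤ 𝐍(P.U) :=
  P.No_norm (by rintro m ρ h _ ⟨u, rfl⟩; rw [h.φ]; exact P.φ_memU _)
theorem No_norm_Q : P.No ≤ 𝐍(P.Q) :=
  P.No_norm (by
  rintro m ρ h _ ⟨u, hu, rfl⟩; rw [h.φ]; exact P.φ_memQ (by simp [show u.p0 = 0 from hu]))
theorem No_norm_Z : P.No ≤ 𝐍(P.Z) :=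
  P.No_norm fun m ρ h x hx => by
  obtain ⟨a, rfl⟩ := P.mem_Z.1 hx; rw [h.act]; exact P.X3_mem _
theorem M_norm_L : P.M ≤ 𝐍(P.L) :=
  sup_le le_normalizer P.No_norm_L
theorem mem_M {g : G} : g ∈ P.M ↔ ∃ l ∈ P.L, ∃ m ρ, P.Act m ρ ∧ g = l * m := by
  refine ⟨fun h => ?_, fun ⟨l, hl, m, ρ, hm, e⟩ => e ▸ mul_mem (mem_sup_left hl) (mem_sup_right ⟨ρ, hm⟩)⟩
  have := (coe_mul_of_right_le_normalizer_left P.L P.No P.No_norm_L).le h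
  obtain ⟨l, hl, m, ⟨ρ, hm⟩, e⟩ := this
  exact ⟨l, hl, m, ρ, hm, e.symm⟩
theorem map_L {G' : Type*} [Group G'] (f : G →* G') : (P.map f).L = P.L.map f := by
  rw [L, L, MonoidHom.map_closure]; congr 1; ext g
  exact ⟨fun ⟨i, a, e⟩ => ⟨_, ⟨i, a, rfl⟩, e.symm⟩, fun ⟨_, ⟨i, a, e⟩, e'⟩ => ⟨i, a, by rw [← e', e]; rfl⟩⟩
section card
variable (hP : Function.Injective P.φ)
include hP
omit hP in
omit P in
theorem elem_aux {A : Type*} [AddCommGroup A] (h2 : ∀ a : A, a + a = 0) {f : A → G}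
    (hf : Function.Injective f) (h : ∀ a b, f (a + b) = f a * f b) : ∃ E : Subgroup G,
      (∀ e ∈ E, e * e = 1) ∧ Nat.card E = Nat.card A ∧ ∀ e, e ∈ E ↔ ∃ a, f a = e := by
  let φ : Multiplicative A →* G := MonoidHom.mk' (fun a => f a.toAdd) fun a b => h _ _
  refine ⟨φ.range, ?_, ?_, fun e => Iff.rfl⟩
  · rintro _ ⟨a, rfl⟩; rw [← map_mul, ← φ.map_one]; congr 1
    exact Multiplicative.toAdd.injective (h2 a.toAdd)
  · rw [← Nat.card_congr (MonoidHom.ofInjective (f := φ) hf).toEquiv]; rfl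
theorem card_U : Nat.card P.U = Nat.card J ^ 3 * Nat.card K ^ 3 := by
  rw [← U12.card]; exact (Nat.card_congr (MonoidHom.ofInjective hP).toEquiv).symm
theorem card_Q : Nat.card P.Q = Nat.card J ^ 2 * Nat.card K ^ 3 := by
  rw [Q, card_map_of_injective hP, Nat.card_congr (show U12.Q J ≃ K × J × J × K × K from
    ⟨fun u => (u.1.p5, u.1.p4, u.1.p2, u.1.p1, u.1.p3), fun v => ⟨⟨0, v.1, v.2.1, v.2.2.1, v.2.2.2.1,
      v.2.2.2.2⟩, rfl⟩, fun u => Subtype.ext (U12.ext u.2.symm rfl rfl rfl rfl rfl), fun _ => rfl⟩)]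
  simp only [Nat.card_prod]; ring
theorem card_Z : Nat.card P.Z = Nat.card K := by
  rw [Z, card_map_of_injective hP, Nat.card_congr (show U12.Z J ≃ K from
    ⟨fun u => u.1.p3, fun v => ⟨⟨0, 0, 0, 0, 0, v⟩, rfl, rfl, rfl, rfl, rfl⟩,
      fun u => Subtype.ext (U12.ext u.2.1.symm u.2.2.1.symm u.2.2.2.1.symm u.2.2.2.2.1.symm
        u.2.2.2.2.2.symm rfl), fun _ => rfl⟩)]
theorem card_EA : Nat.card P.EA = Nat.card K ^ 2 := by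
  rw [EA, card_map_of_injective hP, Nat.card_congr (show U12.EA J ≃ K × K from
    ⟨fun u => (u.1.p1, u.1.p3), fun v => ⟨⟨0, 0, 0, 0, v.1, v.2⟩, rfl, rfl, rfl, rfl⟩,
      fun u => Subtype.ext (U12.ext u.2.1.symm u.2.2.1.symm u.2.2.2.1.symm u.2.2.2.2.symm
        rfl rfl), fun _ => rfl⟩)]
  simp only [Nat.card_prod]; ring
theorem card_E2 : Nat.card P.E2 = Nat.card J * Nat.card K ^ 2 := by
  rw [E2, card_map_of_injective hP, Nat.card_congr (show U12.E2 J ≃ J × K × K from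
    ⟨fun u => (u.1.p2, u.1.p1, u.1.p3), fun v => ⟨⟨0, 0, 0, v.1, v.2.1, v.2.2⟩, rfl, rfl, rfl⟩,
      fun u => Subtype.ext (U12.ext u.2.1.symm u.2.2.1.symm u.2.2.2.symm rfl
        rfl rfl), fun _ => rfl⟩)]
  simp only [Nat.card_prod]; ring
theorem card_R : Nat.card P.R = Nat.card {x : J | T x = 0} ^ 2 * Nat.card J * Nat.card K ^ 3 := by
  rw [R, card_map_of_injective hP, Nat.card_congr (show U12.R J ≃
      {x : J | T x = 0} × {x : J | T x = 0} × K × J × K × K from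
    ⟨fun u => (⟨u.1.p0, u.2.1⟩, ⟨u.1.p4, u.2.2⟩, u.1.p5, u.1.p2, u.1.p1, u.1.p3),
      fun v => ⟨⟨v.1.1, v.2.2.1, v.2.1.1, v.2.2.2.1, v.2.2.2.2.1, v.2.2.2.2.2⟩, v.1.2, v.2.1.2⟩,
      fun _ => rfl, fun _ => rfl⟩)]
  simp only [Nat.card_prod]; ring
/-- every positive root subgroup lies in a large elementary abelian subgroup -/
theorem exists_elem {i : Fin 12} (hi : i ≤ 5) :
    ∃ B ≤ P.U, (∀ e ∈ B, e * e = 1) ∧ Nat.card B = Nat.card J * Nat.card K ^ 2 ∧ (∀ a, P.X i a ∈ B) ∧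
      (i ≠ 0 → i ≠ 4 → B ≤ P.R) := by
  have k : ∀ f : J × K × K → U12 J, Function.Injective f → (∀ a b, f (a + b) = f a * f b) →
      (∀ a, ∃ b, P.φ (f b) = P.X i a) → (i ≠ 0 → i ≠ 4 → ∀ b, f b ∈ U12.R J) →
      ∃ B ≤ P.U, (∀ e ∈ B, e * e = 1) ∧ Nat.card B = Nat.card J * Nat.card K ^ 2 ∧
        (∀ a, P.X i a ∈ B) ∧ (i ≠ 0 → i ≠ 4 → B ≤ P.R) := fun f hf ha h1 h2 => by
    obtain ⟨E, e1, e2, e3⟩ := elem_aux (A := J × K × K)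
      (fun a => by ext <;> exact CharTwo.add_self_eq_zero _) (f := fun a => P.φ (f a)) (hP.comp hf)
      fun a b => by rw [ha, map_mul]
    refine ⟨E, fun x hx => ?_, e1, by rw [e2]; simp only [Nat.card_prod]; ring,
      fun a => (e3 _).2 (h1 a), fun h0 h4 x hx => ?_⟩ <;>
      obtain ⟨b, rfl⟩ := (e3 x).1 hx
    exacts [P.φ_memU _, ⟨_, h2 h0 h4 b, rfl⟩]
  have z : T (0 : J) = 0 := map_zero _
  have : i = 0 ∨ i = 4 ∨ i = 5 ∨ i = 1 ∨ i = 2 ∨ i = 3 := by clear k; revert i; decide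
  rcases this with rfl | rfl | rfl | h
  · exact k (fun a => ⟨a.1, 0, 0, 0, a.2.1, a.2.2⟩) (fun a b e => by
        simp only [U12.mk.injEq, true_and] at e; exact Prod.ext e.1 (Prod.ext e.2.1 e.2.2))
      (fun a b => by ext <;> simp) (fun a => ⟨(a, 0, 0), P.φ0 a⟩) (by simp)
  · exact k (fun a => ⟨0, 0, a.1, 0, a.2.1, a.2.2⟩) (fun a b e => by
        simp only [U12.mk.injEq, true_and] at e; exact Prod.ext e.1 (Prod.ext e.2.1 e.2.2))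
      (fun a b => by ext <;> simp) (fun a => ⟨(a, 0, 0), P.φ4 a⟩) (by simp)
  · exact k (fun a => ⟨0, a.2.1, 0, a.1, 0, a.2.2⟩) (fun a b e => by
        simp only [U12.mk.injEq, true_and] at e; exact Prod.ext e.2.1 (Prod.ext e.1 e.2.2))
      (fun a b => by ext <;> simp) (fun a => ⟨(0, T a, 0), P.φ5 a⟩) fun _ _ _ => ⟨z, z⟩
  · refine k (fun a => ⟨0, 0, 0, a.1, a.2.1, a.2.2⟩) (fun a b e => by
        simp only [U12.mk.injEq, true_and] at e; exact Prod.ext e.1 (Prod.ext e.2.1 e.2.2))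
      (fun a b => by ext <;> simp) (fun a => ?_) fun _ _ _ => ⟨z, z⟩
    rcases h with rfl | rfl | rfl
    exacts [⟨(0, T a, 0), P.φ1 a⟩, ⟨(a, 0, 0), P.φ2 a⟩, ⟨(0, 0, T a), P.φ3 a⟩]
theorem exists_elemR : ∃ B ≤ P.R, (∀ e ∈ B, e * e = 1) ∧
    Nat.card B = Nat.card {x : J | T x = 0} * Nat.card K ^ 3 ∧ ∀ a, T a = 0 → P.X 0 a ∈ B := by
  let A := (T : J →+ K).ker
  obtain ⟨E, e1, e2, e3⟩ := elem_aux (A := A × K × K × K)
    (fun a => by ext <;> exact CharTwo.add_self_eq_zero _)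
    (f := fun a => P.φ ⟨a.1.1, 0, 0, ι a.2.1, a.2.2.1, a.2.2.2⟩)
    (fun a b e => by
      have e := hP e
      simp only [U12.mk.injEq, true_and, ι_eq_iff] at e
      exact Prod.ext (Subtype.ext e.1) (Prod.ext e.2.1 (Prod.ext e.2.2.1 e.2.2.2)))
    fun a b => by
      rw [← map_mul]; congr 1
      have ha : T a.1.1 = 0 := a.1.2
      ext <;> simp [ha]
  refine ⟨E, fun x hx => ?_, e1, ?_, fun a ha => (e3 _).2 ⟨(⟨a, ha⟩, 0, 0, 0), ?_⟩⟩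
  · obtain ⟨b, rfl⟩ := (e3 x).1 hx
    have hb : T b.1.1 = 0 := b.1.2
    exact P.mem_R.2 ⟨_, hb, map_zero _, rfl⟩
  · rw [e2]; simp only [Nat.card_prod]
    rw [show Nat.card A = Nat.card {x : J | T x = 0} from rfl]; ring
  · rw [← P.φ0, map_zero]; rfl
end card
end Pin

end H89.D4S
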