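import Cfsg.Agent.Lib.D4S.U12
import Cfsg.Agent.Lib.G2S.UB

/-! Standard components of type `³D₄(2ⁿ)`, package CF: see `blueprint/D4S/README.md`. -/

set_option autoImplicit false
set_option linter.unusedSectionVars false

namespace H89.D4S
open Subgroup H69 U12
open H89.G2S (KK ιK σK)
open scoped commutatorElement

variable {F E : Type*} [Field F] [Field E] [Cub F E] [CharP F 2] [CharP E 2] [Finite F] [Finite E]

namespace CF
theorem comm (ρ : E ≃+* E) (x : E) : ρ (θ x) = θ (ρ x) :=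
  DFunLike.congr_fun (G2S.aut_comm ρ (RingEquiv.ofBijective (θ : E →+* E)
    (Finite.injective_iff_bijective.1 (θ : E →+* E).injective))) x
theorem root3 (ρ : E →+* E) (h : ∀ a : F, ρ (ι a) = ι a) (x : E) :
    ρ x = x ∨ ρ x = θ x ∨ ρ x = θ (θ x) := by
  have e : ∀ y : E, (y + x) * ((y + θ x) * (y + θ (θ x))) =
      y ^ 3 + ι (T x) * y ^ 2 + ι (T (sh x)) * y + ι (N x) := fun y => by
    simp only [ιT, ιN, sh, map_mul, θ3]; ring
  have k := congrArg ρ (e x)
  rw [CharTwo.add_self_eq_zero, zero_mul, map_zero] at k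
  simp only [map_add, map_mul, map_pow, h] at k
  rw [← e] at k
  simpa only [mul_eq_zero, CharTwo.add_eq_zero] using k.symm
theorem four (F : Type*) [Field F] [CharP F 2] [Finite F] : 4 ≤ Nat.card F ∨ ∀ a : F, a = 0 ∨ a = 1 := by
  classical
  refine or_iff_not_imp_right.2 fun h => ?_
  push Not at h
  obtain ⟨a, h0, h1⟩ := h
  have := Fintype.ofFinite F
  have h2 : a + 1 ≠ 0 := fun e => h1 (CharTwo.add_eq_zero.1 e)
  have : ({0, 1, a, a + 1} : Finset F).card = 4 := by
    rw [Finset.card_insert_of_notMem (by simp [h0.symm, h2.symm]),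
      Finset.card_insert_of_notMem (by simp [h0, h1.symm]), Finset.card_pair (by simp)]
  rw [← this, Nat.card_eq_fintype_card]
  exact Finset.card_le_univ _
theorem card_hom {A B : Type*} [AddGroup A] [AddGroup B] (f : A →+ B) (h : Function.Surjective f) :
    Nat.card f.ker * Nat.card B = Nat.card A := by
  rw [← f.ker.card_mul_index, AddSubgroup.index_ker, AddMonoidHom.range_eq_top.2 h, AddSubgroup.card_top]
/-- the restriction of an automorphism to the small field -/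
noncomputable def res (ρ : E ≃+* E) : F ≃+* F :=
  RingEquiv.ofBijective (Tc.res (.of_comm (comm ρ) : Tc (ρ : E →+* E)))
    (Finite.injective_iff_bijective.1 (RingHom.injective _))
theorem ι_res (ρ : E ≃+* E) (a : F) : ι (res ρ a) = ρ (ι a) :=
  Tc.ι_res (.of_comm (comm ρ) : Tc (ρ : E →+* E)) a
theorem auto_CF : True := by have := @res.eq_1.{0, 0}; trivial
end CF

theorem N_eq_zero {x : E} : N x = 0 ↔ x = 0 := by
  rw [← ι_eq_zero (J := E), ιN]; simp
theorem sh_eq_zero {x : E} : sh x = 0 ↔ x = 0 := by simp [sh]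
theorem sh_inv (x : E) : sh x⁻¹ = (sh x)⁻¹ := by simp [sh, mul_comm]
theorem N_inv (x : E) : N x⁻¹ = (N x)⁻¹ :=
  ι_inj (J := E) (by simp only [ιN, map_inv₀, mul_inv])
theorem cr_eq_zero {k x : E} (hk : k ≠ 0) (h : cr k x = 0) : ∃ a : F, x = ι a * k := by
  obtain ⟨y, rfl⟩ : ∃ y, x = k * y := ⟨k⁻¹ * x, by field_simp⟩
  rw [show cr k (k * y) = cr (k * 1) (k * y) by rw [mul_one], cr_mul, one_cr, mul_eq_zero, sh_eq_zero,
    CharTwo.add_eq_zero] at h
  exact ⟨T y, by rw [← h.resolve_left hk, mul_comm]⟩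
theorem exists_cr {k c : E} (hk : k ≠ 0) (h : T (k * c) = 0) : ∃ y, cr k y = c := by
  have n : N k ≠ 0 := mt N_eq_zero.1 hk
  refine ⟨k * (k * c * ι (N k)⁻¹), ?_⟩
  rw [show ∀ y, cr k (k * y) = cr (k * 1) (k * y) from fun y => by rw [mul_one], cr_mul, one_cr, T_mul_ι, h,
    zero_mul, map_zero, add_zero, map_inv₀, ← mul_sh]
  have := mt sh_eq_zero.1 hk
  field_simp
theorem exists_T {x : E} (hx : x ≠ 0) (a : F) : ∃ y, T (x * y) = a :=
  ⟨x⁻¹ * ι a, by rw [mul_inv_cancel_left₀ hx, T_ι]⟩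
theorem exists_sq (a : F) : ∃ b, b ^ 2 = a :=
  surjective_frobenius F 2 a
theorem exists_sq_unit {a : F} (ha : a ≠ 0) : ∃ b : Fˣ, (b : F) ^ 2 = a := by
  obtain ⟨b, rfl⟩ := exists_sq a
  exact ⟨Units.mk0 b fun e => ha (by simp [e]), rfl⟩
/-- all automorphisms of a finite field are compatible -/
theorem Tc.of_field (ρ : E ≃+* E) : Tc (ρ : E →+* E) :=
  .of_comm (CF.comm ρ)
theorem Tc.prodCongr (ρ ρ' : E ≃+* E) :
    Tc ((RingEquiv.prodCongr ρ ρ' : E × E ≃+* E × E) : E × E →+* E × E) :=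
  .of_comm fun x => Prod.ext (CF.comm ρ x.1) (CF.comm ρ' x.2)
theorem cube_of_fix {ρ : E ≃+* E} (h : ∀ a : F, ρ (ι a) = ι a) : ρ ^ 3 = 1 := by
  refine RingEquiv.ext fun x => ?_
  show ρ (ρ (ρ x)) = x
  rcases CF.root3 (ρ : E →+* E) h x with e | e | e <;> simp only [RingHom.coe_coe] at e <;>
    simp only [e, CF.comm, θ3]
theorem eq_one_of_fix {ρ : E ≃+* E} (h : ∀ a : F, ρ (ι a) = ι a) {k : ℕ} (h2 : ρ ^ 2 ^ k = 1) : ρ = 1 :=
  orderOf_eq_one_iff.1 (Nat.eq_one_of_dvd_coprimes (Nat.Coprime.pow_right k (by norm_num : Nat.Coprime 3 2))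
    (orderOf_dvd_of_pow_eq_one (cube_of_fix h)) (orderOf_dvd_of_pow_eq_one h2))
theorem exists_free (ρ : E ≃+* E) (h2 : ∀ a, ρ (ρ a) = a) (h1 : ρ ≠ 1) : ∃ c : F, ι c + ρ (ι c) = 1 := by
  obtain ⟨a, ha⟩ : ∃ a : F, ρ (ι a) ≠ ι a := not_forall.1 fun h =>
    h1 (eq_one_of_fix h (k := 1) (RingEquiv.ext h2))
  have d : ι a + ρ (ι a) ≠ 0 := fun e => ha (CharTwo.add_eq_zero.1 e).symm
  refine ⟨a / (a + (Tc.of_field ρ).res a), ?_⟩
  rw [map_div₀, map_add, Tc.ι_res, RingHom.coe_coe, map_div₀, map_add, h2, add_comm (ρ (ι a)), ← add_div,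
    div_self d]
theorem four_of_invol (ρ : E ≃+* E) (h2 : ∀ a, ρ (ρ a) = a) (h1 : ρ ≠ 1) : 4 ≤ Nat.card F := by
  obtain ⟨c, hc⟩ := exists_free ρ h2 h1
  refine (CF.four F).resolve_right fun h => ?_
  rcases h c with rfl | rfl <;> simp [CharTwo.add_self_eq_zero] at hc
theorem card_fixF (ρ : E ≃+* E) (h2 : ∀ a, ρ (ρ a) = a) (h1 : ρ ≠ 1) :
    Nat.card {a : F | ρ (ι a) = ι a} ^ 2 = Nat.card F := by
  obtain ⟨c, hc⟩ := exists_free ρ h2 h1
  rw [← G2S.card_fix (CF.res ρ) (fun a => ι_inj (J := E) (by rw [CF.ι_res, CF.ι_res, h2])) (c := c)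
    (ι_inj (J := E) (by rw [map_add, CF.ι_res, hc, map_one]))]
  congr 3
  exact Set.ext fun a => by rw [Set.mem_ofPred_eq, Set.mem_ofPred_eq, ← CF.ι_res, ι_eq_iff]
theorem card_aut2 (P : Subgroup (E ≃+* E)) (hP : IsPGroup 2 P) : 2 * Nat.card P ≤ Nat.card F := by
  have one : ∀ ρ ∈ P, (∀ a : F, ρ (ι a) = ι a) → ρ = 1 := fun ρ hρ h =>
    let ⟨_, hk⟩ := isPGroup_iff_mem.1 hP ρ hρ; eq_one_of_fix h hk
  rcases CF.four F with h | h
  · have : Finite (F ≃+* F) := Finite.of_injective (fun σ : F ≃+* F => (σ : F → F)) DFunLike.coe_injective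
    refine le_trans (Nat.mul_le_mul_left 2 (Nat.card_le_card_of_injective (fun ρ : P => CF.res ρ.1)
      fun ρ σ e => Subtype.ext (inv_mul_eq_one.1 (one _ (mul_mem (inv_mem ρ.2) σ.2) fun a => ?_))))
      (G2S.card_aut h)
    have : ρ.1 (ι a) = σ.1 (ι a) := by rw [← CF.ι_res, ← CF.ι_res, show CF.res ρ.1 = CF.res σ.1 from e]
    exact ρ.1.symm_apply_eq.2 this.symm
  · rw [show P = ⊥ from eq_bot_iff.2 fun ρ hρ => one ρ hρ fun a => by rcases h a with rfl | rfl <;> simp,
      Subgroup.card_bot]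
    exact Finite.one_lt_card
theorem two_le_card (F : Type*) [Field F] [Finite F] : 2 ≤ Nat.card F :=
  Finite.one_lt_card
theorem exists_ne (h4 : 4 ≤ Nat.card F) (a b c : F) : ∃ d, d ≠ a ∧ d ≠ b ∧ d ≠ c := by
  classical
  have := Fintype.ofFinite F
  by_contra! h
  have : (Finset.univ : Finset F) ⊆ {a, b, c} := fun d _ => by
    by_cases h1 : d = a
    · simp [h1]
    by_cases h2 : d = b
    · simp [h2]
    simp [h d h1 h2]
  have := (Finset.card_le_card this).trans Finset.card_le_three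
  rw [Finset.card_univ, ← Nat.card_eq_fintype_card] at this
  omega
theorem four_or_two (F : Type*) [Field F] [CharP F 2] [Finite F] :
    4 ≤ Nat.card F ∨ ∀ a : F, a = 0 ∨ a = 1 :=
  CF.four F
theorem no_root {α : F} (h : ∀ r : F, r ^ 2 ≠ α + 1 * r) (r : E) : r ^ 2 ≠ ι α + 1 * r :=
  fun e =>
  h (T r) (by rw [← T_sq, e, one_mul, one_mul, map_add, T_ι])

section card
variable (hc : Nat.card E = Nat.card F ^ 3)
include hc
theorem exists_notFix : ∃ x : E, θ x ≠ x := by
  by_contra! h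
  have e : Nat.card F = Nat.card E :=
    Nat.card_congr (Equiv.ofBijective ι ⟨ι_inj, fun x => ⟨T x, ιT_of_fix (h x)⟩⟩)
  have := Nat.pow_lt_pow_right (two_le_card F) (show 1 < 3 by norm_num)
  rw [pow_one] at this
  omega
theorem exists_tr0 : ∃ k : E, k ≠ 0 ∧ T k = 0 := by
  obtain ⟨x, hx⟩ := exists_notFix hc
  exact ⟨x + θ x, fun e => hx (CharTwo.add_eq_zero.1 e).symm, by
    rw [map_add, T_θ, CharTwo.add_self_eq_zero]⟩
theorem exists_T0 (k : E) : ∃ c : E, c ≠ 0 ∧ T (k * c) = 0 := by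
  obtain ⟨c, h0, h1⟩ := exists_tr0 hc
  by_cases hk : k = 0
  · exact ⟨1, one_ne_zero, by simp [hk]⟩
  · exact ⟨k⁻¹ * c, by simp [hk, h0], by rw [mul_inv_cancel_left₀ hk, h1]⟩
theorem exists_cr_ne {x : E} (hx : x ≠ 0) : ∃ k, cr k x ≠ 0 := by
  obtain ⟨y, hy⟩ := exists_notFix hc
  refine ⟨x * y, ?_⟩
  rw [show cr (x * y) x = cr (x * y) (x * 1) by rw [mul_one], cr_mul, cr_one]
  exact mul_ne_zero (mt sh_eq_zero.1 hx) fun e => hy (by rw [CharTwo.add_eq_zero.1 e, θι])
theorem exists_N1 : ∃ l : Eˣ, N (l : E) = 1 ∧ (l : E) ≠ 1 ∧ sh (l : E) ≠ 1 := by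
  obtain ⟨x, hx⟩ := exists_notFix hc
  have x0 : x ≠ 0 := fun e => hx (by simp [e])
  have t0 : θ x ≠ 0 := by simpa using x0
  have n : N (x * (θ x)⁻¹) = 1 := by rw [map_mul, N_inv, N_θ, mul_inv_cancel₀ (mt N_eq_zero.1 x0)]
  have l1 : x * (θ x)⁻¹ ≠ 1 := fun e => hx ((mul_inv_eq_one₀ t0).1 e).symm
  refine ⟨Units.mk0 (x * (θ x)⁻¹) (by simp [x0]), n, l1, fun e => l1 ?_⟩
  have := mul_sh (x * (θ x)⁻¹)
  rwa [show sh (x * (θ x)⁻¹) = 1 from e, n, mul_one, map_one] at this
theorem cr_span (w : E) : ∃ a b c d : E, w = cr a b + cr c d := by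
  obtain ⟨k, h0, h1⟩ := exists_tr0 hc
  obtain ⟨y, hy⟩ := exists_cr (c := ι (T w)) h0 (by rw [T_mul_ι, h1, zero_mul])
  exact ⟨w, 1, k, y, by rw [hy, cr_one, add_assoc, CharTwo.add_self_eq_zero, add_zero]⟩
theorem card_ker {k : E} (hk : k ≠ 0) : Nat.card {x : E | T (k * x) = 0} = Nat.card F ^ 2 := by
  let f : E →+ F := T.comp (AddMonoidHom.mulLeft k)
  have := CF.card_hom f (exists_T hk)
  rw [hc, pow_succ] at this
  exact Nat.eq_of_mul_eq_mul_right Nat.card_pos this
theorem card_orth (A B : AddSubgroup E) (h : ∀ a ∈ A, ∀ b ∈ B, T (a * b) = 0) :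
    Nat.card A * Nat.card B ≤ Nat.card F ^ 3 := by
  let _ : Algebra F E := (ι : F →+* E).toAlgebra
  have sm : ∀ (c : F) (x : E), c • x = ι c * x := fun _ _ => rfl
  let β : LinearMap.BilinForm F E := LinearMap.mk₂ F (fun x y => T (x * y))
    (fun a b c => by rw [add_mul, map_add]) (fun c a b => by rw [sm, mul_assoc, T_ι_mul, smul_eq_mul])
    (fun a b c => by rw [mul_add, map_add])
    (fun c a b => by rw [sm, mul_left_comm, T_ι_mul, smul_eq_mul])
  have rf : β.IsRefl := fun x y e => by rwa [show β y x = β x y from congrArg T (mul_comm y x)]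
  have nd' : β.Nondegenerate := rf.nondegenerate_iff_separatingLeft.2 fun x hx => nd x hx
  let W := Submodule.span F (A : Set E)
  have h1 : Nat.card A ≤ Nat.card W :=
    Nat.card_le_card_of_injective (Set.inclusion Submodule.subset_span) (Set.inclusion_injective _)
  have h2 : Nat.card B ≤ Nat.card (β.orthogonal W) :=
    Nat.card_le_card_of_injective (Set.inclusion (show (B : Set E) ⊆ β.orthogonal W from fun b hb n hn =>
      (Submodule.span_le (p := LinearMap.ker (β.flip b))).2 (fun a ha => h a ha b hb) hn))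
      (Set.inclusion_injective _)
  refine (Nat.mul_le_mul h1 h2).trans ?_
  rw [← hc, Module.natCard_eq_pow_finrank (K := F) (V := W),
    Module.natCard_eq_pow_finrank (K := F) (V := β.orthogonal W), Module.natCard_eq_pow_finrank (K := F) (V := E),
    ← pow_add, LinearMap.BilinForm.finrank_orthogonal nd', Nat.add_sub_cancel' W.finrank_le]
/-- the fixed field of an involution has trace-zero hyperplanes of the right size -/
theorem card_ker_fix (ρ : E ≃+* E) (h2 : ∀ a, ρ (ρ a) = a) (h1 : ρ ≠ 1) {k : E} (hk : k ≠ 0)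
    (hk' : ρ k = k) : Nat.card {x : E | ρ x = x ∧ T (k * x) = 0} = Nat.card F := by
  let SE : AddSubgroup E := (ρ : E →+ E).eqLocus (AddMonoidHom.id E)
  let SF : AddSubgroup F := ((ρ : E →+ E).comp (ι : F →+* E)).eqLocus (ι : F →+* E)
  let f : SE →+ SF := ((T.comp (AddMonoidHom.mulLeft k)).comp SE.subtype).codRestrict SF fun x => by
    have := (Tc.of_field ρ).tr (k * x)
    rw [RingHom.coe_coe, map_mul ρ, hk', show ρ x = x from x.2] at this
    exact this
  have e := CF.card_hom f fun a => ⟨⟨k⁻¹ * ι a.1, show ρ _ = _ by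
    rw [map_mul, map_inv₀, hk', show ρ (ι a.1) = ι a.1 from a.2]; rfl⟩,
    Subtype.ext (show T (k * (k⁻¹ * ι a.1)) = _ by rw [mul_inv_cancel_left₀ hk, T_ι])⟩
  obtain ⟨c, hc'⟩ := exists_free ρ h2 h1
  have e1 : Nat.card SE ^ 2 = _ := (G2S.card_fix ρ h2 hc').trans hc
  have e2 : Nat.card SF ^ 2 = _ := card_fixF ρ h2 h1
  have e3 : Nat.card {x : E | ρ x = x ∧ T (k * x) = 0} = Nat.card f.ker := Nat.card_congr
    { toFun := fun x => ⟨⟨x.1, x.2.1⟩, Subtype.ext x.2.2⟩
      invFun := fun x => ⟨x.1.1, x.1.2, congrArg Subtype.val x.2⟩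
      left_inv := fun _ => rfl
      right_inv := fun _ => rfl }
  rw [← e, mul_pow, e2, pow_succ _ 2] at e1
  rw [e3]
  exact Nat.pow_left_injective two_ne_zero (Nat.eq_of_mul_eq_mul_right Nat.card_pos e1)
/-- a biadditive map that is homogeneous for the norm vanishes -/
theorem cubic_kill {A B C : Type*} [CommRing A] [CommRing B] [CommRing C] (i : E →+* A) (j : E →+* B)
    (r : F →+* C) {f : A → B → C} (h1 : ∀ x x' y, f (x + x') y = f x y + f x' y)
    (h2 : ∀ x y y', f x (y + y') = f x y + f x y')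
    (h3 : ∀ (l : Eˣ) x y, f (i l * x) (j l * y) = r (N (l : E)) * f x y) (x : A) (y : B) : f x y = 0 := by
  have z : f 0 0 = 0 := by simpa using h1 0 0 0
  have h4 : ∀ l : E, f (i l * x) (j l * y) = r (N l) * f x y := fun l => by
    by_cases h : l = 0
    · simp [h, z]
    · exact h3 (Units.mk0 l h) x y
  have h5 : ∀ l l' : E, f (i l * x) (j l' * y) + f (i l' * x) (j l * y) =
      (r (T (sh l * l')) + r (T (l * sh l'))) * f x y := fun l l' => by
    have := h4 (l + l')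
    simp only [N_add, map_add, add_mul, h1, h2, h4] at this
    linear_combination this
  obtain ⟨k, hk⟩ := exists_cr_ne hc (one_ne_zero (α := E))
  obtain ⟨l, hl⟩ := exists_T hk 1
  have := h5 (k + 1) l
  simp only [sh_add, map_add, add_mul, h1, h2, hl, map_one r] at this
  linear_combination h5 k l + h5 1 l - this
theorem norm_kill {A C : Type*} [CommRing A] [CommRing C] (i : E →+* A) (r : F →+* C) {f : A → C}
    (h1 : ∀ x x', f (x + x') = f x + f x') (h3 : ∀ (l : Eˣ) x, f (i l * x) = r (N (l : E)) * f x)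
    (x : A) : f x = 0 := by
  have z : f 0 = 0 := by simpa using h1 0 0
  have h4 : ∀ l : E, f (i l * x) = r (N l) * f x := fun l => by
    by_cases h : l = 0
    · simp [h, z]
    · exact h3 (Units.mk0 l h) x
  have h5 : ∀ l l' : E, (r (T (sh l * l')) + r (T (l * sh l'))) * f x = 0 := fun l l' => by
    have := h4 (l + l')
    simp only [N_add, map_add, add_mul, h1, h4] at this
    linear_combination -this
  obtain ⟨k, hk⟩ := exists_cr_ne hc (one_ne_zero (α := E))
  obtain ⟨l, hl⟩ := exists_T hk 1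
  have := h5 (k + 1) l
  simp only [sh_add, map_add, add_mul, hl, map_one r] at this
  linear_combination this - h5 k l - h5 1 l
theorem theta_cases : (∀ x : E, θ x = x ^ Nat.card F) ∨ ∀ x : E, θ (θ x) = x ^ Nat.card F := by
  have := Fintype.ofFinite F
  let _ : Algebra F E := (ι : F →+* E).toAlgebra
  let φ : E →+* E := FiniteField.frobeniusAlgHom F E
  have hφ : ∀ x, φ x = x ^ Nat.card F := fun x => by rw [Nat.card_eq_fintype_card]; rfl
  obtain ⟨g, hg⟩ := IsCyclic.exists_monoid_generator (α := Eˣ)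
  have ext : ∀ ψ : E →+* E, φ g = ψ g → ∀ x, ψ x = x ^ Nat.card F := fun ψ e x => by
    rw [← hφ]
    by_cases h : x = 0
    · simp [h]
    · obtain ⟨n, hn⟩ := hg (Units.mk0 x h)
      rw [show x = (g : E) ^ n from (congrArg Units.val hn).symm, map_pow, map_pow, e]
  rcases CF.root3 φ (FiniteField.frobeniusAlgHom F E).commutes g with e | e | e
  · exfalso
    have q := two_le_card F
    have h1 : g ^ (Nat.card F - 1) = 1 := by
      refine mul_right_cancel (b := g) (Units.ext ?_)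
      rw [← pow_succ, Nat.sub_add_cancel (by omega), one_mul, Units.val_pow_eq_pow_val, ← hφ, e]
    have h2 := Nat.le_of_dvd (by omega) (orderOf_dvd_of_pow_eq_one h1)
    rw [orderOf_eq_card_of_forall_mem_powers hg, Nat.card_units, hc] at h2
    have := Nat.pow_lt_pow_right q (show 1 < 3 by norm_num)
    rw [pow_one] at this
    omega
  · exact .inl (ext θ e)
  · exact .inr (ext ((θ : E →+* E).comp θ) e)
end card

end H89.D4S
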