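import Cfsg.Agent.Lib.D4S.BD
import Cfsg.Agent.Lib.D4S.Bas1
import Cfsg.Agent.Lib.D4S.CF
import Cfsg.Agent.Lib.Twist.MultD4

/-! Standard components of type `³D₄(2ⁿ)`: common lemmas of the packages BR1, BR2, BR3. -/

set_option autoImplicit false
set_option linter.unusedSectionVars false

namespace H89.D4S.BR0
open Subgroup H69 U12

variable {F E G : Type*} {I : Type} [Field F] [Field E] [Cub F E] [CharP F 2] [CharP E 2] [Finite F]
  [Fintype E] [Group G] [Finite I] {R : H38.RS I (Fin 4)} {El : H38.Elts R E G} {Tw : H39.Tw El}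
  (h : H39.IsD4 Tw (Nat.card F))
include h

theorem th : (∀ x : E, x ^ Nat.card F = θ x) ∨ ∀ x : E, x ^ Nat.card F = θ (θ x) :=
  (theta_cases (by rw [Nat.card_eq_fintype_card, h.hK])).imp (fun e x => (e x).symm) fun e x => (e x).symm

theorem tr (a : E) : a + (a ^ Nat.card F + (a ^ Nat.card F) ^ Nat.card F) = ι (T a) := by
  rcases th h with e | e <;> simp only [e] <;> cub

theorem ι_pow (c : F) : (ι c : E) ^ Nat.card F = ι c := by
  rcases th h with e | e <;> simp [e]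

theorem fix {t : E} (e : t ^ Nat.card F = t) : ι (T t) = t := by
  rw [← tr h, e, e, CharTwo.add_self_eq_zero, add_zero]

variable {r : Fin 12 → Fin 3 → I} (hr : ∀ i j, R.rt (r i j) = vt i j)
include hr

theorem odd {i : Fin 12} (hi : i.val % 2 = 1) (a : E) :
    El.x (r i 0) a * (El.x (r i 1) (a ^ Nat.card F) * El.x (r i 2) ((a ^ Nat.card F) ^ Nat.card F)) =
      El.x (r i 0) (ι (T a)) := by
  have e : ∀ j, r i j = r i 0 := fun j => R.rt_inj (by rw [hr, hr]; revert i j; decide +kernel)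
  rw [e 1, e 2, El.x_add, El.x_add, tr h]

omit h in
theorem sim : (r 0 0 = R.sim 0 ∧ r 0 1 = R.sim 2 ∧ r 0 2 = R.sim 3 ∧ r 5 0 = R.sim 1) ∧
    r 6 0 = R.neg (R.sim 0) ∧ r 6 1 = R.neg (R.sim 2) ∧ r 6 2 = R.neg (R.sim 3) ∧ r 11 0 = R.neg (R.sim 1) := by
  refine ⟨⟨?_, ?_, ?_, ?_⟩, ?_, ?_, ?_, ?_⟩ <;> refine R.rt_inj ?_ <;> simp only [hr, R.rt_neg, R.rt_sim] <;>
    decide +kernel

end H89.D4S.BR0
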