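import Cfsg.Agent.Lib.D4S.BD
import Cfsg.Agent.Lib.D4S.Bas1
import Cfsg.Agent.Lib.D4S.CF
import Cfsg.Agent.Lib.D4S.BR0
import Cfsg.Agent.Lib.Twist.MultD4b

/-! Standard components of type `³D₄(2ⁿ)`, package BR1: see `blueprint/D4S/README.md`. -/

set_option autoImplicit false
set_option linter.unusedSectionVars false

namespace H89.D4S
open Subgroup H69 U12
open H89.G2S (KK ιK σK)
open scoped commutatorElement

variable {F E G : Type*} {I : Type} [Field F] [Field E] [Cub F E] [CharP F 2] [CharP E 2] [Finite F]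
  [Fintype E] [Group G] [Finite I] {R : H38.RS I (Fin 4)} {El : H38.Elts R E G} {Tw : H39.Tw El}
  (h : H39.IsD4 Tw (Nat.card F))

namespace BR1
open H39

theorem c2 {a b A B : G} (h1 : Commute A a) (h2 : Commute A b) (h3 : Commute B a) :
    a * A * (b * B) * (a * A) = a * b * a * (A * B * A) := by
  rw [h2.mul_mul_mul_comm, (h1.mul_left h3).mul_mul_mul_comm]

theorem ext12 {a0 a1 a2 a3 a4 a5 a6 a7 a8 a9 a10 a11 b0 b1 b2 b3 b4 b5 b6 b7 b8 b9 b10 b11 : E}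
    (e0 : a0 = b0) (e1 : a1 = b1) (e2 : a2 = b2) (e3 : a3 = b3) (e4 : a4 = b4) (e5 : a5 = b5) (e6 : a6 = b6)
    (e7 : a7 = b7) (e8 : a8 = b8) (e9 : a9 = b9) (e10 : a10 = b10) (e11 : a11 = b11) :
    yD4 Tw 0 a0 * (yD4 Tw 1 a1 * (yD4 Tw 2 a2 * (yD4 Tw 3 a3 * (yD4 Tw 4 a4 * (yD4 Tw 5 a5 * (yD4 Tw 6 a6 *
      (yD4 Tw 7 a7 * (yD4 Tw 8 a8 * (yD4 Tw 9 a9 * (yD4 Tw 10 a10 * (yD4 Tw 11 a11 * 1))))))))))) =
    yD4 Tw 0 b0 * (yD4 Tw 1 b1 * (yD4 Tw 2 b2 * (yD4 Tw 3 b3 * (yD4 Tw 4 b4 * (yD4 Tw 5 b5 * (yD4 Tw 6 b6 *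
      (yD4 Tw 7 b7 * (yD4 Tw 8 b8 * (yD4 Tw 9 b9 * (yD4 Tw 10 b10 * (yD4 Tw 11 b11 * 1))))))))))) := by
  subst_vars; rfl

theorem can {x y : G} (e : x * (yD4 Tw 0 0 * (yD4 Tw 1 0 * (yD4 Tw 2 0 * (yD4 Tw 3 0 * (yD4 Tw 4 0 *
      (yD4 Tw 5 0 * (yD4 Tw 6 0 * (yD4 Tw 7 0 * (yD4 Tw 8 0 * (yD4 Tw 9 0 * (yD4 Tw 10 0 *
      (yD4 Tw 11 0 * 1)))))))))))) = y * (yD4 Tw 0 0 * (yD4 Tw 1 0 * (yD4 Tw 2 0 * (yD4 Tw 3 0 * (yD4 Tw 4 0 *
      (yD4 Tw 5 0 * (yD4 Tw 6 0 * (yD4 Tw 7 0 * (yD4 Tw 8 0 * (yD4 Tw 9 0 * (yD4 Tw 10 0 *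
      (yD4 Tw 11 0 * 1))))))))))))) : x = y := mul_right_cancel e

include h

theorem rt_r (i : Fin 12) : R.rt (rD4 Tw i) = vtD4 i := by
  fin_cases i <;> simp only [rD4, Fin.reduceFinMk, Matrix.cons_val, h.wo0, h.wo1, h.rt_s, R.rt_sim] <;>
    decide +kernel

theorem y_sw {i j : Fin 12} (hp : j.val < i.val ∧ 12 * i.val + j.val ∉
      [133, 62, 75, 88, 98, 111, 124, 126, 115, 125, 103, 113, 102, 140, 141, 142]) (t u : E) (z : G) :
    yD4 Tw i t * (yD4 Tw j u * z) = yD4 Tw j u * (yD4 Tw i t * id z) :=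
  (commute_x h.len_eq El (by
    rw [h.pair_eq, rt_r h, rt_r h]
    revert i j
    decide +kernel) t u).left_comm z

theorem y_nsw (i j k : Fin 12) (hp : pr aD4 (vtD4 i) (vtD4 j) = -1 ∧ vtD4 k = vtD4 i + vtD4 j := by decide +kernel)
    (t u : E) (z : G) :
    yD4 Tw i t * (yD4 Tw j u * z) = yD4 Tw k (t * u) * (yD4 Tw j u * (yD4 Tw i t * z)) := by
  have h1 : R.pair (rD4 Tw i) (rD4 Tw j) = -1 := by rw [h.pair_eq, rt_r h, rt_r h, hp.1]
  have h2 := comm_x h.len_eq Tw.hF h1 t u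
  rw [show R.refl (rD4 Tw i) (rD4 Tw j) = rD4 Tw k from R.rt_inj (by
    rw [R.rt_refl, h1, rt_r h, rt_r h, rt_r h, hp.2]; module), show (El.η (rD4 Tw i) (rD4 Tw j) : E) = 1 by
      rcases El.η_sign (rD4 Tw i) (rD4 Tw j) with e | e <;> simp [e, CharTwo.neg_eq], one_mul] at h2
  rw [yD4, yD4, yD4, ← h2, commutatorElement_def]; group

omit h in
theorem y_sw0 {i j : Fin 12} (_ : j < i) (t : E) (z : G) :
    yD4 Tw i t * (yD4 Tw j 0 * z) = yD4 Tw j 0 * (yD4 Tw i t * z) := by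
  rw [yD4, yD4, El.x_zero, one_mul, one_mul]

/-- normal form of a product of positive root elements -/
local macro "nf " h:term:max hf:term:max : tactic => `(tactic| (
  rw [← mul_left_inj 1]
  try simp (disch := decide) only [mul_assoc, id_eq, y_sw $h, y_add, y_nsw $h 11 1 0, y_nsw $h 5 2 0,
    y_nsw $h 6 3 0, y_nsw $h 7 4 0, y_nsw $h 8 2 1, y_nsw $h 9 3 1, y_nsw $h 10 4 1, y_nsw $h 10 6 2,
    y_nsw $h 9 7 2, y_nsw $h 10 5 3, y_nsw $h 8 7 3, y_nsw $h 9 5 4, y_nsw $h 8 6 4, y_nsw $h 11 8 5,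
    y_nsw $h 11 9 6, y_nsw $h 11 10 7]
  all_goals
    apply can (Tw := Tw)
    simp (disch := decide) only [mul_assoc, one_mul, y_sw0, y_add]
    have hf := $hf
    apply ext12 <;> rcases hf with hf | hf <;> (try simp only [hf]) <;> cub))

variable {f : E → E} (hf : (∀ x, f x = θ x) ∨ ∀ x, f x = θ (θ x))
include hf

set_option maxHeartbeats 1000000 in
theorem rel5 : Rel5 (fun a : F => yD4 Tw 1 (ι a)) (fun a => yD4 Tw 2 a * (yD4 Tw 3 (f a) * yD4 Tw 4 (f (f a))))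
    (fun a => yD4 Tw 0 (ι a)) (fun a => yD4 Tw 5 a * (yD4 Tw 6 (f a) * yD4 Tw 7 (f (f a))))
    (fun a => yD4 Tw 11 (ι a)) := by
  constructor <;> intro a b <;> nf h hf

theorem ad (a b : E) : yD4 Tw 8 (a + b) * (yD4 Tw 9 (f (a + b)) * yD4 Tw 10 (f (f (a + b)))) =
    yD4 Tw 8 a * (yD4 Tw 9 (f a) * yD4 Tw 10 (f (f a))) * (yD4 Tw 8 b * (yD4 Tw 9 (f b) * yD4 Tw 10 (f (f b)))) := by
  nf h hf

set_option maxHeartbeats 1000000 in
theorem exists_φ : ∃ φ : U12 E →* G,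
    (∀ a, φ (g0 a) = yD4 Tw 8 a * (yD4 Tw 9 (f a) * yD4 Tw 10 (f (f a)))) ∧ (∀ a, φ (g1 a) = yD4 Tw 1 (ι a)) ∧
    (∀ a, φ (g2 a) = yD4 Tw 2 a * (yD4 Tw 3 (f a) * yD4 Tw 4 (f (f a)))) ∧ (∀ a, φ (g3 a) = yD4 Tw 0 (ι a)) ∧
    (∀ a, φ (g4 a) = yD4 Tw 5 a * (yD4 Tw 6 (f a) * yD4 Tw 7 (f (f a)))) ∧ ∀ a, φ (g5 a) = yD4 Tw 11 (ι a) := by
  obtain ⟨ψ, hm, hψ, h1, h2, h3, h4, h5⟩ := (rel5 h hf).exists
  let Y0 : E → G := fun a => yD4 Tw 8 a * (yD4 Tw 9 (f a) * yD4 Tw 10 (f (f a)))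
  have ad : ∀ a b, Y0 (a + b) = Y0 a * Y0 b := ad h hf
  have sq : ∀ k, Y0 k * Y0 k = 1 := fun k => by
    rw [← ad, CharTwo.add_self_eq_zero, ← mul_eq_left (b := Y0 0) (a := Y0 0), ← ad, add_zero]
  obtain ⟨φ, a, b⟩ := exists_hom hm ad fun k u hu => Q_ext
    (f := fun u => Y0 k * ψ u * Y0 k) (g := fun u => ψ (g0 k * u * g0 k))
    (fun u v hu hv => by
      simp only [hm u v hu hv, mul_assoc]
      rw [← mul_assoc (Y0 k) (Y0 k), sq, one_mul])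
    (fun u v hu hv => by
      rw [← hm _ _ (by simp [g0, hu, CharTwo.add_self_eq_zero]) (by simp [g0, hv, CharTwo.add_self_eq_zero])]
      congr 1; u12)
    (fun a => by simp only [h5, al5]; simp only [hψ, Y0]; nf h hf)
    (fun a => by simp only [h4, al4]; simp only [hψ, Y0]; nf h hf)
    (fun a => by simp only [h2]; rw [hψ]; u12s; simp only [Y0]; nf h hf)
    (fun a => by simp only [h1]; rw [hψ]; u12s; simp only [Y0]; nf h hf)
    (fun a => by simp only [h3]; rw [hψ]; u12s; simp only [Y0]; nf h hf) hu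
  exact ⟨φ, b, fun _ => (a _ rfl).trans (h1 _), fun _ => (a _ rfl).trans (h2 _),
    fun _ => (a _ rfl).trans (h3 _), fun _ => (a _ rfl).trans (h4 _), fun _ => (a _ rfl).trans (h5 _)⟩

omit hf

theorem exists_r (i : Fin 12) (j : Fin 3) : ∃ s, R.rt s = vt i j := by
  obtain ⟨k, e | e⟩ := (by decide +kernel : ∀ i j, ∃ k, vt i j = vtD4 k ∨ vt i j = -vtD4 k) i j
  · exact ⟨_, (rt_r h k).trans e.symm⟩
  · exact ⟨R.neg (rD4 Tw k), by rw [R.rt_neg, rt_r h, e]⟩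

end BR1

open BR1 H39
include h

theorem exists_model : ∃ P : Pin E G, IsModel El (Nat.card F) P := by
  choose r hr using exists_r h
  obtain ⟨φ, h0, h1, h2, h3, h4, h5⟩ := exists_φ h (f := fun x => x ^ Nat.card F) (BR0.th h)
  have e : ∀ i j k, vt i j = vtD4 k → r i j = rD4 Tw k := fun i j k e => R.rt_inj (by rw [hr, rt_r h, e])
  obtain ⟨⟨s0, s2, s3, s1⟩, t0, t2, t3, t1⟩ := BR0.sim hr
  have cm : ∀ i j i' j', 0 ≤ pr aD4 (vt i j) (vt i' j') → Commute (El.x (r i j) 1) (El.x (r i' j') 1) :=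
    fun i j i' j' k => commute_x h.len_eq El (by rwa [h.pair_eq, hr, hr]) 1 1
  have nn : ∀ s, El.n s 1 = El.x s 1 * El.x (R.neg s) 1 * El.x s 1 := fun s => by
    rw [H38.PreElts.n, inv_one, CharTwo.neg_eq]
  have c3 : ∀ {w x y z : G}, w * (x * (y * z)) * w⁻¹ = w * x * w⁻¹ * (w * y * w⁻¹ * (w * z * w⁻¹)) := by
    intros; group
  refine ⟨⟨fun i a => El.x (r i 0) a * (El.x (r i 1) (a ^ Nat.card F) * El.x (r i 2) ((a ^ Nat.card F) ^ Nat.card F)),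
    φ, fun a => ?_, fun a => ?_, fun a => ?_, fun a => ?_, fun a => ?_, fun a => ?_, fun i a => ?_, fun i a => ?_⟩,
    r, hr, fun _ _ => rfl⟩
  · rw [h0, e 0 0 8 (by decide +kernel), e 0 1 9 (by decide +kernel), e 0 2 10 (by decide +kernel)]; rfl
  · rw [h1, BR0.odd h hr rfl, e 1 0 1 (by decide +kernel)]; rfl
  · rw [h2, e 2 0 2 (by decide +kernel), e 2 1 3 (by decide +kernel), e 2 2 4 (by decide +kernel)]; rfl
  · rw [h3, BR0.odd h hr rfl, e 3 0 0 (by decide +kernel)]; rfl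
  · rw [h4, e 4 0 5 (by decide +kernel), e 4 1 6 (by decide +kernel), e 4 2 7 (by decide +kernel)]; rfl
  · rw [h5, BR0.odd h hr rfl, e 5 0 11 (by decide +kernel)]; rfl
  · have w : ∀ j, ([0, 2, 3].map R.s).prod (r i j) = r (6 - i) j := fun j => R.rt_inj (by
      simp only [List.map_cons, List.map_nil, List.prod_cons, List.prod_nil, mul_one, Equiv.Perm.mul_apply,
        h.rt_s, hr]
      revert i j
      decide +kernel)
    have n := list_n_conj (E := El) [0, 2, 3]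
    simp only [List.map_cons, List.map_nil, List.prod_cons, List.prod_nil, mul_one, nn, ← t0, ← t2, ← t3] at n
    simp only [← s0, ← s2, ← s3] at n
    simp only [one_pow]
    rw [c2 ((cm _ _ _ _ (by decide +kernel)).mul_left (cm _ _ _ _ (by decide +kernel)))
      ((cm _ _ _ _ (by decide +kernel)).mul_left (cm _ _ _ _ (by decide +kernel)))
      ((cm _ _ _ _ (by decide +kernel)).mul_left (cm _ _ _ _ (by decide +kernel))),
      c2 (cm _ _ _ _ (by decide +kernel)) (cm _ _ _ _ (by decide +kernel)) (cm _ _ _ _ (by decide +kernel)),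
      c3, n, n, n, ← w, ← w, ← w]
    simp
  · have w : ∀ j, R.refl (R.sim 1) (r i j) = r (4 - i) j := fun j => R.rt_inj (by
      rw [← H38.RS.s, h.rt_s, hr, hr]
      revert i j
      decide +kernel)
    rw [BR0.odd h hr (i := 5) rfl, BR0.odd h hr (i := 11) rfl, T_one, map_one, s1, t1, ← nn, c3,
      nconj_char_two, nconj_char_two, nconj_char_two, w, w, w]

end H89.D4S
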