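import Cfsg.Agent.Lib.D4S.BD
import Cfsg.Agent.Lib.D4S.Bas1
import Cfsg.Agent.Lib.D4S.CF
import Cfsg.Agent.Lib.D4S.BR0
import Cfsg.Agent.Lib.Twist.MultD4

/-! Standard components of type `³D₄(2ⁿ)`, package BR2: see `blueprint/D4S/README.md`. -/

set_option autoImplicit false
set_option linter.unusedSectionVars false

namespace H89.D4S
open Subgroup H69 U12
open H89.G2S (KK ιK σK)
open scoped commutatorElement

variable {F E G : Type*} {I : Type} [Field F] [Field E] [Cub F E] [CharP F 2] [CharP E 2] [Finite F]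
  [Fintype E] [Group G] [Finite I] {R : H38.RS I (Fin 4)} {El : H38.Elts R E G} {Tw : H39.Tw El}
  (h : H39.IsD4 Tw (Nat.card F))
include h

theorem IsModel.inj {P : Pin E G} (hP : IsModel El (Nat.card F) P) : Function.Injective P.φ := by
  obtain ⟨r, hr, hX⟩ := hP
  refine (injective_iff_map_eq_one _).2 fun u e => ?_
  let ρ : Fin 12 → I := fun k => r (![5, 4, 4, 4, 2, 2, 2, 1, 3, 0, 0, 0] k) (![0, 0, 1, 2, 0, 1, 2, 0, 0, 0, 1, 2] k)
  have i : Function.Injective ρ := fun k k' e => by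
    have := congrArg R.rt e
    simp only [ρ, hr] at this
    clear e
    revert k k'
    decide +kernel
  let c : Fin 12 → E := ![ι u.p5, u.p4, u.p4 ^ Nat.card F, (u.p4 ^ Nat.card F) ^ Nat.card F, u.p2,
    u.p2 ^ Nat.card F, (u.p2 ^ Nat.card F) ^ Nat.card F, ι u.p1, ι u.p3, u.p0, u.p0 ^ Nat.card F,
    (u.p0 ^ Nat.card F) ^ Nat.card F]
  have k := Tw.hF.prod_inj (one_mem _) (List.nodup_ofFn.2 i) (t := fun s => c (Function.invFun ρ s))
    (t' := fun _ => 0) (by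
      simp only [List.forall_mem_ofFn_iff, Equiv.Perm.one_apply, R.pos_iff, ρ, hr]
      decide +kernel) (by
      simp only [List.map_ofFn, Function.comp_def, Function.leftInverse_invFun i _, El.x_zero]
      rw [P.φ_eq, hX, hX, hX, hX, hX, hX, BR0.odd h hr (i := 5) rfl, BR0.odd h hr (i := 1) rfl,
        BR0.odd h hr (i := 3) rfl, T_ι, T_ι, T_ι] at e
      simpa [List.ofFn_succ, ρ, c, mul_assoc] using e)
  simp only [List.forall_mem_ofFn_iff, Function.leftInverse_invFun i _] at k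
  exact U12.ext (k 9) (ι_eq_zero.1 (k 0)) (k 1) (k 4) (ι_eq_zero.1 (k 7)) (ι_eq_zero.1 (k 8))

theorem IsModel.faith {P : Pin E G} (hP : IsModel El (Nat.card F) P) : P.Faith := by
  obtain ⟨r, hr, hX⟩ := hP
  have p : ∀ i j, R.Pos (r i j) ↔ i ≤ 5 := fun i j => by
    simp only [R.pos_iff, hr]
    revert i j
    decide +kernel
  have m : ∀ {S : Set I} {i}, (∀ j, r i j ∈ S) → ∀ a, P.X i a ∈ El.XS S := fun k a =>
    hX _ a ▸ mul_mem (El.x_mem_XS (k 0) _) (mul_mem (El.x_mem_XS (k 1) _) (El.x_mem_XS (k 2) _))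
  intro g hU hV
  refine Tw.hF.B_inf_V g (mem_sup_left (P.U_le.2 (fun i hi => m fun j => (p i j).2 hi) hU))
    ((closure_le El.V).2 ?_ hV)
  rintro _ ⟨i, a, hi, rfl⟩
  exact m (fun j k => by have := (p i j).1 k; omega) a

theorem IsModel.L_eq {P : Pin E G} (hP : IsModel El (Nat.card F) P) : P.L = Tw.Γ := by
  obtain ⟨r, hr, hX⟩ := hP
  obtain ⟨⟨s0, s2, s3, s1⟩, t0, t2, t3, t1⟩ := BR0.sim hr
  have x0 := fun a => hX 0 a
  have x6 := fun a => hX 6 a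
  have x5 := fun a => (hX 5 a).trans (BR0.odd h hr rfl a)
  have x11 := fun a => (hX 11 a).trans (BR0.odd h hr rfl a)
  simp only [s0, s2, s3, s1, t0, t2, t3, t1, ← pow_mul, ← sq] at x0 x6 x5 x11
  refine le_antisymm (P.L_le.2 fun i a => ?_) ?_
  · have m0 : ∀ a, P.X 0 a ∈ Tw.Γ := fun a => ((h.mem023 H39.Tw.pmP (Or.inl rfl)).2 ⟨a, x0 a⟩).2
    have m6 : ∀ a, P.X 6 a ∈ Tw.Γ := fun a => ((h.mem023 H39.Tw.pmN (Or.inl rfl)).2 ⟨a, x6 a⟩).2
    have m5 : ∀ a, P.X 5 a ∈ Tw.Γ := fun a => ((h.mem1 H39.Tw.pmP).2 ⟨_, BR0.ι_pow h _, x5 a⟩).2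
    have m11 : ∀ a, P.X 11 a ∈ Tw.Γ := fun a => ((h.mem1 H39.Tw.pmN).2 ⟨_, BR0.ι_pow h _, x11 a⟩).2
    have n0 : P.n0 ∈ Tw.Γ := mul_mem (mul_mem (m0 1) (m6 1)) (m0 1)
    have n5 : P.n5 ∈ Tw.Γ := mul_mem (mul_mem (m5 1) (m11 1)) (m5 1)
    have cj : ∀ {w x}, w ∈ Tw.Γ → x ∈ Tw.Γ → w * x * w⁻¹ ∈ Tw.Γ := fun a b => mul_mem (mul_mem a b) (inv_mem a)
    obtain ⟨w, hw, e⟩ := P.exists_w i
    rw [← e]
    refine cj ((closure_le _).2 (by rintro _ (rfl | rfl); exacts [n0, n5]) hw) ?_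
    split_ifs
    · have := cj n5 (m0 a)
      rwa [P.c5] at this
    · have := cj n5 (cj n0 (m5 a))
      rwa [P.c0, P.c5] at this
  · rw [← h.G1_eq]
    refine iSup_le fun i => ?_
    rw [(h.orth i).PJ_eq, H39.Tw.NJ_eq (h.orth i)]
    refine sup_le (fun g hg => ?_) fun g hg => ?_ <;> by_cases hi : i = 1
    · obtain ⟨t, ht, rfl⟩ := (h.mem1 H39.Tw.pmP).1 (hi ▸ hg)
      rw [← BR0.fix h ht, ← x5]; exact P.X_mem _ _
    · obtain ⟨t, rfl⟩ := (h.mem023 H39.Tw.pmP (by omega)).1 hg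
      rw [← x0]; exact P.X_mem _ _
    · obtain ⟨t, ht, rfl⟩ := (h.mem1 H39.Tw.pmN).1 (hi ▸ hg)
      rw [← BR0.fix h ht, ← x11]; exact P.X_mem _ _
    · obtain ⟨t, rfl⟩ := (h.mem023 H39.Tw.pmN (by omega)).1 hg
      rw [← x6]; exact P.X_mem _ _

end H89.D4S
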