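import Cfsg.Agent.Lib.D4S.TOR
import Cfsg.Agent.Lib.D4S.BR2
import Cfsg.Agent.Lib.Twist.AutT

/-! Standard components of type `³D₄(2ⁿ)`, package BR3: see `blueprint/D4S/README.md`. -/

set_option autoImplicit false
set_option linter.unusedSectionVars false

namespace H89.D4S
open Subgroup H69 U12
open H89.G2S (KK ιK σK)
open scoped commutatorElement

variable {F E G : Type*} {I : Type} [Field F] [Field E] [Cub F E] [CharP F 2] [CharP E 2] [Finite F]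
  [Fintype E] [Group G] [Finite I] {R : H38.RS I (Fin 4)} {El : H38.Elts R E G} {Tw : H39.Tw El}
  (h : H39.IsD4 Tw (Nat.card F))
include h

theorem BR3.chi {c : Fin 4 → Eˣ} {m : Fˣ} (h1 : (c 1 : E) = ι (m : F)) (h2 : (c 2 : E) = c 0 ^ Nat.card F)
    (h3 : (c 3 : E) = (c 0 ^ Nat.card F) ^ Nat.card F) (i : Fin 12) :
    ((∏ k, c k ^ vt i 0 k : Eˣ) : E) = wt (c 0) m i ∧
    ((∏ k, c k ^ vt i 1 k : Eˣ) : E) = wt (c 0) m i ^ Nat.card F ∧
    ((∏ k, c k ^ vt i 2 k : Eˣ) : E) = (wt (c 0) m i ^ Nat.card F) ^ Nat.card F := by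
  simp only [Fin.prod_univ_four, Units.val_mul, Units.val_zpow_eq_zpow_val, h1, h2, h3]
  rcases BR0.th h with e | e <;> simp only [e] <;> fin_cases i <;>
    simp [vt, vp, wt, ιN, sh, zpow_ofNat] <;> (repeat' constructor) <;> ring

theorem IsModel.aut [Finite G] (hD : Tw.HasDF) {P : Pin E G} (hP : IsModel El (Nat.card F) P) : P.Aut := by
  intro β
  have e := hP.L_eq h
  obtain ⟨r, hr, hX⟩ := hP
  let ε : P.L ≃* Tw.Γ := MulEquiv.subgroupCongr e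
  obtain ⟨a, ha⟩ := h.good.exists_nice h.h3 (ε.symm.trans (β.trans ε))
  obtain ⟨δ, c, f, hc, hδ, k⟩ := h.inPA hD _ ha
  obtain ⟨c1, c2, c3⟩ := h.mem_T1.1 hc
  have m1 := BR0.fix h c1
  have m0 : T (c 1 : E) ≠ 0 := fun d => (c 1).ne_zero (by rw [← m1, d, map_zero])
  obtain ⟨g, hg, tg⟩ := P.exists_tor (c 0) (Units.mk0 _ m0)
  refine ⟨(a : G)⁻¹ * g, mul_mem (inv_mem (e.ge a.2)) hg, f, fun i t => ?_⟩
  obtain ⟨w0, w1, w2⟩ := BR3.chi h (c := c) (m := Units.mk0 _ m0) m1.symm (by simp [c2]) (by simp [c3]) i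
  have k1 : (a : G) * β ⟨P.X i t, P.X_mem i t⟩ * (a : G)⁻¹ = δ (P.X i t) := k _ _ ⟨e ▸ P.X_mem i t, rfl⟩
  have k2 : δ (P.X i t) = g * P.X i (f t) * g⁻¹ := by
    rw [tg, hX, hX, map_mul, map_mul, hδ, hδ, hδ, hr, hr, hr, w0, w1, w2]
    simp only [mul_pow, map_pow]
  rw [k2] at k1
  calc _ = (a : G)⁻¹ * (a * β ⟨P.X i t, P.X_mem i t⟩ * (a : G)⁻¹) * a := by group
    _ = _ := by rw [k1]; group

end H89.D4S
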