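import Cfsg.Agent.Lib.D4S.RG2
import Cfsg.Agent.Lib.D4S.BR1
import Cfsg.Agent.Lib.D4S.BR3
import Cfsg.Agent.Lib.Twist.AutMat
import Cfsg.Agent.S1071
import Cfsg.Agent.S2110

/-! Standard components of type `³D₄(2ⁿ)`: the model.  See `blueprint/D4S/README.md`. -/

set_option autoImplicit false
set_option linter.unusedSectionVars false

namespace H89.D4S
open Subgroup H69 U12
open scoped commutatorElement
open Cfsg Cfsg.Lie

variable {F E : Type*} [Field F] [Field E] [Cub F E] [CharP F 2] [CharP E 2] [Finite F] [Fintype E]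
  (hc : Nat.card E = Nat.card F ^ 3)
include hc

theorem simple_D4 : IsSimpleGroup (twistedD4 E (Nat.card F)) ∧
    ¬ IsMulCommutative (twistedD4 E (Nat.card F)) := by
  have := Fintype.ofFinite F
  exact Cfsg.Agent.S1071.result (Nat.card_eq_fintype_card (α := F) ▸ FiniteField.isPrimePow_card F)
    (by rw [← Nat.card_eq_fintype_card, hc])

theorem mult_triv {A : Type*} [Group A] (hA : commutator A = ⊤) (π : A →* twistedD4 E (Nat.card F))
    (hπ : Function.Surjective π) (h : ∀ x, π x = 1 → ∀ y, x * y = y * x) : Function.Injective π := by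
  have := Fintype.ofFinite F
  have := H78.Schur.ker_inf_eq_bot (Cfsg.Agent.S2110.result
    (Nat.card_eq_fintype_card (α := F) ▸ FiniteField.isPrimePow_card F)
    (by rw [← Nat.card_eq_fintype_card, hc])) π hπ fun x hx => mem_center_iff.2 fun y => (h x hx y).symm
  rwa [hA, inf_top_eq, π.ker_eq_bot_iff] at this

theorem exists_fp : ∃ P : FP E (chevD4.group E), P.Faith ∧
    Nonempty (P.L ≃* twistedD4 E (Nat.card F)) := by
  have := Fintype.ofFinite F
  obtain ⟨R, El, hE, Tw, h, hA⟩ := H39.exists_D4 (K := E) (q := Nat.card F)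
    (Nat.card_eq_fintype_card (α := F) ▸ FiniteField.isPrimePow_card F)
    (by rw [← Nat.card_eq_fintype_card, hc])
  obtain ⟨P, hP⟩ := exists_model h
  let e : P.L ≃* twistedD4 E (Nat.card F) := (MulEquiv.subgroupCongr (hP.L_eq h)).trans
    ((equivMapOfInjective _ _ (subtype_injective _)).trans (MulEquiv.subgroupCongr hA.symm))
  obtain ⟨hs, hn⟩ := simple_D4 hc
  obtain ⟨P', rfl⟩ := P.exists_fp hc (hP.inj h) (hP.faith h) (fun g hg hz => by
    have hm : e ⟨g, hg⟩ ∈ center _ := mem_center_iff.2 fun y => by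
      obtain ⟨x, rfl⟩ := e.surjective y
      rw [← map_mul, ← map_mul]; exact congrArg e (Subtype.ext (hz.comm x.2).symm)
    rcases hs.eq_bot_or_eq_top_of_normal (center _) inferInstance with c | c
    · rw [c, mem_bot] at hm
      exact congrArg Subtype.val (e.injective (hm.trans (map_one e).symm))
    · exact absurd ⟨⟨fun a b => mem_center_iff.1 (c.ge (mem_top b)) a⟩⟩ hn)
    (hP.aut h (H39.hasDF (by simp) fun i => ⟨_, h.hφ i⟩))
  exact ⟨P', hP.faith h, ⟨e⟩⟩

theorem exists_emb {G G' : Type*} [Group G] [Group G'] {P : Pin E G'} (hP : Function.Injective P.φ)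
    (hF : P.Faith) (e : P.L ≃* twistedD4 E (Nat.card F)) {Y : Pin E G} (hY : Function.Injective Y.φ) :
    ∃ f : P.L →* G, Function.Injective f ∧ ∀ i a, f ⟨P.X i a, P.X_mem i a⟩ = Y.X i a := by
  let D : Pin E (G' × G) :=
    { X := fun i a => (P.X i a, Y.X i a), φ := P.φ.prod Y.φ
      φ0 := fun a => Prod.ext (P.φ0 a) (Y.φ0 a), φ1 := fun a => Prod.ext (P.φ1 a) (Y.φ1 a)
      φ2 := fun a => Prod.ext (P.φ2 a) (Y.φ2 a), φ3 := fun a => Prod.ext (P.φ3 a) (Y.φ3 a)
      φ4 := fun a => Prod.ext (P.φ4 a) (Y.φ4 a), φ5 := fun a => Prod.ext (P.φ5 a) (Y.φ5 a)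
      c0' := fun i a => Prod.ext (P.c0' i a) (Y.c0' i a)
      c5' := fun i a => Prod.ext (P.c5' i a) (Y.c5' i a) }
  have h1 : D.map (MonoidHom.fst G' G) = P := Pin.ext' _ fun _ _ => rfl
  have hL : D.L.map (MonoidHom.fst G' G) = P.L := by rw [← Pin.map_L, h1]
  let π : D.L →* P.L := ((MonoidHom.fst G' G).comp D.L.subtype).codRestrict _ fun x =>
    hL ▸ mem_map_of_mem _ x.2
  have hs : Function.Surjective π := fun y => by
    obtain ⟨x, hx, h⟩ : y.1 ∈ D.L.map (MonoidHom.fst G' G) := hL.ge y.2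
    exact ⟨⟨x, hx⟩, Subtype.ext h⟩
  have hi : Function.Injective (e.toMonoidHom.comp π) := mult_triv hc (by
      rw [← Subgroup.map_subtype_inj, Subgroup.map_subtype_commutator, D.perf hc,
        ← MonoidHom.range_eq_map, range_subtype]) _ (e.surjective.comp hs) fun x hx y =>
    Subtype.ext ((D.central (MonoidHom.fst G' G) (h1 ▸ hP) (h1 ▸ hF) x.2
      (congrArg Subtype.val (e.injective (hx.trans (map_one e).symm)))).comm y.2)
  let ε := MulEquiv.ofBijective π ⟨fun x y h => hi (congrArg e h), hs⟩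
  let f : P.L →* G := ((MonoidHom.snd G' G).comp D.L.subtype).comp ε.symm.toMonoidHom
  have h : ∀ i a, f ⟨P.X i a, P.X_mem i a⟩ = Y.X i a := fun i a =>
    congrArg (fun x : D.L => x.1.2) (ε.symm_apply_apply ⟨D.X i a, D.X_mem i a⟩)
  have := (simple_D4 hc).1
  refine ⟨f, f.ker_eq_bot_iff.1 ((e.isSimpleGroup.eq_bot_or_eq_top_of_normal _
    inferInstance).resolve_right fun c => one_ne_zero (Pin.X_inj hY (i := 0) rfl ?_)), h⟩
  rw [← h, Y.X_zero]; exact c.ge (mem_top _)

end H89.D4S
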