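import Cfsg.Agent.Lib.D4S.Bas1
import Cfsg.Agent.Lib.D4S.CF
import Cfsg.Agent.Lib.Cls.Four

/-! Standard components of type `³D₄(2ⁿ)`, package Bas2: see `blueprint/D4S/README.md`. -/

set_option autoImplicit false
set_option linter.unusedSectionVars false

namespace H89.D4S
open Subgroup H69 U12
open H89.G2S (KK ιK σK)
open scoped commutatorElement

variable {F E G : Type*} [Field F] [Field E] [Cub F E] [CharP F 2] [CharP E 2] [Finite F] [Finite E]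
  [Group G] [Finite G]

/-- the norm of a unit -/
def Nu (l : Eˣ) : Fˣ := Units.map (N : E →* F) l
/-- a unit of `F` as a unit of `E` -/
def ιu (m : Fˣ) : Eˣ := Units.map ((ι : F →+* E) : F →* E) m
@[simp] theorem Nu_val (l : Eˣ) : (Nu l : F) = N (l : E) := rfl
@[simp] theorem ιu_val (m : Fˣ) : ((ιu m : Eˣ) : E) = ι (m : F) := rfl

section wt
variable (l : Eˣ) (m : Fˣ)
@[simp] theorem wt0 : wt l m 0 = l := rfl
@[simp] theorem wt1 : wt l m 1 = ι (N (l : E) * m) := rfl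
@[simp] theorem wt2 : wt l m 2 = sh (l : E) * ι (m : F) := rfl
@[simp] theorem wt3 : wt l m 3 = ι (N (l : E) * (m : F) ^ 2) := rfl
@[simp] theorem wt4 : wt l m 4 = (l : E) * ι (m : F) := rfl
@[simp] theorem wt5 : wt l m 5 = ι (m : F) := rfl
theorem wt_ne (i : Fin 12) : wt l m i ≠ 0 := by
  fin_cases i <;> simp [wt, N_eq_zero, sh_eq_zero]
theorem wt_mul (l' : Eˣ) (m' : Fˣ) (i : Fin 12) : wt (l * l') (m * m') i = wt l m i * wt l' m' i := by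
  fin_cases i <;> simp [wt, sh_mul, mul_pow] <;> ring
theorem wt_add6 (i : Fin 12) : wt l m (i + 6) = wt l⁻¹ m⁻¹ i := by
  fin_cases i <;> simp [wt, sh_inv, N_inv, mul_comm]
theorem wt_n0 (i : Fin 12) : wt l⁻¹ (Nu l * m) (6 - i) = wt l m i := by
  have h0 : (l : E) ≠ 0 := l.ne_zero
  have h1 : θ (l : E) ≠ 0 := by simp
  have h2 : θ (θ (l : E)) ≠ 0 := by simp
  have h3 : (ι (m : F) : E) ≠ 0 := by simp
  fin_cases i <;> simp [wt, ιN, sh, -mul_eq_zero] <;> field_simp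
theorem wt_n5 (i : Fin 12) : wt (l * ιu m) m⁻¹ (4 - i) = wt l m i := by
  have h0 : (l : E) ≠ 0 := l.ne_zero
  have h1 : θ (l : E) ≠ 0 := by simp
  have h2 : θ (θ (l : E)) ≠ 0 := by simp
  have h3 : (ι (m : F) : E) ≠ 0 := by simp
  fin_cases i <;> simp [wt, ιN, sh, -mul_eq_zero] <;> field_simp
theorem wt_map {σ : E ≃+* E} (h : Tc (σ : E →+* E)) (i : Fin 12) :
    wt (Units.map (σ : E →* E) l) (Units.map (h.res : F →* F) m) i = σ (wt l m i) := by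
  have h1 : ∀ a : F, ι (h.res a) = σ (ι a) := h.ι_res
  have h2 : ∀ a : E, σ (sh a) = sh (σ a) := h.sh
  have h3 : ∀ a : E, σ (ι (N a)) = ι (N (σ a)) := fun a => by
    rw [← h1]; exact congrArg ι (h.res_N a)
  fin_cases i <;> simp [wt, h1, h2, h3, -Tc.ι_res]
theorem wt_long {i : Fin 12} (hi : i.val % 2 = 1) : ∃ a : F, wt l m i = ι a := by
  fin_cases i <;> simp only [wt, ← map_inv₀] <;> first | exact ⟨_, rfl⟩ | exact absurd hi (by decide)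
end wt

namespace FP
variable (P : FP E G)
theorem h_φ (l : Eˣ) (m : Fˣ) (u : U12 E) :
    P.h l m * P.φ u * (P.h l m)⁻¹ = P.φ (tor (l : E) (m : F) u) := by
  rw [P.φ_eq, P.φ_eq]; simp only [← conj_mul, P.hX]; simp
theorem h_X3 (l : Eˣ) (m : Fˣ) (a : F) :
    P.h l m * P.X 3 (ι a) * (P.h l m)⁻¹ = P.X 3 (ι (N (l : E) * (m : F) ^ 2 * a)) := by
  rw [P.hX, wt3, ← map_mul]
theorem eq_of_act {g g' : G} (hg : g ∈ P.L) (hg' : g' ∈ P.L)
    (h : ∀ i a, g * P.X i a * g⁻¹ = g' * P.X i a * g'⁻¹) : g = g' := by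
  rw [← inv_mul_eq_one.trans eq_comm]
  refine P.ctr _ (mul_mem (inv_mem hg') hg) fun i a => ?_
  rw [← mul_inv_eq_iff_eq_mul, mul_assoc, mul_assoc, mul_inv_rev, ← mul_assoc (P.X i a),
    ← mul_assoc g, ← mul_assoc g, h]; group
theorem h_one : P.h 1 1 = 1 :=
  P.eq_of_act (P.hL _ _) (one_mem _) fun i a => by
    rw [P.hX, show wt (1 : Eˣ) (1 : Fˣ) i = 1 by fin_cases i <;> simp [wt]]; simp
theorem h_mul (l l' : Eˣ) (m m' : Fˣ) : P.h (l * l') (m * m') = P.h l m * P.h l' m' :=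
  P.eq_of_act (P.hL _ _) (mul_mem (P.hL _ _) (P.hL _ _)) fun i a => by
    rw [P.hX, wt_mul, mul_assoc, ← P.hX, ← P.hX]; group
theorem h_inv (l : Eˣ) (m : Fˣ) : (P.h l m)⁻¹ = P.h l⁻¹ m⁻¹ := by
  rw [inv_eq_iff_mul_eq_one, ← h_mul, mul_inv_cancel, mul_inv_cancel, h_one]
theorem h_comm (l l' : Eˣ) (m m' : Fˣ) : P.h l m * P.h l' m' = P.h l' m' * P.h l m := by
  rw [← h_mul, ← h_mul, mul_comm l, mul_comm m]
theorem n0_h (l : Eˣ) (m : Fˣ) : P.n0 * P.h l m * P.n0⁻¹ = P.h l⁻¹ (Nu l * m) :=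
  P.eq_of_act (mul_mem (mul_mem P.n0_mem (P.hL _ _)) (inv_mem P.n0_mem)) (P.hL _ _) fun i a => by
    obtain ⟨j, rfl⟩ : ∃ j, i = 6 - j := ⟨6 - i, (sub_sub_cancel _ _).symm⟩
    rw [P.hX, wt_n0, ← P.c0, ← P.c0, ← P.hX]; group
theorem n5_h (l : Eˣ) (m : Fˣ) : P.n5 * P.h l m * P.n5⁻¹ = P.h (l * ιu m) m⁻¹ :=
  P.eq_of_act (mul_mem (mul_mem P.n5_mem (P.hL _ _)) (inv_mem P.n5_mem)) (P.hL _ _) fun i a => by
    obtain ⟨j, rfl⟩ : ∃ j, i = 4 - j := ⟨4 - i, (sub_sub_cancel _ _).symm⟩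
    rw [P.hX, wt_n5, ← P.c5, ← P.c5, ← P.hX]; group
theorem act_h {g : G} {σ : E ≃+* E} (hg : P.Act g σ) (l : Eˣ) (m : Fˣ) :
    g * P.h l m * g⁻¹ = P.h (Units.map (σ : E →* E) l) (Units.map (hg.tc.res : F →* F) m) :=
  P.eq_of_act ((mem_normalizer_iff.1 (P.No_norm_L ⟨σ, hg⟩) _).1 (P.hL _ _)) (P.hL _ _) fun i a => by
    obtain ⟨b, rfl⟩ := σ.surjective a
    rw [P.hX, wt_map, ← map_mul, ← hg.act, ← hg.act, ← P.hX]; group
theorem h_memP {l : Eˣ} {m : Fˣ} (h : N (l : E) * (m : F) ^ 2 = 1) : P.h l m ∈ P.P0 := by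
  obtain ⟨c0, hc⟩ := surjective_frobenius E 2 (l : E)
  have hc' : c0 ^ 2 = l := hc
  obtain ⟨c, rfl⟩ : ∃ c : Eˣ, l = c ^ 2 :=
    ⟨Units.mk0 c0 fun e => l.ne_zero (by rw [← hc', e]; simp), Units.ext hc'.symm⟩
  have hm : m = (Nu c)⁻¹ := by
    rw [eq_inv_iff_mul_eq_one, ← Units.val_eq_one, ← CharTwo.sq_inj, one_pow, ← h, Units.val_mul,
      Nu_val, Units.val_pow_eq_pow_val, map_pow, mul_pow, mul_comm]
  have e : P.h (c ^ 2) m = P.h c 1 * P.n0 * (P.h c 1)⁻¹ * P.n0⁻¹ := by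
    rw [mul_assoc, mul_assoc, ← mul_assoc P.n0, h_inv, n0_h, ← h_mul, hm]; congr 1 <;> simp [sq, Nu]
  rw [e]
  refine mul_mem ?_ (inv_mem P.n0_memP)
  rw [Pin.n0]; simp only [← conj_mul, P.hX]
  exact mul_mem (mul_mem (P.X_memP (by decide) _) (P.X_memP (by decide) _)) (P.X_memP (by decide) _)
theorem h_norm {H : Subgroup G} (h : ∀ l m, ∀ x ∈ H, P.h l m * x * (P.h l m)⁻¹ ∈ H) (l : Eˣ) (m : Fˣ) :
    P.h l m ∈ 𝐍(H) := by
  refine mem_normalizer_iff.2 fun x => ⟨h l m x, fun hx => ?_⟩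
  have := h l⁻¹ m⁻¹ _ hx; rw [← h_inv] at this; simpa [mul_assoc] using this
theorem h_norm_U (l : Eˣ) (m : Fˣ) : P.h l m ∈ 𝐍(P.U) :=
  P.h_norm (by rintro l m _ ⟨u, rfl⟩; rw [h_φ]; exact P.φ_memU _) l m
theorem h_norm_Q (l : Eˣ) (m : Fˣ) : P.h l m ∈ 𝐍(P.Q) :=
  P.h_norm (by
  rintro l m _ ⟨u, hu, rfl⟩; rw [h_φ]; exact P.φ_memQ (by simp [show u.p0 = 0 from hu])) l m
theorem h_norm_Z (l : Eˣ) (m : Fˣ) : P.h l m ∈ 𝐍(P.Z) :=
  P.h_norm (fun l m x hx => by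
  obtain ⟨a, rfl⟩ := P.mem_Z.1 hx; rw [P.hX]; exact P.X3_mem _) l m
theorem braid : (P.n0 * P.n5) ^ 6 = 1 := by
  have k : ∀ i a, P.n0 * P.n5 * P.X i a * (P.n0 * P.n5)⁻¹ = P.X (i + 2) a := fun i a => by
    rw [(by decide : ∀ i : Fin 12, i + 2 = 6 - (4 - i)) _, ← P.c0, ← P.c5]; group
  refine P.eq_of_act (pow_mem (mul_mem P.n0_mem P.n5_mem) _) (one_mem _) fun i a => ?_
  rw [one_mul, inv_one, mul_one]
  conv_rhs => rw [(by decide : ∀ i : Fin 12, i = i + 2 + 2 + 2 + 2 + 2 + 2) i, ← k, ← k, ← k, ← k, ← k, ← k]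
  generalize P.n0 * P.n5 = r
  simp only [pow_succ, pow_zero, one_mul, mul_inv_rev, mul_assoc]
theorem transport {G' : Type*} [Group G'] (f : P.L →* G') (hf : Function.Injective f) :
    ∃ P' : FP E G', (∀ i a, P'.X i a = f ⟨P.X i a, P.X_mem i a⟩) ∧ P'.L = f.range := by
  let Q0 : Pin E P.L :=
    { X := fun i a => ⟨P.X i a, P.X_mem i a⟩, φ := P.φ.codRestrict P.L P.φ_mem
      φ0 := fun a => Subtype.ext (P.φ0 a), φ1 := fun a => Subtype.ext (P.φ1 a)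
      φ2 := fun a => Subtype.ext (P.φ2 a), φ3 := fun a => Subtype.ext (P.φ3 a)
      φ4 := fun a => Subtype.ext (P.φ4 a), φ5 := fun a => Subtype.ext (P.φ5 a)
      c0' := fun i a => Subtype.ext (P.c0' i a), c5' := fun i a => Subtype.ext (P.c5' i a) }
  have hQ : Q0.L = ⊤ := map_injective P.L.subtype_injective (by
    rw [← Pin.map_L, ← MonoidHom.range_eq_map, range_subtype]; rfl)
  have hL : (Q0.map f).L = f.range := by rw [Pin.map_L, hQ, MonoidHom.range_eq_map]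
  have hZ : ∀ x : P.L, f x ∈ (Q0.map f).Z → (x : G) ∈ P.Z := fun x hx => by
    obtain ⟨a, e⟩ := (Q0.map f).mem_Z.1 hx
    exact P.mem_Z.2 ⟨a, congrArg Subtype.val (hf e)⟩
  refine ⟨{ Q0.map f with
      cub := P.cub, inj := hf.comp fun a b e => P.inj (congrArg Subtype.val e)
      h := fun l m => f ⟨P.h l m, P.hL l m⟩, hL := fun l m => hL ▸ ⟨_, rfl⟩
      hX := fun l m i a => ?_, ctr := fun g hg hc => ?_, pz := fun g hg a ha h => ?_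
      nc := fun g hg h => ?_, aut := fun β => ?_ }, fun _ _ => rfl, hL⟩
  · change f _ * f _ * _ = f _
    rw [← map_inv, ← map_mul, ← map_mul]; exact congrArg f (Subtype.ext (P.hX l m i a))
  · obtain ⟨g, rfl⟩ := hL.le hg
    have : g = 1 := Subtype.ext (P.ctr _ g.2 fun i a => congrArg Subtype.val (hf (a₁ := g * Q0.X i a)
      (a₂ := Q0.X i a * g) (by rw [map_mul, map_mul]; exact hc i a)))
    rw [this, map_one]
  · obtain ⟨g, rfl⟩ := hL.le hg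
    obtain ⟨u, l, m, e | ⟨k, e⟩⟩ := P.pz g g.2 a ha (hZ (g * Q0.X 3 (ι a) * g⁻¹)
      (by rw [map_mul, map_mul, map_inv]; exact h))
    · exact ⟨u, l, m, .inl ((congrArg f (Subtype.ext e)).trans (map_mul f (Q0.φ u) ⟨_, P.hL l m⟩))⟩
    · refine ⟨u, l, m, .inr ⟨k, ?_⟩⟩
      rw [show g = Q0.φ u * ⟨_, P.hL l m⟩ * Q0.n0 * Q0.X 0 k from Subtype.ext e]
      simp only [Pin.n0, map_mul]; rfl
  · obtain ⟨g, rfl⟩ := hL.le hg
    exact P.nc g g.2 (hZ (g * Q0.X 2 1 * g⁻¹) (by rw [map_mul, map_mul, map_inv]; exact h))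
  · let e : P.L ≃* (Q0.map f).L := (MonoidHom.ofInjective hf).trans (MulEquiv.subgroupCongr hL.symm)
    have he : ∀ x, (e x : G') = f x := fun _ => rfl
    obtain ⟨l, hl, σ, h⟩ := P.aut ((e.trans β).trans e.symm)
    refine ⟨f ⟨l, hl⟩, hL ▸ ⟨_, rfl⟩, σ, fun i a => ?_⟩
    have h1 : e.symm (β (e (Q0.X i a))) = ⟨l, hl⟩ * Q0.X i (σ a) * ⟨l, hl⟩⁻¹ := Subtype.ext (h i a)
    rw [MulEquiv.symm_apply_eq] at h1
    have h2 := congrArg Subtype.val h1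
    rw [he, map_mul, map_mul, map_inv] at h2
    exact h2
theorem z_ne : P.X 3 1 ≠ 1 :=
  fun e => one_ne_zero (Pin.X_injι P.inj 3 (a := 1) (b := 0)
    (by rw [map_one, map_zero, e, P.X_zero]))
theorem cardU : Nat.card P.U = Nat.card F ^ 12 := by
  rw [P.card_U P.inj, P.cub]; ring
include P in
theorem card_tr0 : Nat.card {x : E | T x = 0} = Nat.card F ^ 2 := by
  simpa only [one_mul] using card_ker P.cub (k := 1) one_ne_zero
theorem cardR : Nat.card P.R = Nat.card F ^ 10 := by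
  rw [P.card_R P.inj, P.cub, P.card_tr0]; ring
theorem cardE2 : Nat.card P.E2 = Nat.card F ^ 5 := by
  rw [P.card_E2 P.inj, P.cub]; ring
theorem elem {i : Fin 12} (hi : i ≤ 5) :
    ∃ B ≤ P.U, (∀ e ∈ B, e * e = 1) ∧ Nat.card B = Nat.card F ^ 5 ∧ (∀ a, P.X i a ∈ B) ∧
      (i ≠ 0 → i ≠ 4 → B ≤ P.R) := by
  obtain ⟨B, h1, h2, h3, h4⟩ := P.exists_elem P.inj hi
  exact ⟨B, h1, h2, by rw [h3, P.cub]; ring, h4⟩
theorem elemR : ∃ B ≤ P.R, (∀ e ∈ B, e * e = 1) ∧ Nat.card B = Nat.card F ^ 5 ∧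
    ∀ a, T a = 0 → P.X 0 a ∈ B := by
  obtain ⟨B, h1, h2, h3, h4⟩ := P.exists_elemR P.inj
  exact ⟨B, h1, h2, by rw [h3, P.card_tr0]; ring, h4⟩
/-- a 2-element acting trivially on `Z` -/
theorem cn_of_two {m : G} {ρ : E ≃+* E} (h : P.Act m ρ) {k : ℕ} (h2 : m ^ 2 ^ k = 1)
    (hZ : ∀ a, m * P.X 3 a = P.X 3 a * m) : P.Cn m := by
  have h1 : ∀ a : F, ρ (ι a) = ι a := fun a => by
    have e := h.actι 3 a
    rw [hZ, mul_inv_cancel_right] at e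
    have e2 := h.tc.ι_res a
    rw [← Pin.X_injι P.inj 3 e] at e2
    exact e2.symm
  have h3 := h.pow (2 ^ k)
  rw [h2] at h3
  have h4 : ρ = 1 := eq_one_of_fix h1 (h3.uniq P.inj (Pin.cn_iff_act'.1 fun i a => by simp))
  exact Pin.cn_iff_act'.2 (h4 ▸ h)
end FP

namespace St
variable (S : St E G)
theorem t_inv : S.t⁻¹ = S.t :=
  inv_eq_of_mul_eq_one_right S.tt
theorem t_comm {l : G} (hl : l ∈ S.L) : S.t * l = l * S.t :=
  S.tX.comm hl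
theorem t_notMem : S.t ∉ S.L :=
  fun h => S.t1 (S.ctr _ h S.tX)
theorem mem_Ct {g : G} : g ∈ S.Ct ↔ g * S.t = S.t * g :=
  mem_centralizer_singleton_iff
theorem L_le_Ct : S.L ≤ S.Ct :=
  fun _ h => S.mem_Ct.2 (S.t_comm h).symm
theorem Ct_norm_L : S.Ct ≤ 𝐍(S.L) :=
  fun g hg => mem_normalizer_iff.2 fun x => ⟨S.nL g (S.mem_Ct.1 hg) x, fun h => by
  simpa [mul_assoc] using S.nL _ (S.mem_Ct.1 (inv_mem hg)) _ h⟩
theorem mem_N1 {g : G} : g ∈ S.N1 ↔ g * S.t = S.t * g ∧ ∃ σ, S.Act g σ :=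
  ⟨fun h => ⟨S.mem_Ct.1 h.2, h.1⟩, fun h => ⟨h.2, S.mem_Ct.2 h.1⟩⟩
theorem mem_sup_t {H : Subgroup G} (hH : H ≤ S.L) {g : G} : g ∈ zpowers S.t ⊔ H ↔ g ∈ H ∨ S.t * g ∈ H := by
  refine ⟨fun h => ?_, fun h => h.elim mem_sup_right fun h => ?_⟩
  · obtain ⟨_, ⟨n, rfl⟩, b, hb, rfl⟩ := (coe_mul_of_left_le_normalizer_right (zpowers S.t) H
      (zpowers_le.2 (centralizer_le_normalizer _ fun x hx => (S.t_comm (hH hx)).symm))).le h
    have h2 : S.t ^ (2 : ℤ) = 1 := by rw [zpow_two, S.tt]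
    rcases Int.even_or_odd' n with ⟨k, rfl | rfl⟩
    · left; simpa [zpow_mul, h2] using hb
    · right; simpa [zpow_add, zpow_mul, h2, ← mul_assoc, S.tt] using hb
  · have := mul_mem (mem_sup_left (T := H) (mem_zpowers S.t)) (mem_sup_right h)
    rwa [← mul_assoc, S.tt, one_mul] at this
theorem mem_V {g : G} : g ∈ S.V ↔ ∃ a : F, g = S.X 3 (ι a) ∨ g = S.t * S.X 3 (ι a) := by
  rw [V, S.mem_sup_t (S.Z_le_Q.trans (S.Q_le_U.trans S.U_le_L)), S.mem_Z, S.mem_Z, exists_or]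
  refine or_congr (exists_congr fun _ => eq_comm) (exists_congr fun a => ?_)
  rw [← inv_mul_eq_iff_eq_mul, t_inv, eq_comm]
theorem mem_J {g : G} : g ∈ S.J ↔ ∃ u, g = S.φ u ∨ g = S.t * S.φ u := by
  rw [J, S.mem_sup_t S.U_le_L, S.mem_U, S.mem_U, exists_or]
  refine or_congr (exists_congr fun _ => eq_comm) (exists_congr fun a => ?_)
  rw [← inv_mul_eq_iff_eq_mul, t_inv, eq_comm]
theorem V_sq {g : G} (hg : g ∈ S.V) : g * g = 1 := by
  obtain ⟨a, rfl | rfl⟩ := S.mem_V.1 hg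
  · exact S.X_sq _ _
  · rw [mul_assoc, ← mul_assoc (S.X 3 (ι a)), ← S.tX, mul_assoc, S.X_sq, mul_one, S.tt]
theorem c0_t : S.C0 S.t :=
  ⟨rfl, S.tX⟩
theorem od_one : S.Od 1 :=
  ⟨⟨by simp, fun _ _ => by simp⟩, by simp⟩
theorem co_t : S.CO S.t :=
  fun _ h => h.1.1.symm
theorem co_L {l : G} (hl : l ∈ S.L) : S.CO l :=
  fun _ h => (h.1.2.comm hl).symm
theorem mem_norm_V {d : G} (h : S.D0 d) : d ∈ 𝐍(S.V) := by
  obtain ⟨h1, c, h2⟩ := h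
  refine mem_normalizer_fintype fun x hx => ?_
  have h3 : ∀ a, d * S.X 3 a * d⁻¹ = S.X 3 a := fun a =>
    mul_inv_eq_iff_eq_mul.2 (h1 _ (S.Z_le_Q (S.X3_mem a)))
  obtain ⟨a, rfl | rfl⟩ := S.mem_V.1 hx
  · exact S.mem_V.2 ⟨a, .inl (h3 _)⟩
  · exact S.mem_V.2 ⟨c + a, .inr (by rw [← conj_mul, h2, h3, S.X_addι, mul_assoc])⟩
/-- every element of `C(t)` is inner times field -/
theorem dec {g : G} (hg : g * S.t = S.t * g) :
    ∃ l ∈ S.L, ∃ m σ, S.Act m σ ∧ m * S.t = S.t * m ∧ g = l * m := by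
  obtain ⟨l, hl, σ, h⟩ := S.aut (normalizerMonoidHom S.L ⟨g, S.Ct_norm_L (S.mem_Ct.2 hg)⟩)
  refine ⟨l, hl, l⁻¹ * g, σ, ⟨Tc.of_field σ, fun i a => ?_⟩, ?_, by group⟩
  · have : g * S.X i a * g⁻¹ = l * S.X i (σ a) * l⁻¹ := h i a
    rw [mul_inv_rev, mul_assoc l⁻¹, ← mul_assoc, mul_assoc l⁻¹, this]; group
  · rw [mul_assoc, hg, ← mul_assoc, ← S.t_comm (inv_mem hl), mul_assoc]
variable {S}
theorem C0.mul {g g' : G} (h : S.C0 g) (h' : S.C0 g') : S.C0 (g * g') :=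
  ⟨(Commute.mul_left h.1 h'.1).eq, h.2.mul h'.2⟩
theorem C0.inv {g : G} (h : S.C0 g) : S.C0 g⁻¹ :=
  ⟨(Commute.inv_left h.1).eq, h.2.inv⟩
theorem C0.conj {g c : G} (h : S.C0 c) (hg : g * S.t = S.t * g) : S.C0 (g * c * g⁻¹) := by
  refine ⟨((Commute.mul_left hg h.1).mul_left (Commute.inv_left hg)).eq, fun i a => ?_⟩
  have := h.2.comm (S.nL _ (Commute.inv_left hg).eq _ (S.X_mem i a))
  calc _ = g * (c * (g⁻¹ * S.X i a * g⁻¹⁻¹)) * g⁻¹ := by group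
    _ = _ := by rw [this]; group
theorem C0.eq_one {g : G} (h : S.C0 g) (hl : g ∈ S.L) : g = 1 :=
  S.ctr _ hl h.2
/-- `C(t) ∩ C(L)` as a subgroup -/
def C0s (S : St E G) : Subgroup G where
  carrier := {g | S.C0 g}
  mul_mem' := C0.mul
  one_mem' := S.od_one.1
  inv_mem' := C0.inv
theorem C0.invol {g : G} (h : S.C0 g) (h2 : g * g = 1) : g = 1 ∨ g = S.t := by
  by_contra k
  rw [not_or] at k
  have kf := H19.isKleinFour_closure_pair k.1 S.t1 k.2 h2 S.tt h.1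
  have hc := S.cyc (closure {g, S.t}) (IsPGroup.of_card (n := 2) kf.card_four) fun r hr =>
    ((closure_le S.C0s).2 (by rintro _ (rfl | rfl); exacts [h, S.c0_t]) hr).2
  exact IsKleinFour.not_isCyclic hc
theorem Od.inv {g : G} (h : S.Od g) : S.Od g⁻¹ :=
  ⟨h.1.inv, by rw [orderOf_inv]; exact h.2⟩
theorem Od.pow {g : G} (h : S.Od g) (n : ℕ) : S.Od (g ^ n) :=
  ⟨pow_mem (S := S.C0s) h.1 n, h.2.of_dvd_nat (orderOf_pow_dvd n)⟩
theorem Od.conj {g o : G} (h : S.Od o) (hg : g * S.t = S.t * g) : S.Od (g * o * g⁻¹) :=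
  ⟨h.1.conj hg, by rw [← MulAut.conj_apply, MulEquiv.orderOf_eq]; exact h.2⟩
theorem Od.eq_one {o : G} (h : S.Od o) {k : ℕ} (e : o ^ 2 ^ k = 1) : o = 1 :=
  orderOf_eq_one_iff.1 (Nat.eq_one_of_dvd_coprimes (((Nat.coprime_two_right.2 h.2).pow_right k))
    dvd_rfl (orderOf_dvd_of_pow_eq_one e))
theorem Od.eq_one_sq {o : G} (h : S.Od o) (e : o * o = 1) : o = 1 :=
  h.eq_one (k := 1) (by rw [← e, pow_one, sq])
theorem Od.eq_one_four {o : G} (h : S.Od o) (e : o * o * (o * o) = 1) : o = 1 :=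
  h.eq_one_sq (by rw [← sq]; exact (h.pow 2).eq_one_sq (by rw [sq, e]))
theorem Od.exists_sqrt {o : G} (h : S.Od o) : ∃ n : ℕ, o ^ n * o ^ n = o := by
  obtain ⟨k, hk⟩ := h.2
  exact ⟨k + 1, by rw [← pow_add, show k + 1 + (k + 1) = 2 * k + 1 + 1 by ring, ← hk, pow_succ,
    pow_orderOf_eq_one, one_mul]⟩
theorem CO.mul {g g' : G} (h : S.CO g) (h' : S.CO g') : S.CO (g * g') :=
  fun o ho => (Commute.mul_left (h o ho) (h' o ho)).eq
theorem CO.inv {g : G} (h : S.CO g) : S.CO g⁻¹ :=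
  fun o ho => (Commute.inv_left (h o ho)).eq
theorem CO.conj {g c : G} (h : S.CO c) (hg : g * S.t = S.t * g) : S.CO (g * c * g⁻¹) :=
  fun o ho => by
  have := h _ (ho.conj (Commute.inv_left hg).eq)
  calc _ = g * (c * (g⁻¹ * o * g⁻¹⁻¹)) * g⁻¹ := by group
    _ = _ := by rw [this]; group
theorem Db.hom (h : S.Db) : ∃ f : S.C0s →* S.C0s, (∀ x, f x = 1 ∨ (f x : G) = S.t) ∧
    (∀ x, f x = 1 ↔ Odd (orderOf (x : G))) := by
  obtain ⟨P⟩ : Nonempty (Sylow 2 S.C0s) := inferInstance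
  have hP : ∀ x ∈ (P : Subgroup S.C0s), x = 1 ∨ (x : G) = S.t := fun x hx => by
    obtain ⟨j, hj⟩ := P.isPGroup' ⟨x, hx⟩
    exact (h.two _ x.2 j (congrArg (fun y : P => ((y : S.C0s) : G)) hj)).imp_left Subtype.ext
  have hc : 𝐍((P : Subgroup S.C0s)) ≤ 𝐂((P : Subgroup S.C0s)) := fun g _ x hx => by
    rcases hP x hx with rfl | e
    · simp
    · exact Subtype.ext (by rw [coe_mul, coe_mul, e]; exact g.2.1.symm)
  let f := MonoidHom.transferSylow P hc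
  refine ⟨(P : Subgroup S.C0s).subtype.comp f, fun x => hP _ (f x).2, fun x => ?_⟩
  rw [Subgroup.orderOf_coe, ← Nat.not_even_iff_odd, even_iff_two_dvd]
  refine ⟨fun e k => MonoidHom.not_dvd_card_ker_transferSylow P hc (k.trans ?_), fun k => ?_⟩
  · exact Subgroup.orderOf_dvd_natCard _ (Subtype.ext e : f x = 1)
  · obtain ⟨j, hj⟩ := P.isPGroup' (f x)
    have : f x = 1 := orderOf_eq_one_iff.1 (Nat.eq_one_of_dvd_coprimes
      (((Nat.prime_two.coprime_iff_not_dvd).2 k).symm.pow_right j) (orderOf_map_dvd f x)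
      (orderOf_dvd_of_pow_eq_one hj))
    exact congrArg Subtype.val this
theorem Db.mul (h : S.Db) {g g' : G} (h1 : S.Od g) (h2 : S.Od g') : S.Od (g * g') := by
  obtain ⟨f, -, hf⟩ := h.hom
  exact ⟨h1.1.mul h2.1, (hf (⟨g, h1.1⟩ * ⟨g', h2.1⟩)).1
    (by rw [map_mul, (hf ⟨g, h1.1⟩).2 h1.2, (hf ⟨g', h2.1⟩).2 h2.2, one_mul])⟩
theorem Db.cases (h : S.Db) {c : G} (hc : S.C0 c) : ∃ o, S.Od o ∧ (c = o ∨ c = S.t * o) := by
  obtain ⟨f, h1, hf⟩ := h.hom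
  have ht : (f ⟨S.t, S.c0_t⟩ : G) = S.t := (h1 _).resolve_left fun e => by
    have := (hf _).1 e
    rw [orderOf_eq_prime (by rw [sq]; exact S.tt) S.t1] at this; exact absurd this (by decide)
  rcases h1 ⟨c, hc⟩ with e | e
  · exact ⟨c, ⟨hc, (hf _).1 e⟩, .inl rfl⟩
  · exact ⟨S.t * c, ⟨S.c0_t.mul hc, (hf (⟨S.t, S.c0_t⟩ * ⟨c, hc⟩)).1 (Subtype.ext
      (by rw [map_mul, coe_mul, ht, e, S.tt]; rfl))⟩, .inr (by rw [← mul_assoc, S.tt, one_mul])⟩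
theorem Db.comm (h : S.Db) {c c' : G} (hc : S.C0 c) (hc' : S.C0 c') : S.Od ⁅c, c'⁆ := by
  obtain ⟨f, h1, hf⟩ := h.hom
  refine ⟨((hc.mul hc').mul hc.inv).mul hc'.inv, (hf ⁅(⟨c, hc⟩ : S.C0s), ⟨c', hc'⟩⁆).1 ?_⟩
  rw [map_commutatorElement, commutatorElement_eq_one_iff_mul_comm]
  rcases h1 ⟨c, hc⟩ with e | e
  · rw [e, one_mul, mul_one]
  · exact Subtype.ext (by rw [coe_mul, coe_mul, e]; exact (f _).2.1.symm)
end St

end H89.D4S
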