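import Cfsg.Agent.Lib.D4S.Bas2
import Cfsg.Agent.Lib.G2S.Cg

/-! Conjugation calculus for the project D4S (use with `open H89.G2S.Cg` restricted to the generic part). -/

set_option autoImplicit false
set_option linter.unusedSectionVars false

namespace H89.D4S.Cg
open Subgroup H69 U12
open scoped commutatorElement

export H89.G2S.Cg (cg cg_def cg_mul mul_cg cg_inv cg_one one_cg cg_fix cg_fix' comm_of_cg inv_cg cg_cg cg_cg'
  cg_inj cg_comm cg_invol cg_cg_self mul_eq_cg comm_eq cg_commutator comm_mul_left four_of)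

variable {F E G : Type*} [Field F] [Field E] [Cub F E] [CharP F 2] [CharP E 2] [Finite F] [Finite E]
  [Group G] [Finite G] (S : St E G)

theorem n5t : S.n5 * S.t = S.t * S.n5 := (S.t_comm S.n5_mem).symm
theorem n0t : S.n0 * S.t = S.t * S.n0 := (S.t_comm S.n0_mem).symm
theorem cg_n5_t : cg S.n5 S.t = S.t := cg_fix (n5t S)
theorem cg_n5i_t : cg S.n5⁻¹ S.t = S.t := inv_cg (cg_n5_t S)
theorem cg_n5_X (i : Fin 12) (a : E) : cg S.n5 (S.X i a) = S.X (4 - i) a := S.c5 i a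
theorem cg_n0_X (i : Fin 12) (a : E) : cg S.n0 (S.X i a) = S.X (6 - i) a := S.c0 i a
theorem cg_n5_n5 (x : G) : cg S.n5 (cg S.n5 x) = x := cg_cg_self S.n5_sq x
theorem cg_n0_n0 (x : G) : cg S.n0 (cg S.n0 x) = x := cg_cg_self S.n0_sq x
theorem cg_L_t {l : G} (hl : l ∈ S.L) : cg l S.t = S.t := cg_fix (S.t_comm hl).symm
theorem cg_X_t (i : Fin 12) (a : E) : cg (S.X i a) S.t = S.t := cg_L_t S (S.X_mem i a)
theorem cg_t_X (i : Fin 12) (a : E) : cg S.t (S.X i a) = S.X i a := cg_fix (S.tX i a)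
theorem X13 (a b : E) : S.X 1 a * S.X 3 b = S.X 3 b * S.X 1 a :=
  (S.X3_comm_P0 b (S.X_memP (by decide) a)).symm
theorem inj13 {a b a' b' : F} (h : S.X 1 (ι a) * S.X 3 (ι b) = S.X 1 (ι a') * S.X 3 (ι b')) :
    a = a' ∧ b = b' := by
  rw [← S.φ1', ← S.φ1', ← S.φ3', ← S.φ3', ← map_mul, ← map_mul] at h
  have := S.inj h
  have h1 := congrArg U12.p1 this
  have h3 := congrArg U12.p3 this
  simp [g1, g3] at h1 h3
  exact ⟨h1, h3⟩
theorem cg_X5_X1 (u a : F) : cg (S.X 5 (ι u)) (S.X 1 (ι a)) = S.X 1 (ι a) * S.X 3 (ι (u * a)) := by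
  rw [cg_invol (S.X_sq _ _), ← S.φ5', ← S.φ1', ← S.φ3', ← map_mul, ← map_mul, ← map_mul]
  congr 1; u12
theorem cg_X_X3 {i : Fin 12} (hi : i ≤ 6) (u a : E) : cg (S.X i u) (S.X 3 a) = S.X 3 a :=
  cg_fix' (S.X3_comm_P0 a (S.X_memP hi u))
theorem cg_φ (u v : U12 E) : cg (S.φ u) (S.φ v) = S.φ (u * v * u⁻¹) := by
  rw [map_mul, map_mul, map_inv]; rfl
theorem X_ι0 (i : Fin 12) : S.X i (ι (0 : F)) = 1 := by rw [map_zero, S.X_zero]

/-- a conjugate under `X 5 u` of an element centralising `X 0, …, X 4` centralises them -/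
theorem cg_X5_cent {y : G} (hy : ∀ i ≤ 4, ∀ a, y * S.X i a = S.X i a * y) (u : E) :
    ∀ i ≤ 4, ∀ a, cg (S.X 5 u) y * S.X i a = S.X i a * cg (S.X 5 u) y := by
  intro i hi a
  have : ∃ v : U12 E, v.p5 = 0 ∧ S.φ v = S.X i a := by
    have : i = 0 ∨ i = 1 ∨ i = 2 ∨ i = 3 ∨ i = 4 := by revert i; decide
    rcases this with rfl | rfl | rfl | rfl | rfl
    exacts [⟨_, rfl, S.φ0 a⟩, ⟨_, rfl, S.φ1 a⟩, ⟨_, rfl, S.φ2 a⟩, ⟨_, rfl, S.φ3 a⟩,
      ⟨_, rfl, S.φ4 a⟩]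
  obtain ⟨v, hv, e⟩ := this
  have h1 : cg (S.X 5 u) (S.φ (g5 (T u) * v * (g5 (T u))⁻¹)) = S.X i a := by
    rw [← cg_φ, S.φ5, cg_cg_self (S.X_sq _ _), e]
  rw [← h1]
  exact cg_comm _ (S.comm_φQ2 hy (by simp [g5, hv]; grind))

end H89.D4S.Cg
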