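import Cfsg.Agent.Lib.D4S.U12
import Cfsg.Agent.Lib.G2S.Defs

/-! # Standard components of type `³D₄(2ⁿ)`: definitions.  See `blueprint/D4S/README.md`. -/

set_option autoImplicit false
set_option linter.unusedSectionVars false

namespace H89.D4S
open Subgroup H69 U12
open H89.G2S (KK ιK σK)
open scoped commutatorElement

/-- the weight of the torus element `h l m` on the root number `i` -/
def wt {F E : Type*} [Field F] [Field E] [Cub F E] (l : Eˣ) (m : Fˣ) : Fin 12 → E :=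
  ![l, ι (N (l : E) * m), sh (l : E) * ι (m : F), ι (N (l : E) * m ^ 2), l * ι (m : F), ι (m : F),
    (l : E)⁻¹, (ι (N (l : E) * m))⁻¹, (sh (l : E) * ι (m : F))⁻¹, (ι (N (l : E) * m ^ 2))⁻¹,
    (l * ι (m : F))⁻¹, (ι (m : F))⁻¹]

/-- root elements of type `³D₄`; the long root elements `X i a` depend only on `T a` -/
structure Pin {K : Type*} (J G : Type*) [CommRing K] [CommRing J] [Cub K J] [CharP K 2] [CharP J 2]
    [Group G] where
  X : Fin 12 → J → G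
  φ : U12 J →* G
  φ0 : ∀ a, φ (g0 a) = X 0 a
  φ1 : ∀ a, φ (g1 (T a)) = X 1 a
  φ2 : ∀ a, φ (g2 a) = X 2 a
  φ3 : ∀ a, φ (g3 (T a)) = X 3 a
  φ4 : ∀ a, φ (g4 a) = X 4 a
  φ5 : ∀ a, φ (g5 (T a)) = X 5 a
  c0' : ∀ i a, X 0 1 * X 6 1 * X 0 1 * X i a * (X 0 1 * X 6 1 * X 0 1)⁻¹ = X (6 - i) a
  c5' : ∀ i a, X 5 1 * X 11 1 * X 5 1 * X i a * (X 5 1 * X 11 1 * X 5 1)⁻¹ = X (4 - i) a

namespace Pin
variable {K J G : Type*} [CommRing K] [CommRing J] [Cub K J] [CharP K 2] [CharP J 2] [Group G]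
  (P : Pin J G)

def n0 : G := P.X 0 1 * P.X 6 1 * P.X 0 1
def n5 : G := P.X 5 1 * P.X 11 1 * P.X 5 1
def L : Subgroup G := closure {g | ∃ i a, g = P.X i a}
def P0 : Subgroup G := closure {g | ∃ i a, i ≤ 6 ∧ g = P.X i a}
def U : Subgroup G := P.φ.range
def Q : Subgroup G := (U12.Q J).map P.φ
def Z : Subgroup G := (U12.Z J).map P.φ
def EA : Subgroup G := (U12.EA J).map P.φ
def E2 : Subgroup G := (U12.E2 J).map P.φ
def R : Subgroup G := (U12.R J).map P.φ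
/-- `g` centralises all root elements -/
def Cn (g : G) : Prop := ∀ i a, g * P.X i a = P.X i a * g
/-- `m` acts on the root elements as the ring automorphism `ρ` -/
structure Act (m : G) (ρ : J ≃+* J) : Prop where
  tc : Tc (ρ : J →+* J)
  act : ∀ i a, m * P.X i a * m⁻¹ = P.X i (ρ a)
/-- the elements acting as ring automorphisms -/
def No : Subgroup G where
  carrier := {m | ∃ ρ, P.Act m ρ}
  one_mem' := ⟨RingEquiv.refl J, Tc.refl, fun i a => by simp⟩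
  mul_mem' := by
    rintro m m' ⟨ρ, h⟩ ⟨ρ', h'⟩
    exact ⟨ρ'.trans ρ, h'.tc.trans h.tc, fun i a => by
      rw [RingEquiv.trans_apply, ← h.act, ← h'.act]; group⟩
  inv_mem' := by
    rintro m ⟨ρ, h⟩
    exact ⟨ρ.symm, h.tc.symm, fun i a => by
      have := h.act i (ρ.symm a); rw [RingEquiv.apply_symm_apply] at this; rw [← this]; group⟩
def M : Subgroup G := P.L ⊔ P.No

theorem c0 (i : Fin 12) (a : J) : P.n0 * P.X i a * P.n0⁻¹ = P.X (6 - i) a := P.c0' i a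
theorem c5 (i : Fin 12) (a : J) : P.n5 * P.X i a * P.n5⁻¹ = P.X (4 - i) a := P.c5' i a
theorem X_mem (i : Fin 12) (a : J) : P.X i a ∈ P.L := subset_closure ⟨i, a, rfl⟩
theorem mem_No {m : G} : m ∈ P.No ↔ ∃ ρ, P.Act m ρ := Iff.rfl
theorem φ1' (a : K) : P.φ (g1 a) = P.X 1 (ι a) := by rw [← P.φ1, T_ι]
theorem φ3' (a : K) : P.φ (g3 a) = P.X 3 (ι a) := by rw [← P.φ3, T_ι]
theorem φ5' (a : K) : P.φ (g5 a) = P.X 5 (ι a) := by rw [← P.φ5, T_ι]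

/-- image under a homomorphism -/
def map {G' : Type*} [Group G'] (f : G →* G') : Pin J G' where
  X i a := f (P.X i a)
  φ := f.comp P.φ
  φ0 a := congrArg f (P.φ0 a)
  φ1 a := congrArg f (P.φ1 a)
  φ2 a := congrArg f (P.φ2 a)
  φ3 a := congrArg f (P.φ3 a)
  φ4 a := congrArg f (P.φ4 a)
  φ5 a := congrArg f (P.φ5 a)
  c0' i a := by rw [← P.c0']; simp
  c5' i a := by rw [← P.c5']; simp

/-- change of the parameter ring -/
def comap {K' J' : Type*} [CommRing K'] [CommRing J'] [Cub K' J'] [CharP K' 2] [CharP J' 2]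
    {ρ : J' →+* J} (h : Tc ρ) : Pin J' G where
  X i a := P.X i (ρ a)
  φ := P.φ.comp (U12.map h)
  φ0 a := by rw [← P.φ0, ← map_g0 h]; rfl
  φ1 a := by rw [← P.φ1, ← h.res_T, ← map_g1 h]; rfl
  φ2 a := by rw [← P.φ2, ← map_g2 h]; rfl
  φ3 a := by rw [← P.φ3, ← h.res_T, ← map_g3 h]; rfl
  φ4 a := by rw [← P.φ4, ← map_g4 h]; rfl
  φ5 a := by rw [← P.φ5, ← h.res_T, ← map_g5 h]; rfl
  c0' i a := by rw [map_one, P.c0']
  c5' i a := by rw [map_one, P.c5']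

end Pin

/-- the root elements of a group isomorphic to `³D₄(q)`, `|F| = q`, `|E| = q³` -/
structure FP {F : Type*} (E G : Type*) [Field F] [Field E] [Cub F E] [CharP F 2] [CharP E 2] [Group G]
    extends Pin E G where
  cub : Nat.card E = Nat.card F ^ 3
  inj : Function.Injective φ
  h : Eˣ → Fˣ → G
  hL : ∀ l m, h l m ∈ toPin.L
  hX : ∀ l m i a, h l m * X i a * (h l m)⁻¹ = X i (wt l m i * a)
  ctr : ∀ g ∈ toPin.L, toPin.Cn g → g = 1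
  pz : ∀ g ∈ toPin.L, ∀ a : F, a ≠ 0 → g * X 3 (ι a) * g⁻¹ ∈ toPin.Z →
    ∃ u l m, g = φ u * h l m ∨ ∃ k, g = φ u * h l m * toPin.n0 * X 0 k
  nc : ∀ g ∈ toPin.L, g * X 2 1 * g⁻¹ ∉ toPin.Z
  aut : ∀ β : toPin.L ≃* toPin.L, ∃ l ∈ toPin.L, ∃ σ : E ≃+* E, ∀ i a,
    (β ⟨X i a, toPin.X_mem i a⟩ : G) = l * X i (σ a) * l⁻¹

/-- the standing hypothesis -/
structure St {F : Type*} (E G : Type*) [Field F] [Field E] [Cub F E] [CharP F 2] [CharP E 2] [Group G]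
    extends FP E G where
  t : G
  tt : t * t = 1
  t1 : t ≠ 1
  tX : toPin.Cn t
  nL : ∀ g, g * t = t * g → ∀ l ∈ toPin.L, g * l * g⁻¹ ∈ toPin.L
  cyc : ∀ R : Subgroup G, IsPGroup 2 R → (∀ r ∈ R, toPin.Cn r) → IsCyclic R
  mult : ∀ (A : Subgroup G) (π : A →* G), ⁅A, A⁆ = A → π.range = toPin.L →
    (∀ x, π x = 1 → Odd (orderOf x) ∧ ∀ y, x * y = y * x) → Function.Injective π

namespace St
variable {F E G : Type*} [Field F] [Field E] [Cub F E] [CharP F 2] [CharP E 2] [Group G]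
  (S : St E G)

def Ct : Subgroup G := centralizer {S.t}
/-- field automorphisms centralising `t` -/
def N1 : Subgroup G := S.No ⊓ S.Ct
/-- `g ∈ C(t) ∩ C(L)` -/
def C0 (g : G) : Prop := g * S.t = S.t * g ∧ S.Cn g
/-- `g ∈ C(t)` acts as a field automorphism that is trivial on `F` -/
def C1 (g : G) : Prop := g * S.t = S.t * g ∧ ∃ σ, S.Act g σ ∧ ∀ a : F, σ (ι a) = ι a
/-- `g ∈ C(t) ∩ C(L)` has odd order -/
def Od (g : G) : Prop := S.C0 g ∧ Odd (orderOf g)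
/-- `g` centralises the elements of odd order of `C(t) ∩ C(L)` -/
def CO (g : G) : Prop := ∀ o, S.Od o → g * o = o * g
def V : Subgroup G := zpowers S.t ⊔ S.Z
def J : Subgroup G := zpowers S.t ⊔ S.U
/-- `g` centralises `Q` and moves `t` inside `tZ` -/
def D0 (g : G) : Prop := (∀ x ∈ S.Q, g * x = x * g) ∧ ∃ c : F, g * S.t * g⁻¹ = S.t * S.X 3 (ι c)

/-- the 2-elements of `D0` centralising the odd part -/
def DD (g : G) : Prop := S.D0 g ∧ S.CO g ∧ g * g ∈ S.V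

/-- the case in which `t` is not isolated -/
structure Db : Prop where
  two : ∀ g, S.C0 g → ∀ k : ℕ, g ^ 2 ^ k = 1 → g = 1 ∨ g = S.t
  mv : ∃ g ∈ 𝐍(S.V), g * S.t * g⁻¹ ≠ S.t

end St

section Stages
variable {F E G : Type*} [Field F] [Field E] [Cub F E] [CharP F 2] [CharP E 2] [Group G]

/-- stage 1: the doubled highest root subgroup -/
structure Z1 (S : St E G) where
  Zs : Subgroup G
  τ : G → F
  le : S.Z ≤ Zs
  ct : ∀ w ∈ Zs, w * S.t * w⁻¹ = S.t * S.X 3 (ι (τ w))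
  ker : ∀ w ∈ Zs, τ w = 0 → w ∈ S.Z
  onto : ∀ c, ∃ w ∈ Zs, τ w = c
  cP : ∀ w ∈ Zs, ∀ i ≤ 6, ∀ a, w * S.X i a = S.X i a * w
  cO : ∀ w ∈ Zs, S.CO w
  comm : ∀ w ∈ Zs, ∀ w' ∈ Zs, w * w' = w' * w
  sq : ∃ κ, ∀ w ∈ Zs, w * w = S.X 3 (ι (κ * τ w))
  hN : ∀ l m, ∀ w ∈ Zs, S.h l m * w * (S.h l m)⁻¹ ∈ Zs

/-- stage 2: it is a plane over `F` -/
structure Z2 (S : St E G) where
  W : F → G
  add : ∀ a b, W (a + b) = W a * W b
  ct : ∀ y, W y * S.t * (W y)⁻¹ = S.t * S.X 3 (ι y)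
  cP : ∀ y, ∀ i ≤ 6, ∀ a, W y * S.X i a = S.X i a * W y
  cO : ∀ y, S.CO (W y)
  hW : ∀ l m y, S.h l m * W y * (S.h l m)⁻¹ = W (N (l : E) * (m : F) ^ 2 * y)
  c13 : ∀ y y', S.n5 * W y * S.n5⁻¹ * W y' = W y' * (S.n5 * W y * S.n5⁻¹)
  c51 : ∀ u y, S.X 5 (ι u) * (S.n5 * W y * S.n5⁻¹) * S.X 5 (ι u) = S.n5 * W y * S.n5⁻¹ * W (u * y)

variable (E) in
/-- `E[ω]/(ω² + ω + α)` -/
abbrev JJ (α : F) : Type _ := KK (ι α : E)

theorem JJ.ιN (α : F) (x : JJ E α) : (⟨ι (N x.re + α * T (x.re * sh x.im) + α * N x.im),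
    ι (T (sh x.re * x.im) + T (x.re * sh x.im) + (α + 1) * N x.im)⟩ : JJ E α) =
    x * ⟨θ x.re, θ x.im⟩ * ⟨θ (θ x.re), θ (θ x.im)⟩ := by
  ext <;> simp only [QuadraticAlgebra.re_mul, QuadraticAlgebra.im_mul] <;> cub

/-- the embedding of `KK α` in `JJ E α` -/
def JJ.emb (α : F) : KK α →+* JJ E α where
  toFun k := ⟨ι k.re, ι k.im⟩
  map_one' := by ext <;> simp [QuadraticAlgebra.re_one, QuadraticAlgebra.im_one]
  map_zero' := by ext <;> simp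
  map_add' a b := by ext <;> simp
  map_mul' a b := by ext <;> simp
theorem JJ.emb_inj (α : F) : Function.Injective (JJ.emb (E := E) α) := fun _ _ e =>
  QuadraticAlgebra.ext (ι_inj (congrArg QuadraticAlgebra.re e)) (ι_inj (congrArg QuadraticAlgebra.im e))
/-- the automorphism of order three -/
def JJ.th (α : F) : JJ E α →+* JJ E α where
  toFun k := ⟨θ k.re, θ k.im⟩
  map_one' := by ext <;> simp [QuadraticAlgebra.re_one, QuadraticAlgebra.im_one]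
  map_zero' := by ext <;> simp
  map_add' a b := by ext <;> simp
  map_mul' a b := by ext <;> simp

instance instJJ (α : F) : Cub (KK α) (JJ E α) where
  ι := JJ.emb α
  θ := JJ.th α
  T := { toFun k := ⟨T k.re, T k.im⟩
         map_zero' := by ext <;> simp
         map_add' a b := by ext <;> simp }
  N := { toFun x := ⟨N x.re + α * T (x.re * sh x.im) + α * N x.im,
           T (sh x.re * x.im) + T (x.re * sh x.im) + (α + 1) * N x.im⟩
         map_one' := by ext <;> simp [QuadraticAlgebra.re_one, QuadraticAlgebra.im_one]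
         map_mul' a b := JJ.emb_inj (E := E) α (by
           rw [map_mul (JJ.emb α)]
           refine (JJ.ιN α (a * b)).trans (.trans ?_ (congrArg₂ (· * ·) (JJ.ιN α a) (JJ.ιN α b)).symm)
           change a * b * JJ.th α (a * b) * JJ.th α (JJ.th α (a * b)) =
             a * JJ.th α a * JJ.th α (JJ.th α a) * (b * JJ.th α b * JJ.th α (JJ.th α b))
           simp only [map_mul]; ring) }
  ι_inj := JJ.emb_inj α
  θ3 x := by ext <;> simp [JJ.th]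
  θι x := by ext <;> simp [JJ.th, JJ.emb]
  ιT x := by ext <;> simp [JJ.th, JJ.emb, ιT]
  ιN x := JJ.ιN α x
  nd x h := QuadraticAlgebra.ext
    (nd _ fun y => by simpa using congrArg QuadraticAlgebra.re (h ⟨y, 0⟩))
    (nd _ fun y => by simpa using congrArg QuadraticAlgebra.im (h ⟨y, 0⟩))

section
variable {α : F}
@[simp] theorem ι_re (k : KK α) : (ι k : JJ E α).re = ι k.re := rfl
@[simp] theorem ι_im (k : KK α) : (ι k : JJ E α).im = ι k.im := rfl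
@[simp] theorem θ_re (k : JJ E α) : (θ k).re = θ k.re := rfl
@[simp] theorem θ_im (k : JJ E α) : (θ k).im = θ k.im := rfl
@[simp] theorem T_re (k : JJ E α) : (T k).re = T k.re := rfl
@[simp] theorem T_im (k : JJ E α) : (T k).im = T k.im := rfl
end
/-- the embedding of `E` -/
abbrev ιJ (α : F) : E →+* JJ E α := ιK (ι α : E)
/-- `ω ↦ ω + 1` -/
abbrev σJ (α : F) : JJ E α ≃+* JJ E α := σK (ι α : E)
theorem tcJ (α : F) : Tc (ιJ α : E →+* JJ E α) := .of_comm fun x => by ext <;> simp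
theorem tcσ (α : F) : Tc (σJ (E := E) α : JJ E α →+* JJ E α) := .of_comm fun x => by ext <;> simp
@[simp] theorem tcJ_res (α a : F) : (tcJ (E := E) α).res a = ιK α a := by
  ext <;> simp [Tc.res_def]
@[simp] theorem tcσ_res (α : F) (k : KK α) : (tcσ (E := E) α).res k = σK α k := by
  ext <;> simp [Tc.res_def]
theorem ι_ιK (α a : F) : (ι (ιK α a) : JJ E α) = ιJ α (ι a) := by ext <;> simp

namespace Z2
variable {S : St E G} (Z : Z2 S)
def Y3 (α : F) (k : KK α) : G := S.X 3 (ι k.re) * Z.W k.im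
def InZ (g : G) : Prop := ∃ c y, g = S.X 3 (ι c) * Z.W y
/-- `g` acts on `Q` as the central automorphism given by the vector `v` -/
def Ph (α : F) (g : G) (v : U12 (JJ E α)) : Prop := ∀ x : U12 E, x.p0 = 0 →
  g * S.φ x * g⁻¹ = S.φ x * Z.Y3 α (Bf v (U12.map (tcJ α) x))

/-- stage 3: the doubled group `Q` -/
structure QA (α : F) (Qs : Subgroup G) : Prop where
  ph : ∀ g ∈ Qs, ∃ v, v.p0 = 0 ∧ Z.Ph α g v
  onto : ∀ v, ∃ g ∈ Qs, Z.Ph α g v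
  ker : ∀ g ∈ Qs, (∀ x ∈ S.Q, g * x = x * g) → Z.InZ g
  cW : ∀ g ∈ Qs, ∀ y, g * Z.W y = Z.W y * g
  cO : ∀ g ∈ Qs, S.CO g
  sq : ∀ g ∈ Qs, Z.InZ (g * g)
  Qle : S.Q ≤ Qs
  Wm : ∀ y, Z.W y ∈ Qs
  W1 : ∀ y, S.n5 * Z.W y * S.n5⁻¹ ∈ Qs
  nt : ∀ g ∈ Qs, S.t * g * S.t⁻¹ ∈ Qs
  nh : ∀ g ∈ Qs, ∀ l m, S.h l m * g * (S.h l m)⁻¹ ∈ Qs
  nn : ∀ g ∈ Qs, S.n0 * g * S.n0⁻¹ ∈ Qs
  nx : ∀ g ∈ Qs, ∀ k, S.X 0 k * g * (S.X 0 k)⁻¹ ∈ Qs

/-- stage 4: commutators and squares in it -/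
structure QB (α : F) (Qs : Subgroup G) : Prop extends Z.QA α Qs where
  cm : ∀ g ∈ Qs, ∀ g' ∈ Qs, ∀ v v', Z.Ph α g v → Z.Ph α g' v' → g * g' = g' * g * Z.Y3 α (Bf v v')
  sq' : ∀ g ∈ Qs, ∀ v, Z.Ph α g v → g * g = Z.Y3 α (v.p5 * v.p1 + T (v.p4 * v.p2))
end Z2

/-- stage 5: coordinates on the doubled group `Q` -/
structure Q1 {S : St E G} (Z : Z2 S) where
  α : F
  ψ : U12 (JJ E α) → G
  mul : ∀ u v, u.p0 = 0 → v.p0 = 0 → ψ (u * v) = ψ u * ψ v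
  inj : ∀ u, u.p0 = 0 → ψ u = 1 → u = 1
  p3 : ∀ k, ψ (g3 k) = Z.Y3 α k
  p1 : ∀ k, ψ (g1 k) = S.n5 * ψ (g3 k) * S.n5⁻¹
  ext : ∀ x : U12 E, x.p0 = 0 → ψ (U12.map (tcJ α) x) = S.φ x
  ct : ∀ u, u.p0 = 0 → S.t * ψ u * S.t⁻¹ = ψ (U12.map (tcσ α) u)
  ch : ∀ u, u.p0 = 0 → ∀ (l : Eˣ) (m : Fˣ),
    S.h l m * ψ u * (S.h l m)⁻¹ = ψ (tor (ιJ α (l : E)) (ιK α (m : F)) u)
  cn : ∀ u, u.p0 = 0 → S.n0 * ψ u * S.n0⁻¹ = ψ (na u)
  cx : ∀ u, u.p0 = 0 → ∀ k, ∃ e,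
    S.X 0 k * ψ u * S.X 0 k = ψ (g0 (ιJ α k) * u * g0 (ιJ α k) * g3 e)
  cO : ∀ u, u.p0 = 0 → S.CO (ψ u)

namespace Q1
variable {S : St E G} {Z : Z2 S} (q : Q1 Z)
/-- the doubled root subgroup of the short simple root -/
def ξ (k : JJ E q.α) : G := S.n5 * q.ψ (g4 k) * S.n5⁻¹
/-- stage 6 -/
structure Q2 : Prop where
  c52 : ∀ k, S.n5 * q.ψ (g2 k) * S.n5⁻¹ = q.ψ (g2 k)
  cx' : ∀ u, u.p0 = 0 → ∀ k, S.X 0 k * q.ψ u * S.X 0 k = q.ψ (g0 (ιJ q.α k) * u * g0 (ιJ q.α k))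
/-- stage 7 -/
structure Q3 : Prop extends q.Q2 where
  r04 : ∀ k l, q.ξ k * q.ψ (g4 l) * q.ξ k = q.ψ (g0 k * g4 l * g0 k)
/-- stage 8 -/
structure Q4 : Prop extends q.Q3 where
  r05' : ∀ k (u : F), q.ξ k * S.X 5 (ι u) * q.ξ k = q.ψ (g0 k * g5 (ιK q.α u) * g0 k)
/-- stage 9 -/
structure Q5 : Prop extends q.Q4 where
  r05 : ∀ k l, q.ξ k * q.ψ (g5 l) * q.ξ k = q.ψ (g0 k * g5 l * g0 k)
end Q1

variable {K J : Type*} [CommRing K] [CommRing J] [Cub K J] [CharP K 2] [CharP J 2]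

/-- the result of the doubling: root elements over a quadratic extension ring -/
structure Big (S : St E G) (Y : Pin J G) (j : E →+* J) (σ : J ≃+* J) : Prop where
  db : S.Db
  tj : Tc j
  inj : Function.Injective Y.φ
  ext : ∀ i a, Y.X i (j a) = S.X i a
  ct : Y.Act S.t σ
  σσ : ∀ k, σ (σ k) = k
  fix : ∀ k, σ k = k ↔ ∃ a, j a = k
  free : ∃ c : K, ι c + σ (ι c) = 1
  cardK : Nat.card K = Nat.card F ^ 2
  cardJ : Nat.card J = Nat.card E ^ 2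
  ch : ∀ l m i k, S.h l m * Y.X i k * (S.h l m)⁻¹ = Y.X i (j (wt l m i) * k)
  cO : ∀ o, S.Od o → Y.Cn o
  uz : ∀ g, S.D0 g → g * g = 1 → g * S.t ≠ S.t * g → g ∈ Y.Z

/-- with a Sylow 2-subgroup `Y.U ⊔ A` of `Y.M` -/
structure Top (S : St E G) (Y : Pin J G) (j : E →+* J) (σ : J ≃+* J) (A : Subgroup G) : Prop
    extends Big S Y j σ where
  sylU : IsSylowIn 2 Y.U Y.L
  sylA : IsSylowIn 2 A Y.No
  tA : S.t ∈ A

/-- `t` fixes only one coset of `Y.M` -/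
def Fix (S : St E G) (Y : Pin J G) : Prop := ∀ g, g * S.t * g⁻¹ ∈ Y.M → g ∈ Y.M

/-- the wreathed case -/
structure WS (S : St E G) (Y : Pin (E × E) G) (p₁ p₂ : FP E G) (A : Subgroup G) : Prop
    extends Top S Y (RingHom.prod (RingHom.id E) (RingHom.id E)) RingEquiv.prodComm A where
  X : ∀ i a b, Y.X i (a, b) = p₁.X i a * p₂.X i b
  comm : ∀ i j a b, p₁.X i a * p₂.X j b = p₂.X j b * p₁.X i a
  disj : ∀ g ∈ p₁.L, g ∈ p₂.L → g = 1
  emb : ∃ e : S.L ≃* p₁.L, ∀ i a, e ⟨S.X i a, S.X_mem i a⟩ = ⟨p₁.X i a, p₁.X_mem i a⟩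

end Stages
end H89.D4S
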