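import Cfsg.Agent.Lib.D4S.PH
import Cfsg.Agent.Lib.D4S.E1

/-! Standard components of type `³D₄(2ⁿ)`, package E2: see `blueprint/D4S/README.md`. -/

set_option autoImplicit false
set_option linter.unusedSectionVars false

namespace H89.D4S
open Subgroup H69 U12
open H89.G2S (KK ιK σK)
open scoped commutatorElement

variable {F E G : Type*} [Field F] [Field E] [Cub F E] [CharP F 2] [CharP E 2] [Finite F] [Finite E]
  [Group G] [Finite G]

namespace E2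

theorem kill {f : E → F} (ha : ∀ x y, f (x + y) = f x + f y) {c : E} (c1 : c ≠ 1)
    (hc : ∀ y, f (c * y) = f y) (y : E) : f y = 0 := by
  have n : c + 1 ≠ 0 := fun e => c1 (by grind)
  have := ha (c * ((c + 1)⁻¹ * y)) ((c + 1)⁻¹ * y)
  rw [hc, CharTwo.add_self_eq_zero] at this
  rw [← this]
  congr 1
  field_simp

theorem bil (hc : Nat.card E = Nat.card F ^ 3) {a : U12 E → U12 E → F}
    (mul : ∀ u v w, u.p0 = 0 → a (u * v) w = a u w + a v w) (sy : ∀ u v, a u v = a v u)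
    (alt : ∀ u, a u u = 0)
    (cg : ∀ u v w, v.p5 = u.p5 → v.p4 = u.p4 → v.p2 = u.p2 → v.p1 = u.p1 → a v w = a u w)
    (ht : ∀ (l : Eˣ) (m : Fˣ) u v, a (tor (l : E) (m : F) u) (tor (l : E) (m : F) v) =
      N (l : E) * (m : F) ^ 2 * a u v)
    (hx : ∀ k u v, u.p0 = 0 → v.p0 = 0 → a (g0 k * u * g0 k) (g0 k * v * g0 k) = a u v)
    (hn : ∀ u v, a (na u) (na v) = a u v) :
    ∃ d, ∀ u v, a u v = d * Bf u v := by
  have one : ∀ w, a 1 w = 0 := fun w => by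
    have := mul 1 1 w rfl
    rw [mul_one] at this
    exact left_eq_add.1 this
  have add : ∀ r w, r.p0 = 0 → ∀ x x' : F, a (tor 1 (x + x') r) w = a (tor 1 x r) w + a (tor 1 x' r) w :=
    fun r w r0 x x' => by
      rw [← mul _ _ _ (by simp [r0])]
      apply cg <;> simp [r0] <;> ring
  have t1 : ∀ r : U12 E, tor 1 1 r = r := fun r => by ext <;> simp
  have hl : ∀ r s : U12 E, r.p0 = 0 → s.p0 = 0 → ∀ x y : F,
      a (tor 1 x r) (tor 1 y s) = x * y * a r s := fun r s r0 s0 x y => by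
    have := G2S.hua (f := fun x y => a (tor 1 x r) (tor 1 y s)) (fun x x' y => add r _ r0 x x')
      (fun x y y' => by rw [sy, add s _ s0, sy, sy (tor 1 y' s)]) (fun m x y => by
        by_cases m0 : m = 0
        · rw [m0, zero_mul, cg 1 (tor 1 0 r) _ (by simp) (by simp) (by simp) (by simp), one]; ring
        · have := ht 1 (Units.mk0 m m0) (tor 1 x r) (tor 1 y s)
          simp only [Units.val_one, Units.val_mk0, map_one, one_mul] at this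
          rw [← this]
          congr 1 <;> ext <;> simp <;> ring) x y
    simpa only [t1] using this
  have dec : ∀ u w, a u w = a (g5 u.p5) w + a (g4 u.p4) w + a (g2 u.p2) w + a (g1 u.p1) w :=
    fun u w => by
    rw [← mul _ _ _ (by simp [g5]), ← mul _ _ _ (by simp [g5, g4]), ← mul _ _ _ (by simp [g5, g4, g2])]
    apply cg <;> simp [g5, g4, g2, g1]
  have dec' : ∀ w u, a w u = a w (g5 u.p5) + a w (g4 u.p4) + a w (g2 u.p2) + a w (g1 u.p1) :=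
    fun w u => by simp only [sy w]; exact dec u w
  have a4 : ∀ w x y, a (g4 (x + y)) w = a (g4 x) w + a (g4 y) w := fun w x y => by
    rw [← mul _ _ _ rfl]; apply cg <;> simp [g4]
  have a2 : ∀ w x y, a (g2 (x + y)) w = a (g2 x) w + a (g2 y) w := fun w x y => by
    rw [← mul _ _ _ rfl]; apply cg <;> simp [g2]
  have s5 : ∀ x : F, (g5 x : U12 E) = tor 1 x (g5 1) := fun x => by ext <;> simp [g5]
  have s1 : ∀ x : F, (g1 x : U12 E) = tor 1 x (g1 1) := fun x => by ext <;> simp [g1]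
  obtain ⟨l, l1, l2, l3⟩ := exists_N1 hc
  have h0 : ∀ u v, a (tor (l : E) 1 u) (tor (l : E) 1 v) = a u v := fun u v => by
    simpa [l1] using ht l 1 u v
  have r5 : ∀ x : F, tor (l : E) 1 (g5 x) = g5 x := fun x => by ext <;> simp [g5]
  have r1 : ∀ x : F, tor (l : E) 1 (g1 x) = g1 x := fun x => by ext <;> simp [g1, l1]
  have r4 : ∀ x : E, tor (l : E) 1 (g4 x) = g4 (l * x) := fun x => by ext <;> simp [g4]
  have r2 : ∀ x : E, tor (l : E) 1 (g2 x) = g2 (sh (l : E) * x) := fun x => by ext <;> simp [g2]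
  have v45 : ∀ y x, a (g4 y) (g5 x) = 0 := fun y x =>
    kill (f := fun y => a (g4 y) (g5 x)) (a4 _) l2 (fun y => by rw [← h0 (g4 y), r4, r5]) y
  have v41 : ∀ y x, a (g4 y) (g1 x) = 0 := fun y x =>
    kill (f := fun y => a (g4 y) (g1 x)) (a4 _) l2 (fun y => by rw [← h0 (g4 y), r4, r1]) y
  have v25 : ∀ y x, a (g2 y) (g5 x) = 0 := fun y x =>
    kill (f := fun y => a (g2 y) (g5 x)) (a2 _) l3 (fun y => by rw [← h0 (g2 y), r2, r5]) y
  have v21 : ∀ y x, a (g2 y) (g1 x) = 0 := fun y x =>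
    kill (f := fun y => a (g2 y) (g1 x)) (a2 _) l3 (fun y => by rw [← h0 (g2 y), r2, r1]) y
  have v55 : ∀ x y, a (g5 x) (g5 y) = 0 := fun x y => by
    rw [s5 x, s5 y, hl _ _ rfl rfl, alt, mul_zero]
  have v11 : ∀ x y, a (g1 x) (g1 y) = 0 := fun x y => by
    rw [s1 x, s1 y, hl _ _ rfl rfl, alt, mul_zero]
  obtain ⟨d, hd⟩ : ∃ x, a (g5 1) (g1 1) = x := ⟨_, rfl⟩
  have v51 : ∀ x y, a (g5 x) (g1 y) = x * y * d := fun x y => by
    rw [s5 x, s1 y, hl _ _ rfl rfl, hd]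
  have z : ∀ w, a w (g5 0) = 0 ∧ a w (g4 0) = 0 := fun w =>
    ⟨by rw [sy]; exact one w, by rw [sy]; exact one w⟩
  have key : ∀ k b, a (g4 k) (g2 b) = T (k * b) * d + a (g2 (sh k)) (g2 b) := fun k b => by
    have e := hx k (g5 1) (g2 b) rfl rfl
    rw [sy (g5 1), v25, al5, al2, dec, dec' (g5 _), dec' (g4 _), dec' (g2 _), dec' (g1 _)] at e
    simp only [g2, g1, mul_p5, mul_p4, mul_p2, mul_p1, map_one, one_mul, map_zero, mul_zero, zero_mul,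
      add_zero, zero_add, cr_zero, sh_zero, N_zero] at e
    change a (g5 1) (g5 0) + a (g5 1) (g4 0) + a (g5 1) (g2 b) + a (g5 1) (g1 (T (k * b))) +
      (a (g4 k) (g5 0) + a (g4 k) (g4 0) + a (g4 k) (g2 b) + a (g4 k) (g1 (T (k * b)))) +
      (a (g2 (sh k)) (g5 0) + a (g2 (sh k)) (g4 0) + a (g2 (sh k)) (g2 b) +
        a (g2 (sh k)) (g1 (T (k * b)))) +
      (a (g1 (N k)) (g5 0) + a (g1 (N k)) (g4 0) + a (g1 (N k)) (g2 b) +
        a (g1 (N k)) (g1 (T (k * b)))) = 0 at e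
    simp only [(z _).1, (z _).2, v41, v21, v11, v51, sy (g5 1) (g2 b), sy (g1 _) (g2 b), v25] at e
    grind
  have vcr : ∀ k l b, a (g2 (cr k l)) (g2 b) = 0 := fun k l b => by
    have e := key (k + l) b
    rw [a4, key k, key l, sh_add, a2, a2, add_mul, map_add] at e
    grind
  have v22 : ∀ x b, a (g2 x) (g2 b) = 0 := fun x b => by
    obtain ⟨p, q, r, s, rfl⟩ := cr_span hc x
    rw [a2, vcr, vcr, add_zero]
  have v42 : ∀ k b, a (g4 k) (g2 b) = T (k * b) * d := fun k b => by rw [key, v22, add_zero]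
  have v44 : ∀ x y, a (g4 x) (g4 y) = 0 := fun x y => by
    rw [← hn, show na (g4 x) = g2 x by u12, show na (g4 y) = g2 y by u12, v22]
  refine ⟨d, fun u v => ?_⟩
  rw [dec u v, dec' _ v, dec' (g4 _) v, dec' (g2 _) v, dec' (g1 _) v, sy (g5 _) (g4 _), sy (g5 _) (g2 _),
    sy (g2 _) (g4 _), sy (g1 _) (g5 _), sy (g1 _) (g4 _), sy (g1 _) (g2 _)]
  simp only [v45, v41, v25, v21, v55, v11, v51, v22, v42, v44, Bf]
  rw [mul_comm v.p4]
  ring

section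
variable {K J : Type*} [CommRing K] [CommRing J] [Cub K J] [CharP K 2] [CharP J 2]

theorem q_mul (u v : U12 J) (u0 : u.p0 = 0) : u.p5 * u.p1 + T (u.p4 * u.p2) +
    (v.p5 * v.p1 + T (v.p4 * v.p2) + Bf v u) =
    (u * v).p5 * (u * v).p1 + T ((u * v).p4 * (u * v).p2) := by
  u12s; rw [u0]; cubK J

theorem q_na (u : U12 J) : u.p5 * u.p1 + T (u.p4 * u.p2) =
    (na u).p5 * (na u).p1 + T ((na u).p4 * (na u).p2) := by
  u12s; cubK J

theorem q_x (k : J) (u : U12 J) : u.p5 * u.p1 + T (u.p4 * u.p2) =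
    (g0 k * u * g0 k).p5 * (g0 k * u * g0 k).p1 + T ((g0 k * u * g0 k).p4 * (g0 k * u * g0 k).p2) := by
  u12s; cubK J
end

theorem mk00 {R : Type*} [CommRing R] {a b : R} : (⟨0, 0⟩ : QuadraticAlgebra R a b) = 0 := rfl

theorem sh_ιJ (α : F) (x : E) : sh (ιJ α x) = ιJ α (sh x) := ((tcJ (E := E) α).sh x).symm

theorem N_ιJ (α : F) (x : E) : N (ιJ α x) = ιK α (N x) := by
  rw [← (tcJ (E := E) α).res_N, tcJ_res]

variable {S : St E G} {Z : Z2 S} {Qs : Subgroup G} {α : F} {g g' : G} {u v w : U12 (JJ E α)}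

theorem cY (h : Z.QA α Qs) (hg : g ∈ Qs) (k : KK α) : g * Z.Y3 α k = Z.Y3 α k * g := by
  obtain ⟨v, -, hv⟩ := h.ph g hg
  exact E1.cY hv (h.cW g hg) k

theorem diff (h : Z.QA α Qs) (hg : g ∈ Qs) (hg' : g' ∈ Qs) (p : Z.Ph α g v) (p' : Z.Ph α g' v) :
    ∃ k, g' = g * Z.Y3 α k := by
  have q := ((p.congr (v' := ⟨0, v.p5, v.p4, v.p2, v.p1, 0⟩) rfl rfl rfl rfl).inv (h.cW g hg)).mul p' rfl
    (h.cW _ (inv_mem hg))
  obtain ⟨k, hk⟩ := (Z.inZ_iff α).1 (h.ker _ (mul_mem (inv_mem hg) hg')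
    (q.cent (by simp; grind) (by simp; grind) (by simp; grind) (by simp; grind)))
  exact ⟨k, by rw [← hk, mul_inv_cancel_left]⟩

theorem exβ (h : Z.QA α Qs) : ∃ β : U12 (JJ E α) → U12 (JJ E α) → KK α, ∀ g ∈ Qs, ∀ g' ∈ Qs, ∀ v v',
    Z.Ph α g v → Z.Ph α g' v' → ⁅g, g'⁆ = Z.Y3 α (β v v') := by
  choose L hL pL using h.onto
  have : ∀ v v', ∃ k, ⁅L v, L v'⁆ = Z.Y3 α k := fun v v' => by
    obtain ⟨x, x0, p⟩ := h.ph _ (hL v)
    obtain ⟨x', x0', p'⟩ := h.ph _ (hL v')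
    have m := mul_mem (hL v) (hL v')
    have m' := mul_mem m (inv_mem (hL v))
    have p1 := ((p.mul p' x0 (h.cW _ (hL v))).mul (p.inv (h.cW _ (hL v))) (by simp [x0, x0'])
      (h.cW _ m)).mul (p'.inv (h.cW _ (hL v'))) (by simp [x0, x0']) (h.cW _ m')
    exact (Z.inZ_iff α).1 (h.ker _ (mul_mem m' (inv_mem (hL v'))) (p1.cent (by simp; grind)
      (by simp [x0, x0']; grind) (by simp [x0, x0']; grind) (by simp [x0, x0']; grind)))
  choose β hβ using this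
  refine ⟨β, fun g hg g' hg' v v' p p' => ?_⟩
  obtain ⟨k, rfl⟩ := diff h (hL v) hg (pL v) p
  obtain ⟨k', rfl⟩ := diff h (hL v') hg' (pL v') p'
  rw [commutatorElement_mul_left_eq_conj_mul, commutatorElement_eq_one_iff_mul_comm.2 (cY h hg' k).symm,
    mul_one, mul_inv_cancel, one_mul, commutatorElement_mul_right_eq_mul_conj,
    commutatorElement_eq_one_iff_mul_comm.2 (cY h (hL v) k'), mul_one, mul_inv_cancel_right, hβ]

/-- the commutator form -/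
structure Bt (Z : Z2 S) (α : F) (Qs : Subgroup G) (β : U12 (JJ E α) → U12 (JJ E α) → KK α) : Prop
    extends Z.QA α Qs where
  sp : ∀ g ∈ Qs, ∀ g' ∈ Qs, ∀ v v', Z.Ph α g v → Z.Ph α g' v' → ⁅g, g'⁆ = Z.Y3 α (β v v')

variable {β : U12 (JJ E α) → U12 (JJ E α) → KK α}

theorem Bt.mul (b : Bt Z α Qs β) (u v w : U12 (JJ E α)) (u0 : u.p0 = 0) :
    β (u * v) w = β u w + β v w := by
  obtain ⟨x, hx, p⟩ := b.onto u
  obtain ⟨y, hy, q⟩ := b.onto v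
  obtain ⟨z, hz, r⟩ := b.onto w
  apply Z.Y3_inj
  rw [← b.sp _ (mul_mem hx hy) _ hz _ _ (p.mul q u0 (b.cW x hx)) r, commutatorElement_mul_left_eq_conj_mul,
    b.sp _ hy _ hz _ _ q r, b.sp _ hx _ hz _ _ p r, cY b.toQA hx, mul_inv_cancel_right, add_comm, Z.Y3_add]

theorem Bt.sy (b : Bt Z α Qs β) (u v : U12 (JJ E α)) : β u v = β v u := by
  obtain ⟨x, hx, p⟩ := b.onto u
  obtain ⟨y, hy, q⟩ := b.onto v
  apply Z.Y3_inj
  rw [← b.sp _ hx _ hy _ _ p q, ← commutatorElement_inv, b.sp _ hy _ hx _ _ q p]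
  exact inv_eq_of_mul_eq_one_left (Z.Y3_sq _)

theorem Bt.alt (b : Bt Z α Qs β) (u : U12 (JJ E α)) : β u u = 0 := by
  obtain ⟨x, hx, p⟩ := b.onto u
  apply Z.Y3_inj
  rw [← b.sp _ hx _ hx _ _ p p, commutatorElement_self, Z.Y3_zero]

theorem Bt.cg (b : Bt Z α Qs β) (u v w : U12 (JJ E α)) (h5 : v.p5 = u.p5) (h4 : v.p4 = u.p4)
    (h2 : v.p2 = u.p2) (h1 : v.p1 = u.p1) : β v w = β u w := by
  obtain ⟨x, hx, p⟩ := b.onto u
  obtain ⟨z, hz, r⟩ := b.onto w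
  apply Z.Y3_inj
  rw [← b.sp _ hx _ hz _ _ p r, ← b.sp _ hx _ hz _ _ (p.congr h5 h4 h2 h1) r]

theorem Bt.cg2 (b : Bt Z α Qs β) {u v u' v' : U12 (JJ E α)} (h5 : v.p5 = u.p5) (h4 : v.p4 = u.p4)
    (h2 : v.p2 = u.p2) (h1 : v.p1 = u.p1) (k5 : v'.p5 = u'.p5) (k4 : v'.p4 = u'.p4)
    (k2 : v'.p2 = u'.p2) (k1 : v'.p1 = u'.p1) : β v v' = β u u' := by
  rw [b.cg u v _ h5 h4 h2 h1, b.sy, b.cg u' v' _ k5 k4 k2 k1, b.sy]

theorem Bt.ι (b : Bt Z α Qs β) (u : U12 (JJ E α)) {x : U12 E} (x0 : x.p0 = 0) :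
    β u (U12.map (tcJ α) x) = Bf u (U12.map (tcJ α) x) := by
  obtain ⟨g, hg, p⟩ := b.onto u
  have m := b.Qle (S.φ_memQ x0)
  apply Z.Y3_inj
  rw [← b.sp _ hg _ m _ _ p (Z2.ph_φ x0), commutatorElement_def, p x x0, cY b.toQA m,
    mul_inv_cancel_right]

theorem Bt.cj (b : Bt Z α Qs β) {n : G} (hn : ∀ g ∈ Qs, n * g * n⁻¹ ∈ Qs) {u v u' v' : U12 (JJ E α)}
    (hu : ∀ g, Z.Ph α g u → Z.Ph α (n * g * n⁻¹) u') (hv : ∀ g, Z.Ph α g v → Z.Ph α (n * g * n⁻¹) v') :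
    Z.Y3 α (β u' v') = n * Z.Y3 α (β u v) * n⁻¹ := by
  obtain ⟨x, hx, p⟩ := b.onto u
  obtain ⟨y, hy, q⟩ := b.onto v
  rw [← b.sp _ hx _ hy _ _ p q, conjugate_commutatorElement,
    b.sp _ (hn x hx) _ (hn y hy) _ _ (hu x p) (hv y q)]

theorem Bt.split (b : Bt Z α Qs β) {r s r' s' : U12 E} (r0 : r.p0 = 0) (r0' : r'.p0 = 0) :
    β (U12.map (tcJ α) r * U12.cx α 1 s) (U12.map (tcJ α) r' * U12.cx α 1 s') =
      Bf (U12.map (tcJ α) r) (U12.map (tcJ α) r') + Bf (U12.cx α 1 s') (U12.map (tcJ α) r) +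
      Bf (U12.cx α 1 s) (U12.map (tcJ α) r') + β (U12.cx α 1 s) (U12.cx α 1 s') := by
  rw [b.mul _ _ _ (by simp [r0]), b.sy, b.mul _ _ _ (by simp [r0']), b.sy (U12.cx α 1 s),
    b.mul _ _ _ (by simp [r0']), b.sy _ (U12.map _ r), b.ι _ r0', b.ι _ r0, b.sy _ (U12.cx α 1 s),
    b.ι _ r0', b.sy (U12.cx α 1 s'), add_assoc, add_assoc, add_assoc]

theorem Bt.im (b : Bt Z α Qs β) {s s' : U12 E} (s0 : s.p0 = 0) (s0' : s'.p0 = 0) :
    (β (U12.cx α 1 s) (U12.cx α 1 s')).im = Bf s s' := by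
  have e := b.cj b.nt (u := U12.cx α 1 s) (v := U12.cx α 1 s') (fun _ p => p.t) fun _ p => p.t
  rw [Z.t_Y3] at e
  have e1 := Z.Y3_inj e
  rw [b.cg2 (u := U12.map (tcJ α) s * U12.cx α 1 s) (u' := U12.map (tcJ α) s' * U12.cx α 1 s'),
    b.split s0 s0'] at e1
  · have := congrArg QuadraticAlgebra.re e1
    simp [Bf, U12.cx] at this ⊢
    grind
  all_goals ext <;> simp [U12.cx, s0, s0']

theorem Bt.re (b : Bt Z α Qs β) : ∃ d, ∀ s s', (β (U12.cx α 1 s) (U12.cx α 1 s')).re = d * Bf s s' := by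
  refine bil S.cub (fun u v w u0 => ?_) (fun u v => by rw [b.sy]) (fun u => by rw [b.alt]; rfl)
    (fun u v w h5 h4 h2 h1 => ?_) (fun l m u v => ?_) (fun k u v u0 v0 => ?_) fun u v => ?_
  · rw [← QuadraticAlgebra.re_add, ← b.mul _ _ _ (by ext <;> simp [U12.cx, u0])]
    congr 1
    apply b.cg <;> ext <;> simp [U12.cx, u0, mk00]
  · congr 1
    apply b.cg <;> simp [U12.cx, *]
  · have e := b.cj (fun g hg => b.nh g hg l m) (u := U12.cx α 1 u) (v := U12.cx α 1 v)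
      (fun _ p => p.h l m) fun _ p => p.h l m
    rw [Z.h_Y3] at e
    rw [b.cg2 (u := tor (ιJ α (l : E)) (ιK α (m : F)) (U12.cx α 1 u)) (u' := tor (ιJ α (l : E)) (ιK α (m : F)) (U12.cx α 1 v)),
      Z.Y3_inj e]
    · simp [pow_succ]
    all_goals ext <;> simp [U12.cx, sh_ιJ, N_ιJ]
  · have e := b.cj (fun g hg => b.nx g hg k) (u := U12.cx α 1 u) (v := U12.cx α 1 v)
      (fun _ p => p.x0 (by ext <;> simp [U12.cx, u0]) k) fun _ p => p.x0 (by ext <;> simp [U12.cx, v0]) k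
    rw [← Z.Y3_P0 _ (S.X_memP (by decide) k), mul_inv_cancel_right] at e
    rw [← Z.Y3_inj e]
    congr 1
    apply b.cg2 <;> ext <;> simp [U12.cx, g0, u0, v0, sh, cr, N_ιJ]
  · have e := b.cj b.nn (u := U12.cx α 1 u) (v := U12.cx α 1 v) (fun _ p => p.n0) fun _ p => p.n0
    rw [← Z.Y3_P0 _ S.n0_memP, mul_inv_cancel_right] at e
    rw [← Z.Y3_inj e]
    congr 1
    apply b.cg2 <;> ext <;> simp [U12.cx, na]

end E2

open E2

theorem Z2.qb {S : St E G} {Z : Z2 S} {Qs : Subgroup G} (h : ∀ α, Z.QA α Qs) : ∃ α, Z.QB α Qs := by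
  obtain ⟨β0, h0⟩ := exβ (h 0)
  obtain ⟨α, hα⟩ := Bt.re ⟨h 0, h0⟩
  obtain ⟨β, hβ⟩ := exβ (h α)
  have b : Bt Z α Qs β := ⟨h α, hβ⟩
  have k1 : ∀ s s', (β (U12.cx α 1 s) (U12.cx α 1 s')).re = α * Bf s s' := fun s s' => by
    obtain ⟨x, hx, p⟩ := b.onto (U12.cx α 1 s)
    obtain ⟨y, hy, q⟩ := b.onto (U12.cx α 1 s')
    have e := h0 _ hx _ hy _ _ (p.cast 0) (q.cast 0)
    rw [hβ _ hx _ hy _ _ p q] at e
    have e' := Z.Y3_inj (α := α) (a₂ := ⟨_, _⟩) e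
    rw [e', ← hα s s']
    rfl
  have k2 : ∀ v v', β v v' = Bf v v' := fun v v' => by
    have e := b.split (r := ⟨0, v.p5.re, v.p4.re, v.p2.re, v.p1.re, 0⟩)
      (s := ⟨0, v.p5.im, v.p4.im, v.p2.im, v.p1.im, 0⟩)
      (r' := ⟨0, v'.p5.re, v'.p4.re, v'.p2.re, v'.p1.re, 0⟩)
      (s' := ⟨0, v'.p5.im, v'.p4.im, v'.p2.im, v'.p1.im, 0⟩) rfl rfl
    rw [b.cg2 (u := v) (u' := v')] at e
    · rw [e]
      ext
      · simp only [QuadraticAlgebra.re_add, k1]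
        simp [Bf, U12.cx, mul_assoc]; ring
      · simp only [QuadraticAlgebra.im_add]
        rw [b.im rfl rfl]
        simp [Bf, U12.cx]; ring_nf
    all_goals ext <;> simp [U12.cx]
  have cm : ∀ g ∈ Qs, ∀ g' ∈ Qs, ∀ v v', Z.Ph α g v → Z.Ph α g' v' →
      g * g' = g' * g * Z.Y3 α (Bf v v') := fun g hg g' hg' v v' p p' => by
    rw [cY (h α) (mul_mem hg' hg), ← k2, ← hβ g hg g' hg' v v' p p', commutatorElement_def]; group
  suffices key : ∀ v, ∃ g ∈ Qs, Z.Ph α g v ∧ g * g = Z.Y3 α (v.p5 * v.p1 + T (v.p4 * v.p2)) by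
    refine ⟨α, h α, cm, fun g hg v p => ?_⟩
    obtain ⟨x, hx, q, e⟩ := key v
    obtain ⟨k, rfl⟩ := diff (h α) hx hg q p
    rw [mul_assoc, ← mul_assoc (Z.Y3 α k), ← cY (h α) hx, mul_assoc, Z.Y3_sq, mul_one, e]
  refine gen_vec S.cub ?_ ?_ ?_ ?_ ?_
  · rintro u v u0 v0 ⟨a, ha, p, e⟩ ⟨a', ha', p', e'⟩
    refine ⟨a * a', mul_mem ha ha', p.mul p' u0 (b.cW a ha), ?_⟩
    rw [mul_assoc, ← mul_assoc a', cm _ ha' _ ha _ _ p' p, mul_assoc, ← cY (h α) ha', mul_assoc,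
      ← mul_assoc a', e', ← mul_assoc a, e, ← Z.Y3_add, ← Z.Y3_add]
    rw [q_mul u v u0]
  · rintro u v ⟨a, ha, p, e⟩ h5 h4 h2 h1
    exact ⟨a, ha, p.congr h5 h4 h2 h1, by rw [e, h5, h4, h2, h1]⟩
  · rintro u - ⟨a, ha, p, e⟩
    refine ⟨_, b.nn a ha, p.n0, ?_⟩
    rw [conj_mul, e, ← Z.Y3_P0 _ S.n0_memP, mul_inv_cancel_right, q_na]
  · rintro u k u0 ⟨a, ha, p, e⟩
    refine ⟨_, b.nx a ha k, p.x0 u0 k, ?_⟩
    rw [conj_mul, e, ← Z.Y3_P0 _ (S.X_memP (by decide) k), mul_inv_cancel_right, q_x _ u]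
  · refine fun k => ⟨_, E1.Y1_mem b.Qle b.W1 k, Z2.ph_Y1 k, ?_⟩
    rw [conj_mul, Z.Y3_sq, mul_one, mul_inv_cancel, ← Z.Y3_zero (α := α)]
    simp [g1]

end H89.D4S
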