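import Cfsg.Agent.Lib.D4S.PH

/-! Standard components of type `³D₄(2ⁿ)`, package E3: see `blueprint/D4S/README.md`. -/

set_option autoImplicit false
set_option linter.unusedSectionVars false

namespace H89.D4S
open Subgroup H69 U12
open H89.G2S (KK ιK σK)
open scoped commutatorElement

variable {F E G : Type*} [Field F] [Field E] [Cub F E] [CharP F 2] [CharP E 2] [Finite F] [Finite E]
  [Group G] [Finite G]

namespace E3
variable {S : St E G} {Z : Z2 S} {Qs : Subgroup G} {α : F}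

theorem Y3_mem (h : Z.QA α Qs) (k : KK α) : Z.Y3 α k ∈ Qs :=
  mul_mem (h.Qle (S.Z_le_Q (S.X3_mem _))) (h.Wm _)

theorem ph_Y3 (k : KK α) : Z.Ph α (Z.Y3 α k) (g3 k) :=
  (Z2.ph_one fun _ hx => Z.Y3_P0 k (S.U_le_P0 (S.Q_le_U hx))).congr rfl rfl rfl rfl

/-- two lifts of the same vector differ by an element of the doubled centre -/
theorem same (h : Z.QA α Qs) {g g' : G} (hg : g ∈ Qs) (hg' : g' ∈ Qs) {v : U12 (JJ E α)}
    (p : Z.Ph α g v) (p' : Z.Ph α g' v) : ∃ d, g' = g * Z.Y3 α d := by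
  have p0 : Z.Ph α g ⟨0, v.p5, v.p4, v.p2, v.p1, 0⟩ := p.congr rfl rfl rfl rfl
  have q := (p0.inv (h.cW g hg)).mul p' rfl (h.cW _ (inv_mem hg))
  obtain ⟨d, e⟩ := (Z.inZ_iff α).1 (h.ker _ (mul_mem (inv_mem hg) hg') (q.cent
    (by simp [CharTwo.add_self_eq_zero]) (by simp [CharTwo.add_self_eq_zero])
    (by simp [CharTwo.add_self_eq_zero]) (by simp [CharTwo.add_self_eq_zero])))
  exact ⟨d, by rw [← e, mul_inv_cancel_left]⟩

theorem conj_n {n a y : G} (hn : n⁻¹ = n) :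
    a * (n * y * n⁻¹) * a⁻¹ = n * (n * a * n⁻¹ * y * (n * a * n⁻¹)⁻¹) * n⁻¹ := by
  have : n * n = 1 := by nth_rewrite 1 [← hn]; exact inv_mul_cancel n
  calc _ = n * n * a * (n * y * n⁻¹) * a⁻¹ * (n * n)⁻¹ := by rw [this]; group
    _ = n * n * a * (n⁻¹ * y * n) * a⁻¹ * (n * n)⁻¹ := by rw [hn]
    _ = _ := by group

theorem conj_nn {n y : G} (hn : n * n = 1) : n * (n * y * n⁻¹) * n⁻¹ = y := by
  calc _ = n * n * y * (n * n)⁻¹ := by group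
    _ = _ := by rw [hn]; group

theorem conj_c {n a y : G} (hn : a * n = n * a) :
    a * (n * y * n⁻¹) * a⁻¹ = n * (a * y * a⁻¹) * n⁻¹ := by
  calc _ = a * n * y * (a * n)⁻¹ := by group
    _ = _ := by rw [hn]; group

theorem exists_D (h : Z.QA α Qs) {l : Eˣ} (hl : N (l : E) = 1) : ∃ D : JJ E α → G,
    ∀ k, ∀ g ∈ Qs, Z.Ph α g (g4 k) → S.h l 1 * g * (S.h l 1)⁻¹ * g⁻¹ = D k := by
  choose L hL pL using h.onto
  refine ⟨fun k => S.h l 1 * L (g4 k) * (S.h l 1)⁻¹ * (L (g4 k))⁻¹, fun k g hg p => ?_⟩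
  obtain ⟨d, rfl⟩ := same h (hL _) hg (pL _) p
  rw [← conj_mul, Z.h_Y3, hl]
  simp only [Units.val_one, one_pow, mul_one, map_one, one_mul]
  group

theorem exists_Y4' (h : Z.QB α Qs) : ∃ Y : JJ E α → G, (∀ k, Y k ∈ Qs) ∧ (∀ k, Z.Ph α (Y k) (g4 k)) ∧
    (∀ a b, Y (a + b) = Y a * Y b) ∧ (∀ a, Y (ιJ α a) = S.X 4 a) ∧
    (∀ k, S.t * Y k * S.t⁻¹ = Y (σJ α k)) ∧
    ∀ l m k, S.h l m * Y k * (S.h l m)⁻¹ = Y (ιJ α (wt l m 4) * k) := by
  obtain ⟨l, l1, l2, -⟩ := exists_N1 S.cub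
  have n : (l : E) + 1 ≠ 0 := fun e => l2 (by grind)
  obtain ⟨c, hc⟩ : ∃ c : E, ((l : E) + 1) * c = 1 := ⟨_, mul_inv_cancel₀ n⟩
  have hc' : (ιJ α (l : E) + 1) * ιJ α c = 1 := by
    rw [← map_one (ιJ α), ← map_add, ← map_mul, hc]
  obtain ⟨D, hD⟩ := exists_D h.toQA l1
  choose L hL pL using h.onto
  have mD : ∀ k, D k ∈ Qs := fun k => hD k _ (hL _) (pL _) ▸ mul_mem (h.nh _ (hL _) l 1) (inv_mem (hL _))
  have pD : ∀ k, Z.Ph α (D k) (g4 ((ιJ α (l : E) + 1) * k)) := fun k => by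
    rw [← hD k _ (hL _) (pL _)]
    refine (((pL (g4 k)).h l 1).mul ((pL (g4 k)).inv (h.cW _ (hL _))) (by simp [g4])
      (h.cW _ (h.nh _ (hL _) l 1))).congr ?_ ?_ ?_ ?_ <;> simp [g4, add_mul]
  have cj : ∀ (n : G) k k', n * S.h l 1 = S.h l 1 * n → (∀ g ∈ Qs, n * g * n⁻¹ ∈ Qs) →
      (∀ g, Z.Ph α g (g4 k) → Z.Ph α (n * g * n⁻¹) (g4 k')) → n * D k * n⁻¹ = D k' :=
    fun n k k' e a b => by
    rw [← hD k _ (hL _) (pL _), ← hD k' _ (a _ (hL _)) (b _ (pL _)), conj_c e.symm]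
    group
  refine ⟨fun k => D (ιJ α c * k), fun k => mD _, fun k => ?_, fun a b => ?_, fun a => ?_,
    fun k => cj _ _ _ (S.t_comm (S.hL _ _)) h.nt fun g p => ?_,
    fun l' m k => cj _ _ _ (S.h_comm _ _ _ _) (fun g hg => h.nh g hg l' m) fun g p => ?_⟩
  · have := pD (ιJ α c * k)
    rwa [← mul_assoc, hc', one_mul] at this
  · simp only [mul_add]
    generalize ιJ α c * a = a
    generalize ιJ α c * b = b
    have e := h.cm _ (hL (g4 a)) _ (mD b) _ _ (pL _) (pD b)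
    rw [show Bf (g4 a) (g4 ((ιJ α (l : E) + 1) * b)) = 0 by simp [Bf, g4], Z.Y3_zero, mul_one] at e
    rw [← hD (a + b) _ (mul_mem (hL (g4 a)) (hL (g4 b))) (by
      refine ((pL _).mul (pL _) rfl (h.cW _ (hL _))).congr ?_ ?_ ?_ ?_ <;> simp [g4]),
      ← hD a _ (hL _) (pL _), mul_assoc _ (L (g4 a))⁻¹, inv_mul_eq_iff_eq_mul.2
        (show D b = L (g4 a) * (D b * (L (g4 a))⁻¹) by rw [← mul_assoc, e, mul_inv_cancel_right]),
      ← hD b _ (hL _) (pL _)]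
    group
  · simp only [← map_mul]
    rw [← hD _ (S.X 4 (c * a)) (h.Qle (S.X_memQ (by decide) (by decide) _)) (by
      rw [← S.φ4]; refine (Z2.ph_φ rfl).congr ?_ ?_ ?_ ?_ <;> simp [g4]), S.hX, S.X_inv, ← S.X_add]
    congr 1
    simp only [wt4, Units.val_one, map_one, mul_one]
    linear_combination a * hc
  · have e : σJ α (ιJ α c) = ιJ α c := by ext <;> simp
    refine p.t.congr ?_ ?_ ?_ ?_ <;> simp [g4, e]
  · refine (p.h l' m).congr ?_ ?_ ?_ ?_ <;> simp [g4, ι_ιK]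
    ring

end E3

open E3 in
theorem Z2.q1 {S : St E G} {Z : Z2 S} {Qs : Subgroup G} {α : F} (h : Z.QB α Qs) : Nonempty (Q1 Z) := by
  obtain ⟨Y4, m4, p4, a4, i4, t4, h4⟩ := exists_Y4' h
  have m3 := Y3_mem h.toQA
  have p3 := ph_Y3 (Z := Z) (α := α)
  set Y1 : KK α → G := fun k => S.n5 * Z.Y3 α k * S.n5⁻¹ with d1
  set Y2 : JJ E α → G := fun k => S.n0 * Y4 k * S.n0⁻¹ with d2
  set Y5 : KK α → G := fun k => S.n0 * Y1 k * S.n0⁻¹ with d5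
  have m1 : ∀ k, Y1 k ∈ Qs := fun k => by
    have e : S.n5 * S.X 3 (ι k.re) * S.n5⁻¹ = S.X 1 (ι k.re) := S.c5 3 _
    simp only [d1, Z2.Y3]; rw [← conj_mul, e]
    exact mul_mem (h.Qle (S.X_memQ (by decide) (by decide) _)) (h.W1 _)
  have m2 : ∀ k, Y2 k ∈ Qs := fun k => h.nn _ (m4 k)
  have m5 : ∀ k, Y5 k ∈ Qs := fun k => h.nn _ (m1 k)
  have p1 : ∀ k, Z.Ph α (Y1 k) (g1 k) := Z2.ph_Y1
  have p2 : ∀ k, Z.Ph α (Y2 k) (g2 k) := fun k => (p4 k).n0.congr rfl rfl rfl rfl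
  have p5 : ∀ k, Z.Ph α (Y5 k) (g5 k) := fun k => (p1 k).n0.congr rfl rfl rfl rfl
  have a1 : ∀ a b, Y1 (a + b) = Y1 a * Y1 b := fun a b => by simp only [d1, Z.Y3_add, conj_mul]
  have cm : ∀ {g g' v v'}, g ∈ Qs → g' ∈ Qs → Z.Ph α g v → Z.Ph α g' v' → Bf v v' = 0 →
      g * g' = g' * g := fun a b c d e => by rw [h.cm _ a _ b _ _ c d, e, Z.Y3_zero, mul_one]
  have R : Rel5 Y1 Y2 (Z.Y3 α) Y4 Y5 :=
    { a1 := a1, a2 := fun a b => by simp only [d2, a4, conj_mul], a3 := Z.Y3_add, a4 := a4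
      a5 := fun a b => by simp only [d5, a1, conj_mul]
      c12 := fun a b => cm (m1 _) (m2 _) (p1 _) (p2 _) (by simp [Bf, g1, g2])
      c13 := fun a b => cm (m1 _) (m3 _) (p1 _) (p3 _) (by simp [Bf, g1, g3])
      c14 := fun a b => cm (m1 _) (m4 _) (p1 _) (p4 _) (by simp [Bf, g1, g4])
      c23 := fun a b => cm (m2 _) (m3 _) (p2 _) (p3 _) (by simp [Bf, g2, g3])
      c25 := fun a b => cm (m2 _) (m5 _) (p2 _) (p5 _) (by simp [Bf, g2, g5])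
      c34 := fun a b => cm (m3 _) (m4 _) (p3 _) (p4 _) (by simp [Bf, g3, g4])
      c35 := fun a b => cm (m3 _) (m5 _) (p3 _) (p5 _) (by simp [Bf, g3, g5])
      c45 := fun a b => cm (m4 _) (m5 _) (p4 _) (p5 _) (by simp [Bf, g4, g5])
      r24 := fun a b => by rw [h.cm _ (m2 _) _ (m4 _) _ _ (p2 _) (p4 _)]; simp [Bf, g2, g4]
      r15 := fun a b => by rw [h.cm _ (m1 _) _ (m5 _) _ _ (p1 _) (p5 _)]; simp [Bf, g1, g5] }
  obtain ⟨ψ, mu, ef, e1, e2, e3, e4, e5⟩ := R.exists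
  have mψ : ∀ u, ψ u ∈ Qs := fun u => ef u ▸
    mul_mem (mul_mem (mul_mem (mul_mem (m5 _) (m4 _)) (m2 _)) (m1 _)) (m3 _)
  have pψ : ∀ u, Z.Ph α (ψ u) u := fun u => by
    have b1 := mul_mem (m5 u.p5) (m4 u.p4)
    have b2 := mul_mem b1 (m2 u.p2)
    have b3 := mul_mem b2 (m1 u.p1)
    rw [ef]
    refine (((((p5 _).mul (p4 _) rfl (h.cW _ (m5 _))).mul (p2 _) (by simp [g5, g4]) (h.cW _ b1)).mul
      (p1 _) (by simp [g5, g4, g2]) (h.cW _ b2)).mul (p3 _) (by simp [g5, g4, g2, g1])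
      (h.cW _ b3)).congr ?_ ?_ ?_ ?_ <;> simp [g5, g4, g2, g1, g3]
  have i1 : ∀ a, Y1 (ιK α a) = S.X 1 (ι a) := fun a => by simp only [d1, Z.Y3_ι]; exact S.c5 3 _
  have t1 : ∀ k, S.t * Y1 k * S.t⁻¹ = Y1 (σK α k) := fun k => by
    simp only [d1]; rw [conj_c (S.t_comm S.n5_mem), Z.t_Y3]
  have h1 : ∀ (l : Eˣ) (m : Fˣ) k, S.h l m * Y1 k * (S.h l m)⁻¹ = Y1 (ιK α (N (l : E) * m) * k) :=
    fun l m k => by
    have e : N ((l * ιu m : Eˣ) : E) * ((m⁻¹ : Fˣ) : F) ^ 2 = N (l : E) * m := by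
      simp only [Units.val_mul, ιu_val, map_mul, N_ι, Units.val_inv_eq_inv_val]; field_simp
    simp only [d1]; rw [conj_n S.n5_inv, S.n5_h, Z.h_Y3, e]
  have sN : ∀ x : E, N (ιJ α x) = ιK α (N x) := fun x => by rw [← (tcJ (E := E) α).res_N, tcJ_res]
  have sS : ∀ x : E, sh (ιJ α x) = ιJ α (sh x) := fun x => ((tcJ (E := E) α).sh x).symm
  refine ⟨{ α := α, ψ := ψ, mul := mu, inj := fun u hu e => ?_, p3 := e3, p1 := fun k => ?_
            ext := fun x hx => ?_, ct := fun u hu => ?_, ch := fun u hu l m => ?_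
            cn := fun u hu => ?_, cx := fun u hu k => ?_, cO := fun u _ => h.cO _ (mψ u) }⟩
  · obtain ⟨b5, b4, b2, b1⟩ := (Z2.ph_one (Z := Z) (α := α) (g := 1) (by simp)).uniq (e ▸ pψ u)
    obtain ⟨c, rfl⟩ := mem_Z'.1 ⟨hu, b5, b4, b2, b1⟩
    rw [e3, ← Z.Y3_zero (α := α)] at e
    rw [Z.Y3_inj e]; rfl
  · rw [e1, e3]
  · refine Q_ext (f := fun x => ψ (U12.map (tcJ α) x)) (g := fun x => S.φ x) (fun u v a b => by
      rw [map_mul, mu _ _ (by simp [a]) (by simp [b])]) (fun u v _ _ => map_mul _ _ _)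
      ?_ ?_ ?_ ?_ ?_ hx <;> intro a
    · rw [show U12.map (tcJ α) (g5 a) = g5 (ιK α a) by ext <;> simp [g5], e5, S.φ5']
      simp only [d5, i1]; exact S.c0 1 _
    · rw [show U12.map (tcJ α) (g4 a) = g4 (ιJ α a) by ext <;> simp [g4], e4, S.φ4, i4]
    · rw [show U12.map (tcJ α) (g2 a) = g2 (ιJ α a) by ext <;> simp [g2], e2, S.φ2]
      simp only [d2, i4]; exact S.c0 4 a
    · rw [show U12.map (tcJ α) (g1 a) = g1 (ιK α a) by ext <;> simp [g1], e1, S.φ1', i1]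
    · rw [show U12.map (tcJ α) (g3 a) = g3 (ιK α a) by ext <;> simp [g3], e3, S.φ3', Z.Y3_ι]
  · refine Q_ext (f := fun u => S.t * ψ u * S.t⁻¹)
      (g := fun u => ψ (U12.map (tcσ α) u)) (fun u v a b => by rw [mu _ _ a b, conj_mul])
      (fun u v a b => by rw [map_mul, mu _ _ (by simp [a]) (by simp [b])]) ?_ ?_ ?_ ?_ ?_ hu <;> intro a
    · rw [show U12.map (tcσ α) (g5 a) = g5 (σK α a) by ext <;> simp [g5], e5, e5]
      simp only [d5]; rw [conj_c (S.t_comm S.n0_mem), t1]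
    · rw [show U12.map (tcσ α) (g4 a) = g4 (σJ α a) by ext <;> simp [g4], e4, e4, t4]
    · rw [show U12.map (tcσ α) (g2 a) = g2 (σJ α a) by ext <;> simp [g2], e2, e2]
      simp only [d2]; rw [conj_c (S.t_comm S.n0_mem), t4]
    · rw [show U12.map (tcσ α) (g1 a) = g1 (σK α a) by ext <;> simp [g1], e1, e1, t1]
    · rw [show U12.map (tcσ α) (g3 a) = g3 (σK α a) by ext <;> simp [g3], e3, e3, Z.t_Y3]
  · refine Q_ext (f := fun u => S.h l m * ψ u * (S.h l m)⁻¹)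
      (g := fun u => ψ (tor (ιJ α (l : E)) (ιK α (m : F)) u)) (fun u v a b => by rw [mu _ _ a b, conj_mul])
      (fun u v a b => by rw [map_mul, mu _ _ (by simp [a]) (by simp [b])]) ?_ ?_ ?_ ?_ ?_ hu <;> intro a
    · rw [show tor (ιJ α (l : E)) (ιK α (m : F)) (g5 a) = g5 (ιK α (m : F) * a) by
        refine U12.ext ?_ ?_ ?_ ?_ ?_ ?_ <;> simp [g5], e5, e5]
      have e : N ((l⁻¹ : Eˣ) : E) * ((Nu l * m : Fˣ) : F) = m := by
        rw [← Nu_val, ← Units.val_mul, ← mul_assoc, Nu, Nu, ← map_mul, inv_mul_cancel, map_one, one_mul]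
      simp only [d5]; rw [conj_n S.n0_inv, S.n0_h, h1, e]
    · rw [show tor (ιJ α (l : E)) (ιK α (m : F)) (g4 a) = g4 (ιJ α (wt l m 4) * a) by
        refine U12.ext ?_ ?_ ?_ ?_ ?_ ?_ <;> simp [g4, ι_ιK, sN, sS], e4, e4, h4]
    · rw [show tor (ιJ α (l : E)) (ιK α (m : F)) (g2 a) = g2 (ιJ α (wt l m 2) * a) by
        refine U12.ext ?_ ?_ ?_ ?_ ?_ ?_ <;> simp [g2, ι_ιK, sN, sS], e2, e2]
      simp only [d2]; rw [conj_n S.n0_inv, S.n0_h, h4, ← wt_n0 l m 2]; rfl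
    · rw [show tor (ιJ α (l : E)) (ιK α (m : F)) (g1 a) = g1 (ιK α (N (l : E) * m) * a) by
        refine U12.ext ?_ ?_ ?_ ?_ ?_ ?_ <;> simp [g1, ι_ιK, sN, sS], e1, e1, h1]
    · rw [show tor (ιJ α (l : E)) (ιK α (m : F)) (g3 a) = g3 (ιK α (N (l : E) * (m : F) ^ 2) * a) by
        refine U12.ext ?_ ?_ ?_ ?_ ?_ ?_ <;> simp [g3, ι_ιK, sN, sS], e3, e3, Z.h_Y3]
  · refine Q_ext (f := fun u => S.n0 * ψ u * S.n0⁻¹) (g := fun u => ψ (na u))
      (fun u v a b => by rw [mu _ _ a b, conj_mul])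
      (fun u v a b => by rw [na_mul a b, mu _ _ rfl rfl]) ?_ ?_ ?_ ?_ ?_ hu <;> intro a
    · rw [show na (g5 a) = g1 a by u12, e5, e1]; exact conj_nn S.n0_sq
    · rw [show na (g4 a) = g2 a by u12, e4, e2]
    · rw [show na (g2 a) = g4 a by u12, e2, e4]; exact conj_nn S.n0_sq
    · rw [show na (g1 a) = g5 a by u12, e1, e5]
    · rw [show na (g3 a) = g3 a by u12, e3, ← Z.Y3_P0 _ S.n0_memP, mul_inv_cancel_right]
  · obtain ⟨d, e⟩ := same h.toQA (mψ _) (h.nx _ (mψ u) k) (pψ _) ((pψ u).x0 hu k)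
    refine ⟨d, ?_⟩
    rw [mu _ _ (by simp [g0, hu, CharTwo.add_self_eq_zero]) rfl, e3, ← e, S.X_inv]

end H89.D4S
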