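import Cfsg.Agent.Lib.D4S.Defs
import Cfsg.Agent.Lib.D4S.CF

/-! Standard components of type `³D₄(2ⁿ)`, package UA: see `blueprint/D4S/README.md`. -/

set_option autoImplicit false
set_option linter.unusedSectionVars false
set_option linter.unusedSimpArgs false
set_option linter.unnecessarySeqFocus false

namespace H89.D4S
open Subgroup H69 U12
open H89.G2S (KK ιK σK)
open scoped commutatorElement

namespace UA
section ring
variable {K J : Type*} [CommRing K] [CommRing J] [Cub K J] [CharP K 2] [CharP J 2]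
theorem c1 (a b : U12 J) : ⁅a, b⁆.p0 = 0 ∧ ⁅a, b⁆.p5 = 0 ∧ ⁅a, b⁆.p4 = ι b.p5 * a.p0 + ι a.p5 * b.p0 := by
  rw [commutatorElement_def]
  refine ⟨?_, ι_inj (J := J) ?_, ?_⟩ <;> u12s <;> cub
theorem c2 {x : U12 J} (h0 : x.p0 = 0) (h5 : x.p5 = 0) (c : U12 J) :
    ⁅x, c⁆.p0 = 0 ∧ ⁅x, c⁆.p5 = 0 ∧ ⁅x, c⁆.p4 = 0 ∧ ⁅x, c⁆.p2 = cr c.p0 x.p4 := by
  refine ⟨(c1 ..).1, (c1 ..).2.1, by simp [(c1 ..).2.2, h0, h5], ?_⟩
  rw [commutatorElement_def]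
  u12s; simp only [h0, h5]; cub
theorem c3 {y : U12 J} (h0 : y.p0 = 0) (h5 : y.p5 = 0) (h4 : y.p4 = 0) (d : U12 J) :
    ⁅y, d⁆.p0 = 0 ∧ ⁅y, d⁆.p5 = 0 ∧ ⁅y, d⁆.p4 = 0 ∧ ⁅y, d⁆.p2 = 0 ∧ ⁅y, d⁆.p1 = T (d.p0 * y.p2) := by
  obtain ⟨a, b, c, e⟩ := c2 h0 h5 d
  refine ⟨a, b, c, by simp [e, h4], ι_inj (J := J) ?_⟩
  rw [commutatorElement_def]
  u12s; simp only [h0, h5, h4]; cub
theorem c4 {w : U12 J} (h : w ∈ EA J) (e : U12 J) : ⁅w, e⁆ = g3 (w.p1 * e.p5) := by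
  obtain ⟨h0, h5, h4, h2⟩ := h
  rw [commutatorElement_def, mul_inv_eq_iff_eq_mul, mul_inv_eq_iff_eq_mul]
  u12w [h0, h5, h4, h2]
theorem cj {u : U12 J} (h : u.p0 = 0) (v : U12 J) : (v * u * v⁻¹).p0 = 0 ∧ (v * u * v⁻¹).p5 = u.p5 ∧
    (v * u * v⁻¹).p4 = u.p4 + ι u.p5 * v.p0 ∧
    (v * u * v⁻¹).p2 = u.p2 + cr v.p0 u.p4 + ι u.p5 * sh v.p0 ∧
    (v * u * v⁻¹).p1 = u.p1 + T (v.p0 * u.p2) + T (sh v.p0 * u.p4) + u.p5 * N v.p0 := by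
  refine ⟨?_, ι_inj (J := J) ?_, ?_, ?_, ι_inj (J := J) ?_⟩ <;> u12s <;> (try simp only [h]) <;> cub
theorem bf0 {u v : U12 J} (hu : u.p0 = 0) (hv : v.p0 = 0) (h : u * v = v * u) : Bf u v = 0 := by
  rw [comm_Q hu hv] at h
  exact congrArg U12.p3 (mul_eq_left.1 h)
theorem zQ {u : U12 J} (h : ∀ v : U12 J, v.p0 = 0 → u * v = v * u) : u ∈ Z J := by
  have h0 : u.p0 = 0 := by simpa [g5, add_comm] using congrArg U12.p4 (h (g5 1) rfl)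
  have b := fun v hv => bf0 h0 hv (h v hv)
  exact ⟨h0, by simpa [Bf, g1] using b (g1 1) rfl, nd _ fun a => by simpa [Bf, g2] using b (g2 a) rfl,
    nd _ fun a => by simpa [Bf, g4] using b (g4 a) rfl, by simpa [Bf, g5] using b (g5 1) rfl⟩
variable (J) in
/-- the derived group -/
def N1 : Subgroup (U12 J) where
  carrier := {u | u.p0 = 0 ∧ u.p5 = 0}
  mul_mem' ha hb := by simp_all
  one_mem' := ⟨rfl, rfl⟩
  inv_mem' ha := by simp_all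
theorem auto_UA : True := by have := @N1.eq_1.{0, 0}; trivial
end ring
variable {F E : Type*} [Field F] [Field E] [Cub F E] [CharP F 2] [CharP E 2] [Finite F] [Finite E]
theorem span (hc : Nat.card E = Nat.card F ^ 3) (S : Subgroup (U12 E))
    (h4 : ∀ c, ∃ u ∈ S, u.p0 = 0 ∧ u.p4 = c)
    (h2 : ∀ c d, ∃ u ∈ S, u.p0 = 0 ∧ u.p4 = 0 ∧ u.p2 = cr c d) (b c : E) :
    ∃ u ∈ S, u.p0 = 0 ∧ u.p4 = b ∧ u.p2 = c := by
  obtain ⟨u, hu, u0, rfl⟩ := h4 b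
  obtain ⟨a, b, a', b', e⟩ := cr_span hc (u.p2 + c)
  obtain ⟨v, hv, v0, v4, v2⟩ := h2 a b
  obtain ⟨w, hw, w0, w4, w2⟩ := h2 a' b'
  exact ⟨_, mul_mem hu (mul_mem hv hw), by simp [u0, v0, w0], by simp [u0, v0, v4, w4], by
    simp [u0, v0, v2, w2, ← e, ← add_assoc, CharTwo.add_self_eq_zero]⟩
end UA

namespace U12
section ring
variable {K J : Type*} [CommRing K] [CommRing J] [Cub K J] [CharP K 2] [CharP J 2]
theorem lead_fix {ρ : J →+* J} (hρ : Tc ρ) {u y : U12 J} (h : u * map hρ y * u⁻¹ = y) :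
    Lead {a | ρ a = a} y := by
  rw [mul_inv_eq_iff_eq_mul] at h
  have h0 := congrArg U12.p0 h
  have h5 := congrArg U12.p5 h
  have h4 := congrArg U12.p4 h
  have h2 := congrArg U12.p2 h
  have h1 := congrArg U12.p1 h
  have h3 := congrArg U12.p3 h
  have r : ∀ a : K, hρ.res a = a → ρ (ι a) = ι a := fun a e => by rw [← hρ.ι_res, e]
  refine ⟨?_, r _ ?_, fun e0 e5 => ⟨?_, fun e4 => ⟨?_, fun e2 => ⟨r _ ?_, fun e1 => r _ ?_⟩⟩⟩⟩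
  · simpa [add_comm] using h0
  · simpa [add_comm] using h5
  · simpa [add_comm, e0, e5] using h4
  · simpa [add_comm, e0, e5, e4] using h2
  · simpa [add_comm, e0, e5, e4, e2] using h1
  · simpa [add_comm, e0, e5, e4, e2, e1] using h3
theorem gamma4 (a b c d : U12 J) : ⁅⁅⁅a, b⁆, c⁆, d⁆ ∈ EA J :=
  let ⟨a0, a5, _⟩ := UA.c1 a b
  let ⟨b0, b5, b4, _⟩ := UA.c2 a0 a5 c
  let ⟨c0, c5, c4, c2, _⟩ := UA.c3 b0 b5 b4 d
  ⟨c0, c5, c4, c2⟩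
theorem gamma5 (a b c d e : U12 J) : ⁅⁅⁅⁅a, b⁆, c⁆, d⁆, e⁆ ∈ Z J := by
  rw [UA.c4 (gamma4 a b c d)]; exact mem_Z'.2 ⟨_, rfl⟩
theorem gamma4' (c d : J) :
    ∃ e, ⁅⁅⁅(g5 (1 : K) : U12 J), g0 (1 : J)⁆, g0 c⁆, g0 d⁆ =
      (g1 (T (d * cr c 1)) : U12 J) * g3 e := by
  obtain ⟨a0, a5, a4⟩ := UA.c1 (g5 (1 : K) : U12 J) (g0 1)
  obtain ⟨b0, b5, b4, b2⟩ := UA.c2 a0 a5 (g0 c)
  obtain ⟨c0, c5, c4, c2, c1⟩ := UA.c3 b0 b5 b4 (g0 d)
  rw [b2, a4] at c1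
  generalize ⁅⁅⁅(g5 (1 : K) : U12 J), g0 (1 : J)⁆, g0 c⁆, g0 d⁆ = w at *
  exact ⟨w.p3, by ext <;> simp [g0, g5, g1, g3, *]⟩
theorem gamma5' (c d : J) (w : K) :
    ⁅⁅⁅⁅(g5 (1 : K) : U12 J), g0 (1 : J)⁆, g0 c⁆, g0 d⁆, (g5 w : U12 J)⁆ =
      g3 (T (d * cr c 1) * w) := by
  rw [UA.c4 (gamma4 ..)]
  obtain ⟨e, he⟩ := gamma4' c d
  rw [he]; simp [g1, g3, g5]
theorem gamma4R {k : J} (hk : T k = 0) :
    ⁅⁅⁅(g5 (1 : K) : U12 J), g0 k⁆, g0 (θ k)⁆, (g5 (1 : K) : U12 J)⁆ = g3 (N k) := by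
  have h := congrArg (ι : K → J) hk
  rw [ιT, map_zero] at h
  rw [show ⁅(g5 (1 : K) : U12 J), g0 k⁆ = ⟨0, 0, k, sh k, N k, N k⟩ by rw [commutatorElement_def]; u12,
    show ⁅(⟨0, 0, k, sh k, N k, N k⟩ : U12 J), g0 (θ k)⁆ = ⟨0, 0, 0, cr (θ k) k,
      T (θ k * sh k) + T (sh (θ k) * k), T (θ k * sh k) + T (k * cr (θ k) k)⟩ by
      rw [commutatorElement_def]; u12,
    commutatorElement_def]
  u12
theorem mem_Z_of_comm {u : U12 J} (h : ∀ v, u * v = v * u) : u ∈ Z J :=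
  UA.zQ fun v _ => h v
theorem mem_Z_of_commQ {u : U12 J} (h : ∀ v : U12 J, v.p0 = 0 → u * v = v * u) : u ∈ Z J :=
  UA.zQ h
theorem mem_E2_of_comm {u : U12 J} (h1 : u * g1 1 = g1 1 * u) (h2 : ∀ a, u * g2 a = g2 a * u) :
    u ∈ E2 J := by
  have h5 : u.p5 = 0 := by simpa [g1, add_comm] using congrArg U12.p3 h1
  have h0 : u.p0 = 0 := nd _ fun a => by simpa [g2, add_comm] using congrArg U12.p1 (h2 a)
  exact ⟨h0, h5, nd _ fun a => by simpa [g2, h0, h5, mul_comm] using congrArg U12.p3 (h2 a)⟩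
theorem mem_EA_of_comm {u : U12 J} (h : ∀ v : U12 J, v.p5 = 0 → u * v = v * u) : u ∈ EA J := by
  obtain ⟨h0, h5, h4⟩ := mem_E2_of_comm (h (g1 1) rfl) fun a => h (g2 a) rfl
  exact ⟨h0, h5, h4, nd _ fun a => by simpa [g4, h0, h5, h4] using congrArg U12.p3 (h (g4 a) rfl)⟩
theorem Lng.conj {u : U12 J} (h : Lng u) (v : U12 J) : Lng (v * u * v⁻¹) := by
  obtain ⟨h0, h1, h2, h3⟩ := h
  obtain ⟨e0, e5, e4, e2, e1⟩ := UA.cj h0 v
  have k1 := congrArg θ h1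
  have k2 := congrArg θ k1
  have k3 := congrArg θ h3
  have k4 := congrArg θ k3
  simp only [map_mul, θι, θ3, sh] at h1 h2 h3 k1 k2 k3 k4
  refine ⟨e0, ?_, ?_, ?_⟩ <;> simp only [e5, e4, e2, e1] <;> cub
theorem Lng.sq {u : U12 J} (h : Lng u) : u * u = 1 := by
  rw [sq_Q h.1, ← h.2.2.2, T_ι, CharTwo.add_self_eq_zero]; rfl
theorem Lng.of_EA {u : U12 J} (h : u ∈ EA J) : Lng u := by
  obtain ⟨a, b, c, d⟩ := h
  simp [Lng, a, b, c, d]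
theorem Lng.na {u : U12 J} (h : Lng u) : Lng (na u) :=
  ⟨rfl, h.2.2.1, h.2.1, by simpa only [U12.na, mul_comm] using h.2.2.2⟩
end ring
variable {F E : Type*} [Field F] [Field E] [Cub F E] [CharP F 2] [CharP E 2] [Finite F] [Finite E]
theorem Lng.mem_EA {u : U12 E} (h : Lng u) (h5 : u.p5 = 0) : u ∈ EA E := by
  obtain ⟨h0, h1, h2, -⟩ := h
  have h4 : u.p4 = 0 := sh_eq_zero.1 (by rw [← h1, h5, map_zero, zero_mul])
  exact ⟨h0, h5, h4, sh_eq_zero.1 (by rw [← h2, h4, mul_zero])⟩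
theorem Lng.eq {u : U12 E} (h : Lng u) (h5 : u.p5 ≠ 0) : ∃ k e, u = g0 k * g5 u.p5 * g0 k * g3 e := by
  obtain ⟨h0, h1, -, h3⟩ := h
  have n : (ι u.p5 : E) ≠ 0 := mt ι_eq_zero.1 h5
  obtain ⟨k, hk⟩ : ∃ k, u.p4 = ι u.p5 * k := ⟨(ι u.p5)⁻¹ * u.p4, by field_simp⟩
  have e2 : u.p2 = ι u.p5 * sh k := mul_left_cancel₀ n (by rw [h1, hk, sh_mul, sh_ι, map_pow]; ring)
  have e1 : u.p1 = u.p5 * N k := mul_left_cancel₀ h5 (ι_inj (J := E) (by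
    rw [h3, hk, e2, map_mul, map_mul, ← mul_sh]; ring))
  refine ⟨k, u.p3 + u.p5 ^ 2 * N k, ?_⟩
  rw [al5]
  u12w [h0, hk, e2, e1]
theorem Lng.mul {u v : U12 E} (hu : Lng u) (hv : Lng v) (h : u * v = v * u) : Lng (u * v) := by
  have b : Bf u v = 0 := UA.bf0 hu.1 hv.1 h
  have z : ∀ {u v : U12 E}, Lng u → Lng v → u.p5 = 0 → v.p5 ≠ 0 → Bf u v = 0 → u ∈ Z E :=
    fun {u v} hu hv u5 v5 b => by
      obtain ⟨a0, a5, a4, a2⟩ := hu.mem_EA u5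
      exact ⟨a0, a5, a4, a2, by simpa [Bf, a5, a4, a2, v5] using b⟩
  by_cases u5 : u.p5 = 0
  · by_cases v5 : v.p5 = 0
    · exact .of_EA (mul_mem (hu.mem_EA u5) (hv.mem_EA v5))
    · obtain ⟨a0, a5, a4, a2, a1⟩ := z hu hv u5 v5 b
      simpa [Lng, a0, a5, a4, a2, a1] using hv
  by_cases v5 : v.p5 = 0
  · obtain ⟨a0, a5, a4, a2, a1⟩ := z hv hu v5 u5 (UA.bf0 hv.1 hu.1 h.symm)
    simpa [Lng, a0, a5, a4, a2, a1] using hu
  obtain ⟨k, e, hk⟩ := hu.eq u5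
  obtain ⟨k', e', hk'⟩ := hv.eq v5
  generalize u.p5 = l at *
  generalize v.p5 = l' at *
  subst hk hk'
  have : l * l' * N (k + k') = 0 := by
    rw [← b, al5, al5]; u12s; cubK E
  obtain rfl : k = k' := by simpa [u5, v5, N_eq_zero, CharTwo.add_eq_zero] using this
  rw [al5, al5]
  refine ⟨?_, ?_, ?_, ?_⟩ <;> u12s <;> cub
theorem exists_conj_mul {u : U12 E} (hu : u.p0 = 0) (h : u ∉ Z E) (e : F) :
    ∃ v : U12 E, v.p0 = 0 ∧ v * u * v⁻¹ = u * g3 e := by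
  obtain ⟨v, v0, hv⟩ : ∃ v : U12 E, v.p0 = 0 ∧ Bf v u = e := by
    by_cases h5 : u.p5 = 0
    · by_cases h4 : u.p4 = 0
      · by_cases h2 : u.p2 = 0
        · exact ⟨g5 (e / u.p1), rfl, by
            simp [Bf, g5, div_mul_cancel₀ e fun h1 => h ⟨hu, h5, h4, h2, h1⟩]⟩
        · obtain ⟨y, hy⟩ := exists_T h2 e
          exact ⟨g4 y, rfl, by simp [Bf, g4, ← hy, mul_comm]⟩
      · obtain ⟨y, hy⟩ := exists_T h4 e
        exact ⟨g2 y, rfl, by simp [Bf, g2, ← hy, mul_comm]⟩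
    · exact ⟨g1 (e / u.p5), rfl, by simp [Bf, g1, div_mul_cancel₀ e h5]⟩
  exact ⟨v, v0, by rw [comm_Q v0 hu, hv, mul_assoc u, ← g3_comm, ← mul_assoc, mul_inv_cancel_right]⟩
/-- involutions of `Q` centralised modulo `Z` by an element outside `Q` -/
theorem fix_out {r v : U12 E} (hr : r.p0 ≠ 0) (hv : v.p0 = 0) (h2 : v * v = 1) (h : ⁅r, v⁆ ∈ Z E) :
    v.p5 = 0 ∧ v.p4 = 0 ∧ T (r.p0 * v.p2) = 0 := by
  obtain ⟨e0, e5, e4, e2, e1⟩ := UA.cj hv r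
  obtain ⟨-, -, k4, k2, k1⟩ := h
  rw [commutatorElement_def] at k4 k2 k1
  generalize r * v * r⁻¹ = w at *
  simp only [mul_p4, mul_p2, mul_p1, inv_p5, inv_p4, inv_p2, inv_p1, hv, e0, e4, e2, e1, mul_zero, add_zero,
    zero_mul, map_zero, sh_zero, zero_cr, N_zero] at k4 k2 k1
  have h5 : v.p5 = 0 := by
    have : ι v.p5 * r.p0 = 0 := by linear_combination k4 - CharTwo.add_self_eq_zero v.p4
    simpa [hr] using this
  obtain ⟨a, ha⟩ := cr_eq_zero hr (x := v.p4) (by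
    rw [h5, map_zero, zero_mul] at k2; linear_combination k2 - CharTwo.add_self_eq_zero v.p2)
  have t : T (r.p0 * v.p2) = a * N r.p0 := by
    rw [h5, ha, mul_left_comm, T_ι_mul, mul_comm (sh _), T_mul_sh] at k1
    linear_combination k1 - CharTwo.add_self_eq_zero v.p1 - CharTwo.add_self_eq_zero (a * N r.p0)
  have s := congrArg U12.p3 ((sq_Q hv).symm.trans h2)
  rw [h5, ha, mul_assoc, T_ι_mul, t] at s
  obtain rfl : a = 0 := by simpa [g3, N_eq_zero, hr] using s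
  exact ⟨h5, by simp [ha], by simp [t]⟩
variable (hc : Nat.card E = Nat.card F ^ 3)
include hc
theorem card_cent {x : U12 E} (hx : x ∉ Z E) :
    Nat.card (centralizer ({x} : Set (U12 E))) ≤ Nat.card F ^ 11 := by
  have k : ∀ g : F → U12 E, (∀ a b, (g a)⁻¹ * g b * x = x * ((g a)⁻¹ * g b) → a = b) →
      Nat.card (centralizer ({x} : Set (U12 E))) ≤ Nat.card F ^ 11 := fun g hg => by
    refine Nat.le_of_mul_le_mul_left ?_ (Nat.card_pos (α := F))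
    rw [← pow_succ', show Nat.card F ^ (11 + 1) = Nat.card (U12 E) by rw [card, hc]; ring, ← Nat.card_prod]
    refine Nat.card_le_card_of_injective (fun p => g p.1 * p.2) fun p q e => ?_
    have e : g p.1 * p.2 = g q.1 * q.2 := e
    have e1 : (g q.1)⁻¹ * g p.1 = q.2 * (p.2 : U12 E)⁻¹ := by
      rw [inv_mul_eq_iff_eq_mul, ← mul_assoc, ← e, mul_inv_cancel_right]
    have := hg _ _ (mem_centralizer_singleton_iff.1 (e1 ▸ mul_mem q.2.2 (inv_mem p.2.2)))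
    exact Prod.ext this.symm (Subtype.ext (mul_left_cancel (this ▸ e)))
  have t : ∀ {y c : E} (a b : F), T (y * c) = 1 → T ((ι a * c + ι b * c) * y) = 0 → a = b :=
    fun {y c} a b h e => by
      rw [← add_mul, ← map_add, mul_assoc, T_ι_mul, mul_comm c, h, mul_one] at e
      exact CharTwo.add_eq_zero.1 e
  by_cases h0 : x.p0 = 0
  · by_cases h5 : x.p5 = 0
    · by_cases h4 : x.p4 = 0
      · by_cases h2 : x.p2 = 0
        · have h1 : x.p1 ≠ 0 := fun h1 => hx ⟨h0, h5, h4, h2, h1⟩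
          exact k g5 fun a b e => by
            simpa [Bf, g5, h1, CharTwo.add_eq_zero] using UA.bf0 (by simp [g5]) h0 e
        · obtain ⟨c, h⟩ := exists_T h2 1
          exact k (fun a => g4 (ι a * c)) fun a b e => t a b h (by
            simpa [Bf, g4, -T_ι_mul] using UA.bf0 (by simp [g4]) h0 e)
      · obtain ⟨c, h⟩ := exists_T h4 1
        exact k (fun a => g2 (ι a * c)) fun a b e => t a b h (by
          simpa [Bf, g2, -T_ι_mul] using UA.bf0 (by simp [g2]) h0 e)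
    · exact k g1 fun a b e => by
        simpa [Bf, g1, h5, CharTwo.add_eq_zero] using UA.bf0 (by simp [g1]) h0 e
  · obtain ⟨c, h⟩ := exists_T h0 1
    exact k (fun a => g2 (ι a * c)) fun a b e => t a b h (by
      simpa [g2, -T_ι_mul, mul_comm x.p0] using congrArg U12.p1 e)
theorem Q_gen : Q E = closure {u | Lng u} := by
  refine le_antisymm (fun u hu => ?_) ((closure_le _).2 fun u hu => hu.1)
  have e : ∀ c : E, (⟨0, 1, c, sh c, N c, 0⟩ : U12 E) ∈ closure {u | Lng u} := fun c =>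
    subset_closure ⟨rfl, by simp, by rw [← mul_sh, sh_sh, mul_sh], by rw [one_mul, mul_sh]⟩
  obtain ⟨v, hv, v0, v4, v2⟩ := UA.span hc (closure {u | Lng u} ⊓ Q E) (fun c => ⟨_, ⟨e c, rfl⟩, rfl, rfl⟩)
    (fun c d => ⟨_, mul_mem (mul_mem (⟨e c, rfl⟩ : _ ∈ _ ⊓ Q E) ⟨e d, rfl⟩) ⟨e (c + d), rfl⟩, by simp,
      by u12s; cub, by u12s; cub⟩) u.p4 u.p2
  have hu : u.p0 = 0 := hu
  rw [show u = g5 (u.p5 + v.p5) * v * g1 (u.p1 + v.p1) * g3 (u.p3 + v.p3) by u12w [hu, v0, v4, v2]]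
  exact mul_mem (mul_mem (mul_mem (subset_closure (by simp [Lng, g5])) hv.1)
    (subset_closure (by simp [Lng, g1]))) (subset_closure (by simp [Lng, g3]))
theorem normal_EA (A : Subgroup (U12 E)) [A.Normal] (h : ¬ A ≤ Z E) :
    ∃ a e, a ≠ 0 ∧ g1 a * g3 e ∈ A := by
  have cm : ∀ d ∈ A, ∀ v, ⁅d, v⁆ ∈ A := fun d hd v => by
    have := mul_mem hd (‹A.Normal›.conj_mem _ (inv_mem hd) v)
    rwa [← mul_assoc, ← mul_assoc] at this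
  have s1 : ∀ d ∈ A, d ∈ EA E → d.p1 ≠ 0 → ∃ a e, a ≠ 0 ∧ g1 a * g3 e ∈ A := fun d hd e e1 => by
    obtain ⟨a, c, rfl⟩ := mem_EA'.1 e
    exact ⟨a, c, by simpa [g1, g3] using e1, hd⟩
  have s2 : ∀ d ∈ A, d.p0 = 0 → d.p5 = 0 → d.p4 = 0 → d.p2 ≠ 0 → ∃ a e, a ≠ 0 ∧ g1 a * g3 e ∈ A :=
    fun d hd e0 e5 e4 e2 => by
      obtain ⟨k, hk⟩ := exists_T e2 1
      obtain ⟨c0, c5, c4, c2, c1⟩ := UA.c3 e0 e5 e4 (g0 k)
      exact s1 _ (cm d hd _) ⟨c0, c5, c4, c2⟩ (by rw [c1, mul_comm]; exact hk ▸ one_ne_zero)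
  have s4 : ∀ d ∈ A, d.p0 = 0 → d.p5 = 0 → d.p4 ≠ 0 → ∃ a e, a ≠ 0 ∧ g1 a * g3 e ∈ A :=
    fun d hd e0 e5 e4 => by
      obtain ⟨k, hk⟩ := exists_cr_ne hc e4
      obtain ⟨c0, c5, c4, c2⟩ := UA.c2 e0 e5 (g0 k)
      exact s2 _ (cm d hd _) c0 c5 c4 (c2 ▸ hk)
  obtain ⟨d, hd, n⟩ := SetLike.not_le_iff_exists.1 h
  by_cases e0 : d.p0 = 0
  · by_cases e5 : d.p5 = 0
    · by_cases e4 : d.p4 = 0
      · by_cases e2 : d.p2 = 0
        exacts [s1 d hd ⟨e0, e5, e4, e2⟩ fun e1 => n ⟨e0, e5, e4, e2, e1⟩, s2 d hd e0 e5 e4 e2]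
      · exact s4 d hd e0 e5 e4
    · obtain ⟨c0, c5, c4⟩ := UA.c1 d (g0 1)
      exact s4 _ (cm d hd _) c0 c5 (by rw [c4]; simp [g0, e5])
  · obtain ⟨k, hk⟩ := exists_T e0 1
    obtain ⟨c0, c5, c4, c2, c1⟩ := UA.c3 (y := g2 k) rfl rfl rfl d
    refine s1 ⁅g2 k, d⁆ ?_ ⟨c0, c5, c4, c2⟩ (c1 ▸ hk ▸ one_ne_zero)
    rw [← commutatorElement_inv]
    exact inv_mem (cm d hd _)
theorem mem_comm {u : U12 E} (h0 : u.p0 = 0) (h5 : u.p5 = 0) : u ∈ commutator (U12 E) := by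
  have m : ∀ a b : U12 E, ⁅a, b⁆ ∈ commutator (U12 E) := fun a b =>
    commutator_mem_commutator (mem_top a) (mem_top b)
  have le : ∀ v ∈ commutator (U12 E), v.p0 = 0 ∧ v.p5 = 0 := fun v hv =>
    (show commutator (U12 E) ≤ UA.N1 E from commutator_le.2 fun a _ b _ =>
      ⟨(UA.c1 a b).1, (UA.c1 a b).2.1⟩) hv
  obtain ⟨v, hv, v0, v4, v2⟩ := UA.span hc (commutator (U12 E))
    (fun c => ⟨_, m (g0 c) (g5 1), (UA.c1 ..).1, by simp [(UA.c1 ..).2.2, g0, g5]⟩)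
    (fun c d => let ⟨a, _, b, e⟩ := UA.c2 (x := g4 d) rfl rfl (g0 c); ⟨_, m _ _, a, b, e⟩) u.p4 u.p2
  have v5 := (le v hv).2
  rw [show u = v * ⁅g0 (1 : E), g2 (ι (u.p1 + v.p1))⁆ * ⁅(g5 1 : U12 E), g1 (u.p3 + v.p3)⁆ by
    simp only [commutatorElement_def]; u12w [h0, h5, v0, v5, v4, v2]]
  exact mul_mem (mul_mem hv (m _ _)) (m _ _)
theorem exists_cd : ∃ c d : E, T (d * cr c 1) = 1 := by
  obtain ⟨c, h⟩ := exists_cr_ne hc (one_ne_zero (α := E))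
  obtain ⟨d, e⟩ := exists_T h 1
  exact ⟨c, d, mul_comm d _ ▸ e⟩
end U12

end H89.D4S
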