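import Cfsg.Agent.Lib.D4S.Bas2
import Cfsg.Agent.Lib.D4S.UA

/-! Standard components of type `³D₄(2ⁿ)`, package FPA: see `blueprint/D4S/README.md`. -/

set_option autoImplicit false
set_option linter.unusedSectionVars false
set_option linter.unusedSimpArgs false
set_option linter.unnecessarySeqFocus false

namespace H89.D4S
open Subgroup H69 U12
open H89.G2S (KK ιK σK)
open scoped commutatorElement

variable {F E G : Type*} [Field F] [Field E] [Cub F E] [CharP F 2] [CharP E 2] [Finite F] [Finite E]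
  [Group G] [Finite G]

namespace FPA

theorem pow_two_pow {R : Type*} [Field R] [CharP R 2] {x : R} {k : ℕ} (h : x ^ 2 ^ k = 1) : x = 1 := by
  induction k with
  | zero => simpa using h
  | succ k ih =>
    rw [pow_succ, pow_mul] at h
    exact ih (by generalize x ^ 2 ^ k = y at h; grind)

variable (P : FP E G)

theorem cj_φ (u x : U12 E) (l : Eˣ) (m : Fˣ) : P.φ u * P.h l m * P.φ x * (P.φ u * P.h l m)⁻¹ =
    P.φ (u * tor (l : E) (m : F) x * u⁻¹) := by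
  rw [map_mul, map_mul, map_inv, ← P.h_φ]; group

theorem cj_φ' (u x : U12 E) (l : Eˣ) (m : Fˣ) (k : E) (hx : x.p0 = 0) :
    P.φ u * P.h l m * P.n0 * P.X 0 k * P.φ x * (P.φ u * P.h l m * P.n0 * P.X 0 k)⁻¹ =
    P.φ (u * tor (l : E) (m : F) (na (g0 k * x * (g0 k)⁻¹)) * u⁻¹) := by
  rw [← cj_φ, ← P.n0_φ (by simp [hx, CharTwo.add_self_eq_zero]), map_mul, map_mul, map_inv, P.φ0]; group

theorem X6 {k : E} (h : P.X 6 k ∈ P.U) : k = 0 := by
  obtain ⟨v, e⟩ := P.mem_U.1 h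
  have e1 : P.φ (v * g1 1 * v⁻¹) = P.φ (na (g0 k * g5 1 * g0 k)) := by
    rw [← P.n0_φ (by simp [g5, g0, CharTwo.add_self_eq_zero]), map_mul, map_mul, map_mul, map_mul, map_inv,
      e, P.φ1', P.φ0, P.φ5', P.X_inv, ← show _ = P.X 6 k from P.c0 0 k, ← show _ = P.X 1 (ι 1) from P.c0 5 (ι 1)]
    group
  have := congrArg U12.p5 (P.inj e1)
  rw [al5] at this
  simp [g1, na, CharTwo.add_self_eq_zero] at this
  exact N_eq_zero.1 this.symm

theorem h_eq_one {l : Eˣ} {m : Fˣ} (h : P.h l m = 1) : l = 1 ∧ m = 1 := by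
  have h0 := P.hX l m 0 1
  have h5 := P.hX l m 5 (ι 1)
  rw [h, one_mul, inv_one, mul_one] at h0 h5
  rw [wt5, ← map_mul] at h5
  exact ⟨Units.ext (by simpa using (Pin.X_inj P.inj (i := 0) rfl h0).symm),
    Units.ext (by simpa using (Pin.X_injι P.inj 5 h5).symm)⟩

theorem h_pow (l : Eˣ) (m : Fˣ) (n : ℕ) : P.h l m ^ n = P.h (l ^ n) (m ^ n) := by
  induction n with
  | zero => simp [P.h_one]
  | succ n ih => rw [pow_succ, pow_succ, pow_succ, P.h_mul, ih]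

theorem comm_h {H : Subgroup G} {l : Eˣ} {m : Fˣ} {i : Fin 12} (h1 : P.h l m ∈ H) (h2 : ∀ a, P.X i a ∈ H)
    (h3 : wt l m i ≠ 1) (a : E) : P.X i a ∈ ⁅H, H⁆ := by
  have := commutator_mem_commutator h1 (h2 (a / (wt l m i + 1)))
  rwa [commutatorElement_def, P.hX, P.X_inv, ← P.X_add, ← add_one_mul, mul_div_cancel₀ _ (by grind)] at this

theorem w_mem {w : G} (h : w ∈ closure ({P.n0, P.n5} : Set G)) : w ∈ P.L :=
  (closure_le _).2 (by rintro _ (rfl | rfl); exacts [P.n0_mem, P.n5_mem]) h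

theorem memU {g : G} (hg : g ∈ P.L) (h : ∀ x ∈ P.E2, g * x = x * g) : ∃ u, g = P.φ u := by
  have k : ∀ x ∈ U12.E2 E, g * P.φ x * g⁻¹ = P.φ x := fun x hx => by
    rw [h _ ⟨x, hx, rfl⟩, mul_inv_cancel_right]
  obtain ⟨u, l, m, rfl | ⟨c, rfl⟩⟩ := P.pz g hg 1 one_ne_zero (by
    rw [h _ (P.EA_le_E2 (P.Z_le_EA (P.X3_mem _))), mul_inv_cancel_right]; exact P.X3_mem _)
  · have k' : ∀ x ∈ U12.E2 E, u * tor (l : E) (m : F) x = x * u := fun x hx =>
      mul_inv_eq_iff_eq_mul.1 (P.inj ((cj_φ P u _ l m).symm.trans (k x hx)))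
    have h1 := congrArg U12.p1 (k' (g1 1) ⟨rfl, rfl, rfl⟩)
    have h2 := congrArg U12.p2 (k' (g2 1) ⟨rfl, rfl, rfl⟩)
    have h3 := congrArg U12.p3 (k' (g3 1) ⟨rfl, rfl, rfl⟩)
    simp [g1, g2, g3, add_comm] at h1 h2 h3
    have e2 : (m : F) = 1 := by grind
    have e1 : (l : E) = 1 := by
      rw [e2, mul_one] at h1
      rw [e2, map_one, mul_one] at h2
      rw [← mul_one (l : E), ← h2, mul_sh, h1, map_one, h2]
    obtain rfl : l = 1 := Units.ext e1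
    obtain rfl : m = 1 := Units.ext e2
    exact ⟨u, by rw [P.h_one, mul_one]⟩
  · have h1 := congrArg U12.p5 (P.inj ((cj_φ' P u _ l m c rfl).symm.trans (k (g1 1) ⟨rfl, rfl, rfl⟩)))
    rw [show g0 c * g1 1 * (g0 c)⁻¹ = g1 1 by u12] at h1
    simp [g1, na] at h1
    exact (m.ne_zero (by grind)).elim

end FPA

namespace FP
variable (P : FP E G)
theorem mem_Q_of_n0 {x : G} (h1 : x ∈ P.U) (h2 : P.n0 * x * P.n0⁻¹ ∈ P.U) : x ∈ P.Q := by
  obtain ⟨u, rfl⟩ := P.mem_U.1 h1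
  refine P.φ_memQ (FPA.X6 P ?_)
  have q : (u * g0 u.p0).p0 = 0 := by simp [g0, CharTwo.add_self_eq_zero]
  have := mul_mem (inv_mem h2) (P.n0_φ q ▸ P.φ_memU _)
  rwa [map_mul, P.φ0, show (P.n0 * P.φ u * P.n0⁻¹)⁻¹ * (P.n0 * (P.φ u * P.X 0 u.p0) * P.n0⁻¹) =
    P.n0 * P.X 0 u.p0 * P.n0⁻¹ by group, P.c0] at this
theorem norm_U {g : G} (hg : g ∈ P.L) (h : g ∈ 𝐍(P.U)) : ∃ u l m, g = P.φ u * P.h l m := by
  obtain ⟨w, e⟩ := P.mem_U.1 (conj_mem_of_mem_normalizer h (P.X_memU (i := 3) (by decide) (ι 1)))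
  obtain ⟨c, rfl⟩ := mem_Z'.1 (mem_Z_of_comm (u := w) fun v => P.inj (by
    obtain ⟨v', e'⟩ := P.mem_U.1 (conj_mem_of_mem_normalizer' h (P.φ_memU v))
    rw [map_mul, map_mul, e, show P.φ v = g * P.φ v' * g⁻¹ by rw [e']; group, conj_mul, conj_mul,
      P.X3_comm_φ]))
  obtain ⟨u, l, m, e' | ⟨k, e'⟩⟩ := P.pz g hg 1 one_ne_zero (e ▸ P.φ3' c ▸ P.X3_mem _)
  · exact ⟨u, l, m, e'⟩
  · rw [e', mul_mem_cancel_right (le_normalizer (P.X_memU (by decide) k)), mul_mem_cancel_left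
      (mul_mem (le_normalizer (P.φ_memU u)) (P.h_norm_U l m))] at h
    exact absurd (FPA.X6 P (P.c0 0 1 ▸ conj_mem_of_mem_normalizer h (P.X_memU (by decide) 1))) one_ne_zero
theorem sylU : IsSylowIn 2 P.U P.L := by
  have : Fact (Nat.Prime 2) := ⟨Nat.prime_two⟩
  refine isSylowIn_of_normalizer P.U_le_L ⟨le_inf P.U_le_L le_normalizer, P.U_isP,
    fun R h1 h2 h3 => le_antisymm (fun g hg => ?_) h1⟩
  obtain ⟨u, l, m, rfl⟩ := P.norm_U (h2 hg).1 (h2 hg).2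
  obtain ⟨k, hk⟩ := isPGroup_iff_mem.1 h3 _ ((mul_mem_cancel_left (h1 (P.φ_memU u))).1 hg)
  rw [FPA.h_pow] at hk
  obtain ⟨a, b⟩ := FPA.h_eq_one P hk
  obtain rfl : l = 1 := Units.ext (FPA.pow_two_pow (k := k) (by simpa using congrArg Units.val a))
  obtain rfl : m = 1 := Units.ext (FPA.pow_two_pow (k := k) (by simpa using congrArg Units.val b))
  rw [P.h_one, mul_one]
  exact P.φ_memU u
theorem memP_of_comm {g : G} (hg : g ∈ P.L) {a : F} (ha : a ≠ 0)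
    (h : g * P.X 3 (ι a) = P.X 3 (ι a) * g) : g ∈ P.P0 := by
  have k : ∀ {l : Eˣ} {m : Fˣ} {p p' : G}, p ∈ P.P0 → p' ∈ P.P0 → g = p * P.h l m * p' → g ∈ P.P0 := by
    rintro l m p p' hp hp' rfl
    refine mul_mem (mul_mem hp (P.h_memP ?_)) hp'
    have := P.h_X3 l m a
    rw [mul_assoc, ← P.X3_comm_P0 _ hp', ← mul_assoc, ← mul_assoc, mul_left_inj, ← mul_assoc,
      P.X3_comm_P0 _ hp, mul_assoc, mul_assoc, mul_right_inj] at h
    rw [h, mul_inv_cancel_right] at this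
    simpa [ha] using (Pin.X_injι P.inj 3 this).symm
  obtain ⟨u, l, m, e | ⟨c, e⟩⟩ := P.pz g hg a ha (by rw [h, mul_inv_cancel_right]; exact P.X3_mem _)
  · exact k (P.φ_memP u) (one_mem _) (e.trans (mul_one _).symm)
  · exact k (P.φ_memP u) (mul_mem P.n0_memP (P.X_memP (by decide) c)) (e.trans (mul_assoc _ _ _))
theorem memP_of_comm1 {g : G} (hg : g ∈ P.L) (h : g * P.X 3 1 = P.X 3 1 * g) : g ∈ P.P0 :=
  P.memP_of_comm hg one_ne_zero (by rwa [map_one])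
theorem memZ_of_comm {g : G} (hg : g ∈ P.L) (h : ∀ x ∈ P.Q, g * x = x * g) : g ∈ P.Z := by
  obtain ⟨u, rfl⟩ := FPA.memU P hg fun x hx => h x (P.E2_le_Q hx)
  exact ⟨u, mem_Z_of_commQ fun v hv => P.inj (by rw [map_mul, map_mul, h _ (P.φ_memQ hv)]), rfl⟩
theorem memE2_of_comm {g : G} (hg : g ∈ P.L) (h : ∀ x ∈ P.E2, g * x = x * g) : g ∈ P.E2 := by
  obtain ⟨u, rfl⟩ := FPA.memU P hg h
  have k : ∀ v ∈ U12.E2 E, u * v = v * u := fun v hv => P.inj (by rw [map_mul, map_mul, h _ ⟨v, hv, rfl⟩])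
  exact ⟨u, mem_E2_of_comm (k _ ⟨rfl, rfl, rfl⟩) fun a => k _ ⟨rfl, rfl, rfl⟩, rfl⟩
theorem perfP : ⁅P.P0, P.P0⁆ = P.P0 := by
  refine le_antisymm (commutator_le_of_le le_rfl le_rfl) (P.P0_le.2 fun i hi a => ?_)
  obtain ⟨c, c0, c1, c2⟩ := exists_N1 P.cub
  have hh : P.h c 1 ∈ P.P0 := P.h_memP (by simp [c0])
  have h1 : ∀ a, P.X 1 a ∈ ⁅P.P0, P.P0⁆ := fun a => by
    have := commutator_mem_commutator (P.X_memP (i := 0) (by decide) 1) (P.X_memP (i := 2) (by decide) a)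
    rwa [P.comm02, one_mul] at this
  fin_cases i
  · exact FPA.comm_h P hh (P.X_memP hi) c1 a
  · exact h1 a
  · exact FPA.comm_h P hh (P.X_memP hi) (by simpa using c2) a
  · have := commutator_mem_commutator (P.X_memP (i := 5) (by decide) 1) (P.X_memP (i := 1) (by decide) a)
    rwa [P.comm51'] at this
  · exact FPA.comm_h P hh (P.X_memP hi) (by simpa using c1) a
  · exact (P.c0 1 a : _ = P.X 5 a) ▸ conj_mem_of_mem_normalizer
      (le_normalizer_commutator le_normalizer le_normalizer P.n0_memP) (h1 a)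
  · exact FPA.comm_h P hh (P.X_memP hi) (fun e => c1 (inv_eq_one.1 e)) a
  all_goals exact absurd hi (by decide)
theorem perfL : ⁅P.L, P.L⁆ = P.L := by
  refine le_antisymm (commutator_le_of_le le_rfl le_rfl) (P.L_le.2 fun i a => ?_)
  obtain ⟨w, hw, e⟩ := P.exists_w i
  refine e a ▸ conj_mem_of_mem_normalizer
    (le_normalizer_commutator le_normalizer le_normalizer (FPA.w_mem P hw))
    (commutator_mono P.P0_le_L P.P0_le_L (P.perfP.ge (P.X_memP ?_ a)))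
  split_ifs <;> decide
theorem conj_long (i : Fin 12) (hi : i.val % 2 = 1) {a : F} (ha : a ≠ 0) :
    ∃ l ∈ P.L, l * P.X i (ι a) * l⁻¹ = P.X 3 1 := by
  obtain ⟨w, hw, e⟩ := P.exists_w i
  obtain ⟨b, hb⟩ := exists_sq_unit (inv_ne_zero ha)
  rw [if_neg (by omega)] at e
  refine ⟨P.h 1 b * w⁻¹, mul_mem (P.hL _ _) (inv_mem (FPA.w_mem P hw)), ?_⟩
  rw [← e, show P.h 1 b * w⁻¹ * (w * P.X 3 (ι a) * w⁻¹) * (P.h 1 b * w⁻¹)⁻¹ =
    P.h 1 b * P.X 3 (ι a) * (P.h 1 b)⁻¹ by group, P.h_X3, hb]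
  simp [ha]
theorem L_le_of_norm {H : Subgroup G} (hn : P.L ≤ 𝐍(H)) (h : P.X 3 1 ∈ H) : P.L ≤ H := by
  have lg : ∀ i : Fin 12, i.val % 2 = 1 → ∀ a : F, P.X i (ι a) ∈ H := fun i hi a => by
    by_cases ha : a = 0
    · rw [ha, map_zero, P.X_zero]; exact one_mem _
    obtain ⟨l, hl, e⟩ := P.conj_long i hi ha
    have := conj_mem_of_mem_normalizer' (hn hl) h
    rwa [← e, show l⁻¹ * (l * P.X i (ι a) * l⁻¹) * l = P.X i (ι a) by group] at this
  have q : U12.Q E ≤ H.comap P.φ := (Q_gen P.cub).le.trans ((closure_le _).2 fun u hu => by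
    change P.φ u ∈ H
    by_cases h5 : u.p5 = 0
    · obtain ⟨a, c, rfl⟩ := mem_EA'.1 (Lng.mem_EA hu h5)
      rw [map_mul, P.φ1', P.φ3']
      exact mul_mem (lg 1 rfl _) (lg 3 rfl _)
    · obtain ⟨k, e, he⟩ := Lng.eq hu h5
      rw [he, map_mul, map_mul, map_mul, P.φ0, P.φ5', P.φ3']
      refine mul_mem ?_ (lg 3 rfl _)
      nth_rw 2 [← P.X_inv 0]
      exact conj_mem_of_mem_normalizer (hn (P.X_mem _ _)) (lg 5 rfl _))
  refine P.L_le.2 fun i a => ?_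
  obtain ⟨w, hw, e⟩ := P.exists_w i
  refine e a ▸ conj_mem_of_mem_normalizer (hn (FPA.w_mem P hw)) ?_
  split_ifs
  exacts [P.φ4 a ▸ q (show (g4 a).p0 = 0 from rfl), P.X_T (i := 3) rfl a ▸ lg 3 rfl _]
end FP

end H89.D4S
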