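import Cfsg.Agent.Lib.D4S.P3A

/-! Standard components of type `³D₄(2ⁿ)`, package HP: see `blueprint/D4S/README.md`. -/

set_option autoImplicit false
set_option linter.unusedSectionVars false

namespace H89.D4S
open Subgroup H69 U12
open H89.G2S (KK ιK σK)
open scoped commutatorElement

variable {F E G : Type*} [Field F] [Field E] [Cub F E] [CharP F 2] [CharP E 2] [Finite F] [Finite E]
  [Group G] [Finite G]
  {K J : Type*} [CommRing K] [CommRing J] [Cub K J] [CharP K 2] [CharP J 2] [Finite K] [Finite J]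

namespace HP

theorem one_of {Θ B : Subgroup G} (hΘ : Odd (Nat.card Θ)) (hB : IsPGroup 2 B) {x : G} (h1 : x ∈ Θ)
    (h2 : x ∈ B) : x = 1 := by
  obtain ⟨k, hk⟩ := hB ⟨x, h2⟩
  exact orderOf_eq_one_iff.1 (Nat.eq_one_of_dvd_coprimes ((Nat.coprime_two_right.2 hΘ).pow_right k)
    (orderOf_dvd_natCard _ h1) (orderOf_dvd_of_pow_eq_one (congrArg Subtype.val hk)))

theorem odd_le {Θ B : Subgroup G} (hΘ : Odd (Nat.card Θ)) (h : B ≤ Θ) : Odd (Nat.card B) :=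
  hΘ.of_dvd_nat (card_dvd_of_le h)

theorem cmem {A B : Subgroup G} {a b : G} (ha : a ∈ A) (hb : b ∈ B) (h1 : a ∈ 𝐍(B)) (h2 : b ∈ 𝐍(A)) :
    ⁅a, b⁆ ∈ A ⊓ B := by
  refine mem_inf.2 ⟨?_, mul_mem (conj_mem_of_mem_normalizer h1 hb) (inv_mem hb)⟩
  rw [commutatorElement_def, mul_assoc, mul_assoc, ← mul_assoc b]
  exact mul_mem ha (conj_mem_of_mem_normalizer h2 (inv_mem ha))

theorem one_of' {Θ : Subgroup G} (hΘ : Odd (Nat.card Θ)) {x : G} (h1 : x ∈ Θ) {k : ℕ}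
    (h2 : x ^ 2 ^ k = 1) : x = 1 := one_of hΘ (G2S.Gen.isP_pow h2) h1 (mem_zpowers x)

theorem kill (P : FP E G) {Θ : Subgroup G} (hΘ : Odd (Nat.card Θ)) (hL : Θ ≤ P.L)
    (hQ : P.Q ≤ 𝐍(Θ)) {w : G} (hw : w ∈ P.L) (hE : ∀ x ∈ P.E2, w⁻¹ * x * w ∈ P.Q) {y : G} (hy : y ∈ Θ)
    (e : w * y * w⁻¹ * P.X 3 1 = P.X 3 1 * (w * y * w⁻¹)) : y ∈ (⊥ : Subgroup G) := by
  have yL : w * y * w⁻¹ ∈ P.L := mul_mem (mul_mem hw (hL hy)) (inv_mem hw)
  have n := P.P0_norm_Q (P.memP_of_comm1 yL e)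
  have m := P.memE2_of_comm yL fun x hx => by
    have c1 : ⁅y, w⁻¹ * x * w⁆ ∈ Θ := by
      rw [commutatorElement_def, mul_assoc, mul_assoc, ← mul_assoc (w⁻¹ * x * w)]
      exact mul_mem hy (conj_mem_of_mem_normalizer (hQ (hE x hx)) (inv_mem hy))
    have c2 : ⁅w * y * w⁻¹, x⁆ ∈ P.Q :=
      mul_mem (conj_mem_of_mem_normalizer n (P.E2_le_Q hx)) (inv_mem (P.E2_le_Q hx))
    have c3 : ⁅w * y * w⁻¹, x⁆ = w * ⁅y, w⁻¹ * x * w⁆ * w⁻¹ := by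
      simp only [commutatorElement_def]; group
    obtain ⟨k, hk⟩ := isPGroup_iff_mem.1 P.U_isP _ (P.Q_le_U c2)
    rw [c3, conj_pow, conj_eq_one_iff] at hk
    rw [one_of' hΘ c1 hk, mul_one, mul_inv_cancel] at c3
    exact commutatorElement_eq_one_iff_mul_comm.1 c3
  have s := P.E2_sq m
  rw [conj_mul, conj_eq_one_iff] at s
  exact one_of' hΘ hy (k := 1) (by rw [pow_one, pow_two, s])

end HP

theorem FP.odd_bot (P : FP E G) {Θ : Subgroup G} (hΘ : Odd (Nat.card Θ)) (hL : Θ ≤ P.L)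
    (hQ : P.Q ≤ 𝐍(Θ)) : Θ = ⊥ := by
  have n5E : ∀ x ∈ P.E2, P.n5⁻¹ * x * P.n5 ∈ P.Q := fun x hx => by
    obtain ⟨c, a, b, rfl⟩ := P.mem_E2.1 hx
    rw [show P.n5⁻¹ * (P.X 2 c * P.X 1 (ι a) * P.X 3 (ι b)) * P.n5 =
      P.n5 * (P.X 2 c * P.X 1 (ι a) * P.X 3 (ι b)) * P.n5⁻¹ by rw [P.n5_inv], ← conj_mul, ← conj_mul,
      P.c5, P.c5, P.c5]
    exact mul_mem (mul_mem (P.X_memQ (by decide) (by decide) _) (P.X_memQ (by decide) (by decide) _))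
      (P.X_memQ (by decide) (by decide) _)
  have q1 := P.X_memQ (i := 1) (by decide) (by decide) 1
  have q5 := P.X_memQ (i := 5) (by decide) (by decide) 1
  have e1 : P.n5 * P.X 1 1 * P.n5⁻¹ = P.X 3 1 := P.c5 1 1
  have e5 : P.X 3 1 * P.X 1 1 = P.X 5 1 * P.X 1 1 * (P.X 5 1)⁻¹ := by
    rw [← P.comm51' 1, commutatorElement_def, inv_mul_cancel_right]
  have f1 : P.φ (g1 1) = P.X 1 1 := by rw [P.φ1', map_one]
  have f3 : P.φ (g3 1) = P.X 3 1 := by rw [P.φ3', map_one]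
  refine le_bot_iff.1 (G2S.gen4 (P.X_sq 3 1) (P.X_sq 1 1) P.z_ne (fun e => ?_) (fun e => ?_)
    (by rw [← f1, P.X3_comm_φ]) hΘ (hQ (P.Z_le_Q (P.X3_mem _))) (hQ q1)
    (fun y hy e => HP.kill P hΘ hL hQ (one_mem _) (fun x hx => by simpa using P.E2_le_Q hx) hy
      (by simpa using e))
    (fun y hy e => HP.kill P hΘ hL hQ P.n5_mem n5E hy (by rw [← e1]; exact G2S.Gen.cjc e))
    fun y hy e => HP.kill P hΘ hL hQ (mul_mem P.n5_mem (inv_mem (P.X_mem 5 1))) (fun x hx => ?_) hy ?_)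
  · rw [e, mul_one, mul_inv_cancel] at e1
    exact P.z_ne e1.symm
  · rw [← f1, ← f3] at e
    exact one_ne_zero (congrArg U12.p1 (P.inj e))
  · rw [show (P.n5 * (P.X 5 1)⁻¹)⁻¹ * x * (P.n5 * (P.X 5 1)⁻¹) =
      P.X 5 1 * (P.n5⁻¹ * x * P.n5) * (P.X 5 1)⁻¹ by group]
    exact mul_mem (mul_mem q5 (n5E x hx)) (inv_mem q5)
  · have : P.X 3 1 = P.n5 * (P.X 5 1)⁻¹ * (P.X 3 1 * P.X 1 1) * (P.n5 * (P.X 5 1)⁻¹)⁻¹ := by
      rw [e5, ← e1]; group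
    rw [this]
    exact G2S.Gen.cjc e

theorem St.hp0 (S : St E G) {Θ : Subgroup G} (hΘ : Odd (Nat.card Θ)) (hC : Θ ≤ S.Ct)
    (hQ : S.Q ≤ 𝐍(Θ)) {x : G} (h : x ∈ Θ) : S.Od x := by
  have QL := S.Q_le_U.trans S.U_le_L
  have b := S.odd_bot (HP.odd_le hΘ (inf_le_left (b := S.L))) inf_le_right
    (le_normalizer_inf hQ (le_normalizer_of_le QL))
  have o : Odd (orderOf x) := hΘ.of_dvd_nat (orderOf_dvd_natCard _ h)
  obtain ⟨a, c, hc, rfl⟩ := S.cQ (S.mem_Ct.1 (hC h)) fun y hx =>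
    commutatorElement_eq_one_iff_mul_comm.1 (mem_bot.1 (b ▸ HP.cmem h (QL hx) (S.Ct_norm_L (hC h)) (hQ hx)))
  have e := pow_orderOf_eq_one (S.X 3 (ι a) * c)
  obtain ⟨m, hm⟩ := id o
  rw [Commute.mul_pow (hc.2 3 _).symm, hm, pow_succ, pow_mul, sq, S.X_sq, one_pow, one_mul] at e
  have : S.X 3 (ι a) = 1 := St.C0.eq_one (eq_inv_of_mul_eq_one_left e ▸ St.C0.inv (pow_mem (S := S.C0s) hc _))
    (S.X_mem 3 _)
  rw [this, one_mul] at o ⊢
  exact ⟨hc, o⟩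

namespace Big
variable {S : St E G} {Y : Pin J G} {j : E →+* J} {σ : J ≃+* J} (h : Big S Y j σ)
  {Θ : Subgroup G} (hΘ : Odd (Nat.card Θ)) (hU : Y.U ≤ 𝐍(Θ)) (ht : S.t ∈ 𝐍(Θ))
include h hΘ hU ht

theorem hp {i : Fin 12} (hi : i ≤ 5) (a : E) : Y.X i (j a) ∈ 𝐂(Θ) := by
  by_cases a0 : Y.X i (j a) = 1
  · rw [a0]; exact one_mem _
  obtain ⟨c, hc⟩ := h.free
  have QU := S.Q_le_U.trans h.U_le
  have cn : ∀ x ∈ Θ, x * S.t = S.t * x → Y.Cn x := fun x hθ e => h.cO _ (S.hp0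
    (HP.odd_le hΘ (inf_le_left (b := S.Ct))) inf_le_right (le_normalizer_inf (QU.trans hU)
      (le_normalizer_of_le ((S.Q_le_U.trans S.U_le_L).trans S.L_le_Ct))) ⟨hθ, S.mem_Ct.2 e⟩)
  have xL : Y.X i (j a) ∈ S.L := h.ext i a ▸ S.X_mem i a
  have e : S.t * Y.X i (j a) = Y.X i (ι c * j a) * S.t * (Y.X i (ι c * j a))⁻¹ := by
    calc _ = Y.X i (ι c * j a) * (S.t * Y.X i (ι c * j a) * S.t⁻¹) * S.t := by
          rw [h.ct.act, ← Y.X_add, map_mul, (h.fix _).2 ⟨a, rfl⟩, ← add_mul, hc, one_mul, S.t_comm xL]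
      _ = _ := by rw [Y.X_inv, S.t_inv, mul_assoc, mul_assoc, mul_assoc, S.tt, mul_one, mul_assoc]
  have := G2S.gen4 (M := centralizer {Y.X i (j a)}) S.tt (Y.X_sq i (j a)) S.t1
    a0
    (fun e => S.t_notMem (e ▸ xL)) (S.t_comm xL) hΘ ht (hU (Y.X_memU hi _))
    (fun y hy k => mem_centralizer_singleton_iff.2 (cn y hy k i _))
    (fun y _ k => mem_centralizer_singleton_iff.2 k) fun y hy k => by
      rw [e] at k
      have c1 := cn _ (conj_mem_of_mem_normalizer' (hU (Y.X_memU hi (ι c * j a))) hy) (by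
        calc _ = (Y.X i (ι c * j a))⁻¹ * (y * (Y.X i (ι c * j a) * S.t * (Y.X i (ι c * j a))⁻¹)) *
              Y.X i (ι c * j a) := by group
          _ = _ := by rw [k]; group)
      have c2 : y = (Y.X i (ι c * j a))⁻¹ * y * Y.X i (ι c * j a) := by
        calc _ = Y.X i (ι c * j a) * ((Y.X i (ι c * j a))⁻¹ * y * Y.X i (ι c * j a)) * (Y.X i (ι c * j a))⁻¹ := by
              group
          _ = _ := by rw [← c1, mul_inv_cancel_right]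
      exact mem_centralizer_singleton_iff.2 (c2 ▸ c1 i _)
  exact fun y hy => mem_centralizer_singleton_iff.1 (this hy)

theorem hpc {i : Fin 12} (hi : i ≤ 5) (a : E) {u : G} (hu : u ∈ Y.U) : ⁅Y.X i (j a), u⁆ ∈ 𝐂(Θ) := by
  have := h.hp hΘ hU ht hi a
  rw [commutatorElement_def, mul_assoc, mul_assoc, ← mul_assoc u]
  exact mul_mem this (conj_mem_of_mem_normalizer (normalizer_le_normalizer_centralizer _ (hU hu))
    (inv_mem this))

theorem hpZ : Y.Z ≤ 𝐂(Θ) := fun x hx => by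
  obtain ⟨a, rfl⟩ := Y.mem_Z.1 hx
  rw [← Y.comm51', ← map_one j]
  exact h.hpc hΘ hU ht (by decide) 1 (Y.X_memU (by decide) _)

theorem hpQ (hn : Y.n0 ∈ 𝐍(Θ)) : Y.Q ≤ 𝐂(Θ) := by
  have n0 := normalizer_le_normalizer_centralizer _ hn
  have h3 : ∀ k, Y.X 3 k ∈ 𝐂(Θ) := fun k => h.hpZ hΘ hU ht (Y.X3_mem k)
  have h1 : ∀ k, Y.X 1 k ∈ 𝐂(Θ) := fun k => by
    rw [← one_mul k, ← Y.comm02, ← map_one j]
    exact h.hpc hΘ hU ht (by decide) 1 (Y.X_memU (by decide) _)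
  have h5 : ∀ k, Y.X 5 k ∈ 𝐂(Θ) := fun k => by
    have := conj_mem_of_mem_normalizer n0 (h1 k)
    rwa [Y.c0] at this
  have hv : ∀ (l : K) (c d : E), Y.X 2 (ι l * j (cr c d)) ∈ 𝐂(Θ) := fun l c d => by
    have := h.hpc hΘ hU ht (i := 0) (by decide) c (Y.φ_memU (g4 (ι l * j d)))
    rw [← Y.φ0, ← map_commutatorElement, Y.φ_eq] at this
    generalize hu : ⁅g0 (j c), g4 (ι l * j d)⁆ = u at this
    have a0 : u.p0 = 0 := by simp [← hu, commutatorElement_def, g0, g4, CharTwo.add_self_eq_zero]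
    have a4 : u.p4 = 0 := by simp [← hu, commutatorElement_def, g0, g4, CharTwo.add_self_eq_zero]
    have a2 : u.p2 = ι l * j (cr c d) := by
      rw [h.tj.cr, ← cr_ι]
      simp [← hu, commutatorElement_def, g0, g4, CharTwo.add_self_eq_zero]
    rw [a0, a4, a2, Y.X_zero, Y.X_zero, mul_one, mul_one] at this
    exact (mul_mem_cancel_left (h5 _)).1
      ((mul_mem_cancel_right (h1 _)).1 ((mul_mem_cancel_right (h3 _)).1 this))
  have hw : ∀ (l : K) (w : E), Y.X 2 (ι l * j w) ∈ 𝐂(Θ) := fun l w => by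
    obtain ⟨a, b, c, d, rfl⟩ := cr_span S.cub w
    rw [map_add, mul_add, Y.X_add]
    exact mul_mem (hv _ _ _) (hv _ _ _)
  have h2 : ∀ k, Y.X 2 k ∈ 𝐂(Θ) := fun k => by
    obtain ⟨c, a, b, rfl⟩ := h.span k
    rw [Y.X_add]
    exact mul_mem (by simpa using hw 1 a) (hw _ _)
  refine Y.Q_le.2 fun i i1 i5 k => ?_
  have h4 := conj_mem_of_mem_normalizer n0 (h2 k)
  rw [Y.c0] at h4
  fin_cases i <;> first | exact absurd i1 (by decide) | exact absurd i5 (by decide) | skip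
  exacts [h1 k, h2 k, h3 k, h4, h5 k]

end Big

end H89.D4S
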