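import Cfsg.Agent.Lib.D4S.FPA
import Cfsg.Agent.Lib.G2S.Gen

/-! Standard components of type `³D₄(2ⁿ)`, package Inv: see `blueprint/D4S/README.md`. -/

set_option autoImplicit false
set_option linter.unusedSectionVars false
set_option linter.unusedSimpArgs false
set_option linter.unnecessarySeqFocus false

namespace H89.D4S
open Subgroup H69 U12
open H89.G2S (KK ιK σK)
open scoped commutatorElement

variable {F E G : Type*} [Field F] [Field E] [Cub F E] [CharP F 2] [CharP E 2] [Finite F] [Finite E]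
  [Group G] [Finite G]

namespace Inv
variable {P : FP E G}

/-- conjugacy under `L` -/
def Cj (P : FP E G) (x y : G) : Prop := ∃ l ∈ P.L, l * x * l⁻¹ = y

theorem Cj.trans {x y z : G} (h : Cj P x y) (h' : Cj P y z) : Cj P x z := by
  obtain ⟨l, hl, rfl⟩ := h
  obtain ⟨l', hl', rfl⟩ := h'
  exact ⟨l' * l, mul_mem hl' hl, by group⟩
theorem Cj.symm {x y : G} (h : Cj P x y) : Cj P y x := by
  obtain ⟨l, hl, rfl⟩ := h
  exact ⟨l⁻¹, inv_mem hl, by group⟩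
theorem cφ (v u : U12 E) : Cj P (P.φ u) (P.φ (v * u * v⁻¹)) :=
  ⟨P.φ v, P.φ_mem v, by rw [map_mul, map_mul, map_inv]⟩
theorem cn0 {u : U12 E} (h : u.p0 = 0) : Cj P (P.φ u) (P.φ (na u)) := ⟨_, P.n0_mem, P.n0_φ h⟩
theorem cn5 {u : U12 E} (h : u.p5 = 0) : Cj P (P.φ u) (P.φ (nb u)) := ⟨_, P.n5_mem, P.n5_φ h⟩
theorem vec' {u : U12 E} (hu : u.p0 = 0) (h : u ∉ U12.Z E) (e : F) : Cj P (P.φ u) (P.φ (u * g3 e)) := by
  obtain ⟨w, -, e⟩ := exists_conj_mul hu h e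
  exact e ▸ cφ (P := P) w u
theorem vec {u v : U12 E} (hu : u.p0 = 0) (h : u ∉ U12.Z E) (h0 : v.p0 = 0) (h5 : v.p5 = u.p5)
    (h4 : v.p4 = u.p4) (h2 : v.p2 = u.p2) (h1 : v.p1 = u.p1) : Cj P (P.φ u) (P.φ v) := by
  have := vec' (P := P) hu h (u.p3 + v.p3)
  rwa [show u * g3 (u.p3 + v.p3) = v by
    ext <;> simp [g3, hu, h0, h5, h4, h2, h1, CharTwo.add_cancel_left]] at this
theorem g0_inv (k : E) : (g0 k : U12 E)⁻¹ = g0 k := by ext <;> simp [g0]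
theorem g5_inv (k : F) : (g5 k : U12 E)⁻¹ = g5 k := by ext <;> simp [g5]
theorem al {u : U12 E} (h0 : u.p0 = 0) (k : E) : (g0 k * u * (g0 k)⁻¹).p0 = 0 ∧
    (g0 k * u * (g0 k)⁻¹).p5 = u.p5 ∧ (g0 k * u * (g0 k)⁻¹).p4 = u.p4 + ι u.p5 * k ∧
    (g0 k * u * (g0 k)⁻¹).p2 = u.p2 + cr k u.p4 + ι u.p5 * sh k ∧
    (g0 k * u * (g0 k)⁻¹).p1 = u.p1 + T (k * u.p2) + T (sh k * u.p4) + u.p5 * N k := by
  rw [g0_inv]
  simp [g0, h0, CharTwo.add_self_eq_zero]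
theorem sB {u : U12 E} (h0 : u.p0 = 0) (h5 : u.p5 = 0) (h4 : u.p4 = 0) (h2 : u.p2 ≠ 0) :
    Cj P (P.φ u) (P.X 2 1) := by
  obtain ⟨k, hk⟩ := exists_T h2 u.p1
  obtain ⟨a0, a5, a4, a2, a1⟩ := al h0 k
  rw [mul_comm] at hk
  refine (cφ (g0 k) u).trans ?_
  generalize g0 k * u * (g0 k)⁻¹ = v at *
  simp [h5, h4, hk, CharTwo.add_self_eq_zero] at a5 a4 a2 a1
  have hN : N u.p2 ≠ 0 := fun h => h2 (N_eq_zero.1 h)
  refine (vec (v := g2 u.p2) a0 (fun h => h2 (a2 ▸ h.2.2.2.1)) rfl ?_ ?_ ?_ ?_).trans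
    ⟨P.h (Units.mk0 _ h2) (Units.mk0 _ hN)⁻¹, P.hL _ _, ?_⟩
  · rw [a5]; rfl
  · rw [a4]; rfl
  · rw [a2]; rfl
  · rw [a1]; rfl
  · rw [P.φ2, P.hX, wt2]
    congr 1
    rw [mul_right_comm, mul_comm (sh _), Units.val_mk0, mul_sh, ← map_mul, Units.val_inv_eq_inv_val,
      Units.val_mk0, mul_inv_cancel₀ hN, map_one]
theorem sC {u : U12 E} (h0 : u.p0 = 0) (h5 : u.p5 = 0) (h2 : u.p2 = 0) (h4 : u.p4 ≠ 0) :
    Cj P (P.φ u) (P.X 2 1) := by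
  have hN : N u.p4 ≠ 0 := fun h => h4 (N_eq_zero.1 h)
  obtain ⟨k, hk⟩ := exists_sq (u.p1 / N u.p4)
  rw [eq_div_iff hN] at hk
  obtain ⟨a0, a5, a4, a2, a1⟩ := al h0 (ι k * u.p4)
  rw [sh_mul, sh_ι, mul_assoc (ι (k ^ 2)), T_ι_mul, mul_comm (sh _), T_mul_sh, hk] at a1
  rw [ι_cr] at a2
  refine (cφ (g0 (ι k * u.p4)) u).trans ?_
  generalize g0 (ι k * u.p4) * u * (g0 (ι k * u.p4))⁻¹ = v at *
  simp [h5, h2, CharTwo.add_self_eq_zero] at a5 a4 a2 a1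
  exact (cn0 a0).trans (sB rfl a1 a2 (a4 ▸ h4 : v.p4 ≠ 0))
theorem sD {u : U12 E} (h0 : u.p0 = 0) (h5 : u.p5 = 0) (h2 : T (u.p4 * u.p2) = 0) (h4 : u.p4 ≠ 0) :
    Cj P (P.φ u) (P.X 2 1) := by
  obtain ⟨k, hk⟩ := exists_cr h4 h2
  obtain ⟨a0, a5, a4, a2, -⟩ := al h0 k
  rw [cr_comm, hk] at a2
  refine (cφ (g0 k) u).trans ?_
  generalize g0 k * u * (g0 k)⁻¹ = v at *
  simp [h5, CharTwo.add_self_eq_zero] at a5 a4 a2
  exact sC a0 a5 a2 (a4 ▸ h4)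

end Inv
open _root_.H89.D4S.Inv

namespace FP
variable (P : FP E G)
theorem inv_lng {u : U12 E} (h : Lng u) (h1 : u ≠ 1) : ∃ l ∈ P.L, l * P.φ u * l⁻¹ = P.X 3 1 := by
  change Cj P _ _
  by_cases h5 : u.p5 = 0
  · obtain ⟨-, -, h4, h2⟩ := h.mem_EA h5
    by_cases h1' : u.p1 = 0
    · have e' : u = g3 u.p3 := by ext <;> simp [g3, h.1, h5, h4, h2, h1']
      rw [e', P.φ3']
      exact P.conj_long 3 rfl fun k => h1 (by rw [e', k]; rfl)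
    · exact (vec (v := g1 u.p1) h.1 (fun k => h1' k.2.2.2.2) rfl h5.symm h4.symm h2.symm rfl).trans
        (P.φ1' _ ▸ P.conj_long 1 rfl h1')
  · obtain ⟨c, e, he⟩ := h.eq h5
    generalize u.p5 = a at he h5
    obtain ⟨a0, a5, -⟩ := al (u := g5 a) rfl c
    have := vec' (P := P) a0 (fun k => h5 (a5.symm.trans k.2.1)) e
    rw [he]
    nth_rw 2 [g0_inv] at this
    exact this.symm.trans ((cφ _ _).symm.trans (P.φ5' _ ▸ P.conj_long 5 rfl h5))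
theorem inv_short {u : U12 E} (h2 : u * u = 1) (h : ¬ Lng u) :
    ∃ l ∈ P.L, l * P.φ u * l⁻¹ = P.X 2 1 := by
  change Cj P _ _
  have sq : ∀ v : U12 E, (v * u * v⁻¹) * (v * u * v⁻¹) = 1 := fun v => by rw [conj_mul, h2]; group
  by_cases h0 : u.p0 = 0
  · by_cases h5 : u.p5 = 0
    · have e3 := congrArg U12.p3 h2
      simp [h0, h5, CharTwo.add_self_eq_zero] at e3
      by_cases h4 : u.p4 = 0
      · exact sB h0 h5 h4 fun k => h ⟨h0, by simp [*], by simp [*], by simp [*]⟩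
      · exact sD h0 h5 (by rwa [mul_comm]) h4
    · have h5' : (ι u.p5 : E) ≠ 0 := fun e => h5 (ι_eq_zero.1 e)
      obtain ⟨k, hk⟩ : ∃ k, u.p4 = ι u.p5 * k := ⟨u.p4 / ι u.p5, (mul_div_cancel₀ _ h5').symm⟩
      have hv : ¬ Lng (g0 k * u * (g0 k)⁻¹) := fun e => h (by simpa [mul_assoc] using e.conj (g0 k)⁻¹)
      obtain ⟨v0, v5, v4, -⟩ := al h0 k
      rw [← hk, CharTwo.add_self_eq_zero] at v4
      rw [← v5] at h5
      have v3 := congrArg U12.p3 (sq (g0 k))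
      refine (cφ (g0 k) u).trans ?_
      generalize g0 k * u * (g0 k)⁻¹ = v at *
      simp [v0, v4, h5, CharTwo.add_self_eq_zero] at v3
      exact (cn0 v0).trans (sC rfl v3 v4 fun e =>
        hv ⟨v0, by simp [v4, show v.p2 = 0 from e], by simp [v4, show v.p2 = 0 from e], by simp [v4, v3]⟩)
  · have e4 := congrArg U12.p4 h2
    have e2 := congrArg U12.p2 h2
    simp [h0, CharTwo.add_self_eq_zero] at e4
    simp [e4, CharTwo.add_self_eq_zero] at e2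
    obtain ⟨k, hk⟩ := cr_eq_zero h0 e2
    have v0 : (g5 k * u * (g5 k)⁻¹).p0 ≠ 0 := by simpa [g5] using h0
    have v4 : (g5 k * u * (g5 k)⁻¹).p4 = 0 := by simp [g5, hk, CharTwo.add_self_eq_zero]
    have v5 : (g5 k * u * (g5 k)⁻¹).p5 = 0 := by simp [g5, e4, CharTwo.add_self_eq_zero]
    have v1 := congrArg U12.p1 (sq (g5 k))
    refine (cφ (g5 k) u).trans ?_
    generalize g5 k * u * (g5 k)⁻¹ = v at *
    simp [v4, v5, CharTwo.add_self_eq_zero] at v1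
    exact (cn5 v5).trans (sD v4 rfl (by simpa [nb, v4] using v1) v0)
theorem inv_L {x : G} (hx : x ∈ P.L) (h2 : x * x = 1) :
    x = 1 ∨ (∃ l ∈ P.L, l * x * l⁻¹ = P.X 3 1) ∨ ∃ l ∈ P.L, l * x * l⁻¹ = P.X 2 1 := by
  obtain ⟨g, hg, u, e⟩ := G2S.exists_cj_mem P.sylU hx h2
  have c : Cj P x (P.φ u) := ⟨g, hg, e.symm⟩
  by_cases h1 : u = 1
  · left
    rw [h1, map_one, eq_comm, mul_inv_eq_one, mul_eq_left] at e
    exact e
  by_cases h : Lng u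
  · exact .inr (.inl (c.trans (P.inv_lng h h1)))
  · exact .inr (.inr (c.trans (P.inv_short (P.inj (by rw [map_mul, e, conj_mul, h2, map_one]; group)) h)))
theorem lng_of_conj {u : U12 E} {l : G} (hl : l ∈ P.L) (h : l * P.φ u * l⁻¹ ∈ P.Z) : Lng u := by
  by_contra k
  obtain ⟨a, e⟩ := P.mem_Z.1 h
  have h2 := P.X_sq 3 (ι a)
  rw [e, conj_mul, mul_inv_eq_one, mul_eq_left, ← map_mul, ← map_one P.φ] at h2
  obtain ⟨l', hl', e'⟩ := P.inv_short (P.inj h2) k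
  refine P.nc (l * l'⁻¹) (mul_mem hl (inv_mem hl')) ?_
  rwa [← e', show l * l'⁻¹ * (l' * P.φ u * l'⁻¹) * (l * l'⁻¹)⁻¹ = l * P.φ u * l⁻¹ by group]
theorem big_cent {x : G} (hx : x ∈ P.L) (h2 : x * x = 1) : ∃ B ≤ P.L, IsPGroup 2 B ∧
    Nat.card F ^ 10 ≤ Nat.card B ∧ ∀ b ∈ B, b * x = x * b := by
  obtain ⟨l, hl, e⟩ : ∃ l ∈ P.L, ∀ r ∈ P.R, r * (l * x * l⁻¹) = l * x * l⁻¹ * r := by
    rcases P.inv_L hx h2 with rfl | ⟨l, hl, e⟩ | ⟨l, hl, e⟩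
    · exact ⟨1, one_mem _, fun r _ => by group⟩
    · refine ⟨l, hl, ?_⟩
      rintro _ ⟨u, -, rfl⟩
      rw [e, P.X3_comm_φ]
    · exact ⟨l, hl, fun r hr => e ▸ P.R_comm hr⟩
  have hU : P.R ≤ P.U := P.R_le_U
  refine ⟨P.R.map (MulAut.conj l⁻¹).toMonoidHom, ?_, (P.U_isP.to_le hU).map _, ?_, ?_⟩
  · rintro _ ⟨r, hr, rfl⟩
    exact mul_mem (mul_mem (inv_mem hl) (P.U_le_L (hU hr))) (inv_mem (inv_mem hl))
  · rw [card_map_of_injective (MulAut.conj l⁻¹).injective, P.cardR]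
  · rintro _ ⟨r, hr, rfl⟩
    change l⁻¹ * r * l⁻¹⁻¹ * x = x * (l⁻¹ * r * l⁻¹⁻¹)
    calc _ = l⁻¹ * (r * (l * x * l⁻¹)) * l := by group
      _ = _ := by rw [e r hr]; group
end FP

end H89.D4S
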