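import Cfsg.Agent.Lib.D4S.Defs
import Cfsg.Agent.Lib.D4S.CF

/-! Standard components of type `³D₄(2ⁿ)`, package UB: see `blueprint/D4S/README.md`. -/

set_option autoImplicit false
set_option linter.unusedSectionVars false

namespace H89.D4S
open Subgroup H69 U12
open H89.G2S (KK ιK σK)
open scoped commutatorElement

section ring
variable {K J : Type*} [CommRing K] [CommRing J] [Cub K J] [CharP K 2] [CharP J 2]
namespace UB

theorem resres {ρ : J ≃+* J} (hρ : Tc (ρ : J →+* J)) (h2 : ∀ a, ρ (ρ a) = a) (a : K) : hρ.res (hρ.res a) = a :=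
  ι_inj (J := J) (by rw [Tc.ι_res, Tc.ι_res]; exact h2 _)

theorem free {ρ : J ≃+* J} (hρ : Tc (ρ : J →+* J)) {c : K} (hc : ι c + ρ (ι c) = 1) : c + hρ.res c = 1 :=
  ι_inj (J := J) (by rw [map_add, Tc.ι_res, map_one]; exact hc)

theorem kill {R : Type*} [CommRing R] [CharP R 2] {c c' a a' : R} (hc : c + c' = 1) (h : a + a' = 0) :
    c * a + a + c' * a' = 0 := by
  rw [← CharTwo.add_eq_zero.1 h]; linear_combination a * hc + CharTwo.add_self_eq_zero a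

theorem step {ρ : J ≃+* J} (hρ : Tc (ρ : J →+* J)) (h2 : ∀ a, ρ (ρ a) = a) {u : U12 J} (y : U12 J)
    (hu : u * U12.map hρ u = 1) :
    y * u * (U12.map hρ y)⁻¹ * U12.map hρ (y * u * (U12.map hρ y)⁻¹) = 1 := by
  have A : U12.map hρ (U12.map hρ y) = y :=
    U12.ext (h2 _) (resres hρ h2 _) (h2 _) (h2 _) (resres hρ h2 _) (resres hρ h2 _)
  rw [map_mul, map_mul, map_inv, A]
  simp only [mul_assoc, inv_mul_cancel_left]
  rw [← mul_assoc u, hu, one_mul, mul_inv_cancel]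

theorem back {ρ : J →+* J} (hρ : Tc ρ) {u : U12 J} (y : U12 J)
    (h : ∃ x : U12 J, x * (y * u * (U12.map hρ y)⁻¹) * (U12.map hρ x)⁻¹ = 1) :
    ∃ x : U12 J, x * u * (U12.map hρ x)⁻¹ = 1 :=
  h.elim fun x e => ⟨x * y, by simpa only [map_mul, mul_inv_rev, mul_assoc] using e⟩

end UB
open UB

theorem U12.lang {ρ : J ≃+* J} (hρ : Tc (ρ : J →+* J)) (h2 : ∀ a, ρ (ρ a) = a) {c : K}
    (hc : ι c + ρ (ι c) = 1) {u : U12 J} (hu : u * U12.map hρ u = 1) :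
    ∃ y : U12 J, y * u * (U12.map hρ y)⁻¹ = 1 := by
  have hk := free hρ hc
  have S3 : ∀ u : U12 J, u * U12.map hρ u = 1 → u.p0 = 0 → u.p5 = 0 → u.p4 = 0 → u.p2 = 0 →
      ∃ y : U12 J, y * u * (U12.map hρ y)⁻¹ = 1 := fun u hu h0 h5 h4 h2' => by
    have e1 := congrArg U12.p1 hu
    have e3 := congrArg U12.p3 hu
    simp [h0, h5, h4, h2'] at e1 e3
    refine ⟨⟨0, 0, 0, 0, c * u.p1, c * u.p3⟩, ?_⟩
    ext <;> simp [h0, h5, h4, h2']
    exacts [kill hk e1, kill hk e3]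
  have S2 : ∀ u : U12 J, u * U12.map hρ u = 1 → u.p0 = 0 → u.p5 = 0 →
      ∃ y : U12 J, y * u * (U12.map hρ y)⁻¹ = 1 := fun u hu h0 h5 => by
    have e4 := congrArg U12.p4 hu
    have e2 := congrArg U12.p2 hu
    simp [h0, h5] at e4 e2
    refine back hρ ⟨0, 0, ι c * u.p4, ι c * u.p2, 0, 0⟩ (S3 _ (step hρ h2 _ hu) ?_ ?_ ?_ ?_) <;>
      simp [h0, h5]
    exacts [kill hc e4, kill hc e2]
  have e0 := congrArg U12.p0 hu
  have e5 := congrArg U12.p5 hu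
  simp at e0 e5
  refine back hρ ⟨ι c * u.p0, c * u.p5, 0, 0, 0, 0⟩ (S2 _ (step hρ h2 _ hu) ?_ ?_) <;> simp
  exacts [kill hc e0, kill hk e5]
/-- the fixed points of a ring automorphism on `U12` -/
theorem U12.card_fixed {ρ : J →+* J} (hρ : Tc ρ) :
    Nat.card (MonoidHom.eqLocus (U12.map hρ) (MonoidHom.id _)) =
      Nat.card {a | ρ a = a} ^ 3 * Nat.card {a : K | ρ (ι a) = ι a} ^ 3 := by
  have hS : {a : K | ρ (ι a) = ι a} = {a | hρ.res a = a} :=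
    Set.ext fun a => by rw [Set.mem_ofPred_eq, Set.mem_ofPred_eq, ← hρ.ι_res, ι_eq_iff]
  let S := {a | ρ a = a}
  let S' := {a | hρ.res a = a}
  let e : MonoidHom.eqLocus (U12.map hρ) (MonoidHom.id _) ≃ S × S' × S × S × S' × S' :=
    { toFun := fun u => (⟨u.1.p0, congrArg U12.p0 u.2⟩, ⟨u.1.p5, congrArg U12.p5 u.2⟩,
        ⟨u.1.p4, congrArg U12.p4 u.2⟩, ⟨u.1.p2, congrArg U12.p2 u.2⟩, ⟨u.1.p1, congrArg U12.p1 u.2⟩,
        ⟨u.1.p3, congrArg U12.p3 u.2⟩)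
      invFun := fun v => ⟨⟨v.1, v.2.1, v.2.2.1, v.2.2.2.1, v.2.2.2.2.1, v.2.2.2.2.2⟩,
        U12.ext v.1.2 v.2.1.2 v.2.2.1.2 v.2.2.2.1.2 v.2.2.2.2.1.2 v.2.2.2.2.2.2⟩
      left_inv := fun _ => rfl
      right_inv := fun _ => rfl }
  rw [hS, Nat.card_congr e]; simp only [Nat.card_prod]; ring
theorem card_fixK [Finite K] {ρ : J ≃+* J} (hρ : Tc (ρ : J →+* J)) (h2 : ∀ a, ρ (ρ a) = a) {c : K}
    (hc : ι c + ρ (ι c) = 1) : Nat.card {a : K | ρ (ι a) = ι a} ^ 2 = Nat.card K := by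
  let r : K ≃+* K := RingEquiv.ofBijective hρ.res (Function.Involutive.bijective (resres hρ h2))
  rw [← G2S.card_fix r (resres hρ h2) (c := c) (free hρ hc)]
  congr 3
  exact Set.ext fun a => by
    rw [Set.mem_ofPred_eq, Set.mem_ofPred_eq, ← ι_eq_iff (J := J) (a := r a)]
    exact Eq.congr_left (hρ.ι_res a).symm
end ring
variable {F E : Type*} [Field F] [Field E] [Cub F E] [CharP F 2] [CharP E 2] [Finite F] [Finite E]
theorem U12.card_fixed' (hc : Nat.card E = Nat.card F ^ 3) {ρ : E ≃+* E} (hρ : Tc (ρ : E →+* E))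
    (h2 : ∀ a, ρ (ρ a) = a) (h1 : ρ ≠ 1) :
    Nat.card (MonoidHom.eqLocus (U12.map hρ) (MonoidHom.id _)) = Nat.card F ^ 6 := by
  obtain ⟨c, hc'⟩ := exists_free ρ h2 h1
  have e1 := (G2S.card_fix ρ h2 hc').trans hc
  have e2 := card_fixF (F := F) ρ h2 h1
  refine (U12.card_fixed hρ).trans (Nat.pow_left_injective two_ne_zero ?_)
  change (Nat.card {a | ρ a = a} ^ 3 * Nat.card {a : F | ρ (ι a) = ι a} ^ 3) ^ 2 = (Nat.card F ^ 6) ^ 2
  rw [mul_pow, pow_right_comm, e1, pow_right_comm (Nat.card {a : F | ρ (ι a) = ι a}), e2]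
  ring

end H89.D4S
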