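import Cfsg.Agent.Lib.D4S.FPA
import Cfsg.Agent.Lib.D4S.UB

/-! Standard components of type `³D₄(2ⁿ)`, package K1: see `blueprint/D4S/README.md`. -/

set_option autoImplicit false
set_option linter.unusedSectionVars false
set_option linter.unusedSimpArgs false
set_option linter.unnecessarySeqFocus false

namespace H89.D4S
open Subgroup H69 U12
open H89.G2S (KK ιK σK)
open scoped commutatorElement

variable {F E G : Type*} [Field F] [Field E] [Cub F E] [CharP F 2] [CharP E 2] [Finite F] [Finite E]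
  [Group G] [Finite G]

namespace K1

theorem cj_φ (P : FP E G) (u x : U12 E) (l : Eˣ) (m : Fˣ) :
    P.φ u * P.h l m * P.φ x * (P.φ u * P.h l m)⁻¹ = P.φ (u * tor (l : E) (m : F) x * u⁻¹) := by
  rw [map_mul, map_mul, map_inv, ← P.h_φ]; group

theorem cj_φ' (P : FP E G) (u x : U12 E) (l : Eˣ) (m : Fˣ) (k : E) (hx : x.p0 = 0) :
    P.φ u * P.h l m * P.n0 * P.X 0 k * P.φ x * (P.φ u * P.h l m * P.n0 * P.X 0 k)⁻¹ =
    P.φ (u * tor (l : E) (m : F) (na (g0 k * x * (g0 k)⁻¹)) * u⁻¹) := by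
  rw [← cj_φ, ← P.n0_φ (by simp [hx, CharTwo.add_self_eq_zero]), map_mul, map_mul, map_inv, P.φ0]; group

theorem cj1 (u : U12 E) (c : F) : u * g1 c * u⁻¹ = (⟨0, 0, 0, 0, c, c * u.p5⟩ : U12 E) := by
  rw [mul_inv_eq_iff_eq_mul]
  ext <;> simp [g1, add_comm]
  grind

theorem cj2 (u : U12 E) (b : E) : u * g2 b * u⁻¹ =
    (⟨0, 0, 0, b, T (u.p0 * b), T (u.p0 * b) * u.p5 + T (b * u.p4)⟩ : U12 E) := by
  rw [mul_inv_eq_iff_eq_mul]
  ext <;> simp [g2, add_comm]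
  grind

theorem tor1 (l : E) (m c : F) : tor l m (g1 c : U12 E) = g1 (N l * m * c) := by ext <;> simp [g1]
theorem tor2 (l : E) (m : F) (b : E) : tor l m (g2 b : U12 E) = g2 (sh l * ι m * b) := by ext <;> simp [g2]

theorem red (P : FP E G) {p c : G} {σ : E ≃+* E} (hp : p ∈ P.P0) (hc : P.Act c σ)
    (h1 : ∃ e : F, p * c * P.φ (g1 1) * (p * c)⁻¹ = P.φ (g1 1) * P.X 3 (ι e))
    (h2 : ∀ a, ∃ e : F, p * c * P.φ (g2 a) * (p * c)⁻¹ = P.φ (g2 a) * P.X 3 (ι e)) :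
    P.Cn c ∧ ∃ u : U12 E, u.p0 = 0 ∧ p = P.φ u := by
  have k : ∀ x, p * c * P.φ x * (p * c)⁻¹ = p * P.φ (U12.map hc.tc x) * p⁻¹ := fun x => by
    rw [← hc.φ]; group
  obtain ⟨e, h1⟩ := h1
  rw [k, map_g1, map_one, ← P.φ3', ← map_mul] at h1
  obtain ⟨u, l, m, rfl | ⟨c, rfl⟩⟩ := P.pz p (P.P0_le_L hp) 1 one_ne_zero (by
    rw [← P.X3_comm_P0 _ hp, mul_inv_cancel_right]; exact P.X3_mem _)
  · rw [cj_φ, tor1, cj1] at h1
    have a1 := congrArg U12.p1 (P.inj h1)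
    have a2 : ∀ a, sh (l : E) * ι (m : F) * σ a = a ∧ T (u.p0 * (sh (l : E) * ι (m : F) * σ a)) = 0 := fun a => by
      obtain ⟨e, h⟩ := h2 a
      rw [k, map_g2, ← P.φ3', ← map_mul, cj_φ, tor2, cj2] at h
      exact ⟨by simpa [g2, g3] using congrArg U12.p2 (P.inj h), by simpa [g2, g3] using congrArg U12.p1 (P.inj h)⟩
    have b1 : N (l : E) * m = 1 := by simpa [g1, g3] using a1
    have b2 : sh (l : E) * ι (m : F) = 1 := by simpa using (a2 1).1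
    have e1 : (l : E) = 1 := by
      have : (l : E) * (sh (l : E) * ι (m : F)) = l * 1 := by rw [b2]
      rwa [← mul_assoc, mul_sh, ← map_mul, b1, map_one, mul_one, eq_comm] at this
    obtain rfl : l = 1 := Units.ext e1
    obtain rfl : m = 1 := Units.ext (by simpa using b1)
    refine ⟨Pin.cn_iff_act'.2 ?_, u, nd _ fun y => (a2 y).1 ▸ (a2 y).2, by rw [P.h_one, mul_one]⟩
    rwa [show σ = 1 from RingEquiv.ext fun a => by simpa using (a2 a).1] at hc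
  · have a := congrArg U12.p5 (P.inj ((cj_φ' P u _ l m c rfl).symm.trans h1))
    simp [g0, g1, g3, na] at a
    exact (m.ne_zero (by grind)).elim

theorem comm_mem (S : St E G) {l l' m m' : G} (hl : l ∈ S.L) (hl' : l' ∈ S.L) (hm : m ∈ S.Ct)
    (hm' : m' ∈ S.Ct) : ∃ k ∈ S.L, ⁅l * m, l' * m'⁆ = k * ⁅m, m'⁆ := by
  have n : ∀ g ∈ S.Ct, ∀ x ∈ S.L, g * x * g⁻¹ ∈ S.L := fun g hg => S.nL g (S.mem_Ct.1 hg)
  have h3 := mul_mem (mul_mem hm hm') (inv_mem hm)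
  exact ⟨_, mul_mem (mul_mem (mul_mem hl (n _ hm _ hl')) (n _ h3 _ (inv_mem hl)))
    (n _ (mul_mem h3 (inv_mem hm')) _ (inv_mem hl')), by simp only [commutatorElement_def]; group⟩

theorem mem_sup (S : St E G) {C : Subgroup G} (hC : C ≤ S.Ct) {x : G} (hx : x ∈ S.L ⊔ C) :
    ∃ l ∈ S.L, ∃ c ∈ C, l * c = x :=
  (coe_mul_of_right_le_normalizer_left S.L C (hC.trans S.Ct_norm_L)).le hx

theorem comm_C0 {S : St E G} {p c x : G} (hc : S.C0 c) (hx : x ∈ S.L) (h : p * c * x = x * (p * c)) :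
    p * x = x * p := by
  rwa [mul_assoc p, hc.2.comm hx, ← mul_assoc, ← mul_assoc, mul_left_inj] at h

end K1

namespace St
variable (S : St E G) {g : G}
/-- normal form of the elements of `C(t)` normalising `Z` -/
theorem nf (ht : g * S.t = S.t * g) (h : g * S.X 3 1 * g⁻¹ ∈ S.Z) : ∃ u l m c σ, S.Act c σ ∧
    c * S.t = S.t * c ∧ (g = S.φ u * S.h l m * c ∨ ∃ k, g = S.φ u * S.h l m * S.n0 * S.X 0 k * c) := by
  obtain ⟨l, hl, c, σ, hc, ct, rfl⟩ := S.dec ht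
  rw [show l * c * S.X 3 1 * (l * c)⁻¹ = l * (c * S.X 3 1 * c⁻¹) * l⁻¹ by group, hc.act, map_one] at h
  obtain ⟨u, a, b, rfl | ⟨k, rfl⟩⟩ := S.pz l hl 1 one_ne_zero (by rwa [map_one])
  exacts [⟨u, a, b, c, σ, hc, ct, .inl rfl⟩, ⟨u, a, b, c, σ, hc, ct, .inr ⟨k, rfl⟩⟩]
theorem cZ (ht : g * S.t = S.t * g) (h : ∀ a, g * S.X 3 a = S.X 3 a * g) :
    ∃ p ∈ S.P0, ∃ c, S.C1 c ∧ g = p * c := by
  obtain ⟨l, hl, c, σ, hc, ct, rfl⟩ := S.dec ht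
  have k : ∀ a, l * S.X 3 (σ a) = S.X 3 a * l := fun a => by
    rw [← hc.act, ← mul_assoc, ← mul_assoc, h]; group
  have hp : l ∈ S.P0 := S.memP_of_comm1 hl (by simpa using k 1)
  refine ⟨l, hp, c, ⟨ct, σ, hc, fun a => ?_⟩, rfl⟩
  have e : ι (hc.tc.res a) = σ (ι a) := hc.tc.ι_res a
  have := k (ι a)
  rw [S.X3_comm_P0 _ hp, mul_right_inj, ← e] at this
  rw [← e, Pin.X_injι S.inj 3 this]
theorem cQb (ht : g * S.t = S.t * g) (h : ∀ a, g * S.X 3 a = S.X 3 a * g)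
    (hQ : ∀ x : U12 E, x.p0 = 0 → ∃ e : F, g * S.φ x * g⁻¹ = S.φ x * S.X 3 (ι e)) :
    ∃ u c, u.p0 = 0 ∧ S.C0 c ∧ g = S.φ u * c := by
  obtain ⟨p, hp, c, ⟨ct, σ, hc, -⟩, rfl⟩ := S.cZ ht h
  obtain ⟨cn, u, hu, rfl⟩ := K1.red S.toFP hp hc (hQ _ rfl) fun a => hQ _ rfl
  exact ⟨u, c, hu, ⟨ct, cn⟩, rfl⟩
theorem cQ (ht : g * S.t = S.t * g) (h : ∀ x ∈ S.Q, g * x = x * g) :
    ∃ (a : F) (c : G), S.C0 c ∧ g = S.X 3 (ι a) * c := by
  obtain ⟨u, c, -, hc, rfl⟩ := S.cQb ht (fun a => h _ (S.Z_le_Q (S.X3_mem a))) fun x hx =>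
    ⟨0, by rw [h _ (S.φ_memQ hx), map_zero, S.X_zero, mul_inv_cancel_right, mul_one]⟩
  obtain ⟨a, e⟩ := S.mem_Z.1 (S.memZ_of_comm (S.φ_mem u) fun x hx =>
    K1.comm_C0 hc (S.U_le_L (S.Q_le_U hx)) (h x hx))
  exact ⟨a, c, hc, by rw [e]⟩
theorem cE (ht : g * S.t = S.t * g) (h1 : ∀ a, g * S.X 1 a = S.X 1 a * g)
    (h2 : ∀ a, g * S.X 2 a = S.X 2 a * g) (h3 : ∀ a, g * S.X 3 a = S.X 3 a * g) :
    ∃ (a : E) (b e : F) (c : G), S.C0 c ∧ g = S.X 2 a * S.X 1 (ι b) * S.X 3 (ι e) * c := by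
  obtain ⟨p, hp, c, ⟨ct, σ, hc, -⟩, rfl⟩ := S.cZ ht h3
  obtain ⟨cn, u, hu, rfl⟩ := K1.red S.toFP hp hc
    ⟨0, by rw [S.φ1', h1, map_zero, S.X_zero, mul_inv_cancel_right, mul_one]⟩ fun a =>
    ⟨0, by rw [S.φ2, h2, map_zero, S.X_zero, mul_inv_cancel_right, mul_one]⟩
  have hc : S.C0 c := ⟨ct, cn⟩
  obtain ⟨a, b, e, k⟩ := S.mem_E2.1 ⟨u, mem_E2_of_comm
    (S.inj (by rw [map_mul, map_mul, S.φ1']; exact K1.comm_C0 hc (S.X_mem _ _) (h1 _)))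
    (fun a => S.inj (by rw [map_mul, map_mul, S.φ2]; exact K1.comm_C0 hc (S.X_mem _ _) (h2 _))), rfl⟩
  exact ⟨a, b, e, c, hc, by rw [k]⟩
theorem cQ2 (ht : g * S.t = S.t * g) (h : ∀ i ≤ 4, ∀ a, g * S.X i a = S.X i a * g) :
    ∃ (b e : F) (c : G), S.C0 c ∧ g = S.X 1 (ι b) * S.X 3 (ι e) * c := by
  obtain ⟨a, b, e, c, hc, rfl⟩ := S.cE ht (h 1 (by decide)) (h 2 (by decide)) (h 3 (by decide))
  obtain rfl : a = 0 := nd _ fun y => by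
    have a0 := K1.comm_C0 hc (S.X_mem _ _) (h 0 (by decide) y)
    rw [← S.φ0, ← S.φ1', ← S.φ2, ← S.φ3'] at a0
    simp only [← map_mul] at a0
    have b1 := congrArg U12.p1 (S.inj a0)
    simpa [g0, g1, g2, g3, mul_comm] using b1
  exact ⟨b, e, c, hc, by simp⟩
/-- a perfect subgroup of `C(t)` generated by involutions lies in `L` -/
theorem perf_le (h : S.Db) {B : Subgroup G} (hB : B ≤ S.Ct) (hp : ⁅B, B⁆ = B) {x : G} (hx : x ∈ B)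
    (h2 : x * x = 1) : x ∈ S.L := by
  have c0 : S.C0s ≤ S.Ct := fun c hc => S.mem_Ct.2 hc.1
  have s1 : B ≤ S.L ⊔ S.C0s := hp.ge.trans (commutator_le.2 fun g hg g' hg' => by
    obtain ⟨l, hl, m, σ, hm, mt, rfl⟩ := S.dec (S.mem_Ct.1 (hB hg))
    obtain ⟨l', hl', m', σ', hm', mt', rfl⟩ := S.dec (S.mem_Ct.1 (hB hg'))
    obtain ⟨k, hk, e⟩ := K1.comm_mem S hl hl' (S.mem_Ct.2 mt) (S.mem_Ct.2 mt')
    have ha := ((hm.mul hm').mul hm.inv).mul hm'.inv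
    rw [G2S.aut_comm σ σ', mul_inv_cancel_right, mul_inv_cancel] at ha
    exact e ▸ mul_mem (mem_sup_left hk) (mem_sup_right ⟨S.mem_Ct.1 (commutator_le_of_le le_rfl le_rfl
      (commutator_mem_commutator (S.mem_Ct.2 mt) (S.mem_Ct.2 mt'))), Pin.cn_iff_act'.2 ha⟩))
  let O : Subgroup G := { carrier := {o | S.Od o}, mul_mem' := h.mul, one_mem' := S.od_one, inv_mem' := Od.inv }
  have s2 : B ≤ S.L ⊔ O := hp.ge.trans (commutator_le.2 fun g hg g' hg' => by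
    obtain ⟨l, hl, m, hm, rfl⟩ := K1.mem_sup S c0 (s1 hg)
    obtain ⟨l', hl', m', hm', rfl⟩ := K1.mem_sup S c0 (s1 hg')
    obtain ⟨k, hk, e⟩ := K1.comm_mem S hl hl' (c0 hm) (c0 hm')
    exact e ▸ mul_mem (mem_sup_left hk) (mem_sup_right (h.comm hm hm')))
  obtain ⟨l, hl, o, ho, rfl⟩ := K1.mem_sup S (C := O) (fun o ho => c0 ho.1) (s2 hx)
  rw [mul_assoc, ← mul_assoc o, ho.1.2.comm hl, mul_assoc, ← mul_assoc, mul_eq_one_iff_inv_eq] at h2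
  rw [Od.eq_one_sq ho ((ho.1.mul ho.1).eq_one (h2 ▸ inv_mem (mul_mem hl hl))), mul_one]
  exact hl
theorem tr2 (h : S.Db) (ht : g * S.t = S.t * g) (hc : ∀ i ≤ 4, ∀ a, g * S.X i a = S.X i a * g) :
    ∃ (b e : F) (o : G), S.Od o ∧
      (g = S.X 1 (ι b) * S.X 3 (ι e) * o ∨ g = S.X 1 (ι b) * S.X 3 (ι e) * S.t * o) := by
  obtain ⟨b, e, c, hc0, rfl⟩ := S.cQ2 ht hc
  obtain ⟨o, ho, rfl | rfl⟩ := h.cases hc0
  · exact ⟨b, e, _, ho, .inl rfl⟩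
  · exact ⟨b, e, o, ho, .inr (by rw [mul_assoc (S.X 1 (ι b) * S.X 3 (ι e))])⟩
end St

end H89.D4S
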