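import Cfsg.Agent.Lib.D4S.Defs
import Cfsg.Agent.Lib.D4S.CF

/-! Standard components of type `³D₄(2ⁿ)`, package UC: see `blueprint/D4S/README.md`. -/

set_option autoImplicit false
set_option linter.unusedSectionVars false

namespace H89.D4S
open Subgroup H69 U12
open H89.G2S (KK ιK σK)
open scoped commutatorElement

namespace UC
theorem step {G M : Type*} [Group G] [AddGroup M] (B : Subgroup G) (p : G → M)
    (hp : ∀ a ∈ B, ∀ b ∈ B, p (a * b) = p a + p b) : ∃ (I : AddSubgroup M) (B' : Subgroup G),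
    (∀ x ∈ I, ∃ a ∈ B, p a = x) ∧ (∀ a ∈ B', a ∈ B ∧ p a = 0) ∧ Nat.card B = Nat.card I * Nat.card B' := by
  let f : B →* Multiplicative M := MonoidHom.mk' (fun a => .ofAdd (p a)) fun a b => congrArg _ (hp _ a.2 _ b.2)
  refine ⟨Subgroup.toAddSubgroup' f.range, f.ker.map B.subtype, fun x ⟨a, e⟩ => ⟨a, a.2, e⟩, ?_, ?_⟩
  · rintro _ ⟨a, e, rfl⟩
    exact ⟨a.2, e⟩
  · rw [← f.ker.card_mul_index, index_ker, mul_comm, card_map_of_injective B.subtype_injective]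
    rfl

theorem bot_or {M : Type*} [AddGroup M] (I : AddSubgroup M) : Nat.card I = 1 ∨ ∃ x ∈ I, x ≠ 0 :=
  I.bot_or_exists_ne_zero.imp_left fun e => by rw [e, AddSubgroup.card_bot]

theorem one_of {M : Type*} [AddGroup M] {I : AddSubgroup M} (h : ∀ x ∈ I, x = 0) : Nat.card I = 1 :=
  (bot_or I).resolve_right fun ⟨x, a, b⟩ => b (h x a)

theorem le_of {M : Type*} [AddGroup M] [Finite M] {I : AddSubgroup M} {S : Set M} (h : ∀ x ∈ I, x ∈ S) :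
    Nat.card I ≤ Nat.card S :=
  Nat.card_le_card_of_injective (Set.inclusion (show (I : Set M) ⊆ S from h)) (Set.inclusion_injective _)

variable {F E : Type*} [Field F] [Field E] [Cub F E] [CharP F 2] [CharP E 2] [Finite F] [Finite E]

theorem struct (A : Subgroup (U12 E)) (hA : ∀ a ∈ A, a * a = 1) (S : Set E) (h : ∀ a ∈ A, Lead S a) :
    ∃ (I0 I4 I2 : AddSubgroup E) (I5 I1 I3 : AddSubgroup F),
      Nat.card A = Nat.card I0 * (Nat.card I5 * (Nat.card I4 * (Nat.card I2 * (Nat.card I1 * Nat.card I3)))) ∧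
      (∀ x ∈ I0, x ∈ S) ∧ (∀ x ∈ I4, x ∈ S) ∧ (∀ x ∈ I2, x ∈ S) ∧ (∀ x ∈ I5, (ι x : E) ∈ S) ∧
      (∀ x ∈ I1, (ι x : E) ∈ S) ∧ (∀ x ∈ I3, (ι x : E) ∈ S) ∧ (∀ x ∈ I0, ∀ y ∈ I2, T (x * y) = 0) ∧
      (∀ x ∈ I4, ∀ y ∈ I2, T (x * y) = 0) ∧ (Nat.card I5 = 1 ∨ Nat.card I1 = 1) ∧
      (Nat.card I0 = 1 ∨ (∃ x ∈ I0, x ≠ 0) ∧ Nat.card I5 = 1 ∧ Nat.card I4 = 1) := by
  have cm : ∀ a ∈ A, ∀ b ∈ A, a * b = b * a := fun a ha b hb => by
    rw [← inv_eq_of_mul_eq_one_right (hA _ (mul_mem ha hb)), mul_inv_rev,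
      inv_eq_of_mul_eq_one_right (hA a ha), inv_eq_of_mul_eq_one_right (hA b hb)]
  obtain ⟨I0, A0, i0, a0, c0⟩ := step A p0 fun _ _ _ _ => rfl
  obtain ⟨I5, A5, i5, a5, c5⟩ := step A0 p5 fun _ _ _ _ => rfl
  have b5 : ∀ a ∈ A5, a ∈ A ∧ a.p0 = 0 ∧ a.p5 = 0 := fun a ha => ⟨(a0 _ (a5 a ha).1).1, (a0 _ (a5 a ha).1).2, (a5 a ha).2⟩
  obtain ⟨I4, A4, i4, a4, c4⟩ := step A5 p4 fun a ha b hb => by simp [b5 a ha]
  have b4 : ∀ a ∈ A4, a ∈ A ∧ a.p0 = 0 ∧ a.p5 = 0 ∧ a.p4 = 0 := fun a ha => by simp [b5 _ (a4 a ha).1, a4 a ha]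
  obtain ⟨I2, A2, i2, a2, c2⟩ := step A4 p2 fun a ha b hb => by simp [b4 a ha]
  have b2 : ∀ a ∈ A2, a ∈ A ∧ a.p0 = 0 ∧ a.p5 = 0 ∧ a.p4 = 0 ∧ a.p2 = 0 := fun a ha => by
    simp [b4 _ (a2 a ha).1, a2 a ha]
  obtain ⟨I1, A1, i1, a1, c1⟩ := step A2 p1 fun a ha b hb => by simp [b2 a ha]
  have b1 : ∀ a ∈ A1, a ∈ A ∧ a.p0 = 0 ∧ a.p5 = 0 ∧ a.p4 = 0 ∧ a.p2 = 0 ∧ a.p1 = 0 := fun a ha => by
    simp [b2 _ (a1 a ha).1, a1 a ha]
  obtain ⟨I3, A3, i3, a3, c3⟩ := step A1 p3 fun a ha b hb => by simp [b1 a ha]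
  have e3 : A3 = ⊥ := eq_bot_iff.2 fun a ha => by
    obtain ⟨-, e0, e5, e4, e2, e1⟩ := b1 _ (a3 a ha).1
    exact U12.ext e0 e5 e4 e2 e1 (a3 a ha).2
  refine ⟨I0, I4, I2, I5, I1, I3, by rw [c0, c5, c4, c2, c1, c3, e3, card_bot, mul_one], fun x hx => ?_,
    fun x hx => ?_, fun x hx => ?_, fun x hx => ?_, fun x hx => ?_, fun x hx => ?_, fun x hx y hy => ?_,
    fun x hx y hy => ?_, ?_, ?_⟩
  · obtain ⟨a, ha, rfl⟩ := i0 x hx
    exact (h a ha).1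
  · obtain ⟨a, ha, rfl⟩ := i4 x hx
    obtain ⟨m, e0, e5⟩ := b5 a ha
    exact ((h a m).2.2 e0 e5).1
  · obtain ⟨a, ha, rfl⟩ := i2 x hx
    obtain ⟨m, e0, e5, e4⟩ := b4 a ha
    exact (((h a m).2.2 e0 e5).2 e4).1
  · obtain ⟨a, ha, rfl⟩ := i5 x hx
    exact (h a (a0 a ha).1).2.1
  · obtain ⟨a, ha, rfl⟩ := i1 x hx
    obtain ⟨m, e0, e5, e4, e2⟩ := b2 a ha
    exact ((((h a m).2.2 e0 e5).2 e4).2 e2).1
  · obtain ⟨a, ha, rfl⟩ := i3 x hx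
    obtain ⟨m, e0, e5, e4, e2, e1⟩ := b1 a ha
    exact ((((h a m).2.2 e0 e5).2 e4).2 e2).2 e1
  · obtain ⟨a, ha, rfl⟩ := i0 x hx
    obtain ⟨b, hb, rfl⟩ := i2 y hy
    obtain ⟨m, e0, e5, e4⟩ := b4 b hb
    simpa [e0, e5, e4, add_comm] using congrArg p1 (cm a ha b m)
  · obtain ⟨a, ha, rfl⟩ := i4 x hx
    obtain ⟨b, hb, rfl⟩ := i2 y hy
    obtain ⟨m', f0, f5⟩ := b5 a ha
    obtain ⟨m, e0, e5, e4⟩ := b4 b hb
    simpa [e0, e5, e4, f0, f5, add_comm, mul_comm] using congrArg p3 (cm b m a m')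
  · refine (bot_or I5).imp_right fun ⟨x, hx, x0⟩ => one_of fun y hy => ?_
    obtain ⟨a, ha, rfl⟩ := i5 x hx
    obtain ⟨b, hb, rfl⟩ := i1 y hy
    obtain ⟨m, e0, e5, e4, e2⟩ := b2 b hb
    simpa [e0, e5, e4, e2, (a0 a ha).2, x0, add_comm] using congrArg p3 (cm b m a (a0 a ha).1)
  · refine (bot_or I0).imp_right fun ⟨x, hx, x0⟩ => ⟨⟨x, hx, x0⟩, one_of fun y hy => ?_, one_of fun y hy => ?_⟩
    · obtain ⟨a, ha, rfl⟩ := i0 x hx
      obtain ⟨b, hb, rfl⟩ := i5 y hy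
      simpa [(a0 b hb).2, x0, add_comm] using congrArg p4 (cm a ha b (a0 b hb).1)
    · obtain ⟨a, ha, rfl⟩ := i0 x hx
      obtain ⟨b, hb, rfl⟩ := i4 y hy
      obtain ⟨m, e0, e5⟩ := b5 b hb
      obtain ⟨c, e4⟩ := cr_eq_zero x0 (x := b.p4) (by simpa [e0, e5, add_comm] using congrArg p2 (cm a ha b m))
      have e1 : T (a.p0 * b.p2) + T (sh a.p0 * b.p4) = 0 := by
        have := congrArg p1 (cm a ha b m)
        simp only [mul_p1, e0, e5, zero_mul, sh_zero, map_zero, N_zero, mul_zero, add_zero] at this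
        linear_combination this
      have e2 : T (b.p2 * b.p4) = 0 := by
        simpa [e0, e5, CharTwo.add_self_eq_zero] using congrArg p3 (hA b m)
      rw [e4, mul_left_comm, T_ι_mul, mul_comm (sh _), T_mul_sh, CharTwo.add_eq_zero] at e1
      rw [e4, mul_left_comm, T_ι_mul, mul_comm b.p2, e1, mul_eq_zero, mul_eq_zero, N_eq_zero] at e2
      rw [e4, show c = 0 by tauto, map_zero, zero_mul]
end UC

namespace U12
variable {F E : Type*} [Field F] [Field E] [Cub F E] [CharP F 2] [CharP E 2] [Finite F] [Finite E]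
variable (hc : Nat.card E = Nat.card F ^ 3)
include hc
theorem card_elem' (A : Subgroup (U12 E)) (hA : ∀ a ∈ A, a * a = 1) : Nat.card A ≤ Nat.card F ^ 5 := by
  obtain ⟨I0, I4, I2, I5, I1, I3, e, -, -, -, -, -, -, o0, o4, d5, d0⟩ :=
    UC.struct A hA Set.univ fun a _ => by simp [Lead]
  have k0 := card_orth hc I0 I2 o0
  have k4 := card_orth hc I4 I2 o4
  have k5 := I5.card_le_card_addGroup
  have k1 := I1.card_le_card_addGroup
  have k3 := I3.card_le_card_addGroup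
  rw [e]
  rcases d0 with d | ⟨-, d, d'⟩
  · have : Nat.card I5 * Nat.card I1 ≤ Nat.card F := by rcases d5 with f | f <;> simpa [f]
    calc _ = Nat.card I4 * Nat.card I2 * (Nat.card I5 * Nat.card I1) * Nat.card I3 := by rw [d]; ring
      _ ≤ Nat.card F ^ 3 * Nat.card F * Nat.card F := by gcongr
      _ = _ := by ring
  · calc _ = Nat.card I0 * Nat.card I2 * Nat.card I1 * Nat.card I3 := by rw [d, d']; ring
      _ ≤ Nat.card F ^ 3 * Nat.card F * Nat.card F := by gcongr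
      _ = _ := by ring
theorem card_elem (ρ : E ≃+* E) (h2 : ∀ a, ρ (ρ a) = a) (h1 : ρ ≠ 1) (A : Subgroup (U12 E))
    (hA : ∀ a ∈ A, a * a = 1) (h : ∀ a ∈ A, Lead {x | ρ x = x} a) : Nat.card A ^ 2 ≤ Nat.card F ^ 7 := by
  obtain ⟨I0, I4, I2, I5, I1, I3, e, s0, s4, s2, s5, s1, s3, o0, o4, d5, d0⟩ := UC.struct A hA _ h
  obtain ⟨c, hc'⟩ := exists_free ρ h2 h1
  have kE : ∀ I : AddSubgroup E, (∀ x ∈ I, x ∈ {x | ρ x = x}) → Nat.card I ^ 2 ≤ Nat.card F ^ 3 := fun I s =>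
    (Nat.pow_le_pow_left (UC.le_of s) 2).trans ((G2S.card_fix ρ h2 hc').trans hc).le
  have kF : ∀ I : AddSubgroup F, (∀ x ∈ I, (ι x : E) ∈ {x | ρ x = x}) → Nat.card I ^ 2 ≤ Nat.card F := fun I s =>
    (Nat.pow_le_pow_left (UC.le_of (S := {a : F | ρ (ι a) = ι a}) s) 2).trans (card_fixF ρ h2 h1).le
  have k2 : ∀ k, k ≠ 0 → ρ k = k → (∀ y ∈ I2, T (k * y) = 0) → Nat.card I2 ≤ Nat.card F := fun k a b o =>
    (UC.le_of (S := {x : E | ρ x = x ∧ T (k * x) = 0}) fun y hy => ⟨s2 y hy, o y hy⟩).trans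
      (card_ker_fix hc ρ h2 h1 a b).le
  have k3 := kF I3 s3
  have k1 := kF I1 s1
  have k5 := kF I5 s5
  rw [e]
  rcases d0 with d | ⟨⟨x, hx, x0⟩, d, d'⟩
  · have a : (Nat.card I5 * Nat.card I1) ^ 2 ≤ Nat.card F := by rcases d5 with f | f <;> simpa [f]
    have b : (Nat.card I4 * Nat.card I2) ^ 2 ≤ Nat.card F ^ 5 := by
      rcases UC.bot_or I4 with f | ⟨y, hy, y0⟩
      · rw [f, one_mul]
        exact (kE I2 s2).trans (Nat.pow_le_pow_right Nat.card_pos (by norm_num))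
      · rw [mul_pow, show 5 = 3 + 2 from rfl, pow_add]
        exact Nat.mul_le_mul (kE I4 s4) (Nat.pow_le_pow_left (k2 y y0 (s4 y hy) (o4 y hy)) 2)
    calc _ = (Nat.card I4 * Nat.card I2) ^ 2 * (Nat.card I5 * Nat.card I1) ^ 2 * Nat.card I3 ^ 2 := by rw [d]; ring
      _ ≤ Nat.card F ^ 5 * Nat.card F * Nat.card F := by gcongr
      _ = _ := by ring
  · have a := kE I0 s0
    have b := k2 x x0 (s0 x hx) (o0 x hx)
    calc _ = Nat.card I0 ^ 2 * Nat.card I2 ^ 2 * Nat.card I1 ^ 2 * Nat.card I3 ^ 2 := by rw [d, d']; ring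
      _ ≤ Nat.card F ^ 3 * Nat.card F ^ 2 * Nat.card F * Nat.card F := by gcongr
      _ = _ := by ring
end U12

end H89.D4S
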