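import Cfsg.Agent.Lib.D4S.K1
import Cfsg.Agent.Lib.D4S.UC
import Cfsg.Agent.Lib.G2S.Gen

/-! Standard components of type `³D₄(2ⁿ)`, package P1A: see `blueprint/D4S/README.md`. -/

set_option autoImplicit false
set_option linter.unusedSectionVars false

namespace H89.D4S
open Subgroup H69 U12
open H89.G2S (KK ιK σK)
open scoped commutatorElement

variable {F E G : Type*} [Field F] [Field E] [Cub F E] [CharP F 2] [CharP E 2] [Finite F] [Finite E]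
  [Group G] [Finite G]

theorem P1A.card_two_mul {A B : Subgroup G} (le : B ≤ A) (h : ∀ a ∈ A, ∀ a' ∈ A, a ∉ B → a' ∉ B → a * a' ∈ B) :
    Nat.card A ≤ 2 * Nat.card B := by
  by_cases e : A ≤ B
  · exact (card_le_of_le e).trans (by omega)
  obtain ⟨f, hf, n⟩ := SetLike.not_le_iff_exists.1 e
  have i2 : (B.subgroupOf A).index = 2 := by
    refine index_eq_two_iff.2 ⟨⟨f, hf⟩, fun b => ?_⟩
    by_cases hb : (b : G) ∈ B
    · exact Or.inr ⟨hb, fun h => n ((B.mul_mem_cancel_left hb).1 h)⟩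
    · exact Or.inl ⟨h _ b.2 _ hf hb n, hb⟩
  rw [← (B.subgroupOf A).card_mul_index, i2, card_subgroupOf le, mul_comm]

theorem P1A.comm_of_sq {A : Subgroup G} (h : ∀ a ∈ A, a * a = 1) {a b : G} (ha : a ∈ A) (hb : b ∈ A) :
    a * b = b * a := by
  rw [← inv_eq_of_mul_eq_one_right (h _ (mul_mem ha hb)), mul_inv_rev, inv_eq_of_mul_eq_one_right (h a ha),
    inv_eq_of_mul_eq_one_right (h b hb)]

theorem P1A.cmt_l {t a b : G} (h1 : t * a = a * t) (h2 : t * b = b * t) : ⁅t * a, b⁆ = ⁅a, b⁆ := by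
  have : Commute t (a * b * a⁻¹) := (Commute.mul_right h1 h2).mul_right (Commute.inv_right h1)
  calc _ = t * (a * b * a⁻¹) * t⁻¹ * b⁻¹ := by simp only [commutatorElement_def]; group
    _ = _ := by rw [this.eq, mul_inv_cancel_right, commutatorElement_def]

theorem P1A.cz {S : St E G} {m : G} (h : S.Act m 1) (u : U12 E) (a : E) :
    S.φ u * m * S.X 3 a = S.X 3 a * (S.φ u * m) :=
  Commute.mul_left (S.X3_comm_φ a u).symm (Pin.cn_iff_act'.2 h 3 a)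

theorem P1A.sq {S : St E G} {m : G} {ρ : E ≃+* E} (h : S.Act m ρ) (h2 : m * m = 1) : ρ * ρ = 1 :=
  (h.mul h).eq_one_of_mem S.inj (h2 ▸ one_mem _)

theorem P1A.J_comm {S : St E G} {x y : G} (hx : x ∈ S.J) (hy : y ∈ S.J) : ⁅x, y⁆ ∈ S.U := by
  have c : ∀ u, S.t * S.φ u = S.φ u * S.t := fun u => S.t_comm (S.φ_mem u)
  have k : ∀ u v, ⁅S.φ u, S.φ v⁆ ∈ S.U := fun u v => by rw [← map_commutatorElement]; exact S.φ_memU _
  have k2 : ∀ u, ⁅S.φ u, y⁆ ∈ S.U := fun u => by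
    obtain ⟨v, rfl | rfl⟩ := S.mem_J.1 hy
    · exact k u v
    · rw [← commutatorElement_inv, P1A.cmt_l (c v) (c u)]; exact inv_mem (k v u)
  obtain ⟨u, rfl | rfl⟩ := S.mem_J.1 hx
  · exact k2 u
  · rw [P1A.cmt_l (c u)]
    · exact k2 u
    · obtain ⟨v, rfl | rfl⟩ := S.mem_J.1 hy
      exacts [c v, Commute.mul_right rfl (c v)]

theorem P1A.J_t {S : St E G} {x : G} (hx : x ∈ S.J) : x * S.t = S.t * x := by
  obtain ⟨u, rfl | rfl⟩ := S.mem_J.1 hx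
  exacts [(S.t_comm (S.φ_mem u)).symm, Commute.mul_left rfl (S.t_comm (S.φ_mem u)).symm]

namespace St
variable {S : St E G} {T1 : Subgroup G} (h1 : IsSylowIn 2 T1 S.N1)
include h1
theorem t_memT1 : S.t ∈ T1 :=
  h1.le_of_le_normalizer (G2S.isP_zp S.tt) (zpowers_le.2 (S.mem_N1.2 ⟨rfl, _, Pin.cn_iff_act.1 S.tX⟩))
    (le_normalizer_of_le_centralizer fun m hm => by
      rw [centralizer_zpowers]; exact (h1.le hm).2) (mem_zpowers _)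
theorem sylT : IsSylowIn 2 (S.U ⊔ T1) S.Ct := by
  have := G2S.sylSup S.sylU h1 (inf_le_left.trans S.No_norm_L) ((h1.le.trans inf_le_left).trans S.No_norm_U)
  rwa [show S.L ⊔ S.N1 = S.Ct from le_antisymm (sup_le S.L_le_Ct inf_le_right) fun g hg => by
    obtain ⟨l, hl, m, σ, a, c, rfl⟩ := S.dec (S.mem_Ct.1 hg)
    exact mul_mem_sup hl (S.mem_N1.2 ⟨c, σ, a⟩)] at this
theorem mem_T {g : G} : g ∈ S.U ⊔ T1 ↔ ∃ u, ∃ m ∈ T1, g = S.φ u * m := by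
  rw [mem_sup_of_le_normalizer_left ((h1.le.trans inf_le_left).trans S.No_norm_U)]
  exact ⟨fun ⟨_, ⟨u, e⟩, m, hm, e'⟩ => ⟨u, m, hm, e ▸ e'⟩, fun ⟨u, m, hm, e⟩ => ⟨_, S.φ_memU u, m, hm, e⟩⟩
theorem J_le_T : S.J ≤ S.U ⊔ T1 := sup_le (zpowers_le.2 (mem_sup_right (t_memT1 h1))) le_sup_left
theorem invol_T {u : U12 E} {m : G} (hm : m ∈ T1) (h : S.φ u * m * (S.φ u * m) = 1) : m * m = 1 := by
  obtain ⟨c, ρ, a⟩ := S.mem_N1.1 (h1.le hm)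
  have e : m * m = S.φ (u * U12.map a.tc u)⁻¹ := by
    rw [map_inv, map_mul, ← a.φ]
    exact eq_inv_of_mul_eq_one_right (by rw [← h]; group)
  exact C0.eq_one ⟨Commute.mul_left c c, Pin.cn_iff_act'.2
    ((a.mul a).eq_one_of_mem S.inj (e ▸ S.φ_memU _) ▸ a.mul a)⟩ (e ▸ S.φ_mem _)
/-- an element of `T` centralising `Z` -/
theorem cn_T {u : U12 E} {m : G} (hm : m ∈ T1)
    (h : ∀ a, S.φ u * m * S.X 3 a = S.X 3 a * (S.φ u * m)) : S.C0 m := by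
  obtain ⟨c, ρ, a⟩ := S.mem_N1.1 (h1.le hm)
  obtain ⟨k, hk⟩ := isPGroup_iff_mem.1 h1.isP m hm
  refine ⟨c, S.cn_of_two a hk fun b => ?_⟩
  have := h b
  rwa [← mul_assoc, S.X3_comm_φ, mul_assoc, mul_assoc, mul_right_inj] at this
theorem P1A.mem_J {x : G} (hx : x ∈ S.U ⊔ T1) (h2 : x * x = 1) (h : ∀ a, x * S.X 3 a = S.X 3 a * x) :
    x ∈ S.J := by
  obtain ⟨u, m, hm, rfl⟩ := (mem_T h1).1 hx
  rcases (cn_T h1 hm h).invol (invol_T h1 hm h2) with rfl | rfl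
  exacts [S.mem_J.2 ⟨u, Or.inl (mul_one _)⟩, S.mem_J.2 ⟨u, Or.inr (S.t_comm (S.φ_mem u)).symm⟩]
theorem elem_le_J {A : Subgroup G} (hA : A ≤ S.U ⊔ T1) (h2 : ∀ a ∈ A, a * a = 1)
    (hc : 2 * Nat.card F ^ 5 ≤ Nat.card A) : A ≤ S.J := by
  have cz : ∀ {x}, x ∈ 𝐂(S.Z) ↔ ∀ a, x * S.X 3 a = S.X 3 a * x := fun {x} =>
    ⟨fun h a => (h _ (S.X3_mem a)).symm, fun h y hy => by obtain ⟨a, rfl⟩ := S.mem_Z.1 hy; exact (h _).symm⟩
  have dt : ∀ x ∈ A, x ∉ 𝐂(S.Z) → ∃ u m ρ, S.Act m ρ ∧ ρ * ρ = 1 ∧ ρ ≠ 1 ∧ x = S.φ u * m := by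
    intro x hx n
    obtain ⟨u, m, hm, rfl⟩ := (mem_T h1).1 (hA hx)
    obtain ⟨c, ρ, a⟩ := S.mem_N1.1 (h1.le hm)
    refine ⟨u, m, ρ, a, P1A.sq a (invol_T h1 hm (h2 _ hx)), ?_, rfl⟩
    rintro rfl
    exact n (cz.2 (P1A.cz a u))
  have ap : ∀ {ρ : E ≃+* E}, ρ * ρ = 1 → ∀ a, ρ (ρ a) = a := fun h a => DFunLike.congr_fun h a
  intro f hf
  refine P1A.mem_J h1 (hA hf) (h2 f hf) (cz.1 (by_contra fun n => ?_))
  obtain ⟨u, m, ρ, a, ρ2, ρ1, rfl⟩ := dt f hf n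
  have c1 : Nat.card A ≤ 2 * Nat.card (A ⊓ 𝐂(S.Z) : Subgroup G) := by
    refine P1A.card_two_mul inf_le_left fun x hx y hy nx ny => ⟨mul_mem hx hy, cz.2 fun b => ?_⟩
    obtain ⟨v, n, σ, a', σ2, σ1, rfl⟩ := dt x hx fun h => nx ⟨hx, h⟩
    obtain ⟨w, o, τ, a'', τ2, τ1, rfl⟩ := dt y hy fun h => ny ⟨hy, h⟩
    obtain rfl := G2S.aut_invol (ap σ2) σ1 (ap τ2) τ1
    have : S.φ v * n * (S.φ w * o) = S.φ (v * U12.map a'.tc w) * (n * o) := by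
      rw [map_mul, ← a'.φ]; group
    rw [this]
    exact P1A.cz (σ2 ▸ a'.mul a'') _ b
  have c2 : Nat.card (A ⊓ 𝐂(S.Z) : Subgroup G) ≤ 2 * Nat.card (A ⊓ S.U : Subgroup G) := by
    refine P1A.card_two_mul (fun x hx => ⟨hx.1, cz.2 fun b => ?_⟩) fun x hx y hy nx ny => ⟨mul_mem hx.1 hy.1, ?_⟩
    · obtain ⟨v, rfl⟩ := hx.2
      exact (S.X3_comm_φ b v).symm
    · obtain ⟨v, rfl | rfl⟩ := S.mem_J.1 (P1A.mem_J h1 (hA hx.1) (h2 x hx.1) (cz.1 hx.2))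
      · exact absurd ⟨hx.1, S.φ_memU v⟩ nx
      obtain ⟨w, rfl | rfl⟩ := S.mem_J.1 (P1A.mem_J h1 (hA hy.1) (h2 y hy.1) (cz.1 hy.2))
      · exact absurd ⟨hy.1, S.φ_memU w⟩ ny
      rw [Commute.mul_mul_mul_comm (S.t_comm (S.φ_mem v)).symm, S.tt, one_mul]
      exact mul_mem (S.φ_memU v) (S.φ_memU w)
  have c3 : Nat.card (A ⊓ S.U : Subgroup G) ^ 2 ≤ Nat.card F ^ 7 := by
    rw [show A ⊓ S.U = (A.comap S.φ).map S.φ by rw [map_comap_eq, inf_comm]; rfl, card_map_of_injective S.inj]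
    refine card_elem S.cub ρ (ap ρ2) ρ1 _ (fun y hy => S.inj (by rw [map_mul, map_one]; exact h2 _ hy)) fun y hy =>
      lead_fix a.tc (u := u) (S.inj ?_)
    rw [map_mul, map_mul, map_inv, ← a.φ]
    calc _ = S.φ u * m * S.φ y * (S.φ u * m)⁻¹ := by group
      _ = _ := mul_inv_eq_iff_eq_mul.2 (P1A.comm_of_sq h2 hf hy)
  have n2 := two_le_card F
  generalize Nat.card F = n at c3 hc n2
  generalize Nat.card (A ⊓ S.U : Subgroup G) = x at c2 c3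
  have n3 : 2 ^ 3 ≤ n ^ 3 := Nat.pow_le_pow_left n2 3
  have n7 : 0 < n ^ 7 := by positivity
  have c4 : (n ^ 5) ^ 2 ≤ (2 * x) ^ 2 := Nat.pow_le_pow_left (by omega) 2
  rw [show (n ^ 5) ^ 2 = n ^ 3 * n ^ 7 by ring, mul_pow] at c4
  nlinarith
theorem conj_elem {B : Subgroup G} (hB : B ≤ S.L) (h2 : ∀ a ∈ B, a * a = 1)
    (hc : Nat.card F ^ 5 ≤ Nat.card B) {g : G}
    (h : ∀ x ∈ zpowers S.t ⊔ B, g * x * g⁻¹ ∈ S.U ⊔ T1) : ∀ x ∈ zpowers S.t ⊔ B, g * x * g⁻¹ ∈ S.J := by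
  have ct : ∀ b ∈ B, S.t * b = b * S.t := fun b hb => S.t_comm (hB hb)
  refine fun x hx => elem_le_J h1 (A := (zpowers S.t ⊔ B) ^ᶜ g) (fun _ ⟨x, hx, e⟩ => e ▸ h x hx) ?_ ?_ (cj_mem g hx)
  · rintro _ ⟨x, hx, rfl⟩
    have : x * x = 1 := by
      rcases (G2S.mem_sup_zp S.tt ct).1 hx with h | h
      · exact h2 x h
      · have e : x = S.t * (S.t * x) := by rw [← mul_assoc, S.tt, one_mul]
        rw [e, Commute.mul_mul_mul_comm (ct _ h).symm, S.tt, h2 _ h, mul_one]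
    show g * x * g⁻¹ * (g * x * g⁻¹) = 1
    rw [conj_mul, this]; group
  · rw [card_cj, G2S.card_sup_zp S.tt (fun h => S.t_notMem (hB h)) ct]
    exact Nat.mul_le_mul_left 2 hc
theorem conj_J {g : G} (h : ∀ x ∈ S.J, g * x * g⁻¹ ∈ S.U ⊔ T1) : g ∈ 𝐍(S.J) := by
  have k : ∀ i ≤ 5, S.t ∈ S.J ^ᶜ g⁻¹ ∧ ∀ a, S.X i a ∈ S.J ^ᶜ g⁻¹ := fun i hi => by
    obtain ⟨B, le, sq, c, m, -⟩ := S.elem hi
    have : zpowers S.t ⊔ B ≤ S.J ^ᶜ g⁻¹ := cj_le_iff.1 fun _ ⟨x, hx, e⟩ => e ▸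
      conj_elem h1 (le.trans S.U_le_L) sq c.ge (fun x hx => h x (sup_le_sup_left le _ hx)) x hx
    exact ⟨this (mem_sup_left (mem_zpowers _)), fun a => this (mem_sup_right (m a))⟩
  exact mem_normalizer_of_cj_le (cj_le_iff.2 (sup_le (zpowers_le.2 (k 0 (by decide)).1)
    (S.U_le.2 fun i hi => (k i hi).2)))
omit h1 in
theorem norm_V_of_J {g : G} (h : g ∈ 𝐍(S.J)) : g ∈ 𝐍(S.V) ∧ g * S.t * g⁻¹ ∉ S.Z := by
  have UJ : ∀ u, S.φ u ∈ S.J := fun u => S.mem_J.2 ⟨u, Or.inl rfl⟩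
  have e : S.V = S.J ⊓ 𝐂(S.J) := by
    refine le_antisymm (le_inf (sup_le_sup_left (S.Z_le_Q.trans S.Q_le_U) _)
      (sup_le (zpowers_le.2 fun x hx => P1A.J_t hx) fun y hy x hx => ?_)) fun x hx => ?_
    · obtain ⟨a, rfl⟩ := S.mem_Z.1 hy
      obtain ⟨u, rfl | rfl⟩ := S.mem_J.1 hx
      exacts [(S.X3_comm_φ _ u).symm, Commute.mul_left (S.t_comm (S.X_mem 3 _)) (S.X3_comm_φ _ u).symm]
    · have k : ∀ u, S.φ u ∈ 𝐂(S.J) → S.φ u ∈ S.Z := fun u hu =>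
        ⟨u, mem_Z_of_comm fun v => S.inj (by rw [map_mul, map_mul]; exact (hu _ (UJ v)).symm), rfl⟩
      have tc : S.t ∈ 𝐂(S.J) := fun x hx => P1A.J_t hx
      obtain ⟨u, rfl | rfl⟩ := S.mem_J.1 hx.1
      exacts [mem_sup_right (k u hx.2), mul_mem_sup (mem_zpowers _) (k u ((mul_mem_cancel_left tc).1 hx.2))]
  refine ⟨e ▸ le_normalizer_inf le_rfl (normalizer_le_normalizer_centralizer _) h, fun hz => S.t_notMem ?_⟩
  obtain ⟨a, ha⟩ := S.mem_Z.1 hz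
  have := P1A.J_comm (conj_mem_of_mem_normalizer (inv_mem h) (S.φ5' 1 ▸ UJ (g5 1)))
    (conj_mem_of_mem_normalizer (inv_mem h) (S.φ1' a ▸ UJ (g1 a)))
  rw [← conjugate_commutatorElement, S.comm51, one_mul, ha, show g⁻¹ * (g * S.t * g⁻¹) * g⁻¹⁻¹ = S.t by group] at this
  exact S.U_le_L this
omit h1 in
theorem card_two (h : S.Db) {g : G} {P : Subgroup G} (hP : IsPGroup 2 P)
    (hc : ∀ p ∈ P, p * (g * S.t * g⁻¹) = g * S.t * g⁻¹ * p) : Nat.card P ≤ Nat.card F ^ 13 := by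
  obtain ⟨T1, h1⟩ := exists_isSylowIn 2 S.N1
  have c1 := (sylT h1).card_le (isPGroup_cj hP g⁻¹) fun _ ⟨p, hp, e⟩ => e ▸ S.mem_Ct.2 (by
    have := G2S.Gen.cjc (j := g⁻¹) (hc p hp)
    rwa [show g⁻¹ * (g * S.t * g⁻¹) * g⁻¹⁻¹ = S.t by group] at this)
  have c2 := H1.card_sup_mul_card_inf_of_le_normalizer ((h1.le.trans inf_le_left).trans S.No_norm_U)
  have c3 : 0 < Nat.card (T1 ⊓ S.U : Subgroup G) := Nat.card_pos
  rw [sup_comm, S.cardU] at c2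
  rw [card_cj] at c1
  choose ρ hρ using fun m : T1 => (S.mem_N1.1 (h1.le m.2)).2
  let f : T1 →* (E ≃+* E) := MonoidHom.mk' ρ fun a b => Pin.Act.uniq S.inj (hρ (a * b)) ((hρ a).mul (hρ b))
  have c4 : Nat.card f.ker ≤ 2 := by
    rw [← card_map_subtype, ← orderOf_eq_prime (p := 2) (x := S.t) (by rw [pow_two, S.tt]) S.t1, ← Nat.card_zpowers]
    refine card_le_of_le ?_
    rintro _ ⟨m, hm, rfl⟩
    obtain ⟨k, hk⟩ := isPGroup_iff_mem.1 h1.isP m m.2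
    exact (G2S.Gen.mem_zp S.tt).2 (h.two _ ⟨(S.mem_N1.1 (h1.le m.2)).1,
      Pin.cn_iff_act'.2 ((show ρ m = 1 from hm) ▸ hρ m)⟩ k hk)
  have c6 := card_aut2 f.range (h1.isP.of_surjective _ f.rangeRestrict_surjective)
  have c7 : Nat.card T1 ≤ Nat.card F := by
    rw [← f.ker.card_mul_index, index_ker]; exact (Nat.mul_le_mul_right _ c4).trans c6
  calc _ ≤ Nat.card (S.U ⊔ T1 : Subgroup G) * Nat.card (T1 ⊓ S.U : Subgroup G) :=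
        c1.trans (Nat.le_mul_of_pos_right _ c3)
    _ ≤ Nat.card F * Nat.card F ^ 12 := c2 ▸ Nat.mul_le_mul_right _ c7
    _ = _ := by ring
end St

end H89.D4S
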