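import Cfsg.Agent.Lib.D4S.P1A

/-! Standard components of type `³D₄(2ⁿ)`, package P1B: see `blueprint/D4S/README.md`. -/

set_option autoImplicit false
set_option linter.unusedSectionVars false

namespace H89.D4S
open Subgroup H69 U12
open H89.G2S (KK ιK σK)
open scoped commutatorElement

variable {F E G : Type*} [Field F] [Field E] [Cub F E] [CharP F 2] [CharP E 2] [Finite F] [Finite E]
  [Group G] [Finite G]

theorem P1B.exists_invol {c : G} (m : ℕ) (h : c ^ 2 ^ m = 1) (c1 : c ≠ 1) :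
    ∃ r : ℕ, c ^ r ≠ 1 ∧ c ^ r * c ^ r = 1 := by
  induction m generalizing c with
  | zero => exact absurd (by simpa using h) c1
  | succ m ih =>
    by_cases e : c * c = 1
    · exact ⟨1, by rwa [pow_one], by rwa [pow_one]⟩
    · obtain ⟨r, h1, h2⟩ := ih (c := c ^ 2) (by rw [← pow_mul, ← pow_succ', h]) (by rwa [pow_two])
      exact ⟨2 * r, by rwa [pow_mul], by rwa [pow_mul]⟩

namespace St
variable {S : St E G} {T1 : Subgroup G}

theorem P1B.h3 (m : Fˣ) (a : F) : S.h 1 m * S.X 3 (ι a) * (S.h 1 m)⁻¹ = S.X 3 (ι ((m : F) ^ 2 * a)) := by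
  rw [S.h_X3]; simp

theorem P1B.ht (l : Eˣ) (m : Fˣ) : S.h l m * S.t * (S.h l m)⁻¹ = S.t :=
  mul_inv_eq_iff_eq_mul.2 (S.t_comm (S.hL l m)).symm

variable (h1 : IsSylowIn 2 T1 S.N1)
include h1
theorem P1B.nJ {g : G} (hg : g ∈ 𝐍(S.U ⊔ T1)) : g ∈ 𝐍(S.J) :=
  conj_J h1 fun _ hx => conj_mem_of_mem_normalizer hg (J_le_T h1 hx)

theorem db_of_not_syl (h : ¬ IsSylowIn 2 (S.U ⊔ T1) ⊤) : S.Db := by
  obtain ⟨g, hg, n, p⟩ := G2S.exists_norm (sylT h1).isP h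
  have gt : g * S.t * g⁻¹ ≠ S.t := fun e => n ((sylT h1).max _ le_sup_left (sup_le (sylT h1).le
    (zpowers_le.2 (S.mem_Ct.2 (mul_inv_eq_iff_eq_mul.1 e)))) p ▸ mem_sup_right (mem_zpowers g))
  have gJ := P1B.nJ h1 hg
  have key : ∀ r ∈ S.U ⊔ T1, S.C0 r → r = 1 ∨ r = S.t := fun r hr c => c.invol (by_contra fun r2 => by
    obtain ⟨k, hk⟩ := isPGroup_iff_mem.1 (sylT h1).isP _ (pow_mem hr 2)
    obtain ⟨j, j1, j2⟩ := P1B.exists_invol k hk (by rwa [pow_two])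
    rw [← pow_mul, mul_comm, pow_mul, pow_two] at j1 j2
    have cy : S.C0 (r ^ j) := ⟨Commute.pow_left c.1 j, c.2.pow j⟩
    have hy := pow_mem hr j
    generalize r ^ j = y at j1 j2 cy hy
    have e := ((cy.mul cy).invol j2).resolve_left j1
    have cJ : g * y * g⁻¹ ∈ 𝐂(S.J) := conj_mem_of_mem_normalizer (normalizer_le_normalizer_centralizer _ gJ)
      fun x hx => by
        obtain ⟨u, rfl | rfl⟩ := S.mem_J.1 hx
        exacts [(cy.2.comm (S.φ_mem u)).symm, Commute.mul_left cy.1.symm (cy.2.comm (S.φ_mem u)).symm]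
    have UJ : ∀ u, S.φ u ∈ S.J := fun u => S.mem_J.2 ⟨u, Or.inl rfl⟩
    obtain ⟨u, m, hm, e'⟩ := (mem_T h1).1 (conj_mem_of_mem_normalizer hg hy)
    rw [e'] at cJ
    have cm := cn_T h1 hm fun a => (cJ _ (S.φ3 a ▸ UJ _)).symm
    obtain ⟨a, rfl⟩ := mem_Z'.1 (mem_Z_of_comm (u := u) fun v => S.inj (by
      have := cJ _ (UJ v)
      rw [mul_assoc, cm.2.comm (S.φ_mem v), ← mul_assoc, ← mul_assoc, mul_left_inj] at this
      rw [map_mul, map_mul, this]))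
    have : g * S.t * g⁻¹ = m * m := by
      rw [← e, ← conj_mul, e', Commute.mul_mul_mul_comm (cm.2.comm (S.φ_mem _)), S.φ3', S.X_sq, one_mul]
    rcases (cm.mul cm).invol (by rw [← this, conj_mul, S.tt]; group) with e | e
    · exact S.t1 (by simpa using this.trans e)
    · exact gt (this.trans e))
  refine ⟨fun r c k hk => ?_, g, (norm_V_of_J gJ).1, gt⟩
  obtain ⟨d, hd, e⟩ := (sylT h1).exists_cj_le (G2S.Gen.isP_pow hk) (zpowers_le.2 (S.mem_Ct.2 c.1))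
  refine (key _ (e (cj_mem d (mem_zpowers r))) (c.conj (S.mem_Ct.1 hd))).imp (by simp) fun e => ?_
  rw [← mul_inv_eq_iff_eq_mul.2 (S.mem_Ct.1 hd)] at e
  simpa using e
theorem noV (h : IsSylowIn 2 (S.U ⊔ T1) ⊤) {g : G} (hg : g * S.t * g⁻¹ ∈ S.V) :
    g * S.t * g⁻¹ = S.t := by
  have tC : S.t ∈ 𝐂(S.U ⊔ T1) := fun x hx => S.mem_Ct.1 ((sylT h1).le hx)
  have zC : S.X 3 1 ∈ 𝐂(S.U ⊔ T1) := fun x hx => by
    obtain ⟨u, m, hm, rfl⟩ := (mem_T h1).1 hx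
    obtain ⟨-, ρ, a⟩ := S.mem_N1.1 (h1.le hm)
    have := a.act 3 1
    rw [map_one, mul_inv_eq_iff_eq_mul] at this
    show S.φ u * m * S.X 3 1 = S.X 3 1 * (S.φ u * m)
    rw [mul_assoc, this, ← mul_assoc, ← S.X3_comm_φ, mul_assoc]
  have burn : ∀ {g}, g * S.t * g⁻¹ ∈ 𝐂(S.U ⊔ T1) → ∃ n ∈ 𝐍(S.J), n * S.t * n⁻¹ = g * S.t * g⁻¹ := fun {g} hg =>
    let ⟨n, _, hn, e⟩ := G2S.burnW h le_rfl (fun _ _ => cj_eq_of_cj_le) (mem_top g) tC hg
    ⟨n, P1B.nJ h1 hn, e⟩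
  have nz : ∀ g (a : F), g * S.t * g⁻¹ ≠ S.X 3 (ι a) := fun g a e => by
    have a0 : a ≠ 0 := by rintro rfl; exact S.t1 (by simpa using e)
    obtain ⟨m, hm⟩ := exists_sq_unit (inv_ne_zero a0)
    have : S.h 1 m * g * S.t * (S.h 1 m * g)⁻¹ = S.X 3 1 := by
      rw [← map_one (ι : F →+* E), ← inv_mul_cancel₀ a0, ← hm, ← P1B.h3, ← e]; group
    obtain ⟨n, hn, e⟩ := burn (this ▸ zC)
    exact (norm_V_of_J hn).2 (e ▸ this ▸ S.X3_mem 1)
  obtain ⟨a, e | e⟩ := S.mem_V.1 hg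
  · exact absurd e (nz g a)
  by_contra ne
  have a0 : a ≠ 0 := by rintro rfl; exact ne (by simpa using e)
  obtain ⟨m, hm⟩ := exists_sq_unit (inv_ne_zero a0)
  have e1 : S.h 1 m * g * S.t * (S.h 1 m * g)⁻¹ = S.t * S.X 3 1 := by
    rw [← map_one (ι : F →+* E), ← inv_mul_cancel₀ a0, ← hm, ← P1B.h3, ← P1B.ht 1 m, conj_mul, ← e, P1B.ht]; group
  obtain ⟨n, hn, e2⟩ := burn (e1 ▸ mul_mem tC zC)
  rw [e1] at e2
  let _ : MulAction 𝐍(S.V) G := MulAction.compHom G ((MulAut.conj (G := G)).comp (𝐍(S.V)).subtype)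
  have sm : ∀ (x : 𝐍(S.V)) (y : G), x • y = x * y * (x : G)⁻¹ := fun _ _ => rfl
  have st : MulAction.stabilizer 𝐍(S.V) S.t = (S.Ct ⊓ 𝐍(S.V)).subgroupOf 𝐍(S.V) := by
    ext x
    rw [MulAction.mem_stabilizer_iff, sm, mem_subgroupOf, mem_inf, S.mem_Ct, mul_inv_eq_iff_eq_mul]
    exact (and_iff_left x.2).symm
  have ob : MulAction.orbit 𝐍(S.V) S.t = Set.range fun a : F => S.t * S.X 3 (ι a) := by
    ext y
    refine ⟨fun ⟨x, hx⟩ => ?_, fun ⟨b, hb⟩ => ?_⟩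
    · obtain ⟨b, e | e⟩ := S.mem_V.1 (conj_mem_of_mem_normalizer x.2 (mem_sup_left (mem_zpowers S.t)))
      exacts [absurd e (nz _ b), ⟨b, e.symm.trans hx⟩]
    · by_cases b0 : b = 0
      · exact ⟨1, by rw [← hb, b0]; simp⟩
      obtain ⟨c, hc⟩ := exists_sq_unit b0
      have hN : S.h 1 c ∈ 𝐍(S.V) := le_normalizer_sup (L := zpowers (S.h 1 c))
        (zpowers_le.2 (cj_eq_self_iff.1 (by rw [cj_zpowers, P1B.ht]))) (zpowers_le.2 (S.h_norm_Z 1 c)) (mem_zpowers _)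
      refine ⟨⟨_, mul_mem hN (norm_V_of_J hn).1⟩, ?_⟩
      show S.h 1 c * n * S.t * (S.h 1 c * n)⁻¹ = y
      beta_reduce at hb
      rw [← hb, ← mul_one b, ← hc, ← P1B.h3]
      conv_rhs => rw [← P1B.ht 1 c, conj_mul, map_one, ← e2]
      group
  have ix := MulAction.index_stabilizer 𝐍(S.V) S.t
  rw [st, ob, ← Nat.card_coe_set_eq, Nat.card_range_of_injective fun a b e =>
    Pin.X_injι S.inj 3 (mul_left_cancel e)] at ix
  have TN : S.U ⊔ T1 ≤ 𝐍(S.V) := fun x hx => (norm_V_of_J (P1B.nJ h1 (le_normalizer hx))).1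
  exact (h.mono TN le_top).not_dvd_relIndex_of_le (le_inf (sylT h1).le TN) inf_le_right
    (by rw [relIndex, ix]; exact G2S.even_card.two_dvd)
end St

end H89.D4S
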