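import Cfsg.Agent.Lib.D4S.P1B
import Cfsg.Agent.Lib.D4S.Inv

/-! Standard components of type `³D₄(2ⁿ)`, package P1C: see `blueprint/D4S/README.md`. -/

set_option autoImplicit false
set_option linter.unusedSectionVars false

namespace H89.D4S
open Subgroup H69 U12
open H89.G2S (KK ιK σK)
open scoped commutatorElement

variable {F E G : Type*} [Field F] [Field E] [Cub F E] [CharP F 2] [CharP E 2] [Finite F] [Finite E]
  [Group G] [Finite G]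

namespace St
variable {S : St E G} {T1 : Subgroup G}

theorem P1C.cmJ {x : G} (hx : x ∈ S.J) :
    ∃ u, ∀ y, S.t * y = y * S.t → ⁅x, y⁆ = ⁅S.φ u, y⁆ ∧ ⁅y, x⁆ = ⁅y, S.φ u⁆ := by
  obtain ⟨u, rfl | rfl⟩ := S.mem_J.1 hx
  · exact ⟨u, fun _ _ => ⟨rfl, rfl⟩⟩
  · refine ⟨u, fun y hy => ?_⟩
    have := P1A.cmt_l (S.t_comm (S.φ_mem u)) hy
    exact ⟨this, by rw [← commutatorElement_inv, this, commutatorElement_inv]⟩

theorem P1C.gam {a b c d : G} (ha : a ∈ S.J) (hb : b ∈ S.J) (hc : c ∈ S.J) (hd : d ∈ S.J) :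
    ∃ w ∈ U12.EA E, ⁅⁅⁅a, b⁆, c⁆, d⁆ = S.φ w := by
  obtain ⟨u1, e1⟩ := P1C.cmJ ha
  obtain ⟨u2, e2⟩ := P1C.cmJ hb
  obtain ⟨u3, e3⟩ := P1C.cmJ hc
  obtain ⟨u4, e4⟩ := P1C.cmJ hd
  refine ⟨_, gamma4 u1 u2 u3 u4, ?_⟩
  have c : ∀ u, S.t * S.φ u = S.φ u * S.t := fun u => S.t_comm (S.φ_mem u)
  rw [(e1 b (P1A.J_t hb).symm).1, (e2 _ (c _)).2, ← map_commutatorElement, (e3 _ (c _)).2,
    ← map_commutatorElement, (e4 _ (c _)).2, ← map_commutatorElement]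

variable (h1 : IsSylowIn 2 T1 S.N1) (h : IsSylowIn 2 (S.U ⊔ T1) ⊤)
include h1 h

theorem P1C.nos {τ : G} (hτ : τ = 1 ∨ τ = S.t) {g : G} (e : g * S.t * g⁻¹ = τ * S.X 2 1) : False := by
  have cτ : S.C0 τ := hτ.elim (fun e => e ▸ S.od_one.1) fun e => e ▸ S.c0_t
  have RL : S.R ≤ S.L := S.R_le_U.trans S.U_le_L
  have PJ : zpowers S.t ⊔ S.R ≤ S.J := sup_le_sup_left S.R_le_U _
  obtain ⟨k, ek, hk⟩ := G2S.ext_cent (sylT h1) (u := τ * S.X 2 1) (g := g⁻¹) (by rw [← e]; group)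
    ((sylT h1).isP.to_le (PJ.trans (J_le_T h1))) (fun p hp => mem_centralizer_singleton_iff.1
      ((sup_le (zpowers_le.2 (mem_centralizer_singleton_iff.2 (Commute.mul_right cτ.1.symm (S.tX 2 1))))
        fun b hb => mem_centralizer_singleton_iff.2 (Commute.mul_right
          (cτ.2.comm (RL hb)).symm (S.R_comm hb)) :
          _ ≤ centralizer {τ * S.X 2 1}) hp))
  obtain ⟨B, -, sq, c, m, r⟩ := S.elem (i := 5) le_rfl
  have r' := r (by decide) (by decide)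
  have m5 := conj_elem h1 (r'.trans RL) sq c.ge (fun x hx => hk x (sup_le_sup_left r' _ hx)) _ (mem_sup_right (m 1))
  obtain ⟨B', r0, sq', c', m'⟩ := S.elemR
  have m0 := fun a ha => conj_elem h1 (r0.trans RL) sq' c'.ge (fun x hx => hk x (sup_le_sup_left r0 _ hx)) _
    (mem_sup_right (m' a ha))
  obtain ⟨k0, k1, k2⟩ := exists_tr0 S.cub
  obtain ⟨w, hw, ew⟩ := P1C.gam m5 (m0 k0 k2) (m0 (θ k0) (by rw [T_θ, k2])) m5
  have e5 : S.X 5 1 = S.φ (g5 1) := by rw [S.φ5', map_one]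
  rw [← conjugate_commutatorElement, ← conjugate_commutatorElement, ← conjugate_commutatorElement, e5, ← S.φ0,
    ← S.φ0, ← map_commutatorElement, ← map_commutatorElement, ← map_commutatorElement, gamma4R k2, S.φ3'] at ew
  obtain ⟨l, hl, el⟩ := S.inv_lng (Lng.of_EA hw) (by
    rintro rfl
    rw [map_one, conj_eq_one_iff, ← S.X_zero 3, ← map_zero (ι : F →+* E)] at ew
    exact k1 (N_eq_zero.1 (Pin.X_injι S.inj 3 ew)))
  generalize (ι (N k0) : E) = a at ew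
  have e4 : S.X 4 a * S.X 2 1 * (S.X 4 a)⁻¹ = S.X 2 1 * S.X 3 a := by
    have := S.comm42 a 1
    rw [mul_one, commutatorElement_def, mul_inv_eq_iff_eq_mul] at this
    rw [this, ← S.φ2, S.X3_comm_φ]
  have e3 : l * k * S.X 4 a * g * S.t * (l * k * S.X 4 a * g)⁻¹ = S.t * S.X 3 1 := by
    calc _ = l * k * (S.X 4 a * (g * S.t * g⁻¹) * (S.X 4 a)⁻¹) * (l * k)⁻¹ := by group
      _ = l * k * (τ * (S.X 4 a * S.X 2 1 * (S.X 4 a)⁻¹)) * (l * k)⁻¹ := by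
        rw [e, ← mul_assoc (S.X 4 a), ← cτ.2 4 a]; group
      _ = l * (k * (τ * S.X 2 1) * k⁻¹) * (k * S.X 3 a * k⁻¹) * l⁻¹ := by rw [e4]; group
      _ = _ := by rw [ek, ew, ← S.t_comm hl, ← el]; group
  have := noV h1 h (S.mem_V.2 ⟨1, Or.inr (e3.trans (by rw [map_one]))⟩)
  rw [e3, mul_eq_left] at this
  exact S.z_ne this

theorem P1C.inJ {g : G} (hg : g * S.t * g⁻¹ ∈ S.J) : g * S.t * g⁻¹ = S.t := by
  obtain ⟨τ, u, hτ, e⟩ : ∃ τ u, (τ = 1 ∨ τ = S.t) ∧ g * S.t * g⁻¹ = τ * S.φ u := by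
    obtain ⟨u, e | e⟩ := S.mem_J.1 hg
    exacts [⟨1, u, Or.inl rfl, by rw [e, one_mul]⟩, ⟨_, u, Or.inr rfl, e⟩]
  have cτ : S.C0 τ := hτ.elim (fun e => e ▸ S.od_one.1) fun e => e ▸ S.c0_t
  have τV : τ ∈ S.V := hτ.elim (fun e => e ▸ one_mem _) fun e => e ▸ mem_sup_left (mem_zpowers _)
  have u2 : S.φ u * S.φ u = 1 := by
    have : g * S.t * g⁻¹ * (g * S.t * g⁻¹) = 1 := by rw [conj_mul, S.tt]; group
    rwa [e, Commute.mul_mul_mul_comm (cτ.2.comm (S.φ_mem u)).symm, S.V_sq τV, one_mul] at this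
  have mv : ∀ l ∈ S.L, l * g * S.t * (l * g)⁻¹ = τ * (l * S.φ u * l⁻¹) := fun l hl => by
    calc _ = l * (g * S.t * g⁻¹) * l⁻¹ := by group
      _ = l * τ * S.φ u * l⁻¹ := by rw [e]; group
      _ = _ := by rw [← cτ.2.comm hl]; group
  rcases S.inv_L (S.φ_mem u) u2 with e1 | ⟨l, hl, e1⟩ | ⟨l, hl, e1⟩
  · exact noV h1 h (by rwa [e, e1, mul_one])
  · have := noV h1 h (g := l * g) (by rw [mv l hl, e1]; exact mul_mem τV (mem_sup_right (S.X3_mem 1)))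
    calc _ = l⁻¹ * (l * g * S.t * (l * g)⁻¹) * l := by group
      _ = _ := by rw [this, mul_assoc, S.t_comm hl]; group
  · exact (P1C.nos h1 h hτ ((mv l hl).trans (by rw [e1]))).elim

theorem P1C.inT {g : G} (hg : g * S.t * g⁻¹ ∈ S.U ⊔ T1) : g * S.t * g⁻¹ = S.t := by
  have sq : ∀ g, g * S.t * g⁻¹ * (g * S.t * g⁻¹) = 1 := fun g => by rw [conj_mul, S.tt]; group
  obtain ⟨u, m, hm, e⟩ := (mem_T h1).1 hg
  obtain ⟨-, ρ, a⟩ := S.mem_N1.1 (h1.le hm)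
  by_cases ρ1 : ρ = 1
  · exact P1C.inJ h1 h (P1A.mem_J h1 hg (sq g) fun b => by rw [e]; exact D4S.P1A.cz (ρ1 ▸ a) u b)
  exfalso
  have m2 := invol_T h1 hm (e ▸ sq g)
  have ρ2 : ∀ b, ρ (ρ b) = b := fun b => DFunLike.congr_fun (D4S.P1A.sq a m2) b
  obtain ⟨c, hc⟩ := exists_free ρ ρ2 ρ1
  obtain ⟨y, hy⟩ := U12.lang a.tc ρ2 hc (u := u) (S.inj (by
    rw [map_mul, ← a.φ, map_one, ← sq g, e, inv_eq_of_mul_eq_one_right m2]; group))
  have e1 : S.φ y * g * S.t * (S.φ y * g)⁻¹ = m := by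
    calc _ = S.φ y * (g * S.t * g⁻¹) * (S.φ y)⁻¹ := by group
      _ = S.φ (y * u * (U12.map a.tc y)⁻¹) * m := by rw [e, map_mul, map_mul, map_inv, ← a.φ]; group
      _ = m := by rw [hy, map_one, one_mul]
  have e2 : S.X 3 (ι c) * m * (S.X 3 (ι c))⁻¹ = S.X 3 1 * m := by
    rw [← hc, S.X_add, ← a.act, S.X_inv]; group
  obtain ⟨k, ek, hk⟩ := G2S.ext_cent (sylT h1) (P := (S.U ⊔ T1) ⊓ centralizer {m}) (u := m) (g := (S.φ y * g)⁻¹)
    (by rw [← e1]; group) (sylT h1).isP.to_inf_left fun p hp => mem_centralizer_singleton_iff.1 hp.2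
  have mX : ∀ i ≤ 5, k * S.X i 1 * k⁻¹ ∈ S.U ⊔ T1 := fun i hi => hk _ ⟨mem_sup_left (S.X_memU hi 1),
    mem_centralizer_singleton_iff.2 (mul_inv_eq_iff_eq_mul.1 ((a.act i 1).trans (by rw [map_one]))).symm⟩
  have act : ∀ x ∈ S.U ⊔ T1, ∃ σ : E ≃+* E, ∀ b, x * S.X 3 b * x⁻¹ = S.X 3 (σ b) := fun x hx => by
    obtain ⟨v, n, hn, rfl⟩ := (mem_T h1).1 hx
    obtain ⟨-, σ, a⟩ := S.mem_N1.1 (h1.le hn)
    refine ⟨σ, fun b => ?_⟩
    calc _ = S.φ v * (n * S.X 3 b * n⁻¹) * (S.φ v)⁻¹ := by group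
      _ = _ := by rw [a.act, ← S.X3_comm_φ]; group
  have cz : ∀ b, k * S.X 3 1 * k⁻¹ * S.X 3 b = S.X 3 b * (k * S.X 3 1 * k⁻¹) := fun b => by
    obtain ⟨σ, h5⟩ := act _ (mX 5 le_rfl)
    obtain ⟨σ', h1'⟩ := act _ (mX 1 (by decide))
    rw [← S.comm51' 1, conjugate_commutatorElement]
    generalize k * S.X 5 1 * k⁻¹ = x at h5
    generalize k * S.X 1 1 * k⁻¹ = x' at h1'
    obtain ⟨b, rfl⟩ := (σ' * σ).surjective b
    refine mul_inv_eq_iff_eq_mul.1 ?_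
    have e3 : S.X 3 ((σ' * σ) b) = x' * (x * S.X 3 b * x⁻¹) * x'⁻¹ := by rw [h5, h1']; rfl
    have e4 : S.X 3 ((σ' * σ) b) = x * (x' * S.X 3 b * x'⁻¹) * x⁻¹ := by rw [h1', h5, G2S.aut_comm]; rfl
    conv_lhs => rw [e3]
    rw [e4, commutatorElement_def]; group
  have e3 : k * S.X 3 (ι c) * (S.φ y * g) * S.t * (k * S.X 3 (ι c) * (S.φ y * g))⁻¹ =
      k * S.X 3 1 * k⁻¹ * S.t := by
    calc _ = k * (S.X 3 (ι c) * (S.φ y * g * S.t * (S.φ y * g)⁻¹) * (S.X 3 (ι c))⁻¹) * k⁻¹ := by group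
      _ = _ := by rw [e1, e2, ← ek]; group
  have := P1C.inJ h1 h (P1A.mem_J h1 (e3 ▸ mul_mem (mX 3 (by decide)) (mem_sup_right (t_memT1 h1))) (sq _)
    fun b => by rw [e3]; exact Commute.mul_left (cz b) (S.tX 3 b))
  rw [e3, mul_eq_right, conj_eq_one_iff] at this
  exact S.z_ne this

end St

theorem St.p1 (S : St E G) :
    (∀ g, g * S.t * g⁻¹ * S.t = S.t * (g * S.t * g⁻¹) → g * S.t * g⁻¹ = S.t) ∨ S.Db := by
  obtain ⟨T1, h1⟩ := exists_isSylowIn 2 S.N1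
  by_cases h : IsSylowIn 2 (S.U ⊔ T1) ⊤
  · refine Or.inl fun g e => ?_
    obtain ⟨d, hd, e'⟩ := G2S.exists_cj_mem (St.sylT h1) (S.mem_Ct.2 e) (by rw [conj_mul, S.tt]; group)
    have := St.P1C.inT h1 h (g := d * g) (by convert e' using 1; group)
    calc _ = d⁻¹ * (d * g * S.t * (d * g)⁻¹) * d := by group
      _ = _ := by rw [this, mul_assoc, ← S.mem_Ct.1 hd]; group
  · exact Or.inr (St.db_of_not_syl h1 h)

end H89.D4S
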