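import Cfsg.Agent.Lib.D4S.K1

/-! Standard components of type `³D₄(2ⁿ)`, package P2A: see `blueprint/D4S/README.md`. -/

set_option autoImplicit false
set_option linter.unusedSectionVars false

namespace H89.D4S
open Subgroup H69 U12
open H89.G2S (KK ιK σK)
open scoped commutatorElement

variable {F E G : Type*} [Field F] [Field E] [Cub F E] [CharP F 2] [CharP E 2] [Finite F] [Finite E]
  [Group G] [Finite G]

namespace P2A
variable {S : St E G}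

theorem tV : S.t ∈ S.V := S.mem_V.2 ⟨0, .inr (by simp)⟩
theorem X3V (a : E) : S.X 3 a ∈ S.V := mem_sup_right (S.X3_mem a)

theorem comm_V {g : G} (ht : g * S.t = S.t * g) (h : ∀ a, g * S.X 3 a = S.X 3 a * g) {v : G}
    (hv : v ∈ S.V) : g * v = v * g := by
  obtain ⟨a, rfl | rfl⟩ := S.mem_V.1 hv
  · exact h _
  · exact (Commute.mul_right ht (h _)).eq

theorem conj_comm {n g v : G} (h : g * (n⁻¹ * v * n⁻¹⁻¹) = n⁻¹ * v * n⁻¹⁻¹ * g) :
    n * g * n⁻¹ * v = v * (n * g * n⁻¹) := by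
  calc _ = n * (g * (n⁻¹ * v * n⁻¹⁻¹)) * n⁻¹ := by group
    _ = _ := by rw [h]; group

/-- conjugates under `N(V)` of elements centralising `V` centralise `V` -/
theorem cV_conj {n g : G} (hn : n ∈ 𝐍(S.V)) (ht : g * S.t = S.t * g)
    (h : ∀ a, g * S.X 3 a = S.X 3 a * g) {v : G} (hv : v ∈ S.V) :
    n * g * n⁻¹ * v = v * (n * g * n⁻¹) :=
  conj_comm (comm_V ht h ((mem_normalizer_iff.1 (inv_mem hn) v).1 hv))

end P2A
open P2A

namespace St.Db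
variable {S : St E G} (h : S.Db) {n : G}
include h
theorem nvP' (h1 : ∀ p ∈ S.P0, n * p * n⁻¹ * S.t = S.t * (n * p * n⁻¹))
    (h2 : ∀ p ∈ S.P0, n * p * n⁻¹ * S.X 3 1 = S.X 3 1 * (n * p * n⁻¹)) : n ∈ 𝐍(S.P0) := by
  refine mem_normalizer_fintype fun x hx => ?_
  have : S.P0 ≤ S.P0.comap (MulAut.conj n).toMonoidHom := S.P0_le.2 fun i hi a =>
    S.memP_of_comm1 (S.perf_le h (B := S.P0.map (MulAut.conj n).toMonoidHom)
      (by rintro _ ⟨p, hp, rfl⟩; exact S.mem_Ct.2 (h1 p hp)) (by rw [← map_commutator, S.perfP])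
      (mem_map_of_mem _ (S.X_memP hi a)) (by rw [← map_mul, S.X_sq, map_one])) (h2 _ (S.X_memP hi a))
  exact this hx
variable (hn : n ∈ 𝐍(S.V))
include hn
theorem nvP : n ∈ 𝐍(S.P0) :=
  have c : ∀ {p}, p ∈ S.P0 → ∀ {v}, v ∈ S.V → n * p * n⁻¹ * v = v * (n * p * n⁻¹) := fun hp _ hv =>
    cV_conj hn (S.t_comm (S.P0_le_L hp)).symm (fun a => (S.X3_comm_P0 a hp).symm) hv
  h.nvP' (fun _ hp => c hp tV) fun _ hp => c hp (X3V 1)
theorem nvZ : n ∈ 𝐍(S.Z) := by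
  refine mem_normalizer_fintype fun x hx => ?_
  have h1 : n * x * n⁻¹ ∈ S.L :=
    S.P0_le_L ((mem_normalizer_iff.1 (h.nvP hn) x).1 (S.U_le_P0 (S.Q_le_U (S.Z_le_Q hx))))
  obtain ⟨a, e | e⟩ := S.mem_V.1 ((mem_normalizer_iff.1 hn x).1 (mem_sup_right hx))
  · rw [e]; exact S.X3_mem _
  · rw [e] at h1
    exact absurd ((mul_mem_cancel_right (S.X_mem 3 _)).1 h1) S.t_notMem
theorem nvt : ∃ c : F, n * S.t * n⁻¹ = S.t * S.X 3 (ι c) := by
  obtain ⟨a, e | e⟩ := S.mem_V.1 ((mem_normalizer_iff.1 hn _).1 tV)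
  · have := (mem_normalizer_iff.1 (h.nvZ hn) S.t).2 (e ▸ S.X3_mem _)
    exact absurd (S.U_le_L (S.Q_le_U (S.Z_le_Q this))) S.t_notMem
  · exact ⟨a, e⟩
theorem nvO {o : G} (ho : S.Od o) : S.Od (n * o * n⁻¹) := by
  have hodd : Odd (orderOf (n * o * n⁻¹)) := by
    rw [← MulAut.conj_apply, MulEquiv.orderOf_eq]; exact ho.2
  refine ⟨?_, hodd⟩
  obtain ⟨a, c, hc, e⟩ := S.cQ (cV_conj hn ho.1.1 (fun a => ho.1.2 3 a) tV) fun x hx =>
    conj_comm (ho.1.2.comm (S.P0_le_L ((mem_normalizer_iff.1 (inv_mem (h.nvP hn)) x).1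
      (S.U_le_P0 (S.Q_le_U hx)))))
  obtain ⟨k, hk⟩ := hodd
  have h1 := pow_orderOf_eq_one (n * o * n⁻¹)
  rw [hk, e, (Commute.symm (hc.2 3 (ι a))).mul_pow, pow_succ, pow_mul, sq, S.X_sq, one_pow, one_mul,
    mul_eq_one_iff_eq_inv] at h1
  have : S.X 3 (ι a) = 1 :=
    C0.eq_one (h1 ▸ C0.inv (pow_mem (S := S.C0s) hc (2 * k + 1))) (S.X_mem 3 _)
  rw [e, this, one_mul]; exact hc
theorem nvQ : n ∈ 𝐍(S.Q) := by
  refine mem_normalizer_fintype fun x hx => ?_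
  let R : Subgroup G := S.Q.comap (MulAut.conj n⁻¹).toMonoidHom
  have mR : ∀ {y}, y ∈ R ↔ n⁻¹ * y * n⁻¹⁻¹ ∈ S.Q := Iff.rfl
  have hP := h.nvP hn
  have hR : IsPGroup 2 R := (S.U_isP.to_le S.Q_le_U).comap_of_injective _ (MulAut.conj n⁻¹).injective
  have hN : S.P0 ≤ 𝐍(R) := fun p hp => mem_normalizer_iff.2 fun y => by
    rw [mR, mR, mem_normalizer_iff.1 (S.P0_norm_Q ((mem_normalizer_iff.1 (inv_mem hP) p).1 hp))]
    congr! 1; group
  have hU : R ≤ S.U := S.sylU.le_of_le_normalizer hR (fun y hy =>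
    S.P0_le_L ((mem_normalizer_iff.1 (inv_mem hP) y).2 (S.U_le_P0 (S.Q_le_U (mR.1 hy)))))
    (S.U_le_P0.trans hN)
  have hx' : n * x * n⁻¹ ∈ R := mR.2 (by simpa [mul_assoc] using hx)
  exact S.mem_Q_of_n0 (hU hx') (hU ((mem_normalizer_iff.1 (hN S.n0_memP) _).1 hx'))
end St.Db

end H89.D4S
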