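import Cfsg.Agent.Lib.D4S.P2A
import Cfsg.Agent.Lib.G2S.Gen

/-! Standard components of type `³D₄(2ⁿ)`, package P2B2: see `blueprint/D4S/README.md`. -/

set_option autoImplicit false
set_option linter.unusedSectionVars false

namespace H89.D4S
open Subgroup H69 U12
open H89.G2S (KK ιK σK)
open scoped commutatorElement

variable {F E G : Type*} [Field F] [Field E] [Cub F E] [CharP F 2] [CharP E 2] [Finite F] [Finite E]
  [Group G] [Finite G]

namespace P2B2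

theorem cj0 (w v : U12 E) : (w * v * w⁻¹).p0 = v.p0 := by u12s; cub
theorem cj5 (w v : U12 E) : (w * v * w⁻¹).p5 = v.p5 := by u12s; cub
theorem cj4 (w : U12 E) {v : U12 E} (hv : v.p0 = 0) : (w * v * w⁻¹).p4 = v.p4 + ι v.p5 * w.p0 := by
  u12s; simp only [hv]; cub
theorem cj2 (w : U12 E) {v : U12 E} (hv : v.p0 = 0) :
    (w * v * w⁻¹).p2 = v.p2 + cr w.p0 v.p4 + ι v.p5 * sh w.p0 := by
  u12s; simp only [hv]; cub
theorem cj1 (w : U12 E) {v : U12 E} (hv : v.p0 = 0) :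
    (w * v * w⁻¹).p1 = v.p1 + T (w.p0 * v.p2) + T (sh w.p0 * v.p4) + v.p5 * N w.p0 := by
  u12s; simp only [hv]; cubK E

theorem g3_inj {a b : F} (h : (g3 a : U12 E) = g3 b) : a = b := congrArg U12.p3 h

theorem modZ {x y : U12 E} (h0 : x.p0 = y.p0) (h5 : x.p5 = y.p5) (h4 : x.p4 = y.p4)
    (h2 : x.p2 = y.p2) (h1 : x.p1 = y.p1) : ∃ e, x = y * g3 e :=
  ⟨x.p3 + y.p3, by ext <;> simp [g3, *]; grind⟩

/-- an endomorphism of `U` that is trivial on `U/Q` and on `Z` and normalises `U ⋊ H` -/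
structure PA (A : U12 E →* U12 E) : Prop where
  inj : Function.Injective A
  p0 : ∀ x, (A x).p0 = x.p0
  z : ∀ a, A (g3 a) = g3 a
  H : ∀ l : Eˣ, ∃ (u : U12 E) (l' : Eˣ), ∀ x, A (tor (l : E) 1 x) = u * tor (l' : E) 1 (A x) * u⁻¹

namespace PA
variable {A : U12 E →* U12 E} (h : PA A) (hc : Nat.card E = Nat.card F ^ 3)
  (h2 : ∀ a : F, a = 0 ∨ a = 1)
include h

theorem bf {x w : U12 E} (hx : x.p0 = 0) (hw : w.p0 = 0) : Bf (A x) (A w) = Bf x w := by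
  have e := congrArg A (comm_Q hx hw)
  rw [map_mul, map_mul, map_mul, h.z, comm_Q ((h.p0 x).trans hx) ((h.p0 w).trans hw),
    mul_right_inj] at e
  exact g3_inj e

include hc h2

theorem e1 : ∃ e, A (g1 1) = g1 1 * g3 e := by
  have k : ∀ k : E, A (g0 k) * A (g1 1) * (A (g0 k))⁻¹ = A (g1 1) := fun k => by
    rw [← map_inv, ← map_mul, ← map_mul]; congr 1; u12
  have v0 : (A (g1 1)).p0 = 0 := h.p0 _
  have w0 : ∀ k : E, (A (g0 k)).p0 = k := fun k => h.p0 _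
  have v5 : (A (g1 1)).p5 = 0 := by
    have := congrArg U12.p4 (k 1)
    rw [cj4 _ v0, w0] at this
    simpa using this
  have v4 : (A (g1 1)).p4 = 0 := by
    by_contra n
    obtain ⟨c, e⟩ := exists_cr_ne hc n
    have := congrArg U12.p2 (k c)
    rw [cj2 _ v0, w0, v5] at this
    exact e (by simpa using this)
  have v2 : (A (g1 1)).p2 = 0 := nd _ fun c => by
    have := congrArg U12.p1 (k c)
    rw [cj1 _ v0, w0, v5, v4] at this
    rw [mul_comm]; simpa using this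
  rcases h2 (A (g1 1)).p1 with v1 | v1
  · obtain ⟨c, e⟩ := mem_Z'.1 (mem_Z.2 ⟨v0, v5, v4, v2, v1⟩)
    rw [← h.z] at e
    exact absurd (congrArg U12.p1 (h.inj e)) one_ne_zero
  · exact modZ v0 v5 v4 v2 v1

theorem e5 : (A (g5 1)).p5 = 1 := by
  obtain ⟨e, he⟩ := h.e1 hc h2
  have := h.bf (x := g5 1) (w := g1 1) rfl rfl
  rw [he] at this
  simpa [Bf, g5, g1, g3] using this

theorem fin (h4 : (A (g5 1)).p4 = 0) {x : U12 E} (hx : x.p0 = 0) : ∃ e, A x = x * g3 e := by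
  have v0 : (A (g5 1)).p0 = 0 := h.p0 _
  have v5 := h.e5 hc h2
  have v1 : (A (g5 1)).p1 = 0 := by
    have e := sq_Q v0
    rw [← map_mul, show (g5 1 * g5 1 : U12 E) = 1 by u12, map_one, v5, h4] at e
    simpa [g3] using (congrArg U12.p3 e).symm
  have v2 : (A (g5 1)).p2 = 0 := by
    obtain ⟨l, -, -, hl⟩ := exists_N1 hc
    obtain ⟨u, l', e⟩ := h.H l
    have a0 := congrArg U12.p0 (e (g0 1))
    rw [h.p0, cj0, tor_p0, tor_p0, h.p0] at a0
    have a := e (g5 1)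
    rw [show tor (l : E) (1 : F) (g5 1) = g5 1 by ext <;> simp [g5]] at a
    have t0 : (tor (l' : E) (1 : F) (A (g5 1))).p0 = 0 := by simp [v0]
    have a4 := congrArg U12.p4 a
    rw [cj4 _ t0] at a4
    have u0 : u.p0 = 0 := by simpa [h4, v5] using a4.symm
    have a2 := congrArg U12.p2 a
    rw [cj2 _ t0, u0] at a2
    have ll : (l : E) = l' := by simpa [g0] using a0
    by_contra n
    exact hl (mul_right_cancel₀ n (by simpa [← ll] using a2.symm))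
  let B : Subgroup (U12 E) :=
    { carrier := {x | ∃ e, A x = x * g3 e}
      one_mem' := ⟨0, by rw [map_one]; u12⟩
      mul_mem' := by
        rintro a b ⟨c, e⟩ ⟨d, f⟩
        exact ⟨c + d, by
          rw [map_mul, e, f, mul_assoc, ← mul_assoc (g3 c), g3_comm, show (g3 (c + d) : U12 E) =
            g3 c * g3 d by u12]; group⟩
      inv_mem' := by
        rintro a ⟨c, e⟩
        exact ⟨c, by rw [map_inv, e, mul_inv_rev, show (g3 c : U12 E)⁻¹ = g3 c by u12, g3_comm]⟩ }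
  have b3 : ∀ a, g3 a ∈ B := fun a => ⟨0, by rw [h.z]; u12⟩
  have b1 : ∀ a, g1 a ∈ B := fun a => by
    rcases h2 a with rfl | rfl
    · exact (show (g1 0 : U12 E) = 1 from rfl) ▸ one_mem B
    · exact h.e1 hc h2
  have b5 : ∀ k : E, g0 k * g5 1 * g0 k ∈ B := fun k => by
    have w0 : (A (g0 k)).p0 = k := h.p0 _
    have e : A (g0 k * g5 1 * g0 k) = A (g0 k) * A (g5 1) * (A (g0 k))⁻¹ := by
      rw [← map_inv, ← map_mul, ← map_mul]; congr 1; u12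
    change ∃ e, A _ = _
    rw [e, al5]
    refine modZ ?_ ?_ ?_ ?_ ?_
    · rw [cj0, v0]
    · rw [cj5, v5]
    · rw [cj4 _ v0, h4, v5, w0]; simp
    · rw [cj2 _ v0, h4, v5, v2, w0]; simp
    · rw [cj1 _ v0, h4, v5, v2, v1, w0]; simp
  have : Q E ≤ B := by
    rw [Q_gen hc, closure_le]
    intro u hu
    rcases h2 u.p5 with u5 | u5
    · obtain ⟨a, c, e⟩ := mem_EA'.1 (Lng.mem_EA hu u5)
      exact e ▸ mul_mem (b1 a) (b3 c)
    · obtain ⟨k, c, e⟩ := Lng.eq hu (u5 ▸ one_ne_zero)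
      rw [u5] at e
      exact e ▸ mul_mem (b5 k) (b3 c)
  exact this hx

end PA

variable {S : St E G} (h2 : ∀ a : F, a = 0 ∨ a = 1)

/-- normalises `V` and `U` and moves `t` -/
structure Gd (S : St E G) (n : G) : Prop where
  V : n ∈ 𝐍(S.V)
  U : n ∈ 𝐍(S.U)
  t : n * S.t * n⁻¹ = S.t * S.X 3 1

theorem P0_normV {p : G} (hp : p ∈ S.P0) : p ∈ 𝐍(S.V) :=
  centralizer_le_normalizer _ fun _ hv => (P2A.comm_V (S.t_comm (S.P0_le_L hp)).symm
    (fun a => (S.X3_comm_P0 a hp).symm) hv).symm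

theorem P0_tz {p : G} (hp : p ∈ S.P0) : p * (S.t * S.X 3 1) * p⁻¹ = S.t * S.X 3 1 :=
  mul_inv_eq_iff_eq_mul.2 (Commute.mul_right (S.t_comm (S.P0_le_L hp)).symm
    (S.X3_comm_P0 1 hp).symm).eq

theorem Gd.mul {p n : G} (hp : p ∈ S.P0) (hU : p ∈ 𝐍(S.U)) (hn : Gd S n) : Gd S (p * n) :=
  ⟨mul_mem (P0_normV hp) hn.V, mul_mem hU hn.U, by
    rw [← P0_tz hp, ← hn.t]; group⟩

theorem exA {n : G} (hn : n ∈ 𝐍(S.U)) :
    ∃ A : U12 E →* U12 E, Function.Injective A ∧ ∀ x, n * S.φ x * n⁻¹ = S.φ (A x) := by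
  have : ∀ x, ∃ x', S.φ x' = n * S.φ x * n⁻¹ := fun x =>
    S.mem_U.1 ((mem_normalizer_iff.1 hn _).1 (S.φ_memU x))
  choose f hf using this
  refine ⟨MonoidHom.mk' f fun a b => S.inj (by rw [map_mul, hf, hf, hf, map_mul, conj_mul]),
    fun a b e => S.inj ?_, fun x => (hf x).symm⟩
  have e' : f a = f b := e
  have := hf a
  rw [e', hf, mul_left_inj, mul_right_inj] at this
  exact this.symm

include h2

theorem hP (l : Eˣ) : S.h l 1 ∈ S.P0 := S.h_memP (by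
  rcases h2 (N (l : E)) with e | e
  · exact absurd (N_eq_zero.1 e) l.ne_zero
  · simp [e])

theorem cz (h : S.Db) {n : G} (hn : n ∈ 𝐍(S.V)) (a : E) : n * S.X 3 a * n⁻¹ = S.X 3 a := by
  rw [← S.X_T (i := 3) (by decide) a]
  rcases h2 (T a) with e | e
  · simp [e]
  · obtain ⟨b, f⟩ := S.mem_Z.1 ((mem_normalizer_iff.1 (h.nvZ hn) _).1 (S.X3_mem 1))
    rcases h2 b with rfl | rfl
    · rw [map_zero, S.X_zero, eq_comm, conj_eq_one_iff] at f
      exact absurd f S.z_ne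
    · rw [e, map_one, ← f, map_one]

theorem step1 (h : S.Db) : ∃ n, Gd S n := by
  obtain ⟨n, hn, ht⟩ := h.mv
  obtain ⟨c, e⟩ := h.nvt hn
  rcases h2 c with rfl | rfl
  · exact absurd (by simpa using e) ht
  have sy := S.sylU.mono S.U_le_P0 S.P0_le_L
  obtain ⟨p, hp, f⟩ := (sy.cj_of_mem_normalizer (h.nvP hn)).conj sy
  refine ⟨p * n, mul_mem (P0_normV hp) hn, cj_eq_self_iff.1 (by rw [← cj_cj]; exact f), ?_⟩
  rw [map_one] at e
  rw [← P0_tz hp, ← e]; group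

theorem exH (h : S.Db) {n : G} (hn : Gd S n) {A : U12 E →* U12 E}
    (hA : ∀ x, n * S.φ x * n⁻¹ = S.φ (A x)) (l : Eˣ) :
    ∃ (u : U12 E) (l' : Eˣ), ∀ x, A (tor (l : E) 1 x) = u * tor (l' : E) 1 (A x) * u⁻¹ := by
  obtain ⟨u, l', m, e⟩ := S.norm_U (S.P0_le_L ((mem_normalizer_iff.1 (h.nvP hn.V) _).1 (hP h2 l)))
    (mul_mem (mul_mem hn.U (S.h_norm_U l 1)) (inv_mem hn.U))
  have hm : (m : F) = 1 := (h2 m).resolve_left m.ne_zero
  refine ⟨u, l', fun x => S.inj ?_⟩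
  have a := S.h_φ l 1 x
  have b := S.h_φ l' m (A x)
  rw [Units.val_one] at a
  rw [hm] at b
  rw [← hA, ← a, map_mul, map_mul, ← b, ← hA, map_inv]
  calc _ = n * S.h l 1 * n⁻¹ * (n * S.φ x * n⁻¹) * (n * S.h l 1 * n⁻¹)⁻¹ := by group
    _ = _ := by rw [e]; group

theorem step2 (h : S.Db) :
    ∃ y, Gd S y ∧ ∀ x x', y * S.φ x * y⁻¹ = S.φ x' → x'.p0 = x.p0 := by
  obtain ⟨n, hn⟩ := step1 h2 h
  obtain ⟨A, -, hA⟩ := exA hn.U
  have hQ : ∀ x, (A x).p0 = 0 ↔ x.p0 = 0 := fun x => by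
    have := mem_normalizer_iff.1 (h.nvQ hn.V) (S.φ x)
    rw [hA, S.mem_Q, S.mem_Q] at this
    refine ⟨fun e => ?_, fun e => ?_⟩
    · obtain ⟨u, a, b⟩ := this.2 ⟨_, e, rfl⟩
      exact S.inj b ▸ a
    · obtain ⟨u, a, b⟩ := this.1 ⟨_, e, rfl⟩
      exact S.inj b ▸ a
  let ν : E → E := fun a => (A (g0 a)).p0
  have ν0 : ∀ x, (A x).p0 = ν x.p0 := fun x => by
    have e : x = x * (g0 x.p0)⁻¹ * g0 x.p0 := by group
    have := (hQ (x * (g0 x.p0)⁻¹)).2 (by simp [g0, CharTwo.add_self_eq_zero])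
    rw [e, map_mul, mul_p0, this, zero_add, ← e]
  have νa : ∀ a b, ν (a + b) = ν a + ν b := fun a b => by
    rw [← mul_p0, ← map_mul, ν0]; rfl
  have νz : ∀ a, ν a = 0 ↔ a = 0 := fun a => hQ _
  have ν1 : ν 1 ≠ 0 := fun e => one_ne_zero ((νz 1).1 e)
  have νm : ∀ a b, ν (a * b) * ν 1 = ν a * ν b := fun a b => by
    by_cases ha : a = 0
    · simp [ha, (νz 0).2 rfl]
    obtain ⟨u, l', e⟩ := exH h2 h hn hA (Units.mk0 a ha)
    have k : ∀ b, ν (a * b) = l' * ν b := fun b => by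
      have := congrArg U12.p0 (e (g0 b))
      rwa [cj0, ν0, tor_p0, tor_p0] at this
    have k1 := k 1
    rw [mul_one] at k1
    rw [k, k1]; ring
  let σ0 : E →+* E :=
    { toFun a := (ν 1)⁻¹ * ν a
      map_one' := inv_mul_cancel₀ ν1
      map_zero' := by rw [(νz 0).2 rfl, mul_zero]
      map_add' a b := by rw [νa, mul_add]
      map_mul' a b := by
        rw [eq_div_of_mul_eq ν1 (νm a b)]; field_simp }
  let σ : E ≃+* E := RingEquiv.ofBijective σ0 (Finite.injective_iff_bijective.1 σ0.injective)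
  have σ3 : ∀ a, σ (σ (σ a)) = a := fun a => by
    have := cube_of_fix (ρ := σ) (F := F) fun a => by rcases h2 a with rfl | rfl <;> simp
    exact DFunLike.congr_fun this a
  let l : Eˣ := (Units.mk0 _ ν1)⁻¹
  have g1 : Gd S (S.h l 1 * n) := hn.mul (hP h2 l) (S.h_norm_U l 1)
  have k : ∀ x, ∃ x', S.h l 1 * n * S.φ x * (S.h l 1 * n)⁻¹ = S.φ x' ∧ x'.p0 = σ x.p0 := fun x =>
    ⟨tor (l : E) ((1 : Fˣ) : F) (A x), by rw [← S.h_φ, ← hA]; group, by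
      rw [tor_p0, ν0]; simp [l, σ, σ0]⟩
  generalize S.h l 1 * n = y at g1 k
  refine ⟨y * y * y, ⟨mul_mem (mul_mem g1.V g1.V) g1.V, mul_mem (mul_mem g1.U g1.U) g1.U, ?_⟩,
    fun x x' e => ?_⟩
  · have a : y * (S.t * S.X 3 1) * y⁻¹ = S.t := by
      rw [← conj_mul, g1.t, cz h2 h g1.V, mul_assoc, S.X_sq, mul_one]
    calc _ = y * (y * (y * S.t * y⁻¹) * y⁻¹) * y⁻¹ := by group
      _ = _ := by rw [g1.t, a, g1.t]
  · obtain ⟨x1, a1, b1⟩ := k x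
    obtain ⟨x2, a2, b2⟩ := k x1
    obtain ⟨x3, a3, b3⟩ := k x2
    have : x' = x3 := S.inj (by rw [← e, ← a3, ← a2, ← a1]; group)
    rw [this, b3, b2, b1, σ3]

theorem pa (h : S.Db) {y : G} (hy : Gd S y) (h0 : ∀ x x', y * S.φ x * y⁻¹ = S.φ x' → x'.p0 = x.p0) :
    ∃ A : U12 E →* U12 E, PA A ∧ ∀ x, y * S.φ x * y⁻¹ = S.φ (A x) := by
  obtain ⟨A, hi, hA⟩ := exA hy.U
  exact ⟨A, ⟨hi, fun x => h0 _ _ (hA x), fun a => S.inj (by rw [← hA, S.φ3', cz h2 h hy.V]),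
    exH h2 h hy hA⟩, hA⟩

end P2B2
open P2B2

theorem St.Db.exY2 {S : St E G} (h : S.Db) (h2 : ∀ a : F, a = 0 ∨ a = 1) : ∃ (y : G) (c : F), y ∈ 𝐍(S.V) ∧ c ≠ 0 ∧
    y * S.t * y⁻¹ = S.t * S.X 3 (ι c) ∧ (∀ a, y * S.X 3 a = S.X 3 a * y) ∧
    ∀ x : U12 E, x.p0 = 0 → ∃ e : F, y * S.φ x * y⁻¹ = S.φ x * S.X 3 (ι e) := by
  obtain ⟨y, hy, h0⟩ := step2 h2 h
  obtain ⟨A, hA, e⟩ := pa h2 h hy h0
  let w : U12 E := g0 (A (g5 1)).p4
  have e' : ∀ x, S.φ w * y * S.φ x * (S.φ w * y)⁻¹ = S.φ (w * A x * w⁻¹) := fun x => by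
    rw [map_mul, map_mul, map_inv, ← e]; group
  have hy' : Gd S (S.φ w * y) := hy.mul (S.φ_memP w) (le_normalizer (S.φ_memU w))
  obtain ⟨B, hB, f⟩ := pa h2 h hy' fun x x' k => by
    rw [e'] at k; rw [← S.inj k, cj0, hA.p0]
  have h4 : (B (g5 1)).p4 = 0 := by
    rw [← S.inj ((e' _).symm.trans (f _)), cj4 _ (hA.p0 _), hA.e5 S.cub h2]
    simp [w, g0, CharTwo.add_self_eq_zero]
  refine ⟨S.φ w * y, 1, hy'.V, one_ne_zero, by rw [map_one, hy'.t],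
    fun a => mul_inv_eq_iff_eq_mul.1 (cz h2 h hy'.V a), fun x hx => ?_⟩
  obtain ⟨c, k⟩ := hB.fin S.cub h2 h4 hx
  exact ⟨c, by rw [f, k, map_mul, S.φ3']⟩

end H89.D4S
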