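import Cfsg.Agent.Lib.D4S.P2B1
import Cfsg.Agent.Lib.D4S.P2B2

/-! Standard components of type `³D₄(2ⁿ)`, package P2B: see `blueprint/D4S/README.md`. -/

set_option autoImplicit false
set_option linter.unusedSectionVars false

namespace H89.D4S
open Subgroup H69 U12
open H89.G2S (KK ιK σK)
open scoped commutatorElement

variable {F E G : Type*} [Field F] [Field E] [Cub F E] [CharP F 2] [CharP E 2] [Finite F] [Finite E]
  [Group G] [Finite G]

namespace P2B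
open P2B1 Cg
variable {S : St E G}

theorem inv_comm {w x : U12 E} (hw : w.p0 = 0) (hx : x.p0 = 0) : w⁻¹ * x * g3 (Bf w x) = x * w⁻¹ := by
  u12w [hw, hx]

theorem step2 (h : S.Db) : ∃ (d : G) (c : F), c ≠ 0 ∧ (∀ x ∈ S.Q, d * x = x * d) ∧
    d * S.t * d⁻¹ = S.t * S.X 3 (ι c) := by
  obtain ⟨y, c, hy, hc, ht, hZ, hQ⟩ := (four_or_two F).elim h.exY4 h.exY2
  have hQ' : ∀ x : U12 E, ∃ e : F, x.p0 = 0 → y * S.φ x * y⁻¹ = S.φ x * S.X 3 (ι e) := fun x => by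
    by_cases hx : x.p0 = 0
    · obtain ⟨e, he⟩ := hQ x hx; exact ⟨e, fun _ => he⟩
    · exact ⟨0, fun k => absurd k hx⟩
  choose η hη using hQ'
  have add : ∀ x w : U12 E, x.p0 = 0 → w.p0 = 0 → η (x * w) = η x + η w := fun x w hx hw => by
    have := hη (x * w) (by simp [hx, hw])
    rw [map_mul, ← conj_mul, hη x hx, hη w hw, mul_assoc, ← mul_assoc (S.X 3 _), S.X3_comm_φ,
      mul_assoc, ← S.X_addι, ← mul_assoc, mul_right_inj] at this
    exact (X3_inj this).symm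
  have key : ∀ p ∈ S.P0, ∃ u : U12 E, ∀ x x1 : U12 E, x.p0 = 0 → x1.p0 = 0 →
      p * S.φ x1 * p⁻¹ = S.φ x → η x + η x1 = Bf u x := fun p hp => by
    have c3 : ∀ a, Commute p (S.X 3 a) := fun a => (S.X3_comm_P0 a hp).symm
    have ct : Commute p S.t := (S.t_comm (S.P0_le_L hp)).symm
    have act : ∀ x x1 : U12 E, x.p0 = 0 → x1.p0 = 0 → p * S.φ x1 * p⁻¹ = S.φ x →
        y * p * y⁻¹ * p⁻¹ * S.φ x * (y * p * y⁻¹ * p⁻¹)⁻¹ = S.φ x * S.X 3 (ι (η x + η x1)) :=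
      fun x x1 hx hx1 e => by
        have a1 : y⁻¹ * S.φ x1 * y = S.φ x1 * S.X 3 (ι (η x1)) := by
          have := hη x1 hx1
          calc _ = y⁻¹ * (S.φ x1 * S.X 3 (ι (η x1))) * (S.X 3 (ι (η x1)) * y) := by
                rw [mul_assoc, mul_assoc, mul_assoc, ← mul_assoc (S.X 3 _), S.X_sq, one_mul]
            _ = y⁻¹ * (y * S.φ x1 * y⁻¹) * (y * S.X 3 (ι (η x1))) := by rw [this, hZ]
            _ = _ := by group
        calc _ = y * (p * (y⁻¹ * (p⁻¹ * S.φ x * p) * y) * p⁻¹) * y⁻¹ := by group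
          _ = y * (p * (y⁻¹ * S.φ x1 * y) * p⁻¹) * y⁻¹ := by rw [← e]; group
          _ = _ := by
            rw [a1, ← conj_mul (a := S.φ x1), e, (c3 _).eq, mul_inv_cancel_right, ← conj_mul, hη x hx,
              hZ, mul_inv_cancel_right, S.X_addι, mul_assoc]
    obtain ⟨u, c', hu, hc', e⟩ := S.cQb (g := y * p * y⁻¹ * p⁻¹)
      (Commute.mul_left (P2A.cV_conj hy ct (fun a => c3 a) P2A.tV) ct.inv_left).eq
      (fun a => (Commute.mul_left (P2A.cV_conj hy ct (fun a => c3 a) (P2A.X3V a)) (c3 a).inv_left).eq)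
      fun x hx => by
        obtain ⟨x1, a, b⟩ := exQ (S.P0_norm_Q (inv_mem hp)) hx
        exact ⟨_, act x x1 hx a (by rw [← b]; group)⟩
    refine ⟨u, fun x x1 hx hx1 e1 => ?_⟩
    have := act x x1 hx hx1 e1
    rw [e, mul_assoc (S.φ u), hc'.2.comm (S.φ_mem x), mul_inv_rev, ← mul_assoc, ← mul_assoc,
      mul_inv_cancel_right, ← map_mul, comm_Q hu hx, map_mul, map_mul, S.φ3', mul_assoc (S.φ x),
      ← S.X3_comm_φ, ← mul_assoc, mul_inv_cancel_right, mul_right_inj] at this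
    exact (X3_inj this).symm
  obtain ⟨l, l1, -, l2⟩ := exists_N1 S.cub
  have hl : (1 : E) + sh (l : E) ≠ 0 := fun k => l2 (by grind)
  obtain ⟨e2, he2⟩ : ∃ e : E, ∀ a, η (g2 a) = T (e * a) := by
    obtain ⟨u, hu⟩ := key _ (S.h_memP (l := l) (m := 1) (by simp [l1]))
    refine ⟨u.p4 * sh (l : E) / (1 + sh (l : E)), fun a => ?_⟩
    obtain ⟨b, rfl⟩ : ∃ b, a = (1 + sh (l : E)) * b := ⟨a / (1 + sh (l : E)), by field_simp⟩
    have := hu (g2 (sh (l : E) * b)) (g2 b) rfl rfl (by rw [S.φ2, S.φ2, S.hX]; simp)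
    rw [← add _ _ rfl rfl, show g2 (sh (l : E) * b) * g2 b = g2 ((1 + sh (l : E)) * b) by u12] at this
    rw [this]; simp only [Bf, g2, mul_zero, map_zero, add_zero, zero_add]; congr 1; field_simp
  obtain ⟨e1, he1⟩ : ∃ e, ∀ a, η (g1 a) = e * a := by
    obtain ⟨u, hu⟩ := key _ (S.X_memP (i := 0) (by decide) 1)
    refine ⟨T u.p4 + u.p5, fun a => ?_⟩
    have := hu (g2 (ι a) * g1 a) (g2 (ι a)) (by simp [g2, g1]) rfl (by
      rw [S.X_inv, ← S.φ0, ← map_mul, ← map_mul, al2, one_mul, T_ι])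
    rw [add _ _ rfl rfl, show Bf u (g2 (ι a) * g1 a) = (T u.p4 + u.p5) * a by
      simp [Bf, g2, g1]; ring] at this
    rw [← this]; grind
  obtain ⟨u, hu⟩ := key _ S.n0_memP
  have he5 : ∀ a, η (g5 a) = (e1 + u.p5) * a := fun a => by
    have := hu (g1 a) (g5 a) rfl rfl (by rw [S.φ5', S.φ1', S.c0]; rfl)
    rw [he1, show Bf u (g1 a) = u.p5 * a by simp [Bf, g1]] at this
    rw [add_mul, ← this]; grind
  have he4 : ∀ a, η (g4 a) = T ((e2 + u.p4) * a) := fun a => by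
    have := hu (g2 a) (g4 a) rfl rfl (by rw [S.φ4, S.φ2, S.c0]; rfl)
    rw [he2, show Bf u (g2 a) = T (u.p4 * a) by simp [Bf, g2]] at this
    rw [add_mul, map_add, ← this]; grind
  let w : U12 E := ⟨0, e1, e2, e2 + u.p4, e1 + u.p5, 0⟩
  have fin : ∀ x : U12 E, x.p0 = 0 → η x = Bf w x →
      (S.φ w)⁻¹ * y * S.φ x = S.φ x * ((S.φ w)⁻¹ * y) := fun x hx e => by
    rw [mul_assoc, mul_inv_eq_iff_eq_mul.1 (hη x hx), e, ← mul_assoc, ← mul_assoc, ← mul_assoc,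
      mul_left_inj, ← S.φ3', ← map_inv, ← map_mul, ← map_mul, ← map_mul, inv_comm rfl hx]
  refine ⟨(S.φ w)⁻¹ * y, c, hc, ?_, ?_⟩
  · rintro _ ⟨x, hx, rfl⟩
    refine S.comm_φQ (fun i h0 h5 a => ?_) hx
    have : i = 1 ∨ i = 2 ∨ i = 3 ∨ i = 4 ∨ i = 5 := by revert i; decide
    rcases this with rfl | rfl | rfl | rfl | rfl
    · rw [← S.φ1]; exact fin _ rfl (by rw [he1]; simp [Bf, g1, w])
    · rw [← S.φ2]; exact fin _ rfl (by rw [he2]; simp [Bf, g2, w])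
    · exact (Commute.mul_left (Commute.inv_left (S.X3_comm_φ a w).symm) (hZ a)).eq
    · rw [← S.φ4]; exact fin _ rfl (by rw [he4]; simp [Bf, g4, w])
    · rw [← S.φ5]; exact fin _ rfl (by rw [he5]; simp [Bf, g5, w])
  · have : Commute (S.φ w) (S.t * S.X 3 (ι c)) :=
      Commute.mul_right (S.t_comm (S.φ_mem w)).symm (S.X3_comm_φ _ w).symm
    calc _ = (S.φ w)⁻¹ * (y * S.t * y⁻¹) * S.φ w := by group
      _ = _ := by rw [ht, mul_assoc, ← this.eq, inv_mul_cancel_left]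

end P2B
open P2B P2B1 Cg

theorem St.Db.exD {S : St E G} (h : S.Db) (c : F) :
    ∃ d, (∀ x ∈ S.Q, d * x = x * d) ∧ d * S.t * d⁻¹ = S.t * S.X 3 (ι c) := by
  by_cases hc : c = 0
  · exact ⟨1, by simp, by simp [hc]⟩
  obtain ⟨d, c1, h1, hQ, ht⟩ := step2 h
  obtain ⟨ν, hν⟩ := exists_sq_unit (div_ne_zero hc h1)
  refine ⟨S.h 1 ν * d * (S.h 1 ν)⁻¹, fun x hx => P2A.conj_comm (hQ _
    ((mem_normalizer_iff.1 (inv_mem (S.h_norm_Q 1 ν)) x).1 hx)), ?_⟩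
  have e : S.h 1 ν * S.t * (S.h 1 ν)⁻¹ = S.t := by rw [h_t, mul_inv_cancel_right]
  calc _ = S.h 1 ν * d * (S.h 1 ν)⁻¹ * (S.h 1 ν * S.t * (S.h 1 ν)⁻¹) * (S.h 1 ν * d * (S.h 1 ν)⁻¹)⁻¹ := by
        rw [e]
    _ = S.h 1 ν * (d * S.t * d⁻¹) * (S.h 1 ν)⁻¹ := by group
    _ = _ := by
      rw [ht, ← conj_mul, e, S.h_X3]; congr 3
      simp [hν]; field_simp

end H89.D4S
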