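import Cfsg.Agent.Lib.D4S.P2A
import Cfsg.Agent.Lib.D4S.Cg

/-! Standard components of type `³D₄(2ⁿ)`, package P2B1: see `blueprint/D4S/README.md`. -/

set_option autoImplicit false
set_option linter.unusedSectionVars false

namespace H89.D4S
open Subgroup H69 U12
open H89.G2S (KK ιK σK)
open scoped commutatorElement

variable {F E G : Type*} [Field F] [Field E] [Cub F E] [CharP F 2] [CharP E 2] [Finite F] [Finite E]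
  [Group G] [Finite G]

namespace P2B1
open Cg
variable {S : St E G}

theorem X3_inj {a b : F} (h : S.X 3 (ι a) = S.X 3 (ι b)) : a = b := Pin.X_injι S.inj 3 h

theorem φ_comm {x w : U12 E} (hx : x.p0 = 0) (hw : w.p0 = 0) :
    S.X 3 (ι (Bf x w)) = (S.φ w * S.φ x)⁻¹ * (S.φ x * S.φ w) := by
  rw [← map_mul, ← map_mul, comm_Q hx hw, map_mul _ (w * x), S.φ3', inv_mul_cancel_left]

theorem form {g : G} {x w x' w' : U12 E} (hx : x.p0 = 0) (hw : w.p0 = 0) (hx' : x'.p0 = 0)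
    (hw' : w'.p0 = 0) (h1 : g * S.φ x * g⁻¹ = S.φ x') (h2 : g * S.φ w * g⁻¹ = S.φ w') :
    g * S.X 3 (ι (Bf x w)) * g⁻¹ = S.X 3 (ι (Bf x' w')) := by
  rw [φ_comm hx hw, φ_comm hx' hw', ← h1, ← h2]; group

theorem exQ {g : G} (hg : g ∈ 𝐍(S.Q)) {x : U12 E} (hx : x.p0 = 0) :
    ∃ x', x'.p0 = 0 ∧ g * S.φ x * g⁻¹ = S.φ x' := by
  obtain ⟨x', h1, h2⟩ := S.mem_Q.1 ((mem_normalizer_iff.1 hg _).1 (S.φ_memQ hx))
  exact ⟨x', h1, h2.symm⟩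

theorem h_t (l : Eˣ) (m : Fˣ) : S.h l m * S.t = S.t * S.h l m := (S.t_comm (S.hL l m)).symm

theorem h_normV (l : Eˣ) (m : Fˣ) : S.h l m ∈ 𝐍(S.V) := S.h_norm (fun l m x hx => by
  obtain ⟨a, rfl | rfl⟩ := S.mem_V.1 hx
  · exact S.mem_V.2 ⟨_, .inl (S.h_X3 l m a)⟩
  · exact S.mem_V.2 ⟨_, .inr (by rw [← conj_mul, S.h_X3, h_t, mul_inv_cancel_right])⟩) l m

/-- conjugates of `h(1, μ)` under `N(Q)` act as scalars on `Q/Z` -/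
theorem scalar {n : G} (hn : n ∈ 𝐍(S.Q)) {μ : Fˣ} (hμ : (μ : F) ≠ 1) : ∃ ν : Fˣ, (ν : F) ≠ 1 ∧
    ∀ x x' : U12 E, x.p0 = 0 → x'.p0 = 0 →
      n * S.h 1 μ * n⁻¹ * S.φ x * (n * S.h 1 μ * n⁻¹)⁻¹ = S.φ x' →
      ∀ w : U12 E, w.p0 = 0 → Bf x' w = ν * Bf x w := by
  have k : ∀ x x' : U12 E, x.p0 = 0 → x'.p0 = 0 →
      n * S.h 1 μ * n⁻¹ * S.φ x * (n * S.h 1 μ * n⁻¹)⁻¹ = S.φ x' → ∀ w : U12 E, w.p0 = 0 →
      ∃ e : F, n⁻¹ * S.X 3 (ι (Bf x w)) * n⁻¹⁻¹ = S.X 3 (ι e) ∧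
        n⁻¹ * S.X 3 (ι (Bf x' w)) * n⁻¹⁻¹ = S.X 3 (ι (μ * e)) := fun x x' hx hx' e w hw => by
    obtain ⟨x1, a1, b1⟩ := exQ (inv_mem hn) hx
    obtain ⟨w1, a2, b2⟩ := exQ (inv_mem hn) hw
    have b3 : n⁻¹ * S.φ x' * n⁻¹⁻¹ = S.φ (tor ((1 : Eˣ) : E) (μ : F) x1) := by
      rw [← S.h_φ, ← b1, ← e]; group
    refine ⟨_, form hx hw a1 a2 b1 b2, ?_⟩
    rw [form hx' hw (by simp [a1]) a2 b3 b2]
    congr 2; simp [Bf, mul_assoc]; ring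
  obtain ⟨y, hy, e⟩ := exQ (mul_mem (mul_mem hn (S.h_norm_Q 1 μ)) (inv_mem hn))
    (x := g5 1) rfl
  have k1 : ∀ a : F, ∃ e : F, n⁻¹ * S.X 3 (ι a) * n⁻¹⁻¹ = S.X 3 (ι e) ∧
      n⁻¹ * S.X 3 (ι (y.p5 * a)) * n⁻¹⁻¹ = S.X 3 (ι (μ * e)) := fun a => by
    simpa [Bf, g1, g5] using k _ _ rfl hy e (g1 a) rfl
  obtain ⟨e1, c1, c2⟩ := k1 1
  have he1 : e1 ≠ 0 := fun h0 => by
    rw [h0, X_ι0 S, conj_eq_one_iff, ← X_ι0 S 3] at c1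
    exact one_ne_zero (X3_inj c1)
  have h0 : y.p5 ≠ 0 := fun h0 => by
    rw [h0, zero_mul, X_ι0 S, mul_one, mul_inv_cancel, ← X_ι0 S 3] at c2
    exact mul_ne_zero μ.ne_zero he1 (X3_inj c2).symm
  refine ⟨Units.mk0 _ h0, fun h1 => ?_, fun x x' hx hx' e w hw => ?_⟩
  · rw [show y.p5 = 1 from h1, one_mul, c1] at c2
    exact hμ (mul_right_cancel₀ he1 ((X3_inj c2).symm.trans (one_mul _).symm))
  · obtain ⟨d, d1, d2⟩ := k x x' hx hx' e w hw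
    obtain ⟨d', d1', d2'⟩ := k1 (Bf x w)
    rw [X3_inj (d1.symm.trans d1'), ← d2', mul_left_inj, mul_right_inj] at d2
    exact X3_inj d2

end P2B1
open P2B1 Cg

theorem St.Db.exY4 {S : St E G} (h : S.Db) (h4 : 4 ≤ Nat.card F) : ∃ (y : G) (c : F), y ∈ 𝐍(S.V) ∧ c ≠ 0 ∧
    y * S.t * y⁻¹ = S.t * S.X 3 (ι c) ∧ (∀ a, y * S.X 3 a = S.X 3 a * y) ∧
    ∀ x : U12 E, x.p0 = 0 → ∃ e : F, y * S.φ x * y⁻¹ = S.φ x * S.X 3 (ι e) := by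
  obtain ⟨n, hn, ht⟩ := h.mv
  obtain ⟨c0, e0⟩ := h.nvt hn
  have hc0 : c0 ≠ 0 := fun k => ht (by rw [e0, k, X_ι0 S, mul_one])
  obtain ⟨μ0, μ1, hμ, -⟩ := exists_ne h4 0 1 1
  obtain ⟨μ, rfl⟩ : ∃ μ : Fˣ, μ0 = μ := ⟨Units.mk0 _ μ1, rfl⟩
  obtain ⟨ν, hν, k⟩ := scalar (h.nvQ hn) hμ
  set κ := n * S.h 1 μ * n⁻¹ with hκ
  have hκV : κ ∈ 𝐍(S.V) := mul_mem (mul_mem hn (h_normV 1 μ)) (inv_mem hn)
  have hy : S.h 1 ν⁻¹ * κ ∈ 𝐍(S.V) := mul_mem (h_normV _ _) hκV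
  set y := S.h 1 ν⁻¹ * κ with hy'
  have k1 : ∀ x : U12 E, x.p0 = 0 → ∃ e, y * S.φ x * y⁻¹ = S.φ (x * g3 e) := fun x hx => by
    obtain ⟨x', a, b⟩ := exQ (h.nvQ hκV) hx
    have := k x x' hx a b
    have h5 := this (g1 1) rfl
    have h1 := this (g5 1) rfl
    have h4 : x'.p4 = ι (ν : F) * x.p4 := sub_eq_zero.1 (nd _ fun y => by
      have := this (g2 y) rfl
      simp only [Bf, g2, mul_zero, add_zero, zero_add, map_zero] at this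
      rw [sub_mul, map_sub, this, mul_assoc, T_ι_mul, sub_self])
    have h2 : x'.p2 = ι (ν : F) * x.p2 := sub_eq_zero.1 (nd _ fun y => by
      have := this (g4 y) rfl
      simp only [Bf, g4, mul_zero, add_zero, zero_add, map_zero] at this
      rw [sub_mul, map_sub, this, mul_assoc, T_ι_mul, sub_self])
    have hi : (ι (ν : F) : E) ≠ 0 := ι_eq_zero.not.2 ν.ne_zero
    simp only [Bf, g1, g5, mul_zero, mul_one, add_zero, zero_add, map_zero] at h5 h1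
    refine ⟨x.p3 + (tor ((1 : Eˣ) : E) ((ν⁻¹ : Fˣ) : F) x').p3, ?_⟩
    rw [show y * S.φ x * y⁻¹ = S.h 1 ν⁻¹ * (κ * S.φ x * κ⁻¹) * (S.h 1 ν⁻¹)⁻¹ by rw [hy']; group, b,
      S.h_φ]
    congr 1
    ext <;> simp [g3, hx, a, h5, h4, h2, h1, hi, ← add_assoc, CharTwo.add_self_eq_zero]
  have k2 : ∀ a : F, y * S.X 3 (ι a) * y⁻¹ = S.X 3 (ι a) := fun a => by
    obtain ⟨e5, b5⟩ := k1 (g5 1) rfl
    obtain ⟨e1, b1⟩ := k1 (g1 a) rfl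
    simpa [Bf, g1, g5, g3] using form (x := g5 1) (w := g1 a) rfl rfl (by simp [g5, g3])
      (by simp [g1, g3]) b5 b1
  obtain ⟨c, ec⟩ := h.nvt hy
  refine ⟨y, c, hy, fun hc => ?_, ec, fun a => S.X_T (i := 3) rfl a ▸ mul_inv_eq_iff_eq_mul.1 (k2 _),
    fun x hx => ?_⟩
  · rw [hc, X_ι0 S, mul_one] at ec
    have a1 : κ * (S.t * S.X 3 (ι c0)) * κ⁻¹ = S.t * S.X 3 (ι c0) := by
      rw [← e0, hκ, conj_mul, h_t, ← conj_mul]; group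
    have a2 : y * (S.t * S.X 3 (ι c0)) * y⁻¹ = S.t * S.X 3 (ι c0) := by rw [← conj_mul, ec, k2]
    rw [show y * (S.t * S.X 3 (ι c0)) * y⁻¹ = S.h 1 ν⁻¹ * (κ * (S.t * S.X 3 (ι c0)) * κ⁻¹) * (S.h 1 ν⁻¹)⁻¹ by
      rw [hy']; group, a1, ← conj_mul, S.h_X3, h_t, mul_inv_cancel_right, mul_right_inj] at a2
    have a3 := mul_right_cancel₀ hc0 ((X3_inj a2).trans (one_mul _).symm)
    simp only [map_one, Units.val_one, one_pow, one_mul, Units.val_inv_eq_inv_val, inv_pow,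
      inv_eq_one] at a3
    exact hν (CharTwo.sq_inj.1 (a3.trans (one_pow 2).symm))
  · obtain ⟨e, he⟩ := k1 x hx
    exact ⟨e, by rw [he, map_mul, S.φ3']⟩

end H89.D4S
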