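import Cfsg.Agent.Lib.D4S.P2B

/-! Standard components of type `³D₄(2ⁿ)`, package P2C: see `blueprint/D4S/README.md`. -/

set_option autoImplicit false
set_option linter.unusedSectionVars false

namespace H89.D4S
open Subgroup H69 U12
open H89.G2S (KK ιK σK)
open scoped commutatorElement

variable {F E G : Type*} [Field F] [Field E] [Cub F E] [CharP F 2] [CharP E 2] [Finite F] [Finite E]
  [Group G] [Finite G]

namespace P2C
open Cg
variable {S : St E G} {c c' : F} {d e : G}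

/-- `d` centralises `Q` and translates `t` by `c` -/
def D (S : St E G) (c : F) (d : G) : Prop :=
  (∀ x ∈ S.Q, d * x = x * d) ∧ d * S.t * d⁻¹ = S.t * S.X 3 (ι c)

theorem D.d0 (h : D S c d) : S.D0 d := ⟨h.1, c, h.2⟩
theorem of_d0 (h : S.D0 d) : ∃ c, D S c d := let ⟨h1, c, h2⟩ := h; ⟨c, h1, h2⟩
theorem D.x3 (h : D S c d) (a : E) : d * S.X 3 a = S.X 3 a * d := h.1 _ (S.Z_le_Q (S.X3_mem a))
theorem D.mul (h : D S c d) (h' : D S c' e) : D S (c + c') (d * e) :=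
  ⟨fun x hx => (Commute.mul_left (h.1 x hx) (h'.1 x hx)).eq, by
    rw [show d * e * S.t * (d * e)⁻¹ = d * (e * S.t * e⁻¹) * d⁻¹ by group, h'.2, ← conj_mul, h.2, h.x3,
      mul_inv_cancel_right, S.X_addι, mul_assoc]⟩
theorem D.inv (h : D S c d) : D S c d⁻¹ :=
  ⟨fun x hx => (Commute.inv_left (h.1 x hx)).eq, by
    calc d⁻¹ * S.t * d⁻¹⁻¹ = d⁻¹ * (S.t * S.X 3 (ι c)) * (S.X 3 (ι c) * d) := by
          rw [mul_assoc _ (S.t * _), mul_assoc S.t, ← mul_assoc (S.X 3 (ι c)), S.X_sq, one_mul, inv_inv,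
            mul_assoc]
      _ = d⁻¹ * (d * S.t * d⁻¹) * (d * S.X 3 (ι c)) := by rw [h.2, h.x3]
      _ = _ := by group⟩
theorem D.h (h : D S c d) (l : Eˣ) (m : Fˣ) : D S (N (l : E) * (m : F) ^ 2 * c) (S.h l m * d * (S.h l m)⁻¹) := by
  refine ⟨fun x hx => P2A.conj_comm (h.1 _
    ((mem_normalizer_iff.1 (inv_mem (S.h_norm_Q l m)) x).1 hx)), ?_⟩
  have e : S.h l m * S.t * (S.h l m)⁻¹ = S.t := by rw [P2B1.h_t, mul_inv_cancel_right]
  calc _ = S.h l m * d * (S.h l m)⁻¹ * (S.h l m * S.t * (S.h l m)⁻¹) * (S.h l m * d * (S.h l m)⁻¹)⁻¹ := by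
        rw [e]
    _ = S.h l m * (d * S.t * d⁻¹) * (S.h l m)⁻¹ := by group
    _ = _ := by rw [h.2, ← conj_mul, e, S.h_X3]
theorem D.uniq (h : D S c d) (h' : D S c' d) : c = c' :=
  P2B1.X3_inj (mul_left_cancel (h.2.symm.trans h'.2))
theorem D.zero (h : D S 0 d) : d * S.t = S.t * d := by
  have := h.2; rwa [X_ι0 S, mul_one, mul_inv_eq_iff_eq_mul] at this
theorem d_of (hQ : ∀ x ∈ S.Q, d * x = x * d) (ht : d * S.t = S.t * d) : D S 0 d :=
  ⟨hQ, by rw [X_ι0 S, mul_one, ht, mul_inv_cancel_right]⟩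
theorem V_CO {v : G} (hv : v ∈ S.V) : S.CO v := by
  obtain ⟨a, rfl | rfl⟩ := S.mem_V.1 hv
  exacts [S.co_L (S.X_mem _ _), S.co_t.mul (S.co_L (S.X_mem _ _))]
theorem V_D {v : G} (hv : v ∈ S.V) : D S 0 v := by
  have h1 : ∀ a, D S 0 (S.X 3 a) := fun a => d_of
    (fun x hx => S.X3_comm_P0 a (S.U_le_P0 (S.Q_le_U hx))) (S.tX 3 a).symm
  obtain ⟨a, rfl | rfl⟩ := S.mem_V.1 hv
  · exact h1 _
  · simpa using (d_of (fun x hx => S.t_comm (S.U_le_L (S.Q_le_U hx))) rfl).mul (h1 (ι a))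
theorem od_D {o : G} (ho : S.Od o) : D S 0 o :=
  d_of (fun _ hx => ho.1.2.comm (S.U_le_L (S.Q_le_U hx))) ho.1.1
theorem D.split (h : S.Db) (hd : D S 0 d) : ∃ v ∈ S.V, ∃ o, S.Od o ∧ d = v * o := by
  obtain ⟨a, c, hc, e⟩ := S.cQ hd.zero hd.1
  obtain ⟨o, ho, rfl | rfl⟩ := h.cases hc
  · exact ⟨_, P2A.X3V _, _, ho, e⟩
  · exact ⟨_, mul_mem (P2A.X3V _) P2A.tV, o, ho, by rw [e, mul_assoc]⟩
theorem od_V {o : G} (ho : S.Od o) (h : o * o ∈ S.V) : o = 1 := ho.eq_one_four (S.V_sq h)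

theorem dd_inv (hd : S.DD d) : S.DD d⁻¹ :=
  let ⟨_, h⟩ := of_d0 hd.1
  ⟨h.inv.d0, hd.2.1.inv, by rw [← mul_inv_rev]; exact inv_mem hd.2.2⟩

theorem comm_V (h : S.Db) (hd : S.DD d) (he : S.D0 e) : d * e * d⁻¹ * e⁻¹ ∈ S.V := by
  obtain ⟨c, h1⟩ := of_d0 hd.1
  obtain ⟨c', h2⟩ := of_d0 he
  have k := ((h1.mul h2).mul h1.inv).mul h2.inv
  rw [show c + c' + c + c' = 0 by grind] at k
  obtain ⟨v, hv, o, hO, e1⟩ := k.split h
  have e2 : d * e * d⁻¹ = v * o * e := by rw [← e1]; group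
  have e3 : d * d * e * (d * d)⁻¹ = d * v * d⁻¹ * v * (o * o) * e := by
    calc _ = d * (d * e * d⁻¹) * d⁻¹ := by group
      _ = d * v * d⁻¹ * (d * o * d⁻¹) * (d * e * d⁻¹) := by conv_lhs => rw [e2]
                                                            group
      _ = _ := by
        rw [hd.2.1 o hO, mul_inv_cancel_right, e2, mul_assoc _ o, ← mul_assoc o, ← mul_assoc o,
          ← V_CO hv o hO]; group
  have e4 : o * o = (d * v * d⁻¹ * v)⁻¹ * (d * d * (e * (d * d)⁻¹ * e⁻¹)) := by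
    rw [eq_inv_mul_iff_mul_eq, ← mul_left_inj e, ← e3]; group
  have : o = 1 := od_V hO (e4 ▸ mul_mem (inv_mem (mul_mem
    ((mem_normalizer_iff.1 (S.mem_norm_V hd.1) v).1 hv) hv)) (mul_mem hd.2.2
      ((mem_normalizer_iff.1 (S.mem_norm_V he) _).1 (inv_mem hd.2.2))))
  rw [e1, this, mul_one]; exact hv

end P2C
open P2C Cg

namespace St.Db
variable {S : St E G} (h : S.Db)
include h
theorem dP {d p : G} (hd : S.D0 d) (hp : p ∈ S.P0) : d * p = p * d := by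
  have k : ∀ p ∈ S.P0, ∃ a : F, d * p * d⁻¹ = S.X 3 (ι a) * p := fun p hp => by
    obtain ⟨a, e⟩ := S.mem_Z.1 (S.memZ_of_comm (g := d * p * d⁻¹ * p⁻¹) (S.P0_le_L (mul_mem
      ((mem_normalizer_iff.1 (h.nvP (S.mem_norm_V hd)) p).1 hp) (inv_mem hp))) fun x hx => by
        have h1 : Commute (p * d⁻¹ * p⁻¹) x := P2A.conj_comm (Commute.inv_left (hd.1 _
          ((mem_normalizer_iff.1 (inv_mem (S.P0_norm_Q hp)) x).1 hx))).eq
        have := (Commute.mul_left (hd.1 x hx) h1).eq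
        simpa only [mul_assoc] using this)
    exact ⟨a, by rw [e, inv_mul_cancel_right]⟩
  have k2 : ⁅S.P0, S.P0⁆ ≤ centralizer {d} := commutator_le.2 fun p hp p' hp' => by
    obtain ⟨a, e⟩ := k p hp
    obtain ⟨a', e'⟩ := k p' hp'
    rw [mem_centralizer_singleton_iff, eq_comm, ← mul_inv_eq_iff_eq_mul, conjugate_commutatorElement,
      e, e']
    have c1 : Commute (S.X 3 (ι a)) p := S.X3_comm_P0 _ hp
    have c2 : Commute (S.X 3 (ι a)) p' := S.X3_comm_P0 _ hp'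
    have c3 : Commute (S.X 3 (ι a')) p := S.X3_comm_P0 _ hp
    have c4 : Commute (S.X 3 (ι a')) p' := S.X3_comm_P0 _ hp'
    have c5 : Commute (S.X 3 (ι a)) (S.X 3 (ι a')) := S.X3_comm_P0 _ (S.X_memP (by decide) _)
    simp only [commutatorElement_def, mul_inv_rev, mul_assoc]
    rw [c1.left_comm, c5.left_comm, c2.left_comm, c1.inv_right.left_comm, mul_inv_cancel_left,
      c4.left_comm, c3.inv_right.left_comm, c4.inv_right.left_comm, mul_inv_cancel, mul_one]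
  rw [S.perfP] at k2
  exact (mem_centralizer_singleton_iff.1 (k2 hp)).symm
theorem dd_ker {d : G} (hd : S.DD d) (ht : d * S.t = S.t * d) : d ∈ S.V := by
  obtain ⟨v, hv, o, ho, e⟩ := (d_of hd.1.1 ht).split h
  have : o * o = d * d := by
    rw [e, mul_assoc, ← mul_assoc o v, ← V_CO hv o ho, mul_assoc, ← mul_assoc, S.V_sq hv, one_mul]
  rw [e, od_V ho (this ▸ hd.2.2), mul_one]; exact hv
theorem dd_mul {d e : G} (hd : S.DD d) (he : S.DD e) : S.DD (d * e) := by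
  obtain ⟨c, h1⟩ := of_d0 hd.1
  obtain ⟨c', h2⟩ := of_d0 he.1
  refine ⟨(h1.mul h2).d0, hd.2.1.mul he.2.1, ?_⟩
  rw [show d * e * (d * e) = d * d * (d⁻¹ * e * d⁻¹⁻¹ * e⁻¹) * (e * e) by group]
  exact mul_mem (mul_mem hd.2.2 (comm_V h (dd_inv hd) he.1)) he.2.2
theorem dd_onto (c : F) : ∃ d, S.DD d ∧ d * S.t * d⁻¹ = S.t * S.X 3 (ι c) := by
  obtain ⟨d, hd⟩ : ∃ d, D S c d := h.exD _
  have a1 : ∀ i ≤ 4, ∀ a, d * S.X i a = S.X i a * d := fun i hi a =>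
    h.dP hd.d0 (S.X_memP (hi.trans (by decide)) a)
  have a2 : ∀ i ≤ 4, ∀ a, cg S.n5 d * S.X i a = S.X i a * cg S.n5 d := fun i hi a => by
    rw [← show cg S.n5 (S.X (4 - i) a) = S.X i a by rw [cg_n5_X, sub_sub_cancel]]
    exact cg_comm _ (h.dP hd.d0 (S.X_memP ((by decide : ∀ i : Fin 12, i ≤ 4 → 4 - i ≤ 6) i hi) a))
  have a3 := cg_X5_cent S a2 (ι (1 : F))
  have a4 : cg (cg S.n5 d) S.t = S.t * S.X 1 (ι c) := by
    rw [cg_cg, cg_n5i_t, cg_def d, hd.2, cg_mul, cg_n5_t, cg_n5_X]; rfl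
  obtain ⟨b, b', k, hk, e0⟩ := S.cQ2 (g := (cg S.n5 d * d)⁻¹ * cg (S.X 5 (ι (1 : F))) (cg S.n5 d))
    (comm_of_cg (by
      rw [mul_cg]
      refine inv_cg ?_
      rw [mul_cg, cg_def d, hd.2, cg_mul, a4, cg_fix (a2 3 (by decide) _), cg_cg, S.X_inv, cg_X_t, a4, cg_mul,
        cg_X_t, cg_X5_X1, one_mul, mul_assoc]))
    fun i hi a => ((Commute.mul_left (a2 i hi a) (a1 i hi a)).inv_left.mul_left (a3 i hi a)).eq
  have h1 := hd.mul (d_of (fun _ hx => hk.2.comm (S.U_le_L (S.Q_le_U hx))) hk.1)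
  rw [add_zero] at h1
  have h2 : S.CO (d * k) := fun o ho => by
    have b1 : ∀ {l x o : G}, l ∈ S.L → S.Od o → cg x o = cg d o → cg (cg l x) o = cg d o := fun hl ho e => by
      rw [cg_cg, cg_fix (S.co_L (inv_mem hl) _ ho), e]
      exact cg_fix (S.co_L hl _ (h.nvO (S.mem_norm_V hd.d0) ho))
    have b2 := b1 (S.X_mem 5 (ι (1 : F))) ho (b1 S.n5_mem ho rfl)
    have b3 : S.Od (cg k o) := ho.conj hk.1
    rw [inv_mul_eq_iff_eq_mul.1 e0, mul_cg, mul_cg, mul_cg (_ * _),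
      cg_fix (S.co_L (mul_mem (S.X_mem _ _) (S.X_mem _ _)) _ b3),
      b1 (o := cg d (cg k o)) S.n5_mem (h.nvO (S.mem_norm_V hd.d0) b3) rfl] at b2
    exact comm_of_cg ((mul_cg _ _ _).trans (cg_inj b2))
  generalize d * k = e at h1 h2
  have h3 := h1.mul h1
  rw [CharTwo.add_self_eq_zero] at h3
  obtain ⟨v, hv, o, ho, e1⟩ := h3.split h
  obtain ⟨n, hn⟩ := ho.exists_sqrt
  have h4 : S.CO o := by
    rw [show o = v⁻¹ * (e * e) by rw [e1]; group]; exact (V_CO hv).inv.mul (h2.mul h2)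
  have h5 : S.CO (o ^ n) := fun o' ho' => (Commute.pow_left (h4 o' ho') n).eq
  have h6 := h1.mul (od_D (ho.pow n).inv)
  rw [add_zero] at h6
  refine ⟨_, ⟨h6.d0, h2.mul h5.inv, ?_⟩, h6.2⟩
  rw [mul_assoc, ← mul_assoc _ e, ← h2 _ (ho.pow n).inv, mul_assoc e, ← mul_assoc e, ← mul_inv_rev, hn,
    e1, mul_inv_cancel_right]
  exact hv
end St.Db

end H89.D4S
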