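import Cfsg.Agent.Lib.D4S.P2C

/-! Standard components of type `³D₄(2ⁿ)`, package P2D: see `blueprint/D4S/README.md`. -/

set_option autoImplicit false
set_option linter.unusedSectionVars false

namespace H89.D4S
open Subgroup H69 U12
open H89.G2S (KK ιK σK)
open scoped commutatorElement

variable {F E G : Type*} [Field F] [Field E] [Cub F E] [CharP F 2] [CharP E 2] [Finite F] [Finite E]
  [Group G] [Finite G]

namespace P2D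
open P2C Cg
variable {S : St E G} {d e : G}

theorem dd_x3 (a : F) : S.DD (S.X 3 (ι a)) :=
  ⟨(V_D (P2A.X3V _)).d0, V_CO (P2A.X3V _), mul_mem (P2A.X3V _) (P2A.X3V _)⟩
theorem dd_one : S.DD 1 := by simpa using dd_x3 (S := S) 0
theorem dd_comm (hd : S.DD d) (a : E) : d * S.X 3 a = S.X 3 a * d := hd.1.1 _ (S.Z_le_Q (S.X3_mem a))
theorem dd_h (hd : S.DD d) (l : Eˣ) (m : Fˣ) : S.DD (S.h l m * d * (S.h l m)⁻¹) :=
  let ⟨_, h⟩ := of_d0 hd.1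
  ⟨(h.h l m).d0, hd.2.1.conj (P2B1.h_t l m), by
    rw [conj_mul]; exact (mem_normalizer_iff.1 (P2B1.h_normV l m) _).1 hd.2.2⟩

theorem dd_sq (h : S.Db) (hd : S.DD d) : ∃ a : F, d * d = S.X 3 (ι a) := by
  obtain ⟨a, e | e⟩ := S.mem_V.1 hd.2.2
  · exact ⟨a, e⟩
  · have h1 : d * S.t = S.t * d := by
      have : d * (d * d) = d * d * d := (mul_assoc _ _ _).symm
      rwa [e, mul_assoc, ← dd_comm hd, ← mul_assoc, ← mul_assoc, mul_left_inj] at this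
    exact ⟨0, by rw [S.V_sq (h.dd_ker hd h1), X_ι0 S]⟩

theorem dd_inv_eq (h : S.Db) (hd : S.DD d) : ∃ a : F, d⁻¹ = d * S.X 3 (ι a) := by
  obtain ⟨a, e⟩ := dd_sq h hd
  exact ⟨a, by rw [inv_eq_iff_mul_eq_one, ← mul_assoc, e, S.X_sq]⟩

theorem dd_swap (h : S.Db) (hd : S.DD d) (he : S.DD e) : ∃ a : F, d * e = e * d * S.X 3 (ι a) := by
  obtain ⟨a, h1⟩ := dd_sq h hd
  obtain ⟨b, h2⟩ := dd_sq h he
  obtain ⟨c, h3⟩ := dd_inv_eq h (h.dd_mul he hd)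
  refine ⟨c + (b + a), ?_⟩
  rw [S.X_addι, ← mul_assoc, ← h3, S.X_addι, ← h2, ← h1, mul_inv_rev, mul_assoc d⁻¹, ← mul_assoc e⁻¹,
    inv_mul_cancel_left, h1, dd_comm he, ← h1]
  group

/-- the doubled highest root subgroup -/
def Zs (h : S.Db) (μ : Fˣ) : Subgroup G where
  carrier := {w | ∃ d, S.DD d ∧ ∃ a : F, w = d * (S.h 1 μ * d⁻¹ * (S.h 1 μ)⁻¹) * S.X 3 (ι a)}
  one_mem' := ⟨1, dd_one, 0, by simp⟩
  mul_mem' := by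
    rintro _ _ ⟨d, hd, a, rfl⟩ ⟨e, he, b, rfl⟩
    have h1 := h.dd_mul he (dd_h (dd_inv he) 1 μ)
    obtain ⟨c, h2⟩ := dd_swap h (dd_h (dd_inv hd) 1 μ) h1
    refine ⟨d * e, h.dd_mul hd he, c + (a + b), ?_⟩
    rw [mul_assoc _ (S.X 3 (ι a)), ← mul_assoc (S.X 3 (ι a)), ← dd_comm h1, mul_assoc _ (S.X 3 (ι a)), ← S.X_addι,
      ← mul_assoc, mul_assoc d, h2, S.X_addι 3 c]
    group
  inv_mem' := by
    rintro _ ⟨d, hd, a, rfl⟩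
    obtain ⟨b, e⟩ := dd_inv_eq h (h.dd_mul (h.dd_mul hd (dd_h (dd_inv hd) 1 μ)) (dd_x3 a))
    exact ⟨d, hd, a + b, by rw [e, S.X_addι, mul_assoc _ (S.X 3 (ι a))]⟩

theorem zs_dd (h : S.Db) {μ : Fˣ} {w : G} (hw : w ∈ Zs h μ) : S.DD w := by
  obtain ⟨d, hd, a, rfl⟩ := hw
  exact h.dd_mul (h.dd_mul hd (dd_h (dd_inv hd) 1 μ)) (dd_x3 a)

theorem zs_D {μ : Fˣ} {c : F} (hd : D S c d) (a : F) :
    D S ((1 + μ ^ 2) * c) (d * (S.h 1 μ * d⁻¹ * (S.h 1 μ)⁻¹) * S.X 3 (ι a)) := by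
  have := (hd.mul (hd.inv.h 1 μ)).mul (V_D (P2A.X3V (ι a)))
  rwa [show c + N ((1 : Eˣ) : E) * (μ : F) ^ 2 * c + 0 = (1 + μ ^ 2) * c by simp; ring] at this

theorem zs_ker (h : S.Db) {μ : Fˣ} (hμ : (1 : F) + μ ^ 2 ≠ 0) {w : G} (hw : w ∈ Zs h μ)
    (h0 : D S 0 w) : w ∈ S.Z := by
  obtain ⟨d, hd, a, rfl⟩ := hw
  obtain ⟨c, hc⟩ := of_d0 hd.1
  obtain rfl : c = 0 := (mul_eq_zero.1 ((zs_D hc a).uniq h0)).resolve_left hμ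
  refine mul_mem ?_ (S.X3_mem _)
  obtain ⟨b, rfl | rfl⟩ := S.mem_V.1 (h.dd_ker hd hc.zero)
  · rw [S.X_inv, S.h_X3]; exact mul_mem (S.X3_mem _) (S.X3_mem _)
  · rw [mul_inv_rev, S.X_inv, S.t_inv, ← conj_mul, S.h_X3, P2B1.h_t, mul_inv_cancel_right, ← S.tX,
      S.tX 3 (ι b), mul_assoc, ← mul_assoc S.t, S.tt, one_mul]
    exact mul_mem (S.X3_mem _) (S.X3_mem _)

theorem zs_h (h : S.Db) {μ : Fˣ} (l : Eˣ) (m : Fˣ) {w : G} (hw : w ∈ Zs h μ) :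
    S.h l m * w * (S.h l m)⁻¹ ∈ Zs h μ := by
  obtain ⟨d, hd, a, rfl⟩ := hw
  refine ⟨_, dd_h hd l m, N (l : E) * (m : F) ^ 2 * a, ?_⟩
  have := S.h_comm l 1 m μ
  calc _ = S.h l m * d * (S.h l m)⁻¹ * ((S.h l m * S.h 1 μ) * d⁻¹ * (S.h l m * S.h 1 μ)⁻¹) *
        (S.h l m * S.X 3 (ι a) * (S.h l m)⁻¹) := by group
    _ = _ := by rw [this, S.h_X3]; group

end P2D
open P2C P2D Cg

theorem St.Db.z1 {S : St E G} (h : S.Db) (h4 : 4 ≤ Nat.card F) : Nonempty (Z1 S) := by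
  obtain ⟨μ0, μ1, hμ, -⟩ := exists_ne h4 0 1 1
  obtain ⟨μ, rfl⟩ : ∃ μ : Fˣ, μ0 = μ := ⟨Units.mk0 _ μ1, rfl⟩
  have hμ' : (1 : F) + μ ^ 2 ≠ 0 := fun k => hμ (CharTwo.sq_inj.1 (by grind))
  have ex : ∀ w : G, ∃ c, w ∈ Zs h μ → D S c w := fun w => by
    by_cases hw : w ∈ Zs h μ
    · obtain ⟨c, hc⟩ := of_d0 (zs_dd h hw).1; exact ⟨c, fun _ => hc⟩
    · exact ⟨0, fun k => absurd k hw⟩
  choose τ hτ using ex
  have onto : ∀ c, ∃ w ∈ Zs h μ, τ w = c := fun c => by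
    obtain ⟨d, hd, e⟩ := h.dd_onto (c / (1 + μ ^ 2))
    have hw : d * (S.h 1 μ * d⁻¹ * (S.h 1 μ)⁻¹) * S.X 3 (ι (0 : F)) ∈ Zs h μ := ⟨d, hd, 0, rfl⟩
    exact ⟨_, hw, ((hτ _ hw).uniq (zs_D ⟨hd.1.1, e⟩ 0)).trans (by field_simp)⟩
  have sq : ∃ κ, ∀ w ∈ Zs h μ, w * w = S.X 3 (ι (κ * τ w)) := by
    obtain ⟨w0, h0, e0⟩ := onto 1
    obtain ⟨κ, hκ⟩ := dd_sq h (zs_dd h h0)
    refine ⟨κ, fun w hw => ?_⟩
    by_cases ht : τ w = 0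
    · obtain ⟨a, rfl⟩ := S.mem_Z.1 (zs_ker h hμ' hw (ht ▸ hτ w hw))
      rw [ht, mul_zero, S.X_sq, X_ι0 S]
    obtain ⟨ν, hν⟩ := exists_sq_unit ht
    have h1 := zs_h h 1 ν h0
    have h2 := ((hτ _ h0).h 1 ν).inv.mul (hτ w hw)
    rw [show N ((1 : Eˣ) : E) * (ν : F) ^ 2 * τ w0 + τ w = 0 by simp [e0, hν, CharTwo.add_self_eq_zero]] at h2
    obtain ⟨a, ea⟩ := S.mem_Z.1 (zs_ker h hμ' (mul_mem (inv_mem h1) hw) h2)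
    rw [eq_inv_mul_iff_mul_eq] at ea
    rw [← congrArg₂ (· * ·) ea ea, mul_assoc _ (S.X 3 (ι a)), ← mul_assoc (S.X 3 (ι a)),
      ← dd_comm (zs_dd h h1), mul_assoc _ (S.X 3 (ι a)), S.X_sq, mul_one, conj_mul, hκ, S.h_X3]
    congr 2; simp [hν, mul_comm]
  refine ⟨⟨Zs h μ, τ, fun x hx => ?_, fun w hw => (hτ w hw).2,
    fun w hw e => zs_ker h hμ' hw (e ▸ hτ w hw), onto,
    fun w hw i hi a => h.dP (zs_dd h hw).1 (S.X_memP hi a), fun w hw => (zs_dd h hw).2.1,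
    fun w hw w' hw' => ?_, sq, fun l m w hw => zs_h h l m hw⟩⟩
  · obtain ⟨a, rfl⟩ := S.mem_Z.1 hx
    exact ⟨1, dd_one, a, by simp⟩
  · obtain ⟨κ, hκ⟩ := sq
    have h1 := hκ _ (mul_mem hw hw')
    rw [(hτ _ (mul_mem hw hw')).uniq ((hτ w hw).mul (hτ w' hw')), mul_add, S.X_addι, ← hκ w hw,
      ← hκ w' hw', mul_assoc, mul_assoc, mul_right_inj, ← mul_assoc, ← mul_assoc, mul_left_inj] at h1
    exact h1.symm

end H89.D4S
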