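import Cfsg.Agent.Lib.D4S.K1
import Cfsg.Agent.Lib.D4S.Cg

/-! Standard components of type `³D₄(2ⁿ)`, package P2E: see `blueprint/D4S/README.md`. -/

set_option autoImplicit false
set_option linter.unusedSectionVars false

namespace H89.D4S
open Subgroup H69 U12
open H89.G2S (KK ιK σK)
open scoped commutatorElement

variable {F E G : Type*} [Field F] [Field E] [Cub F E] [CharP F 2] [CharP E 2] [Finite F] [Finite E]
  [Group G] [Finite G]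

namespace P2E
open Cg
variable {S : St E G} (Z : Z1 S) {w v : G}

theorem ct' (hw : w ∈ Z.Zs) : cg w S.t = S.t * S.X 3 (ι (Z.τ w)) := Z.ct w hw

theorem cg_X (hw : w ∈ Z.Zs) {i : Fin 12} (hi : i ≤ 6) (a : E) : cg w (S.X i a) = S.X i a :=
  cg_fix (Z.cP w hw i hi a)

theorem τ_eq (hw : w ∈ Z.Zs) {c : F} (e : cg w S.t = S.t * S.X 3 (ι c)) : Z.τ w = c :=
  Pin.X_injι S.inj 3 (mul_left_cancel ((ct' Z hw).symm.trans e))

theorem τ_mul (hw : w ∈ Z.Zs) (hv : v ∈ Z.Zs) : Z.τ (w * v) = Z.τ w + Z.τ v := by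
  refine τ_eq Z (mul_mem hw hv) ?_
  rw [mul_cg, ct' Z hv, cg_mul, ct' Z hw, cg_X Z hw (by decide), mul_assoc, ← S.X_addι]

theorem X3_mem (a : F) : S.X 3 (ι a) ∈ Z.Zs := Z.le (S.X3_mem _)

theorem τ_X3 (a : F) : Z.τ (S.X 3 (ι a)) = 0 :=
  τ_eq Z (X3_mem Z a) (by rw [cg_X_t, X_ι0 S, mul_one])

theorem cti (hw : w ∈ Z.Zs) : cg w⁻¹ S.t = S.t * S.X 3 (ι (Z.τ w)) := by
  refine inv_cg ?_
  rw [cg_mul, ct' Z hw, cg_X Z hw (by decide), mul_assoc, S.X_sq, mul_one]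

theorem τ_inv (hw : w ∈ Z.Zs) : Z.τ w⁻¹ = Z.τ w := τ_eq Z (inv_mem hw) (cti Z hw)

theorem pr_t (hw : w ∈ Z.Zs) : cg (cg S.n5 w) S.t = S.t * S.X 1 (ι (Z.τ w)) := by
  rw [cg_cg, cg_n5i_t, ct' Z hw, cg_mul, cg_n5_t, cg_n5_X]; rfl

theorem pr_c (hw : w ∈ Z.Zs) : ∀ i ≤ 4, ∀ a, cg S.n5 w * S.X i a = S.X i a * cg S.n5 w := by
  intro i hi a
  have e : cg S.n5 (S.X (4 - i) a) = S.X i a := by rw [cg_n5_X, sub_sub_cancel]
  rw [← e]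
  exact cg_comm _ (Z.cP w hw _ ((by decide : ∀ i : Fin 12, i ≤ 4 → 4 - i ≤ 6) i hi) a)

theorem pr_X (hw : w ∈ Z.Zs) {i : Fin 12} (hi : i ≤ 4) (a : E) :
    cg (cg S.n5 w) (S.X i a) = S.X i a := cg_fix (pr_c Z hw i hi a)

theorem pr_ti (hw : w ∈ Z.Zs) : cg (cg S.n5 w)⁻¹ S.t = S.t * S.X 1 (ι (Z.τ w)) := by
  refine inv_cg ?_
  rw [cg_mul, pr_t Z hw, pr_X Z hw (by decide), mul_assoc, S.X_sq, mul_one]

theorem pr_CO (hw : w ∈ Z.Zs) : S.CO (cg S.n5 w) := (Z.cO w hw).conj (n5t S)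

theorem uniq (hv : v ∈ Z.Zs) {a : F} (e : S.X 1 (ι a) = v) : a = 0 := by
  have h0 : Z.τ v = 0 := τ_eq Z hv (by rw [← e, cg_X_t, X_ι0 S, mul_one])
  obtain ⟨c, hc⟩ := S.mem_Z.1 (Z.ker v hv h0)
  have : S.X 1 (ι a) * S.X 3 (ι (0 : F)) = S.X 1 (ι (0 : F)) * S.X 3 (ι c) := by rw [X_ι0 S, X_ι0 S, mul_one, one_mul, e, hc]
  exact (inj13 S this).1

theorem uniq' (hw : w ∈ Z.Zs) (hv : v ∈ Z.Zs) {a b : F} (e : S.X 1 (ι a) * w = S.X 1 (ι b) * v) :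
    a = b ∧ w = v := by
  have h1 : S.X 1 (ι (b + a)) = v * w⁻¹ := by
    rw [S.X_addι, eq_mul_inv_iff_mul_eq, mul_assoc, e, ← mul_assoc, S.X_sq, one_mul]
  have h2 := uniq Z (mul_mem hv (inv_mem hw)) h1
  have h3 : a = b := by rw [← CharTwo.add_eq_zero, add_comm]; exact h2
  rw [h3] at e
  exact ⟨h3, mul_left_cancel e⟩

theorem e_sq (b e : F) : S.X 1 (ι b) * S.X 3 (ι e) * (S.X 1 (ι b) * S.X 3 (ι e)) = 1 := by
  rw [← S.φ1', ← S.φ3', ← map_mul, ← map_mul, ← map_one S.φ]; congr 1; u12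

theorem form (h : S.Db) (hw : w ∈ Z.Zs) (hv : v ∈ Z.Zs) :
    ∃ f1 f3 : F, ⁅cg S.n5 w, v⁆ = S.X 1 (ι f1) * S.X 3 (ι f3) := by
  obtain ⟨κ, hκ⟩ := Z.sq
  have hsq : cg S.n5 w * cg S.n5 w = S.X 1 (ι (κ * Z.τ w)) := by
    rw [← cg_mul, hκ w hw, cg_n5_X]; rfl
  have h1 : cg (cg S.n5 w) ⁅cg S.n5 w, v⁆ * ⁅cg S.n5 w, v⁆ = 1 := by
    rw [← comm_mul_left, hsq, commutatorElement_eq_one_iff_mul_comm]
    exact (Z.cP v hv 1 (by decide) _).symm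
  have ht : cg ⁅cg S.n5 w, v⁆ S.t = S.t := by
    rw [commutatorElement_def, mul_cg, mul_cg, mul_cg, cti Z hv, cg_mul, pr_ti Z hw,
      inv_cg (pr_X Z hw (by decide) _), cg_mul v, cg_mul v, ct' Z hv, cg_X Z hv (by decide),
      cg_X Z hv (by decide), mul_assoc S.t, mul_assoc S.t, ← X13, mul_assoc, S.X_sq, mul_one,
      cg_mul, pr_t Z hw, pr_X Z hw (by decide), mul_assoc, S.X_sq, mul_one]
  have hc : ∀ i ≤ 4, ∀ a, ⁅cg S.n5 w, v⁆ * S.X i a = S.X i a * ⁅cg S.n5 w, v⁆ := by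
    intro i hi a
    have c1 : Commute (cg S.n5 w) (S.X i a) := pr_c Z hw i hi a
    have c2 : Commute v (S.X i a) := Z.cP v hv i (hi.trans (by decide)) a
    exact ((c1.mul_left c2).mul_left c1.inv_left).mul_left c2.inv_left
  obtain ⟨b, e, o, ho, hg | hg⟩ := S.tr2 h (comm_of_cg ht) hc
  · refine ⟨b, e, ?_⟩
    rw [hg, cg_mul, cg_mul, pr_X Z hw (by decide), pr_X Z hw (by decide),
      cg_fix (pr_CO Z hw o ho)] at h1
    have c : o * (S.X 1 (ι b) * S.X 3 (ι e)) = S.X 1 (ι b) * S.X 3 (ι e) * o :=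
      ho.1.2.comm (mul_mem (S.X_mem _ _) (S.X_mem _ _))
    have : o * o = 1 := by
      rw [mul_assoc, ← mul_assoc o, c, ← mul_assoc, ← mul_assoc, e_sq, one_mul] at h1; exact h1
    rw [hg, ho.eq_one_sq this, mul_one]
  · rw [hg, cg_mul, cg_mul, cg_mul, pr_X Z hw (by decide), pr_X Z hw (by decide), pr_t Z hw,
      cg_fix (pr_CO Z hw o ho)] at h1
    have hE : S.X 1 (ι b) * S.X 3 (ι e) ∈ S.L := mul_mem (S.X_mem _ _) (S.X_mem _ _)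
    have cE : S.X 1 (ι (Z.τ w)) * (S.X 1 (ι b) * S.X 3 (ι e)) = S.X 1 (ι b) * S.X 3 (ι e) * S.X 1 (ι (Z.τ w)) := by
      rw [← S.φ1', ← S.φ1', ← S.φ3', ← map_mul, ← map_mul, ← map_mul]; congr 1; u12
    have sE := e_sq (S := S) b e
    generalize S.X 1 (ι b) * S.X 3 (ι e) = A at h1 hE cE sE
    have c1 : o * A = A * o := ho.1.2.comm hE
    have c2 : S.t * A = A * S.t := S.t_comm hE
    have c3 : o * S.t = S.t * o := ho.1.1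
    have c4 : S.X 1 (ι (Z.τ w)) * S.t = S.t * S.X 1 (ι (Z.τ w)) := (S.tX _ _).symm
    have h2 : S.X 1 (ι (Z.τ w)) * (o * o) = 1 := by
      rw [← h1]
      calc _ = (A * A) * (S.t * S.t) * S.X 1 (ι (Z.τ w)) * (o * o) := by rw [sE, S.tt]; group
        _ = A * (A * S.t) * (S.t * S.X 1 (ι (Z.τ w))) * (o * o) := by group
        _ = A * (S.t * A) * (S.X 1 (ι (Z.τ w)) * S.t) * (o * o) := by rw [c2, c4]
        _ = A * S.t * (A * S.X 1 (ι (Z.τ w))) * (S.t * o) * o := by group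
        _ = A * S.t * S.X 1 (ι (Z.τ w)) * (A * o) * S.t * o := by rw [← cE, ← c3]; group
        _ = _ := by rw [← c1]; group
    have h3 : o * o = S.X 1 (ι (Z.τ w)) := by
      rw [← S.X_inv]; exact (inv_eq_of_mul_eq_one_right h2).symm
    have h4 : o = 1 := ho.eq_one_four (by rw [h3, S.X_sq])
    rw [h4, mul_one, ← X_ι0 S 1] at h3
    obtain ⟨a, ha⟩ := S.mem_Z.1 (Z.ker w hw (Pin.X_injι S.inj 1 h3).symm)
    refine ⟨0, 0, ?_⟩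
    rw [X_ι0 S, X_ι0 S, mul_one, commutatorElement_eq_one_iff_mul_comm, ← ha, cg_n5_X]
    exact (Z.cP v hv _ (by decide) _).symm

theorem gu (h : S.Db) (hw : w ∈ Z.Zs) (u : F) : ∃ (b e : F) (o : G), ∃ x ∈ Z.Zs, Z.τ x = u * Z.τ w ∧ S.Od o ∧
    (cg (S.X 5 (ι u)) (cg S.n5 w) = cg S.n5 w * (S.X 1 (ι b) * S.X 3 (ι e) * o * x) ∨
      cg (S.X 5 (ι u)) (cg S.n5 w) = cg S.n5 w * (S.X 1 (ι b) * S.X 3 (ι e) * S.t * o * x)) := by
  obtain ⟨x, hx, hτ⟩ := Z.onto (u * Z.τ w)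
  have hy := cg_X5_cent S (pr_c Z hw) (ι u)
  have hyt : cg (cg (S.X 5 (ι u)) (cg S.n5 w)) S.t =
      S.t * (S.X 1 (ι (Z.τ w)) * S.X 3 (ι (u * Z.τ w))) := by
    rw [cg_cg, S.X_inv, cg_X_t, pr_t Z hw, cg_mul, cg_X_t, cg_X5_X1]
  have ht : cg ((cg S.n5 w)⁻¹ * cg (S.X 5 (ι u)) (cg S.n5 w) * x⁻¹) S.t = S.t := by
    rw [mul_cg, mul_cg, cti Z hx, hτ, cg_mul, hyt, cg_fix (hy 3 (by decide) _), mul_assoc,
      mul_assoc, S.X_sq, mul_one, cg_mul, pr_ti Z hw, inv_cg (pr_X Z hw (by decide) _), mul_assoc,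
      S.X_sq, mul_one]
  have hc : ∀ i ≤ 4, ∀ a, ((cg S.n5 w)⁻¹ * cg (S.X 5 (ι u)) (cg S.n5 w) * x⁻¹) * S.X i a =
      S.X i a * ((cg S.n5 w)⁻¹ * cg (S.X 5 (ι u)) (cg S.n5 w) * x⁻¹) := by
    intro i hi a
    have c1 : Commute (cg S.n5 w) (S.X i a) := pr_c Z hw i hi a
    have c2 : Commute x (S.X i a) := Z.cP x hx i (hi.trans (by decide)) a
    have c3 : Commute (cg (S.X 5 (ι u)) (cg S.n5 w)) (S.X i a) := hy i hi a
    exact (c1.inv_left.mul_left c3).mul_left c2.inv_left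
  obtain ⟨b, e, o, ho, hg | hg⟩ := S.tr2 h (comm_of_cg ht) hc
  · exact ⟨b, e, o, x, hx, hτ, ho, .inl (by rw [← hg]; group)⟩
  · exact ⟨b, e, o, x, hx, hτ, ho, .inr (by rw [← hg]; group)⟩

theorem comm_E (hv : v ∈ Z.Zs) (b e : F) : ⁅S.X 1 (ι b) * S.X 3 (ι e), v⁆ = 1 := by
  rw [commutatorElement_eq_one_iff_commute]
  exact Commute.mul_left (Z.cP v hv _ (by decide) _).symm (Z.cP v hv _ (by decide) _).symm

theorem comm_ox (hv : v ∈ Z.Zs) {o x : G} (ho : S.Od o) (hx : x ∈ Z.Zs) : ⁅o * x, v⁆ = 1 := by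
  rw [commutatorElement_eq_one_iff_commute]
  exact Commute.mul_left (Z.cO v hv o ho).symm (Z.comm x hx v hv)

theorem comm_tv (hv : v ∈ Z.Zs) : ⁅S.t, v⁆ = S.X 3 (ι (Z.τ v)) := by
  calc _ = S.t * cg v S.t := by rw [commutatorElement_def, S.t_inv, cg_def]; group
    _ = _ := by rw [ct' Z hv, ← mul_assoc, S.tt, one_mul]

theorem comm_g1 (hv : v ∈ Z.Zs) {o x : G} (ho : S.Od o) (hx : x ∈ Z.Zs) (b e : F) :
    ⁅S.X 1 (ι b) * S.X 3 (ι e) * o * x, v⁆ = 1 := by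
  rw [mul_assoc, comm_mul_left, comm_ox Z hv ho hx, comm_E Z hv, cg_one, mul_one]

theorem comm_g2 (hv : v ∈ Z.Zs) {o x : G} (ho : S.Od o) (hx : x ∈ Z.Zs) (b e : F) :
    ⁅S.X 1 (ι b) * S.X 3 (ι e) * S.t * o * x, v⁆ = S.X 3 (ι (Z.τ v)) := by
  rw [mul_assoc, comm_mul_left, comm_ox Z hv ho hx, cg_one, one_mul, comm_mul_left, comm_E Z hv,
    mul_one, comm_tv Z hv, mul_cg, cg_X_X3 S (by decide), cg_X_X3 S (by decide)]

theorem f1_zero (h : S.Db) (h4 : 4 ≤ Nat.card F) (hw : w ∈ Z.Zs) (hv : v ∈ Z.Zs) {f1 f3 : F}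
    (e : ⁅cg S.n5 w, v⁆ = S.X 1 (ι f1) * S.X 3 (ι f3)) : f1 = 0 := by
  by_contra hf
  obtain ⟨d, hd0, hd1, -⟩ := exists_ne h4 0 (Z.τ v) 0
  obtain ⟨u, rfl⟩ : ∃ u, d = u * f1 := ⟨d / f1, by field_simp⟩
  have h1 : ⁅cg (S.X 5 (ι u)) (cg S.n5 w), v⁆ = S.X 1 (ι f1) * S.X 3 (ι (u * f1 + f3)) := by
    rw [← cg_fix' (Z.cP v hv 5 (by decide) (ι u)), ← cg_commutator, e, cg_mul, cg_X5_X1,
      cg_X_X3 S (by decide), mul_assoc, ← S.X_addι]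
  obtain ⟨b, e', o, x, hx, -, ho, hy | hy⟩ := gu Z h hw u
  · rw [hy, comm_mul_left, comm_g1 Z hv ho hx, cg_one, one_mul, e] at h1
    have := (inj13 S h1).2
    exact hd0 (by grind)
  · rw [hy, comm_mul_left, comm_g2 Z hv ho hx, pr_X Z hw (by decide), e, ← mul_assoc, ← X13,
      mul_assoc, ← S.X_addι] at h1
    have := (inj13 S h1).2
    exact hd1 (by grind)

theorem c13 (h : S.Db) (h4 : 4 ≤ Nat.card F) (hw : w ∈ Z.Zs) (hv : v ∈ Z.Zs) : cg S.n5 w * v = v * cg S.n5 w := by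
  obtain ⟨f1, f3, e⟩ := form Z h hw hv
  obtain ⟨f1', f3', e'⟩ := form Z h hv hw
  have h1 := f1_zero Z h h4 hw hv e
  have h2 := f1_zero Z h h4 hv hw e'
  rw [h1, X_ι0 S, one_mul] at e
  have h3 : ⁅cg S.n5 v, w⁆ = S.X 1 (ι f3) * S.X 3 (ι (0 : F)) := by
    rw [X_ι0 S, mul_one, ← S.X_inv, ← commutatorElement_inv, inv_inj]
    have := congrArg (cg S.n5) e
    rw [cg_commutator, cg_n5_n5, cg_n5_X] at this
    exact this
  have h4 := (inj13 S (h3.symm.trans e')).1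
  rw [h4, h2, X_ι0 S] at e
  exact commutatorElement_eq_one_iff_mul_comm.1 e

end P2E

theorem Z1.c13 {S : St E G} (h : S.Db) (h4 : 4 ≤ Nat.card F) (Z : Z1 S) {w v : G} (hw : w ∈ Z.Zs)
    (hv : v ∈ Z.Zs) : S.n5 * w * S.n5⁻¹ * v = v * (S.n5 * w * S.n5⁻¹) :=
  P2E.c13 Z h h4 hw hv

end H89.D4S
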