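import Cfsg.Agent.Lib.D4S.P2E

/-! Standard components of type `³D₄(2ⁿ)`, package P2F: see `blueprint/D4S/README.md`. -/

set_option autoImplicit false
set_option linter.unusedSectionVars false

namespace H89.D4S
open Subgroup H69 U12
open H89.G2S (KK ιK σK)
open scoped commutatorElement

variable {F E G : Type*} [Field F] [Field E] [Cub F E] [CharP F 2] [CharP E 2] [Finite F] [Finite E]
  [Group G] [Finite G]

namespace P2F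
open Cg P2E
variable {S : St E G} (Z : Z1 S) {w v : G}

theorem sq4 {κ : F} (hκ : ∀ w ∈ Z.Zs, w * w = S.X 3 (ι (κ * Z.τ w))) (hw : w ∈ Z.Zs) :
    w * w * (w * w) = 1 := by rw [hκ w hw, S.X_sq]

theorem pu (h : S.Db) (h4 : 4 ≤ Nat.card F) (hw : w ∈ Z.Zs) (u : F) : ∃ p : F, ∃ x ∈ Z.Zs, Z.τ x = u * Z.τ w ∧
    cg (S.X 5 (ι u)) (cg S.n5 w) = cg S.n5 w * (S.X 1 (ι p) * x) := by
  obtain ⟨κ, hκ⟩ := Z.sq
  obtain ⟨b, e, o, x, hx, hτ, ho, hy | hy⟩ := gu Z h hw u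
  · refine ⟨b, S.X 3 (ι e) * x, mul_mem (X3_mem Z e) hx, by
      rw [τ_mul Z (X3_mem Z e) hx, τ_X3, zero_add, hτ], ?_⟩
    have cx : x * o = o * x := Z.cO x hx o ho
    have hE : S.X 1 (ι b) * S.X 3 (ι e) ∈ S.L := mul_mem (S.X_mem _ _) (S.X_mem _ _)
    have e1 : cg (S.X 5 (ι u)) (cg S.n5 w) = cg S.n5 w * (S.X 1 (ι b) * S.X 3 (ι e)) * x * o := by
      rw [hy, mul_assoc (S.X 1 (ι b) * S.X 3 (ι e)), ← cx]; group
    have c1 : Commute (cg S.n5 w) (S.X 1 (ι b) * S.X 3 (ι e)) :=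
      Commute.mul_right (pr_c Z hw _ (by decide) _) (pr_c Z hw _ (by decide) _)
    have c2 : Commute (cg S.n5 w) x := P2E.c13 Z h h4 hw hx
    have c3 : Commute (S.X 1 (ι b) * S.X 3 (ι e)) x :=
      Commute.mul_left (Z.cP x hx _ (by decide) _).symm (Z.cP x hx _ (by decide) _).symm
    have p4 : ∀ {a : G}, a * a * (a * a) = a ^ 4 := fun {a} => by
      simp only [pow_succ, pow_zero, one_mul, mul_assoc]
    have h5 : o = 1 := by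
      refine ho.eq_one_four (four_of e1 ?_ ?_ ?_)
      · exact (((pr_CO Z hw).mul (S.co_L hE)).mul (Z.cO x hx)) o ho
      · rw [← cg_mul, ← cg_mul, ← cg_mul, ← cg_mul, sq4 Z hκ hw, cg_one, cg_one]
      · rw [p4, (c2.mul_left c3).mul_pow, c1.mul_pow, ← p4, ← p4, ← p4, e_sq, sq4 Z hκ hx,
          ← cg_mul, ← cg_mul, sq4 Z hκ hw, cg_one]
        simp
    rw [e1, h5]; group
  · exfalso
    obtain ⟨v, hv, h1⟩ := Z.onto 1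
    have h2 : ⁅cg (S.X 5 (ι u)) (cg S.n5 w), v⁆ = 1 := by
      rw [← cg_fix' (Z.cP v hv 5 (by decide) (ι u)), ← cg_commutator,
        commutatorElement_eq_one_iff_mul_comm.2 (P2E.c13 Z h h4 hw hv), cg_one]
    rw [hy, comm_mul_left, comm_g2 Z hv ho hx, pr_X Z hw (by decide),
      commutatorElement_eq_one_iff_mul_comm.2 (P2E.c13 Z h h4 hw hv), mul_one, h1,
      ← X_ι0 S 3] at h2
    exact one_ne_zero (Pin.X_injι S.inj 3 h2)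

theorem addf {u u' p p' : F} {x x' : G} (hx : x ∈ Z.Zs) (hx' : x' ∈ Z.Zs)
    (e : cg (S.X 5 (ι u)) (cg S.n5 w) = cg S.n5 w * (S.X 1 (ι p) * x))
    (e' : cg (S.X 5 (ι u')) (cg S.n5 w) = cg S.n5 w * (S.X 1 (ι p') * x')) :
    cg (S.X 5 (ι (u' + u))) (cg S.n5 w) =
      cg S.n5 w * (S.X 1 (ι (p' + p)) * (x' * S.X 3 (ι (u' * p)) * x)) := by
  rw [S.X_addι, mul_cg, e, cg_mul, cg_mul, e', cg_X5_X1, cg_fix' (Z.cP x hx 5 (by decide) (ι u')),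
    S.X_addι]
  have c := Z.cP x' hx' 1 (by decide) (ι p)
  calc _ = cg S.n5 w * (S.X 1 (ι p') * (x' * S.X 1 (ι p)) * S.X 3 (ι (u' * p)) * x) := by group
    _ = _ := by rw [c]; group

theorem pval {κ : F} (hκ : ∀ w ∈ Z.Zs, w * w = S.X 3 (ι (κ * Z.τ w))) {u p : F} {x : G}
    (hx : x ∈ Z.Zs) (hτ : Z.τ x = u * Z.τ w) (hu : u ≠ 0)
    (e : cg (S.X 5 (ι u)) (cg S.n5 w) = cg S.n5 w * (S.X 1 (ι p) * x)) : p = κ * Z.τ w := by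
  have h1 := addf Z hx hx e e
  rw [CharTwo.add_self_eq_zero, CharTwo.add_self_eq_zero, X_ι0 S, X_ι0 S, one_cg, one_mul,
    left_eq_mul, Z.cP x hx 3 (by decide), mul_assoc, hκ x hx, ← S.X_addι, ← X_ι0 S 3, hτ] at h1
  have h2 := Pin.X_injι S.inj 3 h1
  have h3 : u * (p + κ * Z.τ w) = 0 := by rw [← h2]; ring
  have h4 := (mul_eq_zero.1 h3).resolve_left hu
  rwa [CharTwo.add_eq_zero] at h4

theorem mu (h : S.Db) (h4 : 4 ≤ Nat.card F) (hw : w ∈ Z.Zs) (u : F) : ∃ x ∈ Z.Zs, Z.τ x = u * Z.τ w ∧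
    cg (S.X 5 (ι u)) (cg S.n5 w) = cg S.n5 w * x := by
  by_cases hu : u = 0
  · refine ⟨1, one_mem _, ?_, by rw [hu, X_ι0 S, one_cg, mul_one]⟩
    rw [hu, zero_mul, ← X_ι0 S 3, τ_X3]
  obtain ⟨κ, hκ⟩ := Z.sq
  obtain ⟨c, hc0, hc1, -⟩ := exists_ne h4 0 1 1
  obtain ⟨p1, x1, hx1, hτ1, e1⟩ := pu Z h h4 hw 1
  obtain ⟨p2, x2, hx2, hτ2, e2⟩ := pu Z h h4 hw c
  obtain ⟨p3, x3, hx3, hτ3, e3⟩ := pu Z h h4 hw (c + 1)
  have v1 := pval Z hκ hx1 hτ1 one_ne_zero e1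
  have v2 := pval Z hκ hx2 hτ2 hc0 e2
  have v3 := pval Z hκ hx3 hτ3 (fun e => hc1 (CharTwo.add_eq_zero.1 e)) e3
  have e4 := addf Z hx1 hx2 e1 e2
  rw [e3] at e4
  have v4 := (uniq' Z hx3 (mul_mem (mul_mem hx2 (X3_mem Z _)) hx1) (mul_left_cancel e4)).1
  have v5 : κ * Z.τ w = 0 := by rw [← v3, v4, v1, v2, CharTwo.add_self_eq_zero]
  obtain ⟨p, x, hx, hτ, e⟩ := pu Z h h4 hw u
  rw [pval Z hκ hx hτ hu e, v5, X_ι0 S, one_mul] at e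
  exact ⟨x, hx, hτ, e⟩

theorem eq_one_of_pr (hw : w ∈ Z.Zs) (hw' : cg S.n5 w ∈ Z.Zs) : w = 1 := by
  have h1 := (pr_t Z hw).symm.trans (ct' Z hw')
  have h2 : S.X 1 (ι (Z.τ w)) * S.X 3 (ι (0 : F)) = S.X 1 (ι (0 : F)) * S.X 3 (ι (Z.τ (cg S.n5 w))) := by
    rw [X_ι0 S, X_ι0 S, mul_one, one_mul]; exact mul_left_cancel h1
  obtain ⟨a, ha⟩ := S.mem_Z.1 (Z.ker w hw (inj13 S h2).1)
  have h3 : S.X 1 (ι a) = cg S.n5 w := by rw [← ha, cg_n5_X]; rfl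
  rw [← ha, uniq Z hw' h3, X_ι0 S]

theorem m1 (h : S.Db) (h4 : 4 ≤ Nat.card F) (hv : v ∈ Z.Zs) : cg (S.X 5 1) (cg S.n5 v) = cg S.n5 v * v := by
  obtain ⟨x, hx, -, e⟩ := mu Z h h4 hv 1
  obtain ⟨x', hx', -, e'⟩ := mu Z h h4 hx 1
  rw [map_one] at e e'
  have f5 : ∀ {y : G}, y ∈ Z.Zs → cg (S.X 5 1) y = y := fun hy =>
    cg_fix' (Z.cP _ hy 5 (by decide) 1)
  have h1 : cg S.n5 v = v * (cg S.n5 x * x') := by
    conv_lhs => rw [S.n5_eq]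
    rw [mul_cg, mul_cg, mul_cg, mul_cg, f5 hv, e, cg_mul, cg_n5_n5, cg_mul, f5 hv, e']
  have h2 : cg S.n5 (x⁻¹ * v) = v * x' := by
    rw [cg_mul, cg_inv, h1, ← mul_assoc v, ← P2E.c13 Z h h4 hx hv]; group
  have h3 := eq_one_of_pr Z (mul_mem (inv_mem hx) hv) (h2 ▸ mul_mem hv hx')
  rw [inv_mul_eq_one] at h3
  rw [e, h3]

/-- the action of the torus -/
def Lm (S : St E G) (ν : Fˣ) (x : G) : G := cg (S.h (ιu ν) ν⁻¹) x

theorem Lm_mem (ν : Fˣ) (hw : w ∈ Z.Zs) : Lm S ν w ∈ Z.Zs := Z.hN _ _ w hw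

theorem Lm_mul (ν ν' : Fˣ) (x : G) : Lm S (ν * ν') x = Lm S ν (Lm S ν' x) := by
  rw [Lm, Lm, Lm, ← mul_cg, ← S.h_mul, mul_inv, ιu, map_mul]; rfl

theorem h_eq (l : Eˣ) (m : Fˣ) (hw : w ∈ Z.Zs) : cg (S.h l m) w = Lm S (Nu l * m ^ 2) w := by
  have e : S.h l m = S.h (ιu (Nu l * m ^ 2)) (Nu l * m ^ 2)⁻¹ *
      S.h (l * (ιu (Nu l * m ^ 2))⁻¹) (m * (Nu l * m ^ 2)) := by
    rw [← S.h_mul]; congr 1
    · rw [mul_comm l, mul_inv_cancel_left]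
    · rw [mul_comm m, inv_mul_cancel_left]
  have hP : S.h (l * (ιu (Nu l * m ^ 2))⁻¹) (m * (Nu l * m ^ 2)) ∈ S.P0 := by
    refine S.h_memP ?_
    have := (Nu l).ne_zero
    push_cast
    rw [map_mul N, N_inv, ιu_val, N_ι]
    push_cast
    rw [← Nu_val]
    field_simp
  rw [e, mul_cg, cg_fix' (S.comm_P0 (Z.cP w hw) hP)]; rfl

theorem mL (h : S.Db) (h4 : 4 ≤ Nat.card F) (hv : v ∈ Z.Zs) (m : Fˣ) :
    cg (S.X 5 (ι (m : F))) (cg S.n5 v) = cg S.n5 v * Lm S m v := by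
  have hw := Lm_mem Z m⁻¹ hv
  have e := congrArg (cg (S.h 1 m)) (m1 Z h h4 hw)
  have e5 : cg (S.h 1 m) (S.X 5 1) = S.X 5 (ι (m : F)) := by
    rw [cg_def, S.hX, wt5, mul_one]
  have en : cg (S.h 1 m) (cg S.n5 (Lm S m⁻¹ v)) = cg S.n5 v := by
    have : S.h 1 m = cg S.n5 (S.h (ιu m) m⁻¹) := by
      rw [cg_def, S.n5_h, inv_inv, ιu, ιu, ← map_mul, mul_inv_cancel, map_one]
    rw [this, cg_cg', ← Lm, ← Lm_mul, mul_inv_cancel, Lm, inv_one, ιu, map_one, S.h_one, one_cg]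
  rw [← cg_cg', e5, en, cg_mul, en, h_eq Z _ _ hw, ← Lm_mul] at e
  rw [e, Nu, map_one]; congr 2
  group

end P2F

open Cg P2E P2F in
theorem Z1.z2 {S : St E G} (h : S.Db) (h4 : 4 ≤ Nat.card F) (Z : Z1 S) : Nonempty (Z2 S) := by
  obtain ⟨w, hw, hτ⟩ := Z.onto 1
  let W : F → G := fun y => (cg S.n5 w)⁻¹ * cg (S.X 5 (ι y)) (cg S.n5 w)
  have hW : ∀ y : F, cg (S.X 5 (ι y)) (cg S.n5 w) = cg S.n5 w * W y := fun y => by
    simp only [W]; group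
  have hm : ∀ y, W y ∈ Z.Zs ∧ Z.τ (W y) = y := fun y => by
    obtain ⟨x, hx, h1, e⟩ := mu Z h h4 hw y
    rw [hW, mul_right_inj] at e
    rw [e, h1, hτ, mul_one]; exact ⟨hx, rfl⟩
  have W0 : W 0 = 1 := by simp only [W]; rw [X_ι0 S, one_cg, inv_mul_cancel]
  have WL : ∀ m : Fˣ, W m = Lm S m w := fun m => by
    have e := mL Z h h4 hw m
    rwa [hW, mul_right_inj] at e
  refine ⟨⟨W, fun a b => ?_, fun y => ?_, fun y => Z.cP _ (hm y).1, fun y => Z.cO _ (hm y).1,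
    fun l m y => ?_, fun y y' => P2E.c13 Z h h4 (hm y).1 (hm y').1, fun u y => ?_⟩⟩
  · have e := hW (a + b)
    rw [S.X_addι, mul_cg, hW b, cg_mul, hW a, cg_fix' (Z.cP _ (hm b).1 5 (by decide) (ι a)),
      mul_assoc, mul_right_inj] at e
    exact e.symm
  · rw [Z.ct _ (hm y).1, (hm y).2]
  · by_cases hy : y = 0
    · rw [hy, mul_zero, W0]; group
    · obtain ⟨ν, rfl⟩ : ∃ ν : Fˣ, y = ν := ⟨Units.mk0 y hy, rfl⟩
      rw [← cg_def, h_eq Z _ _ (hm _).1, WL, ← Lm_mul, ← WL]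
      push_cast; rfl
  · rw [← cg_def, ← cg_invol (S.X_sq _ _)]
    by_cases hu : u = 0
    · rw [hu, zero_mul, W0, X_ι0 S, one_cg, mul_one]
    by_cases hy : y = 0
    · rw [hy, mul_zero, W0, cg_one, cg_one, mul_one]
    obtain ⟨ν, rfl⟩ : ∃ ν : Fˣ, y = ν := ⟨Units.mk0 y hy, rfl⟩
    obtain ⟨μ, rfl⟩ : ∃ μ : Fˣ, u = μ := ⟨Units.mk0 u hu, rfl⟩
    rw [mL Z h h4 (hm _).1, ← Units.val_mul, WL (μ * ν), Lm_mul, ← WL ν]

end H89.D4S
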