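import Cfsg.Agent.Lib.D4S.K1
import Cfsg.Agent.Lib.G2S.Gen

/-! Standard components of type `³D₄(2ⁿ)`, package P3A: see `blueprint/D4S/README.md`. -/

set_option autoImplicit false
set_option linter.unusedSectionVars false

namespace H89.D4S
open Subgroup H69 U12
open H89.G2S (KK ιK σK)
open scoped commutatorElement

variable {F E G : Type*} [Field F] [Field E] [Cub F E] [CharP F 2] [CharP E 2] [Finite F] [Finite E]
  [Group G] [Finite G]
  {K J : Type*} [CommRing K] [CommRing J] [Cub K J] [CharP K 2] [CharP J 2] [Finite K] [Finite J]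

namespace Big
variable {S : St E G} {Y : Pin J G} {j : E →+* J} {σ : J ≃+* J} (h : Big S Y j σ)
include h
theorem one_eq (i : Fin 12) : Y.X i 1 = S.X i 1 := by
  rw [← h.ext, map_one]
theorem extι (i : Fin 12) (a : F) : Y.X i (ι (h.tj.res a)) = S.X i (ι a) := by
  rw [h.tj.ι_res, h.ext]
theorem n0_eq : Y.n0 = S.n0 := by
  simp only [Pin.n0, h.one_eq]
theorem n5_eq : Y.n5 = S.n5 := by
  simp only [Pin.n5, h.one_eq]
theorem φ_ι (u : U12 E) : Y.φ (U12.map h.tj u) = S.φ u := by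
  rw [Y.φ_eq, S.φ_eq]
  simp only [map_p0, map_p1, map_p2, map_p3, map_p4, map_p5, h.ext, h.extι]
theorem L_le : S.L ≤ Y.L := S.L_le.2 fun i a => h.ext i a ▸ Y.X_mem _ _
theorem U_le : S.U ≤ Y.U := by
  rintro _ ⟨u, rfl⟩; exact ⟨_, h.φ_ι u⟩
theorem σ_ne : σ ≠ 1 := by
  rintro rfl
  obtain ⟨c, hc⟩ := h.free
  have : Nontrivial J := CharP.nontrivial_of_char_ne_one (v := 2) (by decide)
  exact zero_ne_one ((CharTwo.add_self_eq_zero (ι c : J)).symm.trans hc)
theorem t_memM : S.t ∈ Y.M := mem_sup_right ⟨σ, h.ct⟩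
theorem j_inj : Function.Injective j := by
  have : Nontrivial J := CharP.nontrivial_of_char_ne_one (v := 2) (by decide)
  exact j.injective
theorem fixK {k : K} (hk : σ (ι k) = ι k) : ∃ a : F, h.tj.res a = k := by
  obtain ⟨a, ha⟩ := (h.fix _).1 hk
  exact ⟨T a, by rw [h.tj.res_T, ha, T_ι]⟩
theorem span (x : J) : ∃ (c : K) (a b : E), x = j a + ι c * j b := by
  obtain ⟨c, hc⟩ := h.free
  have h2 : (2 : J) = 0 := CharTwo.two_eq_zero
  obtain ⟨b, hb⟩ := (h.fix (x + σ x)).1 (by rw [map_add, h.σσ, add_comm])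
  obtain ⟨a, ha⟩ := (h.fix (x + ι c * (x + σ x))).1 (by
    rw [map_add, map_mul, map_add, h.σσ]
    linear_combination (x + σ x) * hc + (σ x - ι c * (x + σ x)) * h2)
  exact ⟨c, a, b, by rw [ha, hb]; linear_combination (-(ι c * (x + σ x))) * h2⟩
theorem sq_surj (x : J) : ∃ y, y ^ 2 = x := by
  have : Fact (Nat.Prime 2) := ⟨Nat.prime_two⟩
  have k : ∀ y : J, σ y = y → y ^ 2 = 0 → y = 0 := fun y hy e => by
    obtain ⟨a, rfl⟩ := (h.fix y).1 hy
    rw [← map_pow, map_eq_zero_iff _ h.j_inj, pow_eq_zero_iff two_ne_zero] at e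
    rw [e, map_zero]
  refine Finite.injective_iff_surjective.1 ((injective_iff_map_eq_zero (frobenius J 2)).2 fun y e => ?_) x
  rw [frobenius_def] at e
  refine k y (CharTwo.add_eq_zero.1 (k _ (by rw [map_add, h.σσ, add_comm]) ?_)) e
  rw [CharTwo.add_sq, ← map_pow, e, map_zero, add_zero]
theorem d0_Z (k : J) : S.D0 (Y.X 3 k) := by
  refine ⟨fun x hx => ?_, ?_⟩
  · obtain ⟨u, rfl⟩ := h.U_le (S.Q_le_U hx)
    exact Y.X3_comm_φ k u
  · obtain ⟨a, ha⟩ := (h.fix (σ k + k)).1 (by rw [map_add, h.σσ, add_comm])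
    refine ⟨T a, ?_⟩
    rw [S.X_T rfl, ← h.ext, ha, Y.X_add, ← h.ct.act, Y.X_inv, ← mul_assoc, ← mul_assoc, ← mul_assoc,
      S.tt, one_mul, S.t_inv]
theorem cn_odd {g : G} (hg : Y.Cn g) : Odd (orderOf g) := by
  have : Fact (Nat.Prime 2) := ⟨Nat.prime_two⟩
  by_contra k
  rw [Nat.not_odd_iff_even, even_iff_two_dvd] at k
  have hn : zpowers S.t ≤ 𝐍(𝐂(Y.L)) := zpowers_le.2 (Y.No_norm (fun m ρ hm x hx => Pin.cn_iff.1 fun i a => by
    obtain ⟨b, rfl⟩ := ρ.surjective a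
    rw [← hm.act, conj_mul, conj_mul, Pin.cn_iff.2 hx]) ⟨σ, h.ct⟩)
  obtain ⟨T, hT, le⟩ := exists_isSylowIn_le (L := 𝐂(Y.L) ⊔ zpowers S.t) (G2S.isP_zp S.tt) le_sup_right
  have hN : 𝐂(Y.L) ⊔ zpowers S.t ≤ 𝐍(𝐂(Y.L)) := sup_le le_normalizer hn
  have h1 := hT.inf_normal le_sup_left hN
  have h2 := inf_centralizer_ne_bot h1.isP hT.isP
    ((le_inf le_normalizer (hT.le.trans hN)).trans inf_normalizer_le_normalizer_inf)
    (h1.dvd_card_iff.1 (k.trans (Subgroup.orderOf_dvd_natCard _ (Pin.cn_iff.1 hg))))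
  obtain ⟨y, hy, o⟩ := exists_orderOf_eq_prime (h1.isP.to_le inf_le_left) h2
  have c : Y.Cn y := Pin.cn_iff.2 hy.1.2
  rcases St.C0.invol (S := S) ⟨(hy.2 _ (le (mem_zpowers _))).symm, fun i a => h.ext i a ▸ c i _⟩
    (by rw [← sq, ← o, pow_orderOf_eq_one]) with rfl | rfl
  · simp at o
  · exact h.σ_ne (h.ct.uniq h.inj (Pin.cn_iff_act'.1 c))
theorem comap {K' J' : Type*} [CommRing K'] [CommRing J'] [Cub K' J'] [CharP K' 2] [CharP J' 2]
    (e : J' ≃+* J) (he : Tc (e : J' →+* J)) :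
    Big S (Y.comap he) ((e.symm : J →+* J').comp j) ((e.trans σ).trans e.symm) := by
  have e1 : ∀ a, e (ι a) = ι (he.res a) := fun a => (he.ι_res a).symm
  have e2 : ∀ a, e.symm (ι a) = ι (he.symm.res a) := fun a => (he.symm.ι_res a).symm
  have ri : Function.Injective he.res := fun a b k =>
    ι_inj (J := J') (e.injective (by rw [e1, e1, k]))
  have rs : ∀ a, he.res (he.symm.res a) = a := fun a =>
    ι_inj (J := J) (by rw [← e1, ← e2, e.apply_symm_apply])
  exact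
  { db := h.db
    tj := h.tj.comp he.symm
    inj := h.inj.comp fun u v k => by
      ext
      exacts [e.injective (congrArg U12.p0 k), ri (congrArg U12.p5 k), e.injective (congrArg U12.p4 k),
        e.injective (congrArg U12.p2 k), ri (congrArg U12.p1 k), ri (congrArg U12.p3 k)]
    ext i a := by simp [Pin.comap, h.ext]
    ct := ⟨(he.trans h.ct.tc).trans he.symm, fun i a => by simp [Pin.comap, h.ct.act i]⟩
    σσ k := by simp [h.σσ]
    fix k := by simp [RingEquiv.symm_apply_eq, h.fix]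
    free := by
      obtain ⟨c, hc⟩ := h.free
      exact ⟨he.symm.res c, by rw [← e2]; simp [← map_add, hc]⟩
    cardK := (Nat.card_eq_of_bijective _ ⟨ri, fun a => ⟨_, rs a⟩⟩).trans h.cardK
    cardJ := (Nat.card_congr e.toEquiv).trans h.cardJ
    ch l m i k := by simp [Pin.comap, h.ch]
    cO o ho i a := h.cO o ho i _
    uz g hg h2 ht := by
      obtain ⟨a, ha⟩ := Y.mem_Z.1 (h.uz g hg h2 ht)
      exact (Pin.mem_Z _).2 ⟨he.symm.res a, by rw [← e2]; simp [Pin.comap, ha]⟩ }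
end Big

end H89.D4S
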