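import Cfsg.Agent.Lib.D4S.P3N

/-! Standard components of type `³D₄(2ⁿ)`, package P3B: see `blueprint/D4S/README.md`. -/

set_option autoImplicit false
set_option linter.unusedSectionVars false

namespace H89.D4S
open Subgroup H69 U12
open H89.G2S (KK ιK σK)
open scoped commutatorElement

variable {F E G : Type*} [Field F] [Field E] [Cub F E] [CharP F 2] [CharP E 2] [Finite F] [Finite E]
  [Group G] [Finite G]
  {K J : Type*} [CommRing K] [CommRing J] [Cub K J] [CharP K 2] [CharP J 2] [Finite K] [Finite J]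

theorem P3B.act_one (Y : Pin J G) : Y.Act 1 (RingEquiv.refl J) := ⟨Tc.refl, fun i a => by simp⟩

theorem Pin.lang {Y : Pin J G} (hY : Function.Injective Y.φ) {m : G} {ρ : J ≃+* J} (hm : Y.Act m ρ)
    (m2 : m * m = 1) {c : K} (hc : ι c + ρ (ι c) = 1) {u : U12 J} (h2 : Y.φ u * m * (Y.φ u * m) = 1) :
    ∃ y, Y.φ y * (Y.φ u * m) * (Y.φ y)⁻¹ = m := by
  have e : ρ * ρ = RingEquiv.refl J :=
    Pin.Act.uniq hY (hm.mul hm) (m2 ▸ P3B.act_one Y)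
  obtain ⟨y, hy⟩ := U12.lang hm.tc (fun a => congrArg (fun f : J ≃+* J => f a) e) hc (u := u) (hY (by
    rw [map_mul, ← hm.φ, map_one, ← h2, inv_eq_of_mul_eq_one_right m2]; group))
  refine ⟨y, ?_⟩
  have := congrArg Y.φ hy
  rw [map_mul, map_mul, map_inv, ← hm.φ, map_one] at this
  calc _ = Y.φ y * Y.φ u * (m * Y.φ y * m⁻¹)⁻¹ * m := by group
    _ = m := by rw [this, one_mul]

namespace Top
variable {S : St E G} {Y : Pin J G} {j : E →+* J} {σ : J ≃+* J} {A : Subgroup G} (h : Top S Y j σ A)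
include h
theorem syl : IsSylowIn 2 (Y.U ⊔ A) Y.M := by
  exact G2S.sylSup h.sylU h.sylA Y.No_norm_L (h.sylA.le.trans Y.No_norm_U)
theorem mem_S {g : G} : g ∈ Y.U ⊔ A ↔ ∃ u, ∃ m ∈ A, g = Y.φ u * m := by
  rw [mem_sup_of_le_normalizer_left (h.sylA.le.trans Y.No_norm_U)]
  exact ⟨fun ⟨_, ⟨u, e⟩, m, hm, e'⟩ => ⟨u, m, hm, e ▸ e'⟩,
    fun ⟨u, m, hm, e⟩ => ⟨_, Y.φ_memU u, m, hm, e⟩⟩
theorem act {m : G} (hm : m ∈ A) : ∃ ρ, Y.Act m ρ := by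
  exact h.sylA.le hm
theorem faith {m m' : G} (hm : m ∈ A) (hm' : m' ∈ A) {ρ : J ≃+* J} (h1 : Y.Act m ρ)
    (h2 : Y.Act m' ρ) : m = m' := by
  have h3 := h1.inv.mul h2
  rw [inv_mul_cancel] at h3
  obtain ⟨k, hk⟩ := isPGroup_iff_mem.1 h.sylA.isP _ (mul_mem (inv_mem hm) hm')
  exact inv_mul_eq_one.1 (orderOf_eq_one_iff.1 (Nat.eq_one_of_dvd_coprimes
    ((Nat.coprime_two_right.2 (h.toBig.cn_odd (Pin.cn_iff_act'.2 h3))).pow_right k) dvd_rfl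
    (orderOf_dvd_of_pow_eq_one hk)))
theorem faith1 {m : G} (hm : m ∈ A) (h1 : Y.Cn m) : m = 1 := by
  exact h.faith hm (one_mem A) (Pin.cn_iff_act.1 h1) (P3B.act_one Y)
theorem invol {u : U12 J} {m : G} (hm : m ∈ A) (h2 : Y.φ u * m * (Y.φ u * m) = 1) : m * m = 1 := by
  obtain ⟨ρ, hρ⟩ := h.act hm
  have e : m * m = Y.φ (u * U12.map hρ.tc u)⁻¹ := by
    rw [map_inv, map_mul, ← hρ.φ, eq_inv_iff_mul_eq_one, ← mul_eq_one_comm, ← h2]; group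
  have k := hρ.mul hρ
  rw [k.eq_one_of_mem h.inj (e ▸ Y.φ_memU _)] at k
  exact h.faith1 (mul_mem hm hm) (Pin.cn_iff_act'.2 k)
theorem memU_of_comm {g : G} (hg : g ∈ Y.U ⊔ A) (h1 : ∀ k, ⁅g, Y.X 0 k⁆ ∈ Y.Q) : g ∈ Y.U := by
  obtain ⟨u, m, hm, rfl⟩ := h.mem_S.1 hg
  obtain ⟨ρ, hρ⟩ := h.act hm
  have e := hρ.eq_one h.inj h1
  subst e
  rw [h.faith1 hm (Pin.cn_iff_act'.2 hρ), mul_one]
  exact Y.φ_memU u
theorem eq_one_of_L {m : G} (hm : m ∈ A) (hL : m ∈ Y.L) : m = 1 := by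
  obtain ⟨ρ, hρ⟩ := h.act hm
  have e := hρ.eq_one_of_mem h.inj (h.sylU.le_of_le_normalizer' (h.sylA.isP.to_le (zpowers_le.2 hm))
    (zpowers_le.2 hL) (zpowers_le.2 (Y.No_norm_U (h.sylA.le hm))) (mem_zpowers m))
  subst e
  exact h.faith1 hm (Pin.cn_iff_act'.2 hρ)
theorem S_comm_z {g : G} (hg : g ∈ Y.U ⊔ A) : g * S.X 3 1 = S.X 3 1 * g := by
  obtain ⟨u, m, hm, rfl⟩ := h.mem_S.1 hg
  obtain ⟨ρ, hρ⟩ := h.act hm
  have e := hρ.act 3 1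
  rw [map_one, mul_inv_eq_iff_eq_mul] at e
  rw [← h.ext, map_one, mul_assoc, e, ← mul_assoc, ← mul_assoc, Y.X3_comm_φ]
theorem cent_S {g : G} (hg : g ∈ Y.U ⊔ A) (h1 : ∀ s ∈ Y.U ⊔ A, g * s = s * g) :
    ∃ a : F, g = S.X 3 (ι a) := by
  obtain ⟨u, rfl⟩ := h.memU_of_comm hg fun k => by
    rw [commutatorElement_eq_one_iff_mul_comm.2 (h1 _ (mem_sup_left (Y.X_memU (by decide) k)))]
    exact one_mem _
  obtain ⟨c, rfl⟩ := mem_Z'.1 (mem_Z_of_comm (u := u) fun v => h.inj (by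
    rw [map_mul, map_mul]; exact h1 _ (mem_sup_left (Y.φ_memU v))))
  have e := h1 _ (mem_sup_right h.tA)
  rw [Y.φ3'] at e ⊢
  have e' : h.ct.tc.res c = c := Pin.X_injι h.inj 3 (by rw [← h.ct.actι, ← e, mul_inv_cancel_right])
  obtain ⟨a, rfl⟩ := h.toBig.fixK (k := c) ((h.ct.tc.ι_res c).symm.trans (congrArg ι e'))
  exact ⟨a, h.toBig.extι 3 a⟩
theorem sylG (hf : Fix S Y) : IsSylowIn 2 (Y.U ⊔ A) ⊤ := by
  exact G2S.syl_fix S.tt h.toBig.t_memM hf h.syl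
theorem sylC (hf : Fix S Y) : IsSylowIn 2 (Y.U ⊔ A) (centralizer {S.X 3 1}) := by
  exact (h.sylG hf).mono (fun g hg => mem_centralizer_singleton_iff.2 (h.S_comm_z hg)) le_top
theorem not_conj_L (ht : S.t ∉ Y.L) (hf : Fix S Y) {g : G} : g * S.t * g⁻¹ ∉ Y.L := by
  intro e
  simpa [mul_assoc, ht] using conj_mem_of_mem_normalizer' (Y.M_norm_L (hf g (mem_sup_left e))) e
theorem sz0 (hf : Fix S Y) (hc : IsConj (S.X 2 1) (S.X 3 1)) :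
    ∃ l ∈ Y.L, l * S.X 2 1 * l⁻¹ ∈ Y.Z := by
  have := Fact.mk Nat.prime_two
  obtain ⟨c, hc⟩ := isConj_iff.1 hc
  have hs : S.X 2 1 ∈ (Y.U ⊔ A) ^ᶜ c⁻¹ := mem_cj.2 (by
    rw [inv_inv, hc, ← h.ext]; exact mem_sup_left (Y.X_memU (by decide) _))
  have hP : (Y.U ⊔ A) ^ᶜ c⁻¹ ≤ centralizer {S.X 2 1} := by
    rw [cj_le_iff, inv_inv, cj_centralizer_singleton, hc]
    exact (h.sylC hf).le
  obtain ⟨k, hk, e⟩ := G2S.odd_fix S.tt h.toBig.t_memM hf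
    (mem_centralizer_singleton_iff.2 (S.tX 2 1)) (isPGroup_cj h.syl.isP c⁻¹) hP
  obtain ⟨m, hm, e'⟩ := h.syl.exists_cj_le (isPGroup_cj (isPGroup_cj h.syl.isP c⁻¹) k) (by
    rintro _ ⟨p, hp, rfl⟩; exact e p hp)
  have e2 := eq_of_le_of_card_ge e' (by rw [card_cj, card_cj, card_cj])
  have ks : k * S.X 2 1 * k⁻¹ = S.X 2 1 :=
    mul_inv_eq_iff_eq_mul.2 (mem_centralizer_singleton_iff.1 hk)
  obtain ⟨a, ha⟩ := h.cent_S (g := m * S.X 2 1 * m⁻¹) (e' (ks ▸ cj_mem m (cj_mem k hs))) fun s hs => by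
    have := (cj_mono m (cj_mono k hP)) (e2.ge hs)
    rw [cj_centralizer_singleton, cj_centralizer_singleton, ks] at this
    exact (mem_centralizer_singleton_iff.1 this).symm
  obtain ⟨l, hl, n, ρ, hn, rfl⟩ := Y.mem_M.1 hm
  have e3 := hn.act 2 1
  rw [map_one, ← map_one j, h.ext] at e3
  refine ⟨l, hl, ?_⟩
  rw [← e3, show l * (n * S.X 2 1 * n⁻¹) * l⁻¹ = l * n * S.X 2 1 * (l * n)⁻¹ by group, ha, ← h.ext]
  exact Y.X3_mem _
end Top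

end H89.D4S
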