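import Cfsg.Agent.Lib.D4S.P3A

/-! Standard components of type `³D₄(2ⁿ)`, package P3N: see `blueprint/D4S/README.md`. -/

set_option autoImplicit false
set_option linter.unusedSectionVars false

namespace H89.D4S
open Subgroup H69 U12
open H89.G2S (KK ιK σK)
open scoped commutatorElement

variable {F E G : Type*} [Field F] [Field E] [Cub F E] [CharP F 2] [CharP E 2] [Finite F] [Finite E]
  [Group G] [Finite G]
  {K J : Type*} [CommRing K] [CommRing J] [Cub K J] [CharP K 2] [CharP J 2] [Finite K] [Finite J]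

namespace P3N

theorem al (P : Pin J G) (k : J) (l : K) : P.X 0 k * P.X 5 (ι l) * P.X 0 k =
    P.X 5 (ι l) * (P.X 4 (ι l * k) * P.X 2 (ι l * sh k)) * P.X 1 (ι (l * N k)) *
      P.X 3 (ι (l ^ 2 * N k)) := by
  rw [← P.φ0, ← P.φ1', ← P.φ2, ← P.φ3', ← P.φ4, ← P.φ5']
  simp only [← map_mul P.φ]; congr 1; u12

theorem co (P : Pin J G) (hP : Function.Injective P.φ) {a d e a' d' e' : K} {b c b' c' : J}
    (h : P.X 5 (ι a) * (P.X 4 b * P.X 2 c) * P.X 1 (ι d) * P.X 3 (ι e) =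
      P.X 5 (ι a') * (P.X 4 b' * P.X 2 c') * P.X 1 (ι d') * P.X 3 (ι e')) :
    b = b' ∧ c = c' ∧ d = d' := by
  simp only [← P.φ1', ← P.φ2, ← P.φ3', ← P.φ4, ← P.φ5', ← map_mul P.φ] at h
  have k := hP h
  exact ⟨by simpa [g1, g2, g3, g4, g5] using congrArg U12.p4 k,
    by simpa [g1, g2, g3, g4, g5] using congrArg U12.p2 k,
    by simpa [g1, g2, g3, g4, g5] using congrArg U12.p1 k⟩

theorem e2 (P : Pin J G) (k k' : J) (l : K) :
    P.X 4 (ι l * (k + k')) * P.X 2 (ι l * sh (k + k')) =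
      P.X 4 (ι l * k) * P.X 2 (ι l * sh k) * (P.X 4 (ι l * k') * P.X 2 (ι l * sh k')) *
        P.X 2 (ι l * cr k k') * P.X 3 (ι (l ^ 2 * T (k' * sh k))) := by
  simp only [← P.φ2, ← P.φ3', ← P.φ4, ← map_mul P.φ]; congr 1; u12

theorem comm_w (P : Pin J G) {g w : G} (h0 : g * P.n0 = P.n0 * g) (h5 : g * P.n5 = P.n5 * g)
    (hw : w ∈ closure ({P.n0, P.n5} : Set G)) : g * w = w * g :=
  ((closure_le (centralizer {g})).2 (by
    rintro _ (rfl | rfl)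
    exacts [mem_centralizer_singleton_iff.2 h0.symm, mem_centralizer_singleton_iff.2 h5.symm]) hw g rfl)

end P3N
open P3N

namespace Big
variable {S : St E G} {Y : Pin J G} {j : E →+* J} {σ : J ≃+* J} (h : Big S Y j σ)
include h
theorem na {g : G} (h1 : ∀ i, g * S.X i 1 = S.X i 1 * g) (hZ : g ∈ 𝐍(Y.Z))
    (hι : ∀ c, ∃ k, ∀ i, g * S.X i c * g⁻¹ = Y.X i k) : g ∈ Y.No := by
  simp only [← h.one_eq] at h1
  have c1 : ∀ i, Commute g (Y.X i 1) := h1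
  have h0 : g * Y.n0 = Y.n0 * g := ((c1 0).mul_right (c1 6)).mul_right (c1 0)
  have h5 : g * Y.n5 = Y.n5 * g := ((c1 5).mul_right (c1 11)).mul_right (c1 5)
  have f1 : ∀ i, g * Y.X i 1 * g⁻¹ = Y.X i 1 := fun i => mul_inv_eq_iff_eq_mul.2 (h1 i)
  choose r hr using fun k : K => Y.mem_Z.1 ((mem_normalizer_iff.1 hZ _).1 (Y.X3_mem (ι k)))
  choose κ hκ using hι
  simp only [← h.ext] at hκ
  have inj := @Pin.X_inj _ _ _ _ _ _ _ _ _ Y h.inj
  have injι := @Pin.X_injι _ _ _ _ _ _ _ _ _ Y h.inj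
  have all : ∀ i i' : Fin 12, i.val % 2 = i'.val % 2 → ∀ a b, g * Y.X i a * g⁻¹ = Y.X i b →
      g * Y.X i' a * g⁻¹ = Y.X i' b := fun i i' hi a b e => by
    obtain ⟨w, hw, k⟩ := Y.exists_w i
    obtain ⟨w', hw', k'⟩ := Y.exists_w i'
    have cw : Commute g (w' * w⁻¹) :=
      Commute.mul_right (comm_w Y h0 h5 hw') (Commute.inv_right (comm_w Y h0 h5 hw))
    have t : ∀ a, Y.X i' a = w' * w⁻¹ * Y.X i a * (w' * w⁻¹)⁻¹ := fun a => by
      rw [← k, ← k', hi]; group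
    rw [t, t, ← e, ← mul_assoc, ← mul_assoc, cw.eq, mul_assoc _ _ g⁻¹, ← mul_inv_rev, cw.eq]
    group
  have lg : ∀ i : Fin 12, i.val % 2 = 1 → ∀ a, g * Y.X i (ι a) * g⁻¹ = Y.X i (ι (r a)) :=
    fun i hi a => all 3 i hi.symm _ _ (hr a).symm
  have ad : ∀ a b, r (a + b) = r a + r b := fun a b => injι 3 (by
    rw [Y.X_addι, hr, hr, hr, Y.X_addι, conj_mul])
  have ml : ∀ a b, r (a * b) = r a * r b := fun a b => injι 3 (by
    rw [hr, ← Y.comm51, ← Y.comm51, ← lg 5 rfl, ← lg 1 rfl, conjugate_commutatorElement])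
  have r1 : r 1 = 1 := injι 3 (by rw [hr, map_one, f1])
  have r2 : ∀ a, r (a ^ 2) = r a ^ 2 := fun a => by rw [sq, sq, ml]
  have kad : ∀ a b, κ (a + b) = κ a + κ b := fun a b => inj (i := 0) rfl (by
    rw [Y.X_add, ← hκ, ← hκ, ← hκ, map_add, Y.X_add, conj_mul])
  have tk : ∀ {a b a' b' : J}, g * Y.X 4 a * g⁻¹ = Y.X 4 a' → g * Y.X 2 b * g⁻¹ = Y.X 2 b' →
      r (T (a * b)) = T (a' * b') := fun {a b a' b'} e e' => injι 3 (by
    rw [hr, Y.X_T rfl, Y.X_T rfl, ← Y.comm42, ← Y.comm42, conjugate_commutatorElement, e, e'])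
  have cal : ∀ {k k' : J} (l : K), g * Y.X 0 k * g⁻¹ = Y.X 0 k' →
      Y.X 5 (ι (r l)) * (Y.X 4 (ι (r l) * k') * Y.X 2 (ι (r l) * sh k')) * Y.X 1 (ι (r l * N k')) *
        Y.X 3 (ι (r l ^ 2 * N k')) =
      Y.X 5 (ι (r l)) * (g * (Y.X 4 (ι l * k) * Y.X 2 (ι l * sh k)) * g⁻¹) * Y.X 1 (ι (r (l * N k))) *
        Y.X 3 (ι (r (l ^ 2 * N k))) := fun {k k'} l e => by
    rw [← al, ← e, ← lg 5 rfl, ← lg 1 rfl, ← lg 3 rfl, conj_mul, conj_mul, conj_mul, conj_mul,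
      conj_mul, al]
  have kN : ∀ c, sh (κ c) = κ (sh c) ∧ N (κ c) = r (N (j c)) := fun c => by
    have e := cal 1 (hκ c 0)
    rw [map_one, one_mul, one_mul, ← h.tj.sh, ← conj_mul, hκ, hκ] at e
    simpa [r1] using (co Y h.inj e).2
  have x42 : ∀ c l, g * (Y.X 4 (ι l * j c) * Y.X 2 (ι l * sh (j c))) * g⁻¹ =
      Y.X 4 (ι (r l) * κ c) * Y.X 2 (ι (r l) * sh (κ c)) := fun c l => by
    have e := cal l (hκ c 0)
    rw [ml, ml, r2, ← (kN c).2] at e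
    exact (mul_left_cancel (mul_right_cancel (mul_right_cancel e))).symm
  have x2 : ∀ c d l, g * Y.X 2 (ι l * j (cr c d)) * g⁻¹ = Y.X 2 (ι (r l) * cr (κ c) (κ d)) :=
    fun c d l => by
      have e := x42 (c + d) l
      have t := tk (hκ d 4) (hκ (sh c) 2)
      rw [h.tj.sh, ← (kN c).1] at t
      rw [map_add, kad, e2, e2, ← conj_mul, ← conj_mul, ← conj_mul, x42, x42, lg 3 rfl, ml, r2,
        t, ← h.tj.cr] at e
      exact mul_left_cancel (mul_right_cancel e)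
  have x2' : ∀ l w, ∃ y, g * Y.X 2 (ι l * j w) * g⁻¹ = Y.X 2 y := fun l w => by
    obtain ⟨a, b, c, d, rfl⟩ := cr_span S.cub w
    rw [map_add, mul_add, Y.X_add, ← conj_mul, x2, x2, ← Y.X_add]
    exact ⟨_, rfl⟩
  have x2'' : ∀ x, ∃ y, g * Y.X 2 x * g⁻¹ = Y.X 2 y := fun x => by
    obtain ⟨c, a, b, rfl⟩ := h.span x
    obtain ⟨y, hy⟩ := x2' c b
    rw [Y.X_add, ← conj_mul, hκ, hy, ← Y.X_add]
    exact ⟨_, rfl⟩
  choose ρ hρ using x2''
  have st : ∀ i : Fin 12, i.val % 2 = 0 → ∀ a, g * Y.X i a * g⁻¹ = Y.X i (ρ a) :=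
    fun i hi a => all 2 i hi.symm _ _ (hρ a)
  have pad : ∀ a b, ρ (a + b) = ρ a + ρ b := fun a b => inj (i := 2) rfl (by
    rw [Y.X_add, ← hρ, ← hρ, ← hρ, Y.X_add, conj_mul])
  have p1 : ρ 1 = 1 := inj (i := 2) rfl (by rw [← hρ, f1])
  have pl : ∀ l x, ι (r l) * ρ x = ρ (ι l * x) ∧ ι (r l) * sh (ρ x) = ρ (ι l * sh x) := fun l x => by
    have e := cal l (st 0 rfl x)
    rw [← conj_mul, st 4 rfl, hρ] at e
    exact ⟨(co Y h.inj e).1, (co Y h.inj e).2.1⟩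
  have psh : ∀ x, ρ (sh x) = sh (ρ x) := fun x => by simpa [r1] using (pl 1 x).2.symm
  have pcr : ∀ x y, ρ (cr x y) = cr (ρ x) (ρ y) := fun x y => by
    have := psh (x + y)
    rw [pad x, sh_add, sh_add, pad, pad, psh, psh] at this
    exact add_left_cancel (add_right_cancel this)
  have pT : ∀ x y, r (T (x * y)) = T (ρ x * ρ y) := fun x y => tk (st 4 rfl x) (hρ y)
  have psq : ∀ x y, ρ (x ^ 2 * y) = ρ x ^ 2 * ρ y := fun x y => by
    rw [sq_mul_eq, sq_mul_eq, pad, ← (pl _ _).1, pT, pcr, psh]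
  have pml : ∀ x y, ρ (x * y) = ρ x * ρ y := fun x y => by
    obtain ⟨z, rfl⟩ := h.sq_surj x
    have := psq z 1
    rw [mul_one, p1, mul_one] at this
    rw [psq, this]
  have pT1 : ∀ x, r (T x) = T (ρ x) := fun x => by simpa [p1] using pT x 1
  have bij : Function.Bijective ρ := Finite.injective_iff_bijective.1 fun a b e => inj (i := 2) rfl (by
    have := (hρ a).trans ((congrArg (Y.X 2) e).trans (hρ b).symm)
    rwa [mul_left_inj, mul_right_inj] at this)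
  let R : J ≃+* J := { Equiv.ofBijective ρ bij with map_mul' := pml, map_add' := pad }
  refine ⟨R, ⟨fun x => ?_, psh⟩, fun i a => ?_⟩
  · have := (pl (T x) 1).1
    rw [p1, mul_one, mul_one, pT1] at this
    exact this.symm
  · rcases Nat.mod_two_eq_zero_or_one i.val with hi | hi
    · exact st i hi a
    · rw [← Y.X_T hi, lg i hi, pT1, Y.X_T hi]; rfl
theorem N1_le : S.N1 ≤ Y.No := fun m hm => by
  obtain ⟨mt, τ, hτ⟩ := S.mem_N1.1 hm
  refine h.na (fun i => mul_inv_eq_iff_eq_mul.1 (by rw [hτ.act, map_one]))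
    (mem_normalizer_fintype fun x hx => ?_) fun c => ⟨j (τ c), fun i => by rw [hτ.act, h.ext]⟩
  obtain ⟨k, rfl⟩ := Y.mem_Z.1 hx
  have e1 : m * S.t * m⁻¹ = S.t := mul_inv_eq_iff_eq_mul.2 mt
  by_cases ct : Y.X 3 (ι k) * S.t = S.t * Y.X 3 (ι k)
  · have e := h.ct.actι 3 k
    rw [mul_inv_eq_iff_eq_mul.2 ct.symm] at e
    obtain ⟨a, rfl⟩ := h.fixK (k := k) (by
      have := h.ct.tc.ι_res k
      rw [← Pin.X_injι h.inj 3 e] at this
      exact this.symm)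
    rw [h.extι, hτ.act, ← h.ext]
    exact Y.X3_mem _
  obtain ⟨d1, a, ha⟩ := h.d0_Z (ι k)
  refine h.uz _ ⟨fun x hx => ?_, hτ.tc.res a, ?_⟩ (by rw [conj_mul, Y.X_sq, mul_one, mul_inv_cancel])
    fun e => ct ?_
  · have := d1 _ ((mem_normalizer_iff.1 (S.No_norm_Q ⟨_, hτ.inv⟩) _).1 hx)
    calc _ = m * (Y.X 3 (ι k) * (m⁻¹ * x * m⁻¹⁻¹)) * m⁻¹ := by group
      _ = _ := by rw [this]; group
  · rw [← hτ.actι, ← e1, conj_mul, conj_inv, conj_mul, ha, conj_mul]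
  · rw [← e1, conj_mul, conj_mul] at e
    exact mul_left_cancel (mul_right_cancel e)
theorem cM {g : G} (hg : g * S.t = S.t * g) : g ∈ Y.M := by
  obtain ⟨l, hl, m, τ, h1, h2, rfl⟩ := S.dec hg
  exact mul_mem (mem_sup_left (h.L_le hl)) (mem_sup_right (h.N1_le (S.mem_N1.2 ⟨h2, τ, h1⟩)))
end Big

end H89.D4S
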