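import Cfsg.Agent.Lib.D4S.P3B
import Cfsg.Agent.Lib.D4S.P1A
import Cfsg.Agent.Lib.D4S.Inv

/-! Standard components of type `³D₄(2ⁿ)`, package PF1: see `blueprint/D4S/README.md`. -/

set_option autoImplicit false
set_option linter.unusedSectionVars false

namespace H89.D4S
open Subgroup H69 U12
open H89.G2S (KK ιK σK)
open scoped commutatorElement

variable {F E G : Type*} [Field F] [Field E] [Cub F E] [CharP F 2] [CharP E 2] [Finite F] [Finite E]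
  [Group G] [Finite G]
  {K J : Type*} [Field K] [Field J] [Cub K J] [CharP K 2] [CharP J 2] [Finite K] [Finite J]

namespace PF1

theorem conj_sq {x y : G} (h : IsConj x y) (h2 : x * x = 1) : y * y = 1 := by
  obtain ⟨c, rfl⟩ := isConj_iff.1 h
  rw [conj_mul, h2, mul_one, mul_inv_cancel]

theorem conj_ne {x y : G} (h : IsConj x y) (h2 : x ≠ 1) : y ≠ 1 := by
  rintro rfl; exact h2 (isConj_one_right.1 h.symm)

theorem cj (g x : G) : IsConj x (g * x * g⁻¹) := isConj_iff.2 ⟨g, rfl⟩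

/-- the action on `U/Q` -/
def On (P : FP J G) (s : G) (ρ : J ≃+* J) : Prop :=
  ∀ v, ∃ v', s * P.φ v * s⁻¹ = P.φ v' ∧ v'.p0 = ρ v.p0

theorem on_uniq {P : FP J G} {s : G} {ρ ρ' : J ≃+* J} (h : On P s ρ) (h' : On P s ρ') : ρ = ρ' :=
  RingEquiv.ext fun a => by
    obtain ⟨v, e, k⟩ := h (g0 a)
    obtain ⟨v', e', k'⟩ := h' (g0 a)
    rw [P.inj (e.symm.trans e')] at k
    exact k.symm.trans k'

theorem on_mul {P : FP J G} {s s' : G} {ρ ρ' : J ≃+* J} (h : On P s ρ) (h' : On P s' ρ') :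
    On P (s * s') (ρ * ρ') := fun v => by
  obtain ⟨v', e', k'⟩ := h' v
  obtain ⟨v'', e, k⟩ := h v'
  exact ⟨v'', by rw [← e, ← e']; group, by rw [k, k']; rfl⟩

end PF1

namespace Top
variable {S : St E G} {P : FP J G} {j : E →+* J} {σ : J ≃+* J} {A : Subgroup G}
  (h : Top S P.toPin j σ A)
include h

theorem four : 4 ≤ Nat.card K := by
  rw [h.cardK]
  exact Nat.pow_le_pow_left (two_le_card F) 2

theorem X1_eq (i : Fin 12) : S.X i 1 = P.X i 1 := by rw [← h.ext i 1, map_one]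

theorem A_invol {m : G} (hm : m ∈ A) (h2 : m * m = 1) : m = 1 ∨ m = S.t := by
  obtain ⟨ρ, hρ⟩ := h.act hm
  by_cases e : ρ = 1
  · exact Or.inl (h.faith hm (one_mem _) hρ ⟨hρ.tc, fun i a => by rw [e]; simp⟩)
  · refine Or.inr (h.faith hm h.tA hρ ?_)
    rw [G2S.aut_invol (fun a => ?_) e h.σσ h.toBig.σ_ne]
    · exact h.ct
    · have := (hρ.mul hρ).act 0 a
      rw [h2, one_mul, inv_one, mul_one] at this
      exact (Pin.X_inj P.inj (i := 0) rfl this).symm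

theorem S_invol {x : G} (hx : x ∈ P.U ⊔ A) (h2 : x * x = 1) :
    ∃ u, x = P.φ u ∨ x = P.φ u * S.t := by
  obtain ⟨u, m, hm, rfl⟩ := h.mem_S.1 hx
  rcases h.A_invol hm (h.invol hm h2) with rfl | rfl
  · exact ⟨u, Or.inl (mul_one _)⟩
  · exact ⟨u, Or.inr rfl⟩

theorem conj_t {x : G} (hx : x ∈ P.M) (h2 : x * x = 1) (hL : x ∉ P.L) :
    ∃ m ∈ P.M, m * x * m⁻¹ = S.t := by
  obtain ⟨g, hg, k⟩ := G2S.exists_cj_mem h.syl hx h2
  have k2 := PF1.conj_sq (PF1.cj g x) h2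
  obtain ⟨u, e | e⟩ := h.S_invol k k2
  · exact absurd ((mem_normalizer_iff.1 (P.M_norm_L hg) x).2 (e ▸ P.φ_mem u)) hL
  · obtain ⟨c, hc⟩ := h.free
    obtain ⟨y, hy⟩ := Pin.lang P.inj h.ct S.tt hc (e ▸ k2)
    exact ⟨P.φ y * g, mul_mem (mem_sup_left (P.φ_mem y)) hg, by rw [← hy, ← e]; group⟩

theorem noL {g : G} : g * S.t * g⁻¹ ∉ P.L := fun k => by
  obtain ⟨B, -, h1, h2, h3⟩ := P.big_cent k (PF1.conj_sq (PF1.cj g _) S.tt)
  have := h2.trans (St.card_two h.db h1 h3)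
  rw [h.cardK, ← pow_mul, Nat.pow_le_pow_iff_right (two_le_card F)] at this
  omega

theorem noL' {x : G} (hx : x ∈ P.L) : ¬ IsConj x S.t := fun k => by
  obtain ⟨g, rfl⟩ := isConj_iff.1 k.symm
  exact h.noL hx

theorem fixF : Fix S P.toPin := fun g hg => by
  obtain ⟨m, hm, e⟩ := h.conj_t hg (PF1.conj_sq (PF1.cj g _) S.tt) h.noL
  have : m * g ∈ P.M := h.toBig.cM (mul_inv_eq_iff_eq_mul.1 (Eq.trans (by group) e))
  exact (mul_mem_cancel_left hm).1 this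

theorem exN : ∃ Nn : Subgroup G, Nn.Normal ∧ P.L ≤ Nn ∧ IsSylowIn 2 P.U Nn := by
  have k : ∀ u, ∀ m ρ, P.Act m ρ → PF1.On P (P.φ u * m) ρ := fun u m ρ hm v =>
    ⟨u * U12.map hm.tc v * u⁻¹, by rw [map_mul, map_mul, map_inv, ← hm.φ]; group, by
      rw [mul_p0, mul_p0, inv_p0, map_p0, add_comm u.p0, add_assoc, CharTwo.add_self_eq_zero, add_zero]
      rfl⟩
  have k0 : ∀ s : (P.U ⊔ A : Subgroup G), ∃ ρ : J ≃+* J, PF1.On P s ρ := fun s => by
    obtain ⟨u, m, hm, e⟩ := h.mem_S.1 s.2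
    obtain ⟨ρ, hρ⟩ := h.act hm
    exact ⟨ρ, e ▸ k u m ρ hρ⟩
  choose f hf using k0
  let _ : CommGroup (J ≃+* J) := { (inferInstance : Group (J ≃+* J)) with mul_comm := G2S.aut_comm }
  let χ : (P.U ⊔ A : Subgroup G) →* (J ≃+* J) := MonoidHom.mk' f fun s s' =>
    PF1.on_uniq (hf _) (PF1.on_mul (hf s) (hf s'))
  have ht : S.t ∈ P.U ⊔ A := mem_sup_right h.tA
  have k1 : ∀ (s : (P.U ⊔ A : Subgroup G)) u, (s : G) = P.φ u * S.t → χ s = σ := fun s u e =>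
    PF1.on_uniq (hf s) (e ▸ k u _ _ h.ct)
  have k2 : χ ⟨S.t, ht⟩ = σ := k1 _ 1 (by simp)
  obtain ⟨V, hV⟩ := G2S.transfer_invol (h.sylG h.fixF) χ ht S.tt fun g hg => by
    obtain ⟨u, e | e⟩ := h.S_invol hg (PF1.conj_sq (PF1.cj g _) S.tt)
    · exact absurd (e ▸ P.φ_mem u) h.noL
    · rw [k2]; exact k1 _ u e
  have hL : P.L ≤ V.ker := by
    rw [← P.perfL]
    exact commutator_le.2 fun x _ y _ => MonoidHom.mem_ker.2 (by
      rw [map_commutatorElement]; exact commutatorElement_eq_one_iff_mul_comm.2 (mul_comm _ _))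
  refine ⟨V.ker, inferInstance, hL, ?_⟩
  have s := (h.sylG h.fixF).inf_normal (N := V.ker) le_top (normal_iff_top_le_normalizer.1 inferInstance)
  rwa [show (P.U ⊔ A) ⊓ V.ker = P.U from le_antisymm (fun x hx => ?_)
    (le_inf le_sup_left (P.U_le_L.trans hL))] at s
  obtain ⟨u, m, hm, rfl⟩ := h.mem_S.1 (mem_inf.1 hx).1
  have m1 : m ∈ V.ker := (mul_mem_cancel_left (hL (P.φ_mem u))).1 (mem_inf.1 hx).2
  by_cases e : m = 1
  · rw [e, mul_one]; exact P.φ_memU u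
  have zA : zpowers m ≤ A := zpowers_le.2 hm
  obtain ⟨y, hy, o⟩ := exists_orderOf_eq_prime (h.sylA.isP.to_le zA) (by rwa [Ne, zpowers_eq_bot])
  rcases h.A_invol (zA hy) (by rw [← sq, ← o, pow_orderOf_eq_one]) with rfl | rfl
  · simp at o
  · exact absurd (k2.symm.trans (hV.symm.trans (zpowers_le.2 m1 hy))) h.toBig.σ_ne

theorem cm {x : G} (hx : IsConj (P.X 3 1) x) (hM : x ∈ P.M) : ∃ l ∈ P.L, l * x * l⁻¹ = P.X 3 1 := by
  have h2 := PF1.conj_sq hx (P.X_sq 3 1)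
  by_cases hL : x ∈ P.L
  · rcases P.inv_L hL h2 with e | e | ⟨l, -, e⟩
    · exact absurd e (PF1.conj_ne hx P.z_ne)
    · exact e
    · obtain ⟨l', hl', k⟩ := h.sz0 h.fixF (by
        rw [h.X1_eq, h.X1_eq, ← e]; exact (hx.trans (PF1.cj l x)).symm)
      exact absurd (h.X1_eq 2 ▸ k) (P.nc l' hl')
  · obtain ⟨m, -, e⟩ := h.conj_t hM h2 hL
    exact absurd (e ▸ hx.trans (PF1.cj m x)) (h.noL' (P.X_mem 3 1))

theorem cu {u : U12 J} (hx : IsConj (P.X 3 1) (P.φ u)) : Lng u := by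
  obtain ⟨l, hl, e⟩ := h.cm hx (mem_sup_left (P.φ_mem u))
  exact P.lng_of_conj hl (e ▸ P.X3_mem 1)
end Top

end H89.D4S
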