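import Cfsg.Agent.Lib.D4S.PF1

/-! Standard components of type `³D₄(2ⁿ)`, package PF4: see `blueprint/D4S/README.md`. -/

set_option autoImplicit false
set_option linter.unusedSectionVars false

namespace H89.D4S
open Subgroup H69 U12
open H89.G2S (KK ιK σK)
open scoped commutatorElement

variable {F E G : Type*} [Field F] [Field E] [Cub F E] [CharP F 2] [CharP E 2] [Finite F] [Finite E]
  [Group G] [Finite G]
  {K J : Type*} [Field K] [Field J] [Cub K J] [CharP K 2] [CharP J 2] [Finite K] [Finite J]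

namespace PF4

theorem U_le_C (P : FP J G) : P.U ≤ 𝐂(P.Z) := by
  rintro _ ⟨u, rfl⟩ y hy
  obtain ⟨a, rfl⟩ := P.mem_Z.1 hy
  exact P.X3_comm_φ _ u

/-- the elements of `C(Z)` centralising `x` modulo `Z` -/
def CZ (Z : Subgroup G) (x : G) : Subgroup G where
  carrier := {g | g ∈ 𝐂(Z) ∧ ⁅g, x⁆ ∈ Z}
  one_mem' := ⟨one_mem _, by simp⟩
  mul_mem' := fun {a b} ha hb => ⟨mul_mem ha.1 hb.1, by
    rw [commutatorElement_mul_left_eq_conj_mul]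
    exact mul_mem (conj_mem_of_mem_normalizer (centralizer_le_normalizer _ ha.1) hb.2) ha.2⟩
  inv_mem' := fun {a} ha => ⟨inv_mem ha.1, by
    rw [show ⁅a⁻¹, x⁆ = a⁻¹ * ⁅a, x⁆⁻¹ * a by simp only [commutatorElement_def]; group]
    exact conj_mem_of_mem_normalizer' (centralizer_le_normalizer _ ha.1) (inv_mem ha.2)⟩

theorem CZ.cj {Z : Subgroup G} {x g b : G} (hg : g ∈ 𝐂(Z)) (hb : b ∈ CZ Z x) :
    g * b * g⁻¹ ∈ CZ Z (g * x * g⁻¹) :=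
  ⟨mul_mem (mul_mem hg hb.1) (inv_mem hg), by
    rw [← conjugate_commutatorElement]
    exact conj_mem_of_mem_normalizer (centralizer_le_normalizer _ hg) hb.2⟩

theorem φ_Z (P : FP J G) {u : U12 J} : P.φ u ∈ P.Z ↔ u ∈ U12.Z J :=
  ⟨fun ⟨_, hv, e⟩ => P.inj e ▸ hv, fun h => ⟨u, h, rfl⟩⟩

theorem φ_CZ (P : FP J G) {u v : U12 J} : P.φ u ∈ CZ P.Z (P.φ v) ↔ ⁅u, v⁆ ∈ U12.Z J :=
  ⟨fun h => (φ_Z P).1 (map_commutatorElement P.φ u v ▸ h.2), fun h =>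
    ⟨U_le_C P (P.φ_memU u), map_commutatorElement P.φ u v ▸ (φ_Z P).2 h⟩⟩

theorem cQ {u v : U12 J} (hu : u.p0 = 0) (hv : v.p0 = 0) : ⁅u, v⁆ ∈ U12.Z J :=
  mem_Z'.2 ⟨Bf u v, by
    rw [commutatorElement_def, comm_Q hu hv, ← g3_comm]; group⟩

theorem red {w : U12 J} (k0 : w.p0 ≠ 0) (e : w * w ∈ U12.Z J) : ∃ q : U12 J, (q * w * q⁻¹).p0 ≠ 0 ∧
    (q * w * q⁻¹).p5 = 0 ∧ (q * w * q⁻¹).p4 = 0 ∧ (q * w * q⁻¹).p2 = 0 := by
  obtain ⟨-, -, e4, e2, e1⟩ := e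
  simp [k0, CharTwo.add_self_eq_zero] at e4
  simp [e4, CharTwo.add_self_eq_zero] at e2
  obtain ⟨a, ha⟩ := cr_eq_zero k0 e2
  simp [e4, CharTwo.add_self_eq_zero] at e1
  obtain ⟨y, hy⟩ := exists_cr k0 (c := w.p2 + ι a * sh w.p0) (by
    rw [← e1, mul_add, map_add, ha]; congr 2; ring)
  refine ⟨g4 y * g5 a, by simpa [g4, g5] using k0, by simp [g4, g5, e4, CharTwo.add_self_eq_zero], ?_, ?_⟩
  · u12s
    simp only [e4, ha]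
    cub
  · u12s
    simp only [e4, cr_add, hy, e2]
    cub

/-- the second element of `CZ` -/
def bb (k : J) : U12 J := ⟨0, 0, k, sh k, 0, 0⟩

theorem cb (x k : J) : ∃ a e, ⁅g0 x, bb k⁆ = g2 (cr k x) * g1 a * g3 e ∧ a = T (x * sh k) + T (sh x * k) := by
  refine ⟨_, (⁅g0 x, bb k⁆ : U12 J).p3, ?_, rfl⟩
  rw [commutatorElement_def, bb]
  u12

theorem e2sq (c : J) (a e : K) : (g2 c * g1 a * g3 e) * (g2 c * g1 a * g3 e) = 1 := by u12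

end PF4

namespace Top
variable {S : St E G} {P : FP J G} {j : E →+* J} {σ : J ≃+* J} {A : Subgroup G}
  (h : Top S P.toPin j σ A)
  {Nn : Subgroup G} [Nn.Normal] (hL : P.L ≤ Nn) (hN : IsSylowIn 2 P.U Nn)

include h in
theorem cu' {u v : U12 J} (hu : Lng u) (hx : IsConj (P.φ u) (P.φ v)) : Lng v := by
  by_cases e : u = 1
  · rw [e, map_one, isConj_one_right, map_eq_one_iff _ P.inj] at hx
    rw [hx]; simp [Lng]
  · obtain ⟨l, -, k⟩ := P.inv_lng hu e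
    exact h.cu (k ▸ (PF1.cj l _).symm.trans hx)

include h in
theorem wcQ {d : G} (hd : P.Q ^ᶜ d ≤ P.U) : P.Q ^ᶜ d ≤ P.Q := by
  rw [cj_le_iff]
  refine map_le_iff_le_comap.2 ((Q_gen P.cub).le.trans ((closure_le _).2 fun u hu => ?_))
  obtain ⟨w, hw⟩ := hd (cj_mem d (P.φ_memQ hu.1))
  have : d * P.φ u * d⁻¹ ∈ P.Q := hw ▸ P.φ_memQ (h.cu' hu (hw ▸ PF1.cj d _)).1
  exact mem_comap.2 (mem_cj.2 (by rwa [inv_inv]))

include h hL hN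
theorem scQ0 {g : G} (hg : g ∈ Nn ⊓ 𝐂(P.Z)) {v0 w : U12 J} (hv0 : v0.p0 = 0)
    (hw : P.φ w = g * P.φ v0 * g⁻¹) (k0 : w.p0 ≠ 0) (w5 : w.p5 = 0) (w4 : w.p4 = 0) (w2 : w.p2 = 0) :
    False := by
  obtain ⟨g1', g2'⟩ := mem_inf.1 hg
  have UN := P.U_le_L.trans hL
  have hS := hN.mono (K := Nn ⊓ 𝐂(P.Z)) (le_inf UN (PF4.U_le_C P)) inf_le_left
  have ww : w * w = 1 := by u12w [w5, w4, w2]
  have QC : P.Q ≤ Nn ⊓ PF4.CZ P.Z (P.φ v0) := le_inf (P.Q_le_U.trans UN) (by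
    rintro _ ⟨u, hu, rfl⟩; exact (PF4.φ_CZ P).2 (PF4.cQ hu hv0))
  obtain ⟨R, hR, QR⟩ := exists_isSylowIn_le (P.U_isP.to_le P.Q_le_U) QC
  have CH : Nn ⊓ PF4.CZ P.Z (P.φ v0) ≤ Nn ⊓ 𝐂(P.Z) := inf_le_inf_left _ fun _ k => k.1
  obtain ⟨x, hx, k1⟩ := hR.exists_cj_le (R := (P.U ⊓ PF4.CZ P.Z (P.φ w)) ^ᶜ g⁻¹)
    (isPGroup_cj P.U_isP.to_inf_left _) fun y hy => by
      obtain ⟨b, hb, rfl⟩ := mem_cj'.1 hy
      refine mem_inf.2 ⟨Normal.conj_mem inferInstance _ (UN (mem_inf.1 hb).1) _, ?_⟩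
      have := PF4.CZ.cj (inv_mem g2') (mem_inf.1 hb).2
      rwa [hw, show g⁻¹ * (g * P.φ v0 * g⁻¹) * g⁻¹⁻¹ = P.φ v0 by group] at this
  obtain ⟨d, hd, k2⟩ := hS.exists_cj_le hR.isP (hR.le.trans CH)
  have eC : d * x * g⁻¹ ∈ 𝐂(P.Z) :=
    mul_mem (mul_mem (mem_inf.1 hd).2 (mem_inf.1 (CH hx)).2) (inv_mem g2')
  let ψ : U12 J →* G := (MulAut.conj (d * x * g⁻¹)).toMonoidHom.comp P.φ
  have ψe : ∀ b, ψ b = d * x * g⁻¹ * P.φ b * (d * x * g⁻¹)⁻¹ := fun _ => rfl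
  have ψi : Function.Injective ψ := (MulAut.conj _).injective.comp P.inj
  have ψZ : ∀ b, ψ b ∈ P.Z ↔ b ∈ U12.Z J := fun b => by
    rw [ψe, ← mem_normalizer_iff.1 (centralizer_le_normalizer _ eC), PF4.φ_Z]
  have k3 : ∀ b, ⁅b, w⁆ ∈ U12.Z J → ψ b ∈ P.U := fun b hb => by
    have r := k2 (cj_mem d (k1 (cj_mem x (cj_mem g⁻¹ (mem_inf.2 ⟨P.φ_memU b, (PF4.φ_CZ P).2 hb⟩)))))
    rwa [show d * (x * (g⁻¹ * P.φ b * g⁻¹⁻¹) * x⁻¹) * d⁻¹ = ψ b by rw [ψe]; group] at r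
  have kw : ψ w ∈ P.Q := by
    have r := h.wcQ ((cj_mono d QR).trans k2) (cj_mem d (mul_mem (P.Z_le_Q (mem_inf.1 hx).2.2)
      (P.φ_memQ hv0)))
    rwa [show d * (⁅x, P.φ v0⁆ * P.φ v0) * d⁻¹ = ψ w by rw [ψe, hw, commutatorElement_def]; group] at r
  have kl : ∀ b, Lng b → ⁅b, w⁆ ∈ U12.Z J → ψ b ∈ P.Q := fun b lb hb => by
    obtain ⟨u, hu⟩ := k3 b hb
    exact hu ▸ P.φ_memQ (h.cu' lb (hu ▸ PF1.cj _ _)).1
  have c0 : ∀ y, ⁅g0 y, w⁆ ∈ U12.Z J := fun y => by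
    rw [commutatorElement_eq_one_iff_mul_comm.2 (by u12w [w5, w4, w2])]; exact one_mem _
  have c1 : ∀ a, ψ (g1 a) ∈ P.Q := fun a => kl _ (Lng.of_EA ⟨rfl, rfl, rfl, rfl⟩) (by
    rw [commutatorElement_eq_one_iff_mul_comm.2 (by u12w [w5, w4, w2])]; exact one_mem _)
  have c3 : ∀ a, ψ (g3 a) ∈ P.Q := fun a => P.Z_le_Q ((ψZ _).2 (mem_Z'.2 ⟨a, rfl⟩))
  have cb : ⁅PF4.bb w.p0, w⁆ ∈ U12.Z J := mem_Z'.2 ⟨(⁅PF4.bb w.p0, w⁆ : U12 J).p3, by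
    rw [commutatorElement_def, PF4.bb]
    u12w [w5, w4, w2]⟩
  have c2 : ∀ c, T (w.p0 * c) = 0 → ψ (g2 c) ∈ P.Q := fun c hc => by
    obtain ⟨y, rfl⟩ := exists_cr k0 hc
    obtain ⟨a, e, he, -⟩ := PF4.cb y w.p0
    obtain ⟨u, hu⟩ := k3 _ (c0 y)
    obtain ⟨u', hu'⟩ := k3 _ cb
    have : ψ ⁅g0 y, PF4.bb w.p0⁆ ∈ P.Q := by
      rw [map_commutatorElement, ← hu, ← hu', ← map_commutatorElement]
      exact P.φ_memQ (by rw [commutatorElement_def]; u12s; cub)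
    rw [he, map_mul, map_mul] at this
    exact (mul_mem_cancel_right (c1 _)).1 ((mul_mem_cancel_right (c3 _)).1 this)
  obtain ⟨μ, μ0, μ1, -⟩ := exists_ne h.four 0 1 1
  obtain ⟨r, r1, r2, r3⟩ : ∃ r, ⁅r, w⁆ ∈ U12.Z J ∧ ψ r ∉ P.Q ∧
      ∀ c a e, T (w.p0 * c) = 0 → ⁅r, g2 c * g1 a * g3 e⁆ ∈ U12.Z J := by
    by_cases k : ψ (PF4.bb w.p0) ∈ P.Q
    · refine ⟨g0 (ι μ * w.p0), c0 _, fun k' => ?_, fun c a e hc => ?_⟩
      · obtain ⟨u, u0, hu⟩ := P.mem_Q.1 k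
        obtain ⟨u', u0', hu'⟩ := P.mem_Q.1 k'
        have := (PF4.φ_Z P).2 (PF4.cQ u0' u0)
        rw [map_commutatorElement, hu, hu', ← map_commutatorElement, ψZ] at this
        obtain ⟨a, e, he, ha⟩ := PF4.cb (ι μ * w.p0) w.p0
        rw [mul_assoc, T_ι_mul, T_mul_sh, sh_mul, sh_ι, mul_assoc, T_ι_mul, mul_comm (sh _), T_mul_sh,
          ← add_mul] at ha
        have a0 : a = 0 := by simpa [he, g1, g2, g3] using this.2.2.2.2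
        rcases mul_eq_zero.1 (ha.symm.trans a0) with e | e
        · exact μ1 (mul_left_cancel₀ μ0 (by rw [mul_one, ← sq]; exact (CharTwo.add_eq_zero.1 e).symm))
        · exact k0 (N_eq_zero.1 e)
      · rw [commutatorElement_eq_one_iff_mul_comm.2 (by ext <;> simp [g0, g1, g2, g3, mul_assoc, hc])]
        exact one_mem _
    · exact ⟨_, cb, k, fun c a e _ => PF4.cQ rfl (by simp [g1, g2, g3])⟩
  obtain ⟨u, hu⟩ := k3 r r1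
  have u0 : u.p0 ≠ 0 := fun e => r2 (hu ▸ P.φ_memQ e)
  have key : ∀ a, ψ a ∈ P.Q → a * a = 1 → ⁅r, a⁆ ∈ U12.Z J →
      ∃ t : {c : J | T (u.p0 * c) = 0} × K × K, P.φ ⟨0, 0, 0, t.1, t.2.1, t.2.2⟩ = ψ a := fun a h1 h2 h3 => by
    obtain ⟨t, t0, ht⟩ := P.mem_Q.1 h1
    obtain ⟨t5, t4, t2⟩ := fix_out u0 t0 (P.inj (by rw [map_mul, ht, ← map_mul, h2, map_one, map_one]))
      ((PF4.φ_Z P).1 (by rw [map_commutatorElement, hu, ht, ← map_commutatorElement, ψZ]; exact h3))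
    exact ⟨⟨⟨t.p2, t2⟩, t.p1, t.p3⟩, by rw [← ht]; congr 1; ext <;> simp [*]⟩
  have key' : ∀ s : {c : J | T (w.p0 * c) = 0} × K × K, ∃ t : {c : J | T (u.p0 * c) = 0} × K × K,
      P.φ ⟨0, 0, 0, t.1, t.2.1, t.2.2⟩ = ψ (g2 (s.1 : J) * g1 s.2.1 * g3 s.2.2) := fun s =>
    key _ (by rw [map_mul, map_mul]; exact mul_mem (mul_mem (c2 _ s.1.2) (c1 _)) (c3 _)) (PF4.e2sq ..)
      (r3 _ _ _ s.1.2)
  choose f hf using key'
  have fi : Function.Injective f := fun s s' e => by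
    have := ψi ((hf s).symm.trans (e ▸ hf s'))
    refine Prod.ext (Subtype.ext ?_) (Prod.ext ?_ ?_)
    · simpa [g1, g2, g3] using congrArg U12.p2 this
    · simpa [g1, g2, g3] using congrArg U12.p1 this
    · simpa [g1, g2, g3] using congrArg U12.p3 this
  obtain ⟨t, ht⟩ := key w kw ww r1
  obtain ⟨s, rfl⟩ := (fi.bijective_of_nat_card_le (by
    simp only [Nat.card_prod, card_ker P.cub u0, card_ker P.cub k0, le_refl])).2 t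
  exact k0 (by simpa [g1, g2, g3] using congrArg U12.p0 (ψi (ht.symm.trans (hf s))))

theorem scQ {g : G} (hg : g ∈ Nn ⊓ 𝐂(P.Z)) {a : G} (ha : a ∈ P.Q) (hU : g * a * g⁻¹ ∈ P.U) :
    g * a * g⁻¹ ∈ P.Q := by
  obtain ⟨w, hw⟩ := hU
  refine ⟨w, ?_, hw⟩
  by_contra k0
  obtain ⟨v0, hv0, rfl⟩ := ha
  obtain ⟨q, q0, q5, q4, q2⟩ := PF4.red k0 ((PF4.φ_Z P).1 (by
    rw [map_mul, hw, conj_mul, ← map_mul, sq_Q hv0, P.φ3']
    exact conj_mem_of_mem_normalizer (centralizer_le_normalizer _ (mem_inf.1 hg).2) (P.X3_mem _)))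
  exact h.scQ0 hL hN (mul_mem (mem_inf.2 ⟨hL (P.φ_mem q), PF4.U_le_C P (P.φ_memU q)⟩) hg) hv0
    (by rw [map_mul, map_mul, map_inv, hw]; group) q0 q5 q4 q2
end Top

end H89.D4S
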