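import Cfsg.Agent.Lib.D4S.K1

/-! Standard components of type `³D₄(2ⁿ)`, package PH: see `blueprint/D4S/README.md`. -/

set_option autoImplicit false
set_option linter.unusedSectionVars false
set_option linter.unusedSimpArgs false
set_option linter.unnecessarySeqFocus false

namespace H89.D4S
open Subgroup H69 U12
open H89.G2S (KK ιK σK)
open scoped commutatorElement

variable {F E G : Type*} [Field F] [Field E] [Cub F E] [CharP F 2] [CharP E 2] [Finite F] [Finite E]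
  [Group G] [Finite G]

/-- real parts of the coordinates -/
def U12.re {α : F} (v : U12 (JJ E α)) : U12 E := ⟨v.p0.re, v.p5.re, v.p4.re, v.p2.re, v.p1.re, v.p3.re⟩
/-- imaginary parts of the coordinates -/
def U12.im {α : F} (v : U12 (JJ E α)) : U12 E := ⟨v.p0.im, v.p5.im, v.p4.im, v.p2.im, v.p1.im, v.p3.im⟩
/-- the vector with the given real and imaginary parts -/
def U12.cx (α : F) (r s : U12 E) : U12 (JJ E α) :=
  ⟨⟨r.p0, s.p0⟩, ⟨r.p5, s.p5⟩, ⟨r.p4, s.p4⟩, ⟨r.p2, s.p2⟩, ⟨r.p1, s.p1⟩, ⟨r.p3, s.p3⟩⟩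

theorem Bf_re {α : F} (v : U12 (JJ E α)) (x : U12 E) : (Bf v (U12.map (tcJ α) x)).re = Bf v.re x := by
  simp [Bf, U12.re]
theorem Bf_im {α : F} (v : U12 (JJ E α)) (x : U12 E) : (Bf v (U12.map (tcJ α) x)).im = Bf v.im x := by
  simp [Bf, U12.im]

theorem PH.conj {S : St E G} {Z : Z2 S} {α : F} {g n : G} {v v' : U12 (JJ E α)} (h : Z.Ph α g v)
    (hn : ∀ x : U12 E, x.p0 = 0 → ∃ y : U12 E, y.p0 = 0 ∧ n * S.φ y * n⁻¹ = S.φ x ∧
      n * Z.Y3 α (Bf v (U12.map (tcJ α) y)) * n⁻¹ = Z.Y3 α (Bf v' (U12.map (tcJ α) x))) :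
    Z.Ph α (n * g * n⁻¹) v' := fun x hx => by
  obtain ⟨y, hy, h1, h2⟩ := hn x hx
  rw [← h2, ← h1, conj_mul, conj_inv, conj_mul, h y hy, conj_mul]

theorem PH.Bf_tor {K J : Type*} [CommRing K] [CommRing J] [Cub K J] [CharP K 2] [CharP J 2] (l : J) (m : K)
    (u v : U12 J) : Bf (tor l m u) (tor l m v) = N l * m ^ 2 * Bf u v := by
  simp only [Bf, tor_p5, tor_p4, tor_p2, tor_p1]; cubK J

theorem PH.map_tor {K J K' J' : Type*} [CommRing K] [CommRing J] [Cub K J] [CharP K 2] [CharP J 2]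
    [CommRing K'] [CommRing J'] [Cub K' J'] [CharP K' 2] [CharP J' 2] {ρ : J →+* J'} (h : Tc ρ) (l : J)
    (m : K) (u : U12 J) : U12.map h (tor l m u) = tor (ρ l) (h.res m) (U12.map h u) := by
  ext <;> simp [-T_ι_mul, -T_mul_ι, h.sh]

theorem PH.Bf_x0 {K J : Type*} [CommRing K] [CommRing J] [Cub K J] [CharP K 2] [CharP J 2] (k : J)
    (u v : U12 J) : Bf u (g0 k * v * g0 k) = Bf (g0 k * u * g0 k) v := by
  u12s; cubK J

theorem PH.tor_tor (l : Eˣ) (m : Fˣ) (x : U12 E) :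
    tor (l : E) (m : F) (tor ((l⁻¹ : Eˣ) : E) ((m⁻¹ : Fˣ) : F) x) = x := by
  have h1 : sh (l : E) ≠ 0 := fun h => l.ne_zero (sh_eq_zero.1 h)
  have h2 : N (l : E) ≠ 0 := fun h => l.ne_zero (N_eq_zero.1 h)
  have h3 : (ι (m : F) : E) ≠ 0 := fun h => m.ne_zero (ι_eq_zero.1 h)
  ext <;> simp [sh_inv, N_inv] <;> field_simp

namespace Z2
variable {S : St E G} (Z : Z2 S) {α : F}
@[simp] theorem W_zero : Z.W 0 = 1 := by
  have := Z.add 0 0; rw [add_zero] at this; exact left_eq_mul.1 this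
theorem W_sq (y : F) : Z.W y * Z.W y = 1 := by
  rw [← Z.add, CharTwo.add_self_eq_zero, W_zero]
theorem W_inv (y : F) : (Z.W y)⁻¹ = Z.W y := by
  exact inv_eq_of_mul_eq_one_right (Z.W_sq y)
theorem W_comm (y y' : F) : Z.W y * Z.W y' = Z.W y' * Z.W y := by
  rw [← Z.add, ← Z.add, add_comm]
theorem W_P0 (y : F) {p : G} (hp : p ∈ S.P0) : Z.W y * p = p * Z.W y := by
  exact S.comm_P0 (Z.cP y) hp
theorem t_W (y : F) : S.t * Z.W y * S.t⁻¹ = Z.W y * S.X 3 (ι y) := by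
  have h := Z.ct y
  rw [W_inv] at h
  rw [S.t_inv, Z.cP y 3 (by decide), ← mul_left_inj (Z.W y), mul_assoc (S.X 3 (ι y)), W_sq, mul_one,
    mul_assoc, mul_assoc, ← mul_assoc (Z.W y), h, ← mul_assoc, S.tt, one_mul]
theorem Y3_add (k l : KK α) : Z.Y3 α (k + l) = Z.Y3 α k * Z.Y3 α l := by
  simp only [Y3, QuadraticAlgebra.re_add, QuadraticAlgebra.im_add, map_add, S.X_add, Z.add, mul_assoc]
  rw [← mul_assoc (Z.W k.im), Z.cP _ 3 (by decide), mul_assoc]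
@[simp] theorem Y3_zero : Z.Y3 α 0 = 1 := by
  simp [Y3]
theorem Y3_sq (k : KK α) : Z.Y3 α k * Z.Y3 α k = 1 := by
  rw [← Y3_add, CharTwo.add_self_eq_zero, Y3_zero]
theorem Y3_inj : Function.Injective (Z.Y3 α) := by
  intro k l e
  have h : ∀ k : KK α, Z.Y3 α k * S.t * (Z.Y3 α k)⁻¹ = S.t * S.X 3 (ι k.im) := fun k => by
    have h1 : S.X 3 (ι k.re) * (S.t * S.X 3 (ι k.im)) = S.t * S.X 3 (ι k.im) * S.X 3 (ι k.re) := by
      rw [← mul_assoc, ← S.tX, mul_assoc, mul_assoc, ← S.X_add, ← S.X_add, add_comm]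
    calc _ = S.X 3 (ι k.re) * (Z.W k.im * S.t * (Z.W k.im)⁻¹) * (S.X 3 (ι k.re))⁻¹ := by rw [Y3]; group
      _ = _ := by rw [Z.ct, h1, mul_inv_cancel_right]
  have h1 : k.im = l.im := Pin.X_injι S.inj 3 (mul_left_cancel ((h k).symm.trans (e ▸ h l)))
  rw [Y3, Y3, h1, mul_left_inj] at e
  exact QuadraticAlgebra.ext (Pin.X_injι S.inj 3 e) h1
theorem Y3_ι (a : F) : Z.Y3 α (ιK α a) = S.X 3 (ι a) := by
  simp [Y3]
theorem Y3_W (y : F) : Z.Y3 α ⟨0, y⟩ = Z.W y := by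
  simp [Y3]
theorem Y3_P0 (k : KK α) {p : G} (hp : p ∈ S.P0) : Z.Y3 α k * p = p * Z.Y3 α k := by
  exact (Commute.mul_left (S.X3_comm_P0 _ hp) (Z.W_P0 _ hp)).eq
theorem Y3_CO (k : KK α) : S.CO (Z.Y3 α k) := by
  exact (S.co_L (S.X_mem _ _)).mul (Z.cO _)
theorem Y3_t (k : KK α) : Z.Y3 α k * S.t * (Z.Y3 α k)⁻¹ = S.t * S.X 3 (ι k.im) := by
  have h1 : S.X 3 (ι k.re) * (S.t * S.X 3 (ι k.im)) = S.t * S.X 3 (ι k.im) * S.X 3 (ι k.re) := by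
    rw [← mul_assoc, ← S.tX, mul_assoc, mul_assoc, ← S.X_add, ← S.X_add, add_comm]
  calc _ = S.X 3 (ι k.re) * (Z.W k.im * S.t * (Z.W k.im)⁻¹) * (S.X 3 (ι k.re))⁻¹ := by rw [Y3]; group
    _ = _ := by rw [Z.ct, h1, mul_inv_cancel_right]
theorem t_Y3 (k : KK α) : S.t * Z.Y3 α k * S.t⁻¹ = Z.Y3 α (σK α k) := by
  rw [Y3, Y3, ← conj_mul, t_W, S.tX, mul_inv_cancel_right, G2S.σK_re, G2S.σK_im, S.X_addι,
    Z.cP _ 3 (by decide), mul_assoc]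
theorem h_Y3 (l : Eˣ) (m : Fˣ) (k : KK α) :
    S.h l m * Z.Y3 α k * (S.h l m)⁻¹ = Z.Y3 α (ιK α (N (l : E) * (m : F) ^ 2) * k) := by
  rw [Y3, Y3, ← conj_mul, S.h_X3, Z.hW]; generalize N (l : E) * (m : F) ^ 2 = c; simp
theorem Y1_Y3 (k l : KK α) :
    S.n5 * Z.Y3 α k * S.n5⁻¹ * Z.Y3 α l = Z.Y3 α l * (S.n5 * Z.Y3 α k * S.n5⁻¹) := by
  have h1 : S.n5 * S.X 3 (ι k.re) * S.n5⁻¹ = S.X 1 (ι k.re) := S.c5 3 _
  have h3 : S.n5 * S.X 1 (ι l.re) * S.n5⁻¹ = S.X 3 (ι l.re) := S.c5 1 _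
  have a : Commute (S.n5 * Z.Y3 α k * S.n5⁻¹) (S.X 3 (ι l.re)) := by
    rw [← h3]; exact Commute.conj (Z.Y3_P0 k (S.X_memP (by decide) _)) _
  refine (a.mul_right ?_).eq
  rw [Y3, ← conj_mul, h1]
  exact Commute.mul_left (Z.cP _ 1 (by decide) _).symm (Z.c13 _ _)
theorem inZ_iff (α : F) {g : G} : Z.InZ g ↔ ∃ k, g = Z.Y3 α k := by
  exact ⟨fun ⟨c, y, e⟩ => ⟨⟨c, y⟩, e⟩, fun ⟨k, e⟩ => ⟨_, _, e⟩⟩
theorem d0 {g : G} (hg : S.D0 g) : ∃ k c, S.C0 c ∧ g = Z.Y3 α k * c := by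
  obtain ⟨hQ, y, ht⟩ := hg
  obtain ⟨a, c, hc, e⟩ := S.cQ (g := (Z.W y)⁻¹ * g) (by
      rw [← mul_inv_eq_iff_eq_mul]
      calc _ = (Z.W y)⁻¹ * (g * S.t * g⁻¹) * Z.W y := by group
        _ = _ := by rw [ht, ← Z.ct]; group) fun x hx =>
    (Commute.mul_left (Commute.inv_left (Z.W_P0 y (S.U_le_P0 (S.Q_le_U hx)))) (hQ x hx)).eq
  exact ⟨⟨a, y⟩, c, hc, by rw [Y3, ← Z.cP _ 3 (by decide), mul_assoc, ← e, mul_inv_cancel_left]⟩
theorem tr (h : S.Db) {g : G} (hg : S.D0 g) (hW : ∀ y, g * Z.W y = Z.W y * g) :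
    ∃ k o, S.Od o ∧ g = Z.Y3 α k * o := by
  obtain ⟨k, c, hc, e⟩ := Z.d0 (α := α) hg
  obtain ⟨o, ho, rfl | rfl⟩ := h.cases hc
  · exact ⟨k, _, ho, e⟩
  · exfalso
    have h1 : Commute (Z.Y3 α k) (Z.W 1) :=
      Commute.mul_left (Z.cP _ 3 (by decide) _).symm (Z.W_comm _ _)
    have h2 : Commute ((Z.Y3 α k)⁻¹ * g * o⁻¹) (Z.W 1) :=
      (h1.inv_left.mul_left (hW 1)).mul_left (Commute.inv_left (Z.cO 1 o ho).symm)
    rw [e, inv_mul_cancel_left, mul_inv_cancel_right] at h2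
    have h3 := Z.ct 1
    rw [← h2.eq, mul_inv_cancel_right, left_eq_mul, map_one] at h3
    exact S.z_ne h3
theorem d0_of {g : G} (hQ : ∀ x ∈ S.Q, g * x = x * g) {x : U12 E} (hx : x.p0 = 0) {y : F}
    (ht : g * S.t * g⁻¹ = S.t * S.φ x * Z.W y) : S.D0 g := by
  have h1 : x ∈ U12.Z E := mem_Z_of_commQ fun w hw => S.inj (by
    have hw' := S.φ_memQ hw
    have a : Commute (g * S.t * g⁻¹) (S.φ w) :=
      (Commute.mul_left (hQ _ hw') (S.t_comm (S.φ_mem w))).mul_left (Commute.inv_left (hQ _ hw'))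
    have b := ((Commute.inv_left (S.t_comm (S.φ_mem w))).mul_left a).mul_left
      (Commute.inv_left (Z.W_P0 y (S.φ_memP w)))
    rw [ht, mul_assoc S.t, inv_mul_cancel_left, mul_inv_cancel_right] at b
    rw [map_mul, map_mul, b.eq])
  obtain ⟨e, rfl⟩ := mem_Z'.1 h1
  have h2 : S.t * S.φ (g3 e) * Z.W y = S.t * Z.Y3 0 ⟨e, y⟩ := by rw [S.φ3', mul_assoc]; rfl
  have h3 : g * S.t * g⁻¹ * (g * S.t * g⁻¹) = 1 := by rw [conj_mul, S.tt]; simp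
  rw [ht, h2, ← mul_assoc] at h3
  nth_rewrite 2 [← S.t_inv] at h3
  rw [t_Y3, ← Y3_add, ← Z.Y3_zero (α := 0)] at h3
  have h4 := congrArg QuadraticAlgebra.re (Z.Y3_inj h3)
  simp only [QuadraticAlgebra.re_add, G2S.σK_re, QuadraticAlgebra.re_zero] at h4
  obtain rfl : y = 0 := by grind
  exact ⟨hQ, e, by rw [ht, W_zero, mul_one, S.φ3']⟩
theorem uz (h : S.Db) {g : G} (hg : S.D0 g) (h2 : g * g = 1) (ht : g * S.t ≠ S.t * g) : Z.InZ g := by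
  obtain ⟨k, c, hc, rfl⟩ := Z.d0 (α := 0) hg
  obtain ⟨o, ho, rfl | rfl⟩ := h.cases hc
  · have h1 : Commute (Z.Y3 0 k) c := Z.Y3_CO k c ho
    rw [h1.symm.mul_mul_mul_comm, Y3_sq, one_mul] at h2
    rw [ho.eq_one_sq h2, mul_one]
    exact (Z.inZ_iff 0).2 ⟨k, rfl⟩
  · exfalso
    have h1 : Commute (Z.Y3 0 k * S.t) o := Commute.mul_left (Z.Y3_CO k o ho) ho.1.1.symm
    have h3 : Z.Y3 0 k * S.t * (Z.Y3 0 k * S.t) = S.X 3 (ι k.im) := by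
      have := Z.Y3_t k
      rw [inv_eq_of_mul_eq_one_right (Z.Y3_sq k)] at this
      rw [← mul_assoc, this, mul_assoc, ← S.tX, ← mul_assoc, S.tt, one_mul]
    rw [← mul_assoc (Z.Y3 0 k), h1.symm.mul_mul_mul_comm, h3, mul_eq_one_iff_eq_inv] at h2
    have h4 : S.X 3 (ι k.im) = 1 := St.C0.eq_one (h2 ▸ (ho.1.mul ho.1).inv) (S.X_mem 3 _)
    have h5 := Z.Y3_t k
    rw [h4, mul_one, mul_inv_eq_iff_eq_mul] at h5
    exact ht (Commute.mul_left h5 hc.1).eq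

variable {Z} {g g' : G} {v v' : U12 (JJ E α)}
theorem ph_iff : Z.Ph α g v ↔ ∀ x : U12 E, x.p0 = 0 →
    g * S.φ x * g⁻¹ = S.φ x * S.X 3 (ι (Bf v.re x)) * Z.W (Bf v.im x) := by
  refine forall₂_congr fun x _ => ?_
  rw [Y3, Bf_re, Bf_im, mul_assoc (S.φ x)]
theorem Ph.cast (h : Z.Ph α g v) (β : F) : Z.Ph β g (U12.cx β v.re v.im) := by
  exact ph_iff.2 (ph_iff (α := α).1 h)
theorem Ph.congr (h : Z.Ph α g v) (h5 : v'.p5 = v.p5) (h4 : v'.p4 = v.p4) (h2 : v'.p2 = v.p2)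
    (h1 : v'.p1 = v.p1) : Z.Ph α g v' := by
  intro x hx
  rw [h x hx]; simp only [Bf, h5, h4, h2, h1]
theorem Ph.uniq (h : Z.Ph α g v) (h' : Z.Ph α g v') :
    v'.p5 = v.p5 ∧ v'.p4 = v.p4 ∧ v'.p2 = v.p2 ∧ v'.p1 = v.p1 := by
  have k : ∀ x : U12 E, x.p0 = 0 → Bf v' (U12.map (tcJ α) x) = Bf v (U12.map (tcJ α) x) := fun x hx =>
    Z.Y3_inj (mul_left_cancel ((h' x hx).symm.trans (h x hx)))
  have nd' : ∀ a b : JJ E α, (∀ y : E, T (a * ιJ α y) = T (b * ιJ α y)) → a = b := fun a b e => by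
    have nd1 : ∀ r s : E, (∀ y, T (r * y) = T (s * y)) → r = s := fun r s e =>
      sub_eq_zero.1 (nd _ fun y => by rw [sub_mul, map_sub, e, sub_self])
    exact QuadraticAlgebra.ext (nd1 _ _ fun y => by simpa using congrArg QuadraticAlgebra.re (e y))
      (nd1 _ _ fun y => by simpa using congrArg QuadraticAlgebra.im (e y))
  exact ⟨by simpa [Bf, g1] using k (g1 1) rfl, nd' _ _ fun y => by simpa [Bf, g2] using k (g2 y) rfl,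
    nd' _ _ fun y => by simpa [Bf, g4] using k (g4 y) rfl, by simpa [Bf, g5] using k (g5 1) rfl⟩
theorem Ph.X3 (h : Z.Ph α g v) (a : E) : g * S.X 3 a = S.X 3 a * g := by
  have := h (g3 (T a)) rfl
  rw [S.φ3, show Bf v (U12.map (tcJ α) (g3 (T a))) = 0 by simp [Bf, g3], Y3_zero, mul_one] at this
  exact mul_inv_eq_iff_eq_mul.1 this
theorem Ph.cent (h : Z.Ph α g v) (h5 : v.p5 = 0) (h4 : v.p4 = 0) (h2 : v.p2 = 0) (h1 : v.p1 = 0) :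
    ∀ x ∈ S.Q, g * x = x * g := by
  rintro _ ⟨x, hx, rfl⟩
  have := h x hx
  rw [show Bf v (U12.map (tcJ α) x) = 0 by simp [Bf, h5, h4, h2, h1], Y3_zero, mul_one] at this
  exact mul_inv_eq_iff_eq_mul.1 this
theorem ph_one (h : ∀ x ∈ S.Q, g * x = x * g) : Z.Ph α g 1 := by
  intro x hx
  rw [h _ (S.φ_memQ hx), show Bf 1 (U12.map (tcJ α) x) = 0 by simp [Bf], Y3_zero, mul_one,
    mul_inv_cancel_right]
theorem ph_φ {x : U12 E} (hx : x.p0 = 0) : Z.Ph α (S.φ x) (U12.map (tcJ α) x) := by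
  intro w hw
  rw [← map_mul, comm_Q hx hw, ← g3_comm, map_mul, map_mul, ← mul_assoc, mul_inv_cancel_right, S.φ3',
    S.X3_comm_φ, Bf_map, tcJ_res, Y3_ι]
theorem ph_Y1 (k : KK α) : Z.Ph α (S.n5 * Z.Y3 α k * S.n5⁻¹) (g1 k) := by
  intro x hx
  have e : x = g5 x.p5 * (g5 x.p5 * x) := by u12
  have h1 : S.n5 * Z.Y3 α k * S.n5⁻¹ * S.φ (g5 x.p5 * x) =
      S.φ (g5 x.p5 * x) * (S.n5 * Z.Y3 α k * S.n5⁻¹) := by
    refine S.comm_φQ2 (fun i hi a => ?_) (by simp [g5, CharTwo.add_self_eq_zero])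
    have h3 : S.n5 * S.X (4 - i) a * S.n5⁻¹ = S.X i a := by rw [S.c5, sub_sub_cancel]
    rw [← h3]
    exact (Commute.conj (Z.Y3_P0 k (S.X_memP ((by decide : ∀ i : Fin 12, i ≤ 4 → 4 - i ≤ 6) i hi) _)) _).eq
  have h2 : ∀ u : F, S.n5 * Z.Y3 α k * S.n5⁻¹ * S.X 5 (ι u) * (S.n5 * Z.Y3 α k * S.n5⁻¹)⁻¹ =
      S.X 5 (ι u) * Z.Y3 α (k * ιK α u) := fun u => by
    have a1 : S.n5 * S.X 3 (ι k.re) * S.n5⁻¹ = S.X 1 (ι k.re) := S.c5 3 _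
    have a2 : S.X 1 (ι k.re) * S.X 5 (ι u) * (S.X 1 (ι k.re))⁻¹ = S.X 5 (ι u) * S.X 3 (ι (k.re * u)) := by
      rw [← S.φ1', ← S.φ5', ← S.φ3', ← map_inv, ← map_mul, ← map_mul, ← map_mul]; congr 1; u12
    have a3 := Z.c51 u k.im
    have a4 : (S.n5 * Z.W k.im * S.n5⁻¹)⁻¹ = S.n5 * Z.W k.im * S.n5⁻¹ := by rw [conj_inv, W_inv]
    rw [Y3, Y3, ← conj_mul, a1]
    generalize S.n5 * Z.W k.im * S.n5⁻¹ = w at a3 a4 ⊢
    have a5 : w * S.X 5 (ι u) * w⁻¹ = S.X 5 (ι u) * Z.W (u * k.im) := by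
      rw [← Z.cP _ 5 (by decide), ← inv_mul_eq_iff_eq_mul.2 a3, a4, mul_assoc w, mul_assoc w,
        mul_assoc _ (S.X 5 (ι u)), S.X_sq, mul_one]
    calc _ = S.X 1 (ι k.re) * (w * S.X 5 (ι u) * w⁻¹) * (S.X 1 (ι k.re))⁻¹ := by group
      _ = S.X 1 (ι k.re) * S.X 5 (ι u) * (S.X 1 (ι k.re))⁻¹ * Z.W (u * k.im) := by
        rw [a5, S.X_inv, mul_assoc, mul_assoc, Z.cP _ 1 (by decide)]; group
      _ = _ := by rw [a2, mul_assoc]; simp [mul_comm]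
  conv_lhs => rw [e, map_mul, ← conj_mul, h1, mul_inv_cancel_right, S.φ5', h2]
  rw [mul_assoc, Z.Y3_P0 _ (S.φ_memP _), ← mul_assoc, ← S.φ5', ← map_mul, ← e]
  simp [Bf, g1]
theorem Ph.mul (h : Z.Ph α g v) (h' : Z.Ph α g' v') (hv : v.p0 = 0)
    (hW : ∀ y, g * Z.W y = Z.W y * g) : Z.Ph α (g * g') (v * v') := by
  intro x hx
  have h1 : ∀ k, g * Z.Y3 α k * g⁻¹ = Z.Y3 α k := fun k =>
    mul_inv_eq_iff_eq_mul.2 (Commute.mul_right (h.X3 _) (hW _)).eq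
  calc _ = g * (g' * S.φ x * g'⁻¹) * g⁻¹ := by group
    _ = _ := by
      rw [h' x hx, ← conj_mul, h x hx, h1, mul_assoc, ← Y3_add]; congr 2
      simp only [Bf, mul_p5, mul_p4, mul_p2, mul_p1, hv, sh_zero, N_zero, zero_cr, mul_zero, zero_mul,
        map_zero, add_zero, add_mul, map_add]
      ring
theorem Ph.inv (h : Z.Ph α g v) (hW : ∀ y, g * Z.W y = Z.W y * g) : Z.Ph α g⁻¹ v := by
  intro x hx
  have h1 : ∀ k, g⁻¹ * Z.Y3 α k * g⁻¹⁻¹ = Z.Y3 α k := fun k =>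
    mul_inv_eq_iff_eq_mul.2 (Commute.mul_right (h.X3 _) (hW _)).inv_left.eq
  rw [← mul_left_inj (Z.Y3 α (Bf v (U12.map (tcJ α) x))), mul_assoc (S.φ x), Y3_sq, mul_one]
  conv_lhs => rw [← h1, conj_mul, ← h x hx]
  group
theorem Ph.t (h : Z.Ph α g v) : Z.Ph α (S.t * g * S.t⁻¹) (U12.map (tcσ α) v) := by
  refine PH.conj h fun x hx => ⟨x, hx, ?_, ?_⟩
  · rw [S.t_comm (S.φ_mem x), mul_inv_cancel_right]
  · have e : U12.map (tcσ α) (U12.map (tcJ α) x) = U12.map (tcJ α) x := by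
      ext <;> simp
    rw [t_Y3, ← tcσ_res (E := E), ← Bf_map, e]
theorem Ph.h (h : Z.Ph α g v) (l : Eˣ) (m : Fˣ) :
    Z.Ph α (S.h l m * g * (S.h l m)⁻¹) (tor (ιJ α (l : E)) (ιK α (m : F)) v) := by
  refine PH.conj h fun x hx => ⟨tor ((l⁻¹ : Eˣ) : E) ((m⁻¹ : Fˣ) : F) x, by simp [hx], ?_, ?_⟩
  · rw [S.h_φ, PH.tor_tor]
  · rw [h_Y3]; congr 1
    have e := PH.tor_tor l m x
    generalize tor ((l⁻¹ : Eˣ) : E) ((m⁻¹ : Fˣ) : F) x = y at e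
    rw [← e, PH.map_tor, tcJ_res, PH.Bf_tor, ← (tcJ α).res_N, tcJ_res, map_mul, map_pow]
theorem Ph.n0 (h : Z.Ph α g v) : Z.Ph α (S.n0 * g * S.n0⁻¹) (na v) := by
  refine PH.conj h fun x hx => ⟨na x, rfl, ?_, ?_⟩
  · rw [S.n0_φ rfl, na_na hx]
  · rw [← Z.Y3_P0 _ S.n0_memP, mul_inv_cancel_right]; congr 1
    simp only [Bf, na, map_p5, map_p4, map_p2, map_p1]; ring
theorem Ph.x0 (h : Z.Ph α g v) (hv : v.p0 = 0) (k : E) :
    Z.Ph α (S.X 0 k * g * (S.X 0 k)⁻¹) (g0 (ιJ α k) * v * g0 (ιJ α k)) := by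
  refine PH.conj h fun x hx => ⟨g0 k * x * g0 k, by simp [g0, hx, CharTwo.add_self_eq_zero], ?_, ?_⟩
  · have e : (g0 k * g0 k : U12 E) = 1 := by u12
    rw [S.X_inv, ← S.φ0, ← map_mul, ← map_mul, ← mul_assoc, ← mul_assoc, e, one_mul, mul_assoc, e, mul_one]
  · rw [← Z.Y3_P0 _ (S.X_memP (by decide) _), mul_inv_cancel_right, map_mul, map_mul, map_g0,
      PH.Bf_x0]
end Z2

/-- generation of the doubled vector space -/
theorem gen_vec (hc : Nat.card E = Nat.card F ^ 3) {α : F} {p : U12 (JJ E α) → Prop}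
    (mul : ∀ u v, u.p0 = 0 → v.p0 = 0 → p u → p v → p (u * v))
    (congr : ∀ u v, p u → v.p5 = u.p5 → v.p4 = u.p4 → v.p2 = u.p2 → v.p1 = u.p1 → p v)
    (hn : ∀ u, u.p0 = 0 → p u → p (na u))
    (hx : ∀ u (k : E), u.p0 = 0 → p u → p (g0 (ιJ α k) * u * g0 (ιJ α k)))
    (h1 : ∀ k, p (g1 k)) (v : U12 (JJ E α)) : p v := by
  have add : ∀ {a a' : KK α} {b b' c c' : JJ E α} {d d' : KK α}, p ⟨0, a, b, c, d, 0⟩ →
      p ⟨0, a', b', c', d', 0⟩ → p ⟨0, a + a', b + b', c + c', d + d', 0⟩ := fun h h' =>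
    congr _ _ (mul _ _ rfl rfl h h') rfl (by simp) (by simp) (by simp)
  have h1' : ∀ k, p ⟨0, 0, 0, 0, k, 0⟩ := h1
  have h5 : ∀ k, p ⟨0, k, 0, 0, 0, 0⟩ := fun k => congr _ _ (hn _ rfl (h1' k)) rfl rfl rfl rfl
  have hA : ∀ (k : KK α) (c : E), p ⟨0, 0, ι k * ιJ α c, ι k * sh (ιJ α c), 0, 0⟩ := fun k c => by
    have a := hx (g5 k) c rfl (h5 k)
    rw [al5] at a
    have b := add (add (congr _ ⟨0, k, ι k * ιJ α c, ι k * sh (ιJ α c), k * N (ιJ α c), 0⟩ a rfl rfl rfl rfl)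
      (h5 k)) (h1' (k * N (ιJ α c)))
    simpa only [add_zero, CharTwo.add_self_eq_zero] using b
  have hB : ∀ (k : KK α) (c d : E), p ⟨0, 0, 0, ι k * ιJ α (cr c d), 0, 0⟩ := fun k c d => by
    refine congr _ _ (add (add (hA k c) (hA k d)) (hA k (c + d))) (by simp) ?_ ?_ (by simp)
    · simp only [map_add]; grind
    · simp only [map_add, sh_add, (tcJ α).cr]; grind
  have hC : ∀ (k : KK α) (w : E), p ⟨0, 0, 0, ι k * ιJ α w, 0, 0⟩ := fun k w => by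
    obtain ⟨a, b, c, d, rfl⟩ := cr_span hc w
    simpa only [add_zero, map_add, mul_add] using add (hB k a b) (hB k c d)
  have h2 : ∀ x, p ⟨0, 0, 0, x, 0, 0⟩ := fun x => by
    refine congr _ _ (add (hC 1 x.re) (hC ⟨0, 1⟩ x.im)) (by simp) (by simp) ?_ (by simp)
    ext <;> simp [QuadraticAlgebra.re_one, QuadraticAlgebra.im_one]
  have h4 : ∀ x, p ⟨0, 0, x, 0, 0, 0⟩ := fun x => congr _ _ (hn _ rfl (h2 x)) rfl rfl rfl rfl
  exact congr _ _ (add (add (add (h5 v.p5) (h4 v.p4)) (h2 v.p2)) (h1' v.p1)) (by simp) (by simp)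
    (by simp) (by simp)

theorem eqns_PH : True := by
  have := @U12.re.eq_1.{0, 0}
  have := @U12.im.eq_1.{0, 0}
  have := @U12.cx.eq_1.{0, 0}
  have := @Z2.Y3.eq_1.{0, 0, 0}
  have := @Z2.InZ.eq_1.{0, 0, 0}
  have := @Z2.Ph.eq_1.{0, 0, 0}
  trivial

end H89.D4S
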