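import Cfsg.Agent.Lib.D4S.P3B

/-! Standard components of type `³D₄(2ⁿ)`, package PW1: see `blueprint/D4S/README.md`. -/

set_option autoImplicit false
set_option linter.unusedSectionVars false

namespace H89.D4S
open Subgroup H69 U12
open H89.G2S (KK ιK σK)
open scoped commutatorElement

variable {F E G : Type*} [Field F] [Field E] [Cub F E] [CharP F 2] [CharP E 2] [Finite F] [Finite E]
  [Group G] [Finite G]

namespace PW1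

theorem act_sq {K J : Type*} [CommRing K] [CommRing J] [Cub K J] [CharP K 2] [CharP J 2] {P : Pin J G}
    (hP : Function.Injective P.φ) {m : G} {ρ : J ≃+* J} (h : P.Act m ρ) (m2 : m * m = 1) (a : J) :
    ρ (ρ a) = a :=
  Pin.X_inj hP (i := 0) rfl (by
    rw [← h.act, ← h.act, ← mul_assoc, ← mul_assoc, m2, one_mul, mul_assoc, ← mul_inv_rev, m2]; simp)

theorem cjinj {k a b : G} : k * a * k⁻¹ = k * b * k⁻¹ ↔ a = b := by rw [mul_left_inj, mul_right_inj]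

theorem isP_sup_comm {A B : Subgroup G} (hA : IsPGroup 2 A) (hB : IsPGroup 2 B)
    (c : ∀ a ∈ A, ∀ b ∈ B, a * b = b * a) : IsPGroup 2 (A ⊔ B : Subgroup G) :=
  hA.to_sup_of_normal_right' hB fun a ha => centralizer_le_normalizer _ fun b hb => (c a ha b hb).symm

theorem card_le {P C : Subgroup G} {α : Type*} [Finite α] (φ : P → α)
    (h : ∀ g k : P, φ g = φ k → (g : G)⁻¹ * k ∈ C) : Nat.card P ≤ Nat.card α * Nat.card C := by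
  rw [← Nat.card_prod]
  refine Nat.card_le_card_of_injective (fun g : P => ((φ g, ⟨_, h (Function.invFun φ (φ g)) g
    (Function.invFun_eq ⟨g, rfl⟩)⟩) : α × C)) fun g k e => ?_
  obtain ⟨e1, e2⟩ := Prod.ext_iff.1 e
  have e3 := congrArg Subtype.val e2
  dsimp only at e1 e3
  rw [e1] at e3
  exact Subtype.ext (mul_left_cancel e3)

theorem conj_of {p p' : FP E G} {m x : G} {φ : E → E} (e : ∀ i a, m * p.X i a * m⁻¹ = p'.X i (φ a))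
    (hx : x ∈ p.L) : m * x * m⁻¹ ∈ p'.L := by
  have : p.L ≤ p'.L.comap (MulAut.conj m).toMonoidHom := p.L_le.2 fun i a => by
    change m * _ * m⁻¹ ∈ p'.L; rw [e]; exact p'.X_mem _ _
  exact this hx

theorem Xι_ne (P : FP E G) (i : Fin 12) {a : F} (ha : a ≠ 0) : P.X i (ι a) ≠ 1 := fun e =>
  ha (Pin.X_injι P.inj i (by rw [e, map_zero, Pin.X_zero]))

theorem X_one_ne (P : FP E G) (i : Fin 12) : P.X i 1 ≠ 1 := by
  simpa using Xι_ne P i (one_ne_zero (α := F))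

theorem res_fst (a : F × F) : (Tc.fst (J := E) (J' := E)).res a = a.1 := T_ι a.1
theorem res_snd (a : F × F) : (Tc.snd (J := E) (J' := E)).res a = a.2 := T_ι a.2
theorem map_fst (u : U12 (E × E)) :
    U12.map Tc.fst u = (⟨u.p0.1, u.p5.1, u.p4.1, u.p2.1, u.p1.1, u.p3.1⟩ : U12 E) :=
  U12.ext rfl (res_fst _) rfl rfl (res_fst _) (res_fst _)
theorem map_snd (u : U12 (E × E)) :
    U12.map Tc.snd u = (⟨u.p0.2, u.p5.2, u.p4.2, u.p2.2, u.p1.2, u.p3.2⟩ : U12 E) :=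
  U12.ext rfl (res_snd _) rfl rfl (res_snd _) (res_snd _)

end PW1
open PW1

namespace WS
variable {S : St E G} {Y : Pin (E × E) G} {p₁ p₂ : FP E G} {A : Subgroup G} (h : WS S Y p₁ p₂ A)
include h
theorem X1 (i : Fin 12) (a : E) : Y.X i (a, 0) = p₁.X i a := by
  rw [h.X, Pin.X_zero, mul_one]
theorem X2 (i : Fin 12) (a : E) : Y.X i (0, a) = p₂.X i a := by
  rw [h.X, Pin.X_zero, one_mul]
theorem SX (i : Fin 12) (a : E) : S.X i a = p₁.X i a * p₂.X i a := by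
  rw [← h.ext]; exact h.X i a a
theorem tX1 (i : Fin 12) (a : E) : S.t * p₁.X i a * S.t⁻¹ = p₂.X i a := by
  rw [← h.X1, ← h.X2]; exact h.ct.act i (a, 0)
theorem tX2 (i : Fin 12) (a : E) : S.t * p₂.X i a * S.t⁻¹ = p₁.X i a := by
  rw [← h.X1, ← h.X2]; exact h.ct.act i (0, a)
theorem tφ1 (u : U12 E) : S.t * p₁.φ u * S.t⁻¹ = p₂.φ u := by
  rw [Pin.φ_eq, Pin.φ_eq]; simp only [← conj_mul, h.tX1]
theorem tφ2 (u : U12 E) : S.t * p₂.φ u * S.t⁻¹ = p₁.φ u := by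
  rw [Pin.φ_eq, Pin.φ_eq]; simp only [← conj_mul, h.tX2]
theorem tL1 {a : G} (ha : a ∈ p₁.L) : S.t * a * S.t⁻¹ ∈ p₂.L :=
  conj_of (φ := id) h.tX1 ha
theorem tL2 {a : G} (ha : a ∈ p₂.L) : S.t * a * S.t⁻¹ ∈ p₁.L :=
  conj_of (φ := id) h.tX2 ha
theorem commL {a b : G} (ha : a ∈ p₁.L) (hb : b ∈ p₂.L) : a * b = b * a := by
  have k : p₁.Cn b := fun i c => (Pin.Cn.comm (P := p₂.toPin) (fun j d => h.comm i j c d) hb).symm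
  exact (k.comm ha).symm
theorem uniq {a a' b b' : G} (ha : a ∈ p₁.L) (ha' : a' ∈ p₁.L) (hb : b ∈ p₂.L) (hb' : b' ∈ p₂.L)
    (e : a * b = a' * b') : a = a' ∧ b = b' := by
  have e1 : a'⁻¹ * a = b' * b⁻¹ := by
    rw [inv_mul_eq_iff_eq_mul, ← mul_assoc, ← e, mul_inv_cancel_right]
  have e2 := h.disj _ (mul_mem (inv_mem ha') ha) (e1 ▸ mul_mem hb' (inv_mem hb))
  have e3 : a = a' := (inv_mul_eq_one.1 e2).symm
  exact ⟨e3, mul_left_cancel (e3 ▸ e)⟩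
end WS

namespace PW1
variable {S : St E G} {Y : Pin (E × E) G} {p₁ p₂ : FP E G} {A : Subgroup G} (h : WS S Y p₁ p₂ A)
include h
theorem mm {a a' b b' : G} (ha' : a' ∈ p₁.L) (hb : b ∈ p₂.L) :
    a * b * (a' * b') = a * a' * (b * b') :=
  Commute.mul_mul_mul_comm (h.commL ha' hb).symm a b'
theorem X' (i : Fin 12) (k : E × E) : Y.X i k = p₁.X i k.1 * p₂.X i k.2 := h.X i k.1 k.2
theorem L1_le : p₁.L ≤ Y.L := p₁.L_le.2 fun i a => h.X1 i a ▸ Y.X_mem _ _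
theorem L2_le : p₂.L ≤ Y.L := p₂.L_le.2 fun i a => h.X2 i a ▸ Y.X_mem _ _
/-- the product of the two unipotent groups -/
theorem exists_ψ : ∃ ψ : U12 E × U12 E →* G, Function.Injective ψ ∧ ∀ w, ψ w = p₁.φ w.1 * p₂.φ w.2 :=
  ⟨p₁.φ.noncommCoprod p₂.φ fun a b => h.commL (p₁.φ_mem a) (p₂.φ_mem b), fun a b e =>
    have := h.uniq (p₁.φ_mem a.1) (p₁.φ_mem b.1) (p₂.φ_mem a.2) (p₂.φ_mem b.2) e
    Prod.ext (p₁.inj this.1) (p₂.inj this.2), fun _ => rfl⟩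
theorem cj_mul {a b x y : G} (ha : a ∈ p₁.L) (hb : b ∈ p₂.L) (hx : x ∈ p₁.L) (hy : y ∈ p₂.L) :
    a * b * (x * y) * (a * b)⁻¹ = a * x * a⁻¹ * (b * y * b⁻¹) := by
  calc _ = a * (b * x) * (y * b⁻¹ * a⁻¹) := by group
    _ = _ := by rw [← h.commL hx hb, ← h.commL (inv_mem ha) (mul_mem hy (inv_mem hb)), mul_assoc a, mul_assoc a,
      mul_assoc x, ← mul_assoc b, ← h.commL (inv_mem ha) hb]; group
theorem z1_notMem : p₁.X 3 1 ∉ p₂.L := fun e => p₁.z_ne (h.disj _ (p₁.X_mem 3 1) e)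
end PW1

namespace WS
variable {S : St E G} {Y : Pin (E × E) G} {p₁ p₂ : FP E G} {A : Subgroup G} (h : WS S Y p₁ p₂ A)
include h
theorem φ_eq (u : U12 (E × E)) : Y.φ u = p₁.φ (U12.map Tc.fst u) * p₂.φ (U12.map Tc.snd u) := by
  rw [Y.φ_eq, p₁.φ_eq, p₂.φ_eq]
  simp only [X' h]
  have m := p₂.X_mem
  rw [mm h (p₁.X_mem _ _) (m _ _), mm h (p₁.X_mem _ _) (mul_mem (m _ _) (m _ _)),
    mm h (p₁.X_mem _ _) (mul_mem (mul_mem (m _ _) (m _ _)) (m _ _)),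
    mm h (p₁.X_mem _ _) (mul_mem (mul_mem (mul_mem (m _ _) (m _ _)) (m _ _)) (m _ _)),
    mm h (p₁.X_mem _ _) (mul_mem (mul_mem (mul_mem (mul_mem (m _ _) (m _ _)) (m _ _)) (m _ _)) (m _ _))]
  rw [map_fst, map_snd]
  rfl
theorem mem_L {g : G} : g ∈ Y.L ↔ ∃ a ∈ p₁.L, ∃ b ∈ p₂.L, g = a * b := by
  refine ⟨fun hg => ?_, ?_⟩
  · refine closure_induction (p := fun g _ => ∃ a ∈ p₁.L, ∃ b ∈ p₂.L, g = a * b) ?_
      ⟨1, one_mem _, 1, one_mem _, (one_mul 1).symm⟩ ?_ ?_ hg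
    · rintro _ ⟨i, k, rfl⟩; exact ⟨_, p₁.X_mem _ _, _, p₂.X_mem _ _, X' h i k⟩
    · rintro _ _ - - ⟨a, ha, b, hb, rfl⟩ ⟨a', ha', b', hb', rfl⟩
      exact ⟨_, mul_mem ha ha', _, mul_mem hb hb', mm h ha' hb⟩
    · rintro _ - ⟨a, ha, b, hb, rfl⟩
      exact ⟨_, inv_mem ha, _, inv_mem hb, by rw [h.commL ha hb, mul_inv_rev]⟩
  · rintro ⟨a, ha, b, hb, rfl⟩
    exact mul_mem (L1_le h ha) (L2_le h hb)
end WS

namespace PW1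
/-- the element with given components -/
def pr (u v : U12 E) : U12 (E × E) :=
  ⟨(u.p0, v.p0), (u.p5, v.p5), (u.p4, v.p4), (u.p2, v.p2), (u.p1, v.p1), (u.p3, v.p3)⟩
theorem fst_pr (u v : U12 E) : U12.map Tc.fst (pr u v) = u := map_fst _
theorem snd_pr (u v : U12 E) : U12.map Tc.snd (pr u v) = v := map_snd _
theorem ext2 {u v : U12 (E × E)} (h1 : U12.map Tc.fst u = U12.map Tc.fst v)
    (h2 : U12.map Tc.snd u = U12.map Tc.snd v) : u = v := by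
  rw [map_fst, map_fst] at h1
  rw [map_snd, map_snd] at h2
  ext
  exacts [congrArg U12.p0 h1, congrArg U12.p0 h2, congrArg U12.p5 h1, congrArg U12.p5 h2,
    congrArg U12.p4 h1, congrArg U12.p4 h2, congrArg U12.p2 h1, congrArg U12.p2 h2,
    congrArg U12.p1 h1, congrArg U12.p1 h2, congrArg U12.p3 h1, congrArg U12.p3 h2]
variable {S : St E G} {Y : Pin (E × E) G} {p₁ p₂ : FP E G} {A : Subgroup G} (h : WS S Y p₁ p₂ A)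
include h
theorem φ_pr (u v : U12 E) : Y.φ (pr u v) = p₁.φ u * p₂.φ v := by rw [h.φ_eq, fst_pr, snd_pr]
theorem conjL1 {l x : G} (hl : l ∈ Y.L) (hx : x ∈ p₁.L) : l * x * l⁻¹ ∈ p₁.L := by
  obtain ⟨a, ha, b, hb, rfl⟩ := h.mem_L.1 hl
  have : a * b * x * (a * b)⁻¹ = a * x * a⁻¹ := by
    rw [mul_assoc a b x, ← h.commL hx hb]; group
  rw [this]; exact mul_mem (mul_mem ha hx) (inv_mem ha)
theorem conjL2 {l x : G} (hl : l ∈ Y.L) (hx : x ∈ p₂.L) : l * x * l⁻¹ ∈ p₂.L := by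
  obtain ⟨a, ha, b, hb, rfl⟩ := h.mem_L.1 hl
  have : a * b * x * (a * b)⁻¹ = b * x * b⁻¹ := by
    rw [h.commL ha hb, mul_assoc b a x, h.commL ha hx]; group
  rw [this]; exact mul_mem (mul_mem hb hx) (inv_mem hb)
theorem mem_sup2 {B₁ B₂ : Subgroup G} (h1 : B₁ ≤ p₁.L) (h2 : B₂ ≤ p₂.L) {g : G} :
    g ∈ B₁ ⊔ B₂ ↔ ∃ a ∈ B₁, ∃ b ∈ B₂, g = a * b := by
  refine ⟨fun hg => ?_, by rintro ⟨a, ha, b, hb, rfl⟩; exact mul_mem_sup ha hb⟩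
  let C : Subgroup G :=
    { carrier := {g | ∃ a ∈ B₁, ∃ b ∈ B₂, g = a * b}
      one_mem' := ⟨1, one_mem _, 1, one_mem _, (one_mul 1).symm⟩
      mul_mem' := by
        rintro _ _ ⟨a, ha, b, hb, rfl⟩ ⟨a', ha', b', hb', rfl⟩
        exact ⟨_, mul_mem ha ha', _, mul_mem hb hb', mm h (h1 ha') (h2 hb)⟩
      inv_mem' := by
        rintro _ ⟨a, ha, b, hb, rfl⟩
        exact ⟨_, inv_mem ha, _, inv_mem hb, by rw [h.commL (h1 ha) (h2 hb), mul_inv_rev]⟩ }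
  exact (sup_le (fun a ha => ⟨a, ha, 1, one_mem _, (mul_one a).symm⟩)
    (fun b hb => ⟨1, one_mem _, b, hb, (one_mul b).symm⟩) : B₁ ⊔ B₂ ≤ C) hg
end PW1

namespace WS
variable {S : St E G} {Y : Pin (E × E) G} {p₁ p₂ : FP E G} {A : Subgroup G} (h : WS S Y p₁ p₂ A)
include h
theorem mem_U {g : G} : g ∈ Y.U ↔ ∃ u₁ u₂, g = p₁.φ u₁ * p₂.φ u₂ := by
  refine ⟨?_, ?_⟩
  · rintro ⟨u, rfl⟩; exact ⟨_, _, h.φ_eq u⟩
  · rintro ⟨u, v, rfl⟩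
    exact ⟨pr u v, φ_pr h u v⟩
theorem mem_Z {g : G} : g ∈ Y.Z ↔ ∃ a b : F, g = p₁.X 3 (ι a) * p₂.X 3 (ι b) := by
  refine Y.mem_Z.trans ?_
  exact ⟨fun ⟨k, e⟩ => ⟨k.1, k.2, by rw [← e, X' h]; rfl⟩,
    fun ⟨a, b, e⟩ => ⟨(a, b), by rw [e, ← h.X]; rfl⟩⟩
theorem mem_EA {g : G} : g ∈ Y.EA ↔ ∃ a ∈ p₁.EA, ∃ b ∈ p₂.EA, g = a * b := by
  refine Y.mem_EA.trans ⟨?_, ?_⟩
  · rintro ⟨a, b, rfl⟩
    exact ⟨_, p₁.mem_EA.2 ⟨a.1, b.1, rfl⟩, _, p₂.mem_EA.2 ⟨a.2, b.2, rfl⟩, by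
      rw [X' h, X' h, mm h (p₁.X_mem _ _) (p₂.X_mem _ _)]; rfl⟩
  · rintro ⟨_, ha, _, hb, rfl⟩
    obtain ⟨a, b, rfl⟩ := p₁.mem_EA.1 ha
    obtain ⟨a', b', rfl⟩ := p₂.mem_EA.1 hb
    exact ⟨(a, a'), (b, b'), by rw [X' h, X' h, mm h (p₁.X_mem _ _) (p₂.X_mem _ _)]; rfl⟩
theorem t_notMem : S.t ∉ Y.L := by
  intro ht
  have k := conjL1 h ht (p₁.X_mem 3 1)
  rw [h.tX1] at k
  exact p₂.z_ne (h.disj _ k (p₂.X_mem 3 1))
/-- the two kinds of elements of `Y.No` -/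
theorem kinds {m : G} (hm : m ∈ Y.No) : ∃ φ₁ φ₂ : E ≃+* E,
    (p₁.Act m φ₁ ∧ p₂.Act m φ₂ ∧ Y.Act m (RingEquiv.prodCongr φ₁ φ₂)) ∨
    ((∀ i a, m * p₂.X i a * m⁻¹ = p₁.X i (φ₁ a)) ∧ (∀ i a, m * p₁.X i a * m⁻¹ = p₂.X i (φ₂ a)) ∧
      Y.Act m (RingEquiv.prodComm.trans (RingEquiv.prodCongr φ₁ φ₂))) := by
  obtain ⟨ρ, hρ⟩ := hm
  obtain ⟨φ₁, φ₂, e | e⟩ := H89.G2S.aut_prod ρ
  · refine ⟨φ₁, φ₂, Or.inl ⟨⟨Tc.of_field _, fun i a => ?_⟩, ⟨Tc.of_field _, fun i a => ?_⟩,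
      ⟨Tc.prodCongr _ _, fun i k => ?_⟩⟩⟩
    · rw [← h.X1, hρ.act, e, map_zero, h.X1]
    · rw [← h.X2, hρ.act, e, map_zero, h.X2]
    · rw [hρ.act]; exact congrArg _ (e k.1 k.2)
  · refine ⟨φ₁, φ₂, Or.inr ⟨fun i a => ?_, fun i a => ?_,
      ⟨Tc.trans Tc.prodComm (Tc.prodCongr _ _), fun i k => ?_⟩⟩⟩
    · rw [← h.X2, hρ.act, e, map_zero, h.X1]
    · rw [← h.X1, hρ.act, e, map_zero, h.X2]
    · rw [hρ.act]; exact congrArg _ (e k.1 k.2)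
theorem act_of {m : G} {φ₁ φ₂ : E ≃+* E} (h1 : p₁.Act m φ₁) (h2 : p₂.Act m φ₂) :
    Y.Act m (RingEquiv.prodCongr φ₁ φ₂) := by
  refine ⟨Tc.prodCongr _ _, fun i k => ?_⟩
  rw [X' h, X' h, ← conj_mul, h1.act, h2.act]; rfl
theorem cn_of {m : G} (hm : m ∈ A) (h1 : p₁.Cn m) (h2 : p₂.Cn m) : m = 1 :=
  h.toTop.faith1 hm fun i k => by
    rw [X' h]; exact Commute.mul_right (h1 i k.1) (h2 i k.2)
theorem M_perm {m x : G} (hm : m ∈ Y.M) (hx : x ∈ p₁.L ∨ x ∈ p₂.L) :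
    m * x * m⁻¹ ∈ p₁.L ∨ m * x * m⁻¹ ∈ p₂.L := by
  obtain ⟨l, hl, n, ρ, hn, rfl⟩ := Y.mem_M.1 hm
  have k : n * x * n⁻¹ ∈ p₁.L ∨ n * x * n⁻¹ ∈ p₂.L := by
    obtain ⟨φ₁, φ₂, ⟨a1, a2, -⟩ | ⟨a1, a2, -⟩⟩ := h.kinds (m := n) ⟨ρ, hn⟩
    · exact hx.imp (conj_of a1.act) (conj_of a2.act)
    · exact (hx.imp (conj_of a2) (conj_of a1)).symm
  have e : l * n * x * (l * n)⁻¹ = l * (n * x * n⁻¹) * l⁻¹ := by group
  rw [e]; exact k.imp (conjL1 h hl) (conjL2 h hl)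
theorem isP_sup {B₁ B₂ : Subgroup G} (h1 : B₁ ≤ p₁.L) (h2 : B₂ ≤ p₂.L) (k1 : IsPGroup 2 B₁)
    (k2 : IsPGroup 2 B₂) : IsPGroup 2 (B₁ ⊔ B₂ : Subgroup G) :=
  isP_sup_comm k1 k2 fun _ ha _ hb => h.commL (h1 ha) (h2 hb)
theorem card_sup {B₁ B₂ : Subgroup G} (h1 : B₁ ≤ p₁.L) (h2 : B₂ ≤ p₂.L) :
    Nat.card (B₁ ⊔ B₂ : Subgroup G) = Nat.card B₁ * Nat.card B₂ := by
  rw [← Nat.card_prod]
  refine (Nat.card_eq_of_bijective (fun p : B₁ × B₂ =>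
    (⟨p.1 * p.2, mul_mem_sup p.1.2 p.2.2⟩ : (B₁ ⊔ B₂ : Subgroup G))) ⟨fun a b e => ?_, fun g => ?_⟩).symm
  · have := h.uniq (h1 a.1.2) (h1 b.1.2) (h2 a.2.2) (h2 b.2.2) (congrArg Subtype.val e)
    exact Prod.ext (Subtype.ext this.1) (Subtype.ext this.2)
  · obtain ⟨a, ha, b, hb, e⟩ := (mem_sup2 h h1 h2).1 g.2
    exact ⟨(⟨a, ha⟩, ⟨b, hb⟩), Subtype.ext e.symm⟩
end WS

theorem PW1.eqns : True := by have := @PW1.pr.eq_1.{0, 0}; trivial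

end H89.D4S
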