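import Cfsg.Agent.Lib.D4S.P3A
import Cfsg.Agent.Lib.D4S.PW1

/-! Standard components of type `³D₄(2ⁿ)`, package PW0: see `blueprint/D4S/README.md`. -/

set_option autoImplicit false
set_option linter.unusedSectionVars false

namespace H89.D4S
open Subgroup H69 U12
open H89.G2S (KK ιK σK)
open scoped commutatorElement

variable {F E G : Type*} [Field F] [Field E] [Cub F E] [CharP F 2] [CharP E 2] [Finite F] [Finite E]
  [Group G] [Finite G]

namespace PW0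
open PW1

variable (Y : Pin (E × E) G)

/-- the first factor at the root `i` commutes with the second factor at the root `j` -/
def Cm (i j : Fin 12) : Prop := ∀ a b : E, Commute (Y.X i (a, 0)) (Y.X j (0, b))

/-- the first factor -/
def G1 : Subgroup G := closure {g | ∃ i a, g = Y.X i (a, 0)}

/-- the second factor -/
def G2 : Subgroup G := closure {g | ∃ i a, g = Y.X i (0, a)}

theorem eqns : True := by
  have := @Cm.eq_1.{0, 0, 0}
  have := @G1.eq_1.{0, 0, 0}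
  have := @G2.eq_1.{0, 0, 0}
  trivial

theorem pr_mul (u v u' v' : U12 E) : pr (u * u') (v * v') = pr u v * pr u' v' :=
  ext2 (by rw [map_mul, fst_pr, fst_pr, fst_pr]) (by rw [map_mul, snd_pr, snd_pr, snd_pr])

theorem T1 (a : E) : T ((a, 0) : E × E) = (T a, 0) := Prod.ext rfl (map_zero (T : E →+ F))
theorem T2 (a : E) : T ((0, a) : E × E) = (0, T a) := Prod.ext (map_zero (T : E →+ F)) rfl

theorem f0 (a : E) : Y.φ (pr (g0 a) 1) = Y.X 0 (a, 0) := Y.φ0 _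
theorem f2 (a : E) : Y.φ (pr (g2 a) 1) = Y.X 2 (a, 0) := Y.φ2 _
theorem f4 (a : E) : Y.φ (pr (g4 a) 1) = Y.X 4 (a, 0) := Y.φ4 _
theorem f1 (a : E) : Y.φ (pr (g1 (T a)) 1) = Y.X 1 (a, 0) := by rw [← Y.φ1, T1]; rfl
theorem f3 (a : E) : Y.φ (pr (g3 (T a)) 1) = Y.X 3 (a, 0) := by rw [← Y.φ3, T1]; rfl
theorem f5 (a : E) : Y.φ (pr (g5 (T a)) 1) = Y.X 5 (a, 0) := by rw [← Y.φ5, T1]; rfl

theorem exists_u {i : Fin 12} (hi : i ≤ 5) (a : E) :
    (∃ u, Y.φ (pr u 1) = Y.X i (a, 0)) ∧ ∃ u, Y.φ (pr 1 u) = Y.X i (0, a) := by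
  obtain rfl | rfl | rfl | rfl | rfl | rfl : i = 0 ∨ i = 1 ∨ i = 2 ∨ i = 3 ∨ i = 4 ∨ i = 5 := by
    revert i; decide
  · exact ⟨⟨_, f0 Y a⟩, g0 a, Y.φ0 _⟩
  · exact ⟨⟨_, f1 Y a⟩, g1 (T a), by rw [← Y.φ1, T2]; rfl⟩
  · exact ⟨⟨_, f2 Y a⟩, g2 a, Y.φ2 _⟩
  · exact ⟨⟨_, f3 Y a⟩, g3 (T a), by rw [← Y.φ3, T2]; rfl⟩
  · exact ⟨⟨_, f4 Y a⟩, g4 a, Y.φ4 _⟩
  · exact ⟨⟨_, f5 Y a⟩, g5 (T a), by rw [← Y.φ5, T2]; rfl⟩

theorem cm_base {i j : Fin 12} (hi : i ≤ 5) (hj : j ≤ 5) : Cm Y i j := fun a b => by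
  obtain ⟨u, e⟩ := (exists_u Y hi a).1
  obtain ⟨v, e'⟩ := (exists_u Y hj b).2
  rw [← e, ← e']
  refine Commute.map (?_ : pr u 1 * pr 1 v = pr 1 v * pr u 1) _
  rw [← pr_mul, ← pr_mul, mul_one, one_mul, one_mul, mul_one]

variable {Y}

theorem Cm.r0 {i j : Fin 12} (h : Cm Y i j) : Cm Y (6 - i) (6 - j) := fun a b => by
  rw [← Y.c0, ← Y.c0]
  exact (h a b).map (MulAut.conj Y.n0)

theorem Cm.r5 {i j : Fin 12} (h : Cm Y i j) : Cm Y (4 - i) (4 - j) := fun a b => by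
  rw [← Y.c5, ← Y.c5]
  exact (h a b).map (MulAut.conj Y.n5)

theorem Cm.back : ∀ (n : ℕ) {i j : Fin 12}, Cm Y ((· + 2)^[n] i) ((· + 2)^[n] j) → Cm Y i j
  | 0, _, _, h => h
  | n + 1, i, j, h => by
    have := (Cm.back n (i := i + 2) (j := j + 2) h).r0.r5
    rwa [(by decide : ∀ i : Fin 12, 4 - (6 - (i + 2)) = i), (by decide : ∀ i : Fin 12, 4 - (6 - (i + 2)) = i)]
      at this

variable (Y)

theorem cm_ne {i j : Fin 12} (h : j ≠ i + 6) : Cm Y i j := by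
  obtain ⟨n, -, k | k⟩ := (by decide +kernel : ∀ i j : Fin 12, j ≠ i + 6 → ∃ n < 6,
    ((· + 2)^[n] i ≤ 5 ∧ (· + 2)^[n] j ≤ 5) ∨ (6 - (· + 2)^[n] i ≤ 5 ∧ 6 - (· + 2)^[n] j ≤ 5)) i j h
  · exact Cm.back n (cm_base Y k.1 k.2)
  · have := (cm_base Y k.1 k.2).r0
    rw [sub_sub_cancel, sub_sub_cancel] at this
    exact Cm.back n this

theorem cm_all (i j : Fin 12) : Cm Y i j := by
  by_cases h : j = i + 6
  swap
  · exact cm_ne Y h
  have c := fun (i : Fin 12) (h : 9 ≠ i + 6) (a b : E) => cm_ne Y h a b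
  have c' := fun (i : Fin 12) (h : 10 ≠ i + 6) (a b : E) => cm_ne Y h a b
  have h3 : Cm Y 3 9 := fun a b => by
    have e : (g3 (T a) : U12 E) = g5 (T (1 : E)) * g1 (T a) * g5 (T (1 : E)) * g1 (T a) := by u12
    rw [← f3, e, ← mul_one (1 : U12 E), pr_mul, ← mul_one (1 : U12 E), pr_mul, ← mul_one (1 : U12 E),
      pr_mul, map_mul, map_mul, map_mul]
    simp only [mul_one, f5, f1]
    exact (((c 5 (by decide) 1 b).mul_left (c 1 (by decide) a b)).mul_left (c 5 (by decide) 1 b)).mul_left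
      (c 1 (by decide) a b)
  have h4 : Cm Y 4 10 := fun a b => by
    have e : (g4 a : U12 E) = g5 (T (1 : E)) * g0 a * g5 (T (1 : E)) * g0 a * g3 (T (a * sh a)) *
      g1 (T (a * sh a)) * g2 (sh a) := by u12
    have m : ∀ u v : U12 E, Y.φ (pr (u * v) 1) = Y.φ (pr u 1) * Y.φ (pr v 1) := fun u v => by
      rw [← map_mul, ← pr_mul, mul_one]
    rw [← f4, e]
    simp only [m, f5, f0, f3, f1, f2]
    exact ((((((c' 5 (by decide) 1 b).mul_left (c' 0 (by decide) a b)).mul_left (c' 5 (by decide) 1 b)).mul_left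
      (c' 0 (by decide) a b)).mul_left (c' 3 (by decide) _ b)).mul_left (c' 1 (by decide) _ b)).mul_left
      (c' 2 (by decide) _ b)
  subst h
  obtain ⟨n, -, ⟨k, k'⟩ | ⟨k, k'⟩⟩ := (by decide +kernel : ∀ i : Fin 12, ∃ n < 6,
    ((· + 2)^[n] i = 3 ∧ (· + 2)^[n] (i + 6) = 9) ∨ ((· + 2)^[n] i = 4 ∧ (· + 2)^[n] (i + 6) = 10)) i
  · exact Cm.back n (by rwa [k, k'])
  · exact Cm.back n (by rwa [k, k'])

theorem G_comm {x y : G} (hx : x ∈ G1 Y) (hy : y ∈ G2 Y) : x * y = y * x := by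
  have : G1 Y ≤ 𝐂(G2 Y) := by
    rw [G2, centralizer_closure]
    refine (closure_le _).2 ?_
    rintro _ ⟨i, a, rfl⟩ _ ⟨j, b, rfl⟩
    exact (cm_all Y i j a b).symm
  exact (this hx y hy).symm

theorem X_split (i : Fin 12) (a b : E) : Y.X i (a, b) = Y.X i (a, 0) * Y.X i (0, b) := by
  rw [← Y.X_add, Prod.mk_add_mk, add_zero, zero_add]

theorem mem_of_sq {H : Type*} [Group H] {N : Subgroup H} {k : H} (o : Odd (orderOf k)) (h : k * k ∈ N) :
    k ∈ N := by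
  obtain ⟨r, hr⟩ := o
  have : k = (k * k) ^ (r + 1) := by
    rw [← sq, ← pow_mul, show 2 * (r + 1) = 2 * r + 1 + 1 by ring, pow_succ, ← hr, pow_orderOf_eq_one, one_mul]
  exact this ▸ N.pow_mem h _

variable {Y} {S : St E G} (h : Big S Y (RingHom.prod (RingHom.id E) (RingHom.id E)) RingEquiv.prodComm)
include h

theorem t_G1 {x : G} (hx : x ∈ G1 Y) : S.t * x * S.t⁻¹ ∈ G2 Y := by
  have : G1 Y ≤ (G2 Y).comap (MulAut.conj S.t).toMonoidHom := by
    refine (closure_le _).2 ?_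
    rintro _ ⟨i, a, rfl⟩
    exact subset_closure ⟨i, a, h.ct.act i (a, 0)⟩
  exact this hx

theorem exists_iso : ∃ e : G1 Y ≃* S.L, ∀ i a,
    e ⟨Y.X i (a, 0), subset_closure ⟨i, a, rfl⟩⟩ = ⟨S.X i a, S.X_mem i a⟩ := by
  let π : G1 Y →* G := MonoidHom.mk' (fun x => x * (S.t * x * S.t⁻¹)) fun x y => by
    have := G_comm Y y.2 (t_G1 h x.2)
    calc _ = x * (y * (S.t * x * S.t⁻¹)) * (S.t * y * S.t⁻¹) := by rw [coe_mul]; group
      _ = _ := by rw [this]; group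
  have πX : ∀ i a, π ⟨Y.X i (a, 0), subset_closure ⟨i, a, rfl⟩⟩ = S.X i a := fun i a => by
    rw [← h.ext]
    exact (congrArg _ (h.ct.act i (a, 0))).trans (X_split Y i a a).symm
  have πr : π.range = S.L := by
    refine le_antisymm ?_ (S.L_le.2 fun i a => ⟨_, πX i a⟩)
    rintro _ ⟨⟨x, hx⟩, rfl⟩
    induction hx using closure_induction with
    | mem x hx => obtain ⟨i, a, rfl⟩ := hx; exact πX i a ▸ S.X_mem i a
    | one => exact (map_one π).symm ▸ one_mem _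
    | mul x y hx hy a b => exact (map_mul π ⟨x, hx⟩ ⟨y, hy⟩).symm ▸ mul_mem a b
    | inv x hx a => exact (map_inv π ⟨x, hx⟩).symm ▸ inv_mem a
  have πk : ∀ x, π x = 1 → Odd (orderOf x) ∧ ∀ y, x * y = y * x := fun x hx => by
    have h2 : (x : G) ∈ G2 Y := by
      rw [eq_inv_of_mul_eq_one_left hx]
      exact inv_mem (t_G1 h x.2)
    refine ⟨?_, fun y => Subtype.ext (G_comm Y y.2 h2).symm⟩
    rw [← orderOf_coe]
    refine h.cn_odd fun i k => ?_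
    rw [X_split Y i k.1 k.2]
    exact Commute.mul_right (G_comm Y (subset_closure ⟨i, _, rfl⟩) h2).symm
      (G_comm Y x.2 (subset_closure ⟨i, _, rfl⟩))
  have perf : ⁅G1 Y, G1 Y⁆ = G1 Y := by
    refine le_antisymm (commutator_le_of_le le_rfl le_rfl) ((closure_le _).2 ?_)
    rintro _ ⟨i, a, rfl⟩
    have h1 : S.X i a ∈ (commutator (G1 Y)).map π := by
      rw [commutator_def, Subgroup.map_commutator, ← MonoidHom.range_eq_map, πr, S.perfL]
      exact S.X_mem i a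
    obtain ⟨c, hc, e⟩ := h1
    rw [← πX] at e
    set x : G1 Y := ⟨Y.X i (a, 0), subset_closure ⟨i, a, rfl⟩⟩
    obtain ⟨o, hk⟩ := πk (c⁻¹ * x) (by rw [map_mul, map_inv, e, inv_mul_cancel])
    have x2 : x * x = 1 := Subtype.ext (Y.X_sq i _)
    have h2 : c⁻¹ * x ∈ commutator (G1 Y) := by
      refine mem_of_sq o ?_
      have : c⁻¹ * x * (c⁻¹ * x) = c⁻¹ * c⁻¹ := by
        calc _ = c⁻¹ * x * c⁻¹ * x := by group
          _ = c⁻¹ * (c⁻¹ * x) * x := by rw [hk c⁻¹]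
          _ = c⁻¹ * c⁻¹ * (x * x) := by group
          _ = _ := by rw [x2, mul_one]
      exact this ▸ mul_mem (inv_mem hc) (inv_mem hc)
    have h3 : x ∈ commutator (G1 Y) := by simpa using mul_mem hc h2
    rw [← map_subtype_commutator]
    exact ⟨x, h3, rfl⟩
  exact ⟨(MonoidHom.ofInjective (S.mult _ π perf πr πk)).trans (MulEquiv.subgroupCongr πr),
    fun i a => Subtype.ext (πX i a)⟩

end PW0

open PW0 in
theorem Big.ws {S : St E G} {Y : Pin (E × E) G}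
    (h : Big S Y (RingHom.prod (RingHom.id E) (RingHom.id E)) RingEquiv.prodComm) :
    ∃ p₁ p₂ A, WS S Y p₁ p₂ A := by
  obtain ⟨e, he⟩ := exists_iso h
  let f : S.L →* G := (G1 Y).subtype.comp e.symm.toMonoidHom
  have fi : Function.Injective f := (G1 Y).subtype_injective.comp e.symm.injective
  have fX : ∀ i a, f ⟨S.X i a, S.X_mem i a⟩ = Y.X i (a, 0) := fun i a => by
    rw [← he]
    exact congrArg Subtype.val (e.symm_apply_apply _)
  obtain ⟨p₁, x1, l1⟩ := S.transport f fi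
  obtain ⟨p₂, x2, -⟩ := S.transport ((MulAut.conj S.t).toMonoidHom.comp f) ((MulAut.conj S.t).injective.comp fi)
  have y1 : ∀ i a, p₁.X i a = Y.X i (a, 0) := fun i a => (x1 i a).trans (fX i a)
  have y2 : ∀ i a, p₂.X i a = Y.X i (0, a) := fun i a =>
    (x2 i a).trans ((congrArg (fun x => S.t * x * S.t⁻¹) (fX i a)).trans (h.ct.act i (a, 0)))
  have hX : ∀ i a b, Y.X i (a, b) = p₁.X i a * p₂.X i b := fun i a b => by rw [y1, y2, X_split]
  have hc : ∀ i j a b, p₁.X i a * p₂.X j b = p₂.X j b * p₁.X i a := fun i j a b => by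
    rw [y1, y2]; exact cm_all Y i j a b
  have c21 : p₂.L ≤ 𝐂(p₁.L) := p₂.L_le.2 fun j b => Pin.cn_iff.1 fun i a => (hc i j a b).symm
  obtain ⟨A, hA, tA⟩ := exists_isSylowIn_le (H89.G2S.isP_zp S.tt) (L := Y.No) (zpowers_le.2 ⟨_, h.ct⟩)
  refine ⟨p₁, p₂, A, ⟨h, ?_, hA, tA (mem_zpowers _)⟩, hX, hc,
    fun g h1 h2 => p₁.ctr g h1 (Pin.cn_iff.2 (c21 h2)),
    (MonoidHom.ofInjective fi).trans (MulEquiv.subgroupCongr l1.symm), fun i a => Subtype.ext (x1 i a).symm⟩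
  have eU : Y.U = p₁.U ⊔ p₂.U := le_antisymm
    (Y.U_le.2 fun i hi k => hX i k.1 k.2 ▸ mul_mem_sup (p₁.X_memU hi _) (p₂.X_memU hi _))
    (sup_le (p₁.U_le.2 fun i hi a => y1 i a ▸ Y.X_memU hi _) (p₂.U_le.2 fun i hi a => y2 i a ▸ Y.X_memU hi _))
  have eL : Y.L = p₁.L ⊔ p₂.L := le_antisymm
    (Y.L_le.2 fun i k => hX i k.1 k.2 ▸ mul_mem_sup (p₁.X_mem i _) (p₂.X_mem i _))
    (sup_le (p₁.L_le.2 fun i a => y1 i a ▸ Y.X_mem i _) (p₂.L_le.2 fun i a => y2 i a ▸ Y.X_mem i _))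
  rw [eU, eL]
  exact H89.G2S.sylSup p₁.sylU p₂.sylU (le_normalizer_of_le_centralizer c21)
    (le_normalizer_of_le_centralizer (p₂.U_le_L.trans (c21.trans (centralizer_anti p₁.U_le_L))))

end H89.D4S
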