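import Cfsg.Agent.Lib.D4S.PW1
import Cfsg.Agent.Lib.D4S.UC

/-! Standard components of type `³D₄(2ⁿ)`, package PW1E: see `blueprint/D4S/README.md`. -/

set_option autoImplicit false
set_option linter.unusedSectionVars false

namespace H89.D4S
open Subgroup H69 U12
open H89.G2S (KK ιK σK)
open scoped commutatorElement

variable {F E G : Type*} [Field F] [Field E] [Cub F E] [CharP F 2] [CharP E 2] [Finite F] [Finite E]
  [Group G] [Finite G]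

namespace PW1E
open PW1

theorem arith {q a b n : ℕ} (h4 : 4 ≤ q) (ha : a ^ 2 ≤ q ^ 7) (hb : b ≤ q ^ 5) (hn : q ^ 10 ≤ n)
    (h : n ≤ 4 * (a * b)) : False := by
  have h1 : (q ^ 10) ^ 2 ≤ (4 * (a * b)) ^ 2 := Nat.pow_le_pow_left (hn.trans h) 2
  have h2 : (4 * (a * b)) ^ 2 ≤ 16 * (q ^ 7 * (q ^ 5) ^ 2) := by
    rw [mul_pow, mul_pow]
    exact Nat.mul_le_mul_left _ (Nat.mul_le_mul ha (Nat.pow_le_pow_left hb 2))
  have h8 : 64 ≤ q ^ 3 := Nat.pow_le_pow_left h4 3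
  have hp : 0 < q ^ 17 := by positivity
  have e1 : (q ^ 10) ^ 2 = q ^ 3 * q ^ 17 := by ring
  have e2 : q ^ 7 * (q ^ 5) ^ 2 = q ^ 17 := by ring
  rw [e1] at h1
  rw [e2] at h2
  nlinarith

theorem arith' {q : ℕ} (h2 : 2 ≤ q) (h : q ^ 10 ≤ 8 * q ^ 5) : False := by
  have h8 : 32 ≤ q ^ 5 := Nat.pow_le_pow_left h2 5
  have e1 : q ^ 10 = q ^ 5 * q ^ 5 := by ring
  rw [e1] at h
  nlinarith

theorem comm_of_sq {B : Subgroup G} (h2 : ∀ b ∈ B, b * b = 1) {x y : G} (hx : x ∈ B) (hy : y ∈ B) :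
    x * y * x⁻¹ = y := by
  have e := h2 _ (mul_mem hx hy)
  rw [inv_eq_of_mul_eq_one_right (h2 x hx)]
  calc x * y * x = x * y * (x * y) * y⁻¹ := by group
    _ = y := by rw [e, one_mul, inv_eq_of_mul_eq_one_right (h2 y hy)]

theorem card_le_prod {H H' : Type*} [Group H] [Group H'] [Finite H] [Finite H'] (D : Subgroup (H × H')) :
    Nat.card D ≤ Nat.card (D.map (MonoidHom.fst H H')) * Nat.card (D.map (MonoidHom.snd H H')) := by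
  rw [← Nat.card_prod]
  refine Nat.card_le_card_of_injective
    (fun u => (⟨_, mem_map_of_mem _ u.2⟩, ⟨_, mem_map_of_mem _ u.2⟩)) fun u v e => ?_
  exact Subtype.ext (Prod.ext (congrArg Subtype.val (congrArg Prod.fst e))
    (congrArg Subtype.val (congrArg Prod.snd e)))

variable {S : St E G} {Y : Pin (E × E) G} {p₁ p₂ : FP E G} {A : Subgroup G} (h : WS S Y p₁ p₂ A)
include h

theorem U1_le : p₁.U ≤ Y.U := by
  rintro _ ⟨u, rfl⟩; exact h.mem_U.2 ⟨u, 1, by simp⟩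

theorem U2_le : p₂.U ≤ Y.U := by
  rintro _ ⟨u, rfl⟩; exact h.mem_U.2 ⟨1, u, by simp⟩

/-- the two kinds of elements of the Sylow subgroup -/
theorem cj_z1 {x : G} (hx : x ∈ Y.U ⊔ A) : (x * p₁.X 3 1 * x⁻¹ = p₁.X 3 1 ∧
    ∃ u, ∃ m ∈ A, ∃ φ₁ φ₂, p₁.Act m φ₁ ∧ p₂.Act m φ₂ ∧ x = Y.φ u * m) ∨
      (x * p₁.X 3 1 * x⁻¹ = p₂.X 3 1 ∧ ∀ y ∈ p₂.L, x * y * x⁻¹ ∈ p₁.L) := by
  obtain ⟨u, m, hm, rfl⟩ := h.toTop.mem_S.1 hx
  have e : ∀ k, m * p₁.X 3 1 * m⁻¹ = Y.X 3 k → Y.φ u * m * p₁.X 3 1 * (Y.φ u * m)⁻¹ = Y.X 3 k := fun k e => by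
    rw [mul_inv_rev, mul_assoc (Y.φ u), mul_assoc (Y.φ u), ← mul_assoc _ m⁻¹, e, ← mul_assoc, ← Y.X3_comm_φ,
      mul_inv_cancel_right]
  obtain ⟨φ₁, φ₂, k | k⟩ := h.kinds (h.sylA.le hm)
  · exact .inl ⟨h.X1 3 1 ▸ e _ (by rw [k.1.act, map_one, h.X1]), u, m, hm, φ₁, φ₂, k.1, k.2.1, rfl⟩
  · refine .inr ⟨h.X2 3 1 ▸ e _ (by rw [k.2.1, map_one, h.X2]), fun y hy => ?_⟩
    have e : Y.φ u * m * y * (Y.φ u * m)⁻¹ = Y.φ u * (m * y * m⁻¹) * (Y.φ u)⁻¹ := by group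
    rw [e]
    exact conjL1 h (Y.φ_mem u) (conj_of k.1 hy)

theorem z12 : p₁.X 3 1 ≠ p₂.X 3 1 := fun e => z1_notMem h (e ▸ p₂.X_mem 3 1)

theorem mem_SP {x : G} (hx : x ∈ Y.U ⊔ A) (hc : x * p₁.X 3 1 = p₁.X 3 1 * x) :
    ∃ u, ∃ m ∈ A, ∃ φ₁ φ₂, p₁.Act m φ₁ ∧ p₂.Act m φ₂ ∧ x = Y.φ u * m :=
  ((cj_z1 h hx).resolve_right fun e => z12 h (by
    have := e.1; rwa [hc, mul_inv_cancel_right] at this)).2

theorem idx1 {B : Subgroup G} (hB : B ≤ Y.U ⊔ A) :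
    Nat.card B ≤ 2 * Nat.card (B ⊓ centralizer {p₁.X 3 1} : Subgroup G) := by
  classical
  have c1 := card_le (P := B) (C := B ⊓ centralizer {p₁.X 3 1})
    (fun g => decide ((g : G) * p₁.X 3 1 * (g : G)⁻¹ = p₁.X 3 1)) fun g k e => ⟨(g⁻¹ * k).2, by
      have : (g : G) * p₁.X 3 1 * (g : G)⁻¹ = k * p₁.X 3 1 * (k : G)⁻¹ := by
        by_cases c : (g : G) * p₁.X 3 1 * (g : G)⁻¹ = p₁.X 3 1
        · rw [c, (decide_eq_decide.1 e).1 c]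
        · rw [((cj_z1 h (hB g.2)).resolve_left fun a => c a.1).1,
            ((cj_z1 h (hB k.2)).resolve_left fun a => c ((decide_eq_decide.1 e).2 a.1)).1]
      refine mem_centralizer_singleton_iff.2 ?_
      calc _ = (g : G)⁻¹ * (k * p₁.X 3 1 * (k : G)⁻¹) * k := by group
        _ = _ := by rw [← this]; group⟩
  rwa [Nat.card_eq_fintype_card (α := Bool), Fintype.card_bool] at c1

theorem idx2 {B : Subgroup G} (hB : B ≤ Y.U ⊔ A) (hc : B ≤ centralizer {p₁.X 3 1})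
    (h2 : ∀ b ∈ B, b * b = 1) : Nat.card B ≤ 4 * Nat.card (B ⊓ Y.U : Subgroup G) := by
  classical
  have k := fun g : B => mem_SP h (hB g.2) (mem_centralizer_singleton_iff.1 (hc g.2))
  choose u m hm φ₁ φ₂ a1 a2 e using k
  have m2 : ∀ g, m g * m g = 1 := fun g => h.toTop.invol (u := u g) (hm g) (e g ▸ h2 g g.2)
  have q : ∀ {ρ ρ' : E ≃+* E}, (∀ a, ρ (ρ a) = a) → (∀ a, ρ' (ρ' a) = a) →
      decide (ρ = 1) = decide (ρ' = 1) → ρ = ρ' := fun {ρ ρ'} r r' d => by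
    by_cases c : ρ = 1
    · rw [c, (decide_eq_decide.1 d).1 c]
    · exact H89.G2S.aut_invol r c r' fun c' => c ((decide_eq_decide.1 d).2 c')
  have c1 := card_le (P := B) (C := B ⊓ Y.U) (fun g => (decide (φ₁ g = 1), decide (φ₂ g = 1)))
    fun g k d => ⟨(g⁻¹ * k).2, by
      have e1 := q (act_sq p₁.inj (a1 g) (m2 g)) (act_sq p₁.inj (a1 k) (m2 k)) (congrArg Prod.fst d)
      have e2 := q (act_sq p₂.inj (a2 g) (m2 g)) (act_sq p₂.inj (a2 k) (m2 k)) (congrArg Prod.snd d)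
      have e3 : m g = m k := h.toTop.faith (hm g) (hm k) (h.act_of (a1 g) (a2 g))
        (e1 ▸ e2 ▸ h.act_of (a1 k) (a2 k))
      have : (g : G)⁻¹ * k = (m k)⁻¹ * Y.φ ((u g)⁻¹ * u k) * (m k)⁻¹⁻¹ := by
        rw [map_mul, map_inv, ← e3]
        conv_lhs => rw [e g, e k, ← e3]
        group
      change (g : G)⁻¹ * k ∈ Y.U
      rw [this, (h.act_of (a1 k) (a2 k)).inv.φ]
      exact Y.φ_memU _⟩
  rwa [Nat.card_prod, Nat.card_eq_fintype_card (α := Bool), Fintype.card_bool] at c1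

end PW1E
open PW1 PW1E

namespace WS
variable {S : St E G} {Y : Pin (E × E) G} {p₁ p₂ : FP E G} {A : Subgroup G} (h : WS S Y p₁ p₂ A)
include h
theorem elemU {B : Subgroup G} (hB : B ≤ Y.U ⊔ A) (h2 : ∀ b ∈ B, b * b = 1)
    (hc : Nat.card F ^ 10 ≤ Nat.card B) : B ≤ Y.U := by
  by_contra hn
  obtain ⟨ψ, i, hψ⟩ := exists_ψ h
  have cD : ∀ B₀ : Subgroup G, B₀ ≤ Y.U → Nat.card B₀ = Nat.card (B₀.comap ψ) := fun B₀ le => by
    rw [← card_map_of_injective (K := B₀.comap ψ) i, map_comap_eq_self]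
    intro x hx
    obtain ⟨a, b, rfl⟩ := h.mem_U.1 (le hx)
    exact ⟨(a, b), hψ _⟩
  have sq : ∀ {B₀ : Subgroup G}, B₀ ≤ B → ∀ w ∈ B₀.comap ψ, w * w = 1 := fun le w hw =>
    i (by rw [map_mul, map_one]; exact h2 _ (le hw))
  have s1 : ∀ {B₀ : Subgroup G}, B₀ ≤ B → ∀ a ∈ (B₀.comap ψ).map (MonoidHom.fst _ _), a * a = 1 := by
    rintro B₀ le _ ⟨w, hw, rfl⟩; exact congrArg Prod.fst (sq le w hw)
  have s2 : ∀ {B₀ : Subgroup G}, B₀ ≤ B → ∀ a ∈ (B₀.comap ψ).map (MonoidHom.snd _ _), a * a = 1 := by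
    rintro B₀ le _ ⟨w, hw, rfl⟩; exact congrArg Prod.snd (sq le w hw)
  by_cases hs : B ≤ centralizer {p₁.X 3 1}
  · have k := idx2 h hB hs h2
    obtain ⟨f, hf, hf'⟩ := SetLike.not_le_iff_exists.1 hn
    obtain ⟨w, m, hm, φ₁, φ₂, a1, a2, e⟩ := mem_SP h (hB hf) (mem_centralizer_singleton_iff.1 (hs hf))
    have m2 : m * m = 1 := h.toTop.invol (u := w) hm (e ▸ h2 f hf)
    have r1 := act_sq p₁.inj a1 m2
    have r2 := act_sq p₂.inj a2 m2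
    have fx : ∀ v ∈ (B ⊓ Y.U).comap ψ,
        U12.map Tc.fst w * U12.map a1.tc v.1 * (U12.map Tc.fst w)⁻¹ = v.1 ∧
        U12.map Tc.snd w * U12.map a2.tc v.2 * (U12.map Tc.snd w)⁻¹ = v.2 := fun v hv => by
      have c := comm_of_sq h2 hf hv.1
      have c' : f * ψ v * f⁻¹ = Y.φ w * (m * ψ v * m⁻¹) * (Y.φ w)⁻¹ := by rw [e]; group
      rw [c', hψ, ← conj_mul (b := m), a1.φ, a2.φ, h.φ_eq w, cj_mul h (p₁.φ_mem _) (p₂.φ_mem _) (p₁.φ_mem _)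
        (p₂.φ_mem _), ← map_inv p₁.φ, ← map_inv p₂.φ, ← map_mul p₁.φ, ← map_mul p₁.φ, ← map_mul p₂.φ,
        ← map_mul p₂.φ] at c
      have := h.uniq (p₁.φ_mem _) (p₁.φ_mem _) (p₂.φ_mem _) (p₂.φ_mem _) c
      exact ⟨p₁.inj this.1, p₂.inj this.2⟩
    have c0 := card_le_prod ((B ⊓ Y.U).comap ψ)
    rw [← cD _ inf_le_right] at c0
    have c4 := k.trans (Nat.mul_le_mul_left 4 c0)
    by_cases n1 : φ₁ = 1
    · have n2 : φ₂ ≠ 1 := by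
        rintro rfl; subst n1
        rw [e, h.cn_of hm (Pin.cn_iff_act'.2 a1) (Pin.cn_iff_act'.2 a2), mul_one] at hf'
        exact hf' (Y.φ_memU w)
      rw [mul_comm (Nat.card (Subgroup.map _ _))] at c4
      refine arith (four_of_invol φ₂ r2 n2) (card_elem p₂.cub φ₂ r2 n2 _ (s2 inf_le_left) ?_)
        (card_elem' p₁.cub _ (s1 inf_le_left)) hc c4
      rintro _ ⟨v, hv, rfl⟩
      exact lead_fix a2.tc (fx v hv).2
    · refine arith (four_of_invol φ₁ r1 n1) (card_elem p₁.cub φ₁ r1 n1 _ (s1 inf_le_left) ?_)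
        (card_elem' p₁.cub _ (s2 inf_le_left)) hc c4
      rintro _ ⟨v, hv, rfl⟩
      exact lead_fix a1.tc (fx v hv).1
  · have k1 := idx1 h hB
    have k2 := idx2 h (B := B ⊓ centralizer {p₁.X 3 1}) (inf_le_left.trans hB) inf_le_right
      fun b hb => h2 b hb.1
    obtain ⟨f, hf, hf'⟩ := SetLike.not_le_iff_exists.1 hs
    have sw := ((cj_z1 h (hB hf)).resolve_left fun a =>
      hf' (mem_centralizer_singleton_iff.2 (mul_inv_eq_iff_eq_mul.1 a.1))).2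
    have le : B ⊓ centralizer {p₁.X 3 1} ⊓ Y.U ≤ B := inf_le_left.trans inf_le_left
    have c1 := card_elem' p₁.cub _ (s1 le)
    have c2 : Nat.card ((B ⊓ centralizer {p₁.X 3 1} ⊓ Y.U).comap ψ) ≤
        Nat.card (((B ⊓ centralizer {p₁.X 3 1} ⊓ Y.U).comap ψ).map (MonoidHom.fst _ _)) := by
      refine Nat.card_le_card_of_injective (fun u => ⟨_, mem_map_of_mem _ u.2⟩) fun u v e => ?_
      have e1 : u.1.1 = v.1.1 := congrArg Subtype.val e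
      have hx : ψ (u⁻¹ * v).1 ∈ B := le (u⁻¹ * v).2
      have e2 : ψ (u⁻¹ * v).1 = p₂.φ (u.1.2⁻¹ * v.1.2) := by
        rw [hψ]
        change p₁.φ (u.1.1⁻¹ * v.1.1) * p₂.φ (u.1.2⁻¹ * v.1.2) = _
        rw [e1, inv_mul_cancel, map_one, one_mul]
      have e3 := sw _ (p₂.φ_mem (u.1.2⁻¹ * v.1.2))
      rw [← e2, comm_of_sq h2 hf hx, e2] at e3
      have e4 := p₂.inj ((h.disj _ e3 (p₂.φ_mem _)).trans (map_one _).symm)
      exact Subtype.ext (Prod.ext e1 (inv_mul_eq_one.1 e4))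
    rw [← cD _ inf_le_right] at c2
    exact arith' (two_le_card F) (by omega)
theorem wcE {B₁ B₂ : Subgroup G} (h1 : B₁ ≤ p₁.L) (h2 : B₂ ≤ p₂.L) (k1 : ∀ b ∈ B₁, b * b = 1)
    (k2 : ∀ b ∈ B₂, b * b = 1) (c1 : Nat.card F ^ 5 ≤ Nat.card B₁) (c2 : Nat.card F ^ 5 ≤ Nat.card B₂)
    {g : G} (hg : ∀ x ∈ B₁ ⊔ B₂, g * x * g⁻¹ ∈ Y.U ⊔ A) : ∀ x ∈ B₁ ⊔ B₂, g * x * g⁻¹ ∈ Y.U := by
  intro x hx
  refine h.elemU (B := (B₁ ⊔ B₂).map (MulAut.conj g).toMonoidHom) ?_ ?_ ?_ ⟨x, hx, rfl⟩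
  · rintro _ ⟨y, hy, rfl⟩; exact hg y hy
  · rintro _ ⟨y, hy, rfl⟩
    obtain ⟨a, ha, b, hb, rfl⟩ := (mem_sup2 h h1 h2).1 hy
    rw [← map_mul, mm h (h1 ha) (h2 hb), k1 a ha, k2 b hb, mul_one, map_one]
  · rw [card_map_of_injective (MulAut.conj g).injective, h.card_sup h1 h2]
    exact (pow_add _ 5 5).le.trans (Nat.mul_le_mul c1 c2)
theorem wcU {g : G} (hg : ∀ x ∈ Y.U, g * x * g⁻¹ ∈ Y.U ⊔ A) : ∀ x ∈ Y.U, g * x * g⁻¹ ∈ Y.U := by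
  have : Y.U ≤ Y.U.comap (MulAut.conj g).toMonoidHom := Y.U_le.2 fun i hi a => by
    obtain ⟨B₁, e1, e2, e3, e4, -⟩ := p₁.elem hi
    obtain ⟨B₂, f1, f2, f3, f4, -⟩ := p₂.elem hi
    refine h.wcE (e1.trans p₁.U_le_L) (f1.trans p₂.U_le_L) e2 f2 e3.ge f3.ge
      (fun x hx => hg x (sup_le (e1.trans (U1_le h)) (f1.trans (U2_le h)) hx)) _ ?_
    rw [X' h]
    exact mul_mem_sup (e4 _) (f4 _)
  exact fun x hx => this hx
theorem wcR {g : G} (hg : ∀ x ∈ p₁.R ⊔ p₂.U, g * x * g⁻¹ ∈ Y.U ⊔ A) :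
    (∀ x ∈ p₂.U, g * x * g⁻¹ ∈ Y.U) ∧ (∀ a, g * p₁.X 5 a * g⁻¹ ∈ Y.U) ∧
      (∀ a, g * p₁.X 2 a * g⁻¹ ∈ Y.U) ∧ ∀ a, T a = 0 → g * p₁.X 0 a * g⁻¹ ∈ Y.U := by
  have k : ∀ {B₁ B₂ : Subgroup G}, B₁ ≤ p₁.R → B₂ ≤ p₂.U → (∀ b ∈ B₁, b * b = 1) → (∀ b ∈ B₂, b * b = 1) →
      Nat.card B₁ = Nat.card F ^ 5 → Nat.card B₂ = Nat.card F ^ 5 → ∀ x ∈ B₁ ⊔ B₂, g * x * g⁻¹ ∈ Y.U :=
    fun l1 l2 s1 s2 c1 c2 => h.wcE (l1.trans (p₁.R_le_U.trans p₁.U_le_L)) (l2.trans p₂.U_le_L) s1 s2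
      c1.ge c2.ge fun x hx => hg x (sup_le_sup l1 l2 hx)
  have k1 : ∀ {B₁ : Subgroup G}, B₁ ≤ p₁.R → (∀ b ∈ B₁, b * b = 1) → Nat.card B₁ = Nat.card F ^ 5 →
      ∀ x ∈ B₁, g * x * g⁻¹ ∈ Y.U := fun l1 s1 c1 x hx =>
    k l1 (p₂.E2_le_Q.trans p₂.Q_le_U) s1 (fun _ => p₂.E2_sq) c1 p₂.cardE2 x (mem_sup_left hx)
  refine ⟨?_, fun a => ?_, fun a => ?_, fun a ha => ?_⟩
  · have : p₂.U ≤ Y.U.comap (MulAut.conj g).toMonoidHom := p₂.U_le.2 fun i hi a => by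
      obtain ⟨B₂, f1, f2, f3, f4, -⟩ := p₂.elem hi
      exact k p₁.E2_le_R f1 (fun _ => p₁.E2_sq) f2 p₁.cardE2 f3 _ (mem_sup_right (f4 a))
    exact fun x hx => this hx
  · obtain ⟨B, -, f2, f3, f4, f5⟩ := p₁.elem (i := 5) le_rfl
    exact k1 (f5 (by decide) (by decide)) f2 f3 _ (f4 a)
  · obtain ⟨B, -, f2, f3, f4, f5⟩ := p₁.elem (i := 2) (by decide)
    exact k1 (f5 (by decide) (by decide)) f2 f3 _ (f4 a)
  · obtain ⟨B, f1, f2, f3, f4⟩ := p₁.elemR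
    exact k1 f1 f2 f3 _ (f4 a ha)
end WS

end H89.D4S
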