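import Cfsg.Agent.Lib.D4S.PW2F
import Cfsg.Agent.Lib.D4S.Inv
import Cfsg.Agent.Lib.D4S.PW1
import Cfsg.Agent.Lib.D4S.UB

/-! Standard components of type `³D₄(2ⁿ)`, package PW2: see `blueprint/D4S/README.md`. -/

set_option autoImplicit false
set_option linter.unusedSectionVars false

namespace H89.D4S
open Subgroup H69 U12
open H89.G2S (KK ιK σK)
open scoped commutatorElement

variable {F E G : Type*} [Field F] [Field E] [Cub F E] [CharP F 2] [CharP E 2] [Finite F] [Finite E]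
  [Group G] [Finite G]

namespace PW2
open PW1

/-- a large 2-subgroup of one factor centralising an involution -/
theorem side (P : FP E G) {m : G} {ρ : E ≃+* E} (hm : P.Act m ρ) (m2 : m * m = 1) {v : U12 E}
    (hv : P.φ v * m * (P.φ v * m) = 1) : ∃ B ≤ P.L, IsPGroup 2 B ∧ Nat.card F ^ 6 ≤ Nat.card B ∧
      (ρ = 1 → Nat.card F ^ 10 ≤ Nat.card B) ∧ ∀ b ∈ B, b * (P.φ v * m) = P.φ v * m * b := by
  by_cases h1 : ρ = 1
  · subst h1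
    have c : P.Cn m := Pin.cn_iff_act'.2 hm
    have : P.φ v * P.φ v = 1 := by
      rwa [mul_assoc, ← mul_assoc m, c.comm (P.φ_mem v), mul_assoc, m2, mul_one] at hv
    obtain ⟨B, le, p, cB, cm⟩ := P.big_cent (P.φ_mem v) this
    exact ⟨B, le, p, (Nat.pow_le_pow_right Nat.card_pos (by omega)).trans cB, fun _ => cB, fun b hb => by
      rw [← mul_assoc, cm b hb, mul_assoc, mul_assoc, c.comm (le hb)]⟩
  · obtain ⟨c, hc⟩ := exists_free ρ (act_sq P.inj hm m2) h1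
    obtain ⟨y, hy⟩ := Pin.lang P.inj hm m2 hc hv
    refine ⟨((MonoidHom.eqLocus (U12.map hm.tc) (MonoidHom.id _)).map P.φ) ^ᶜ (P.φ y)⁻¹, ?_, ?_, ?_,
      fun e => absurd e h1, ?_⟩
    · rintro _ ⟨_, ⟨u, -, rfl⟩, rfl⟩
      exact mul_mem (mul_mem (inv_mem (P.φ_mem y)) (P.φ_mem u)) (inv_mem (inv_mem (P.φ_mem y)))
    · exact (P.U_isP.to_le (map_le_range _ _)).map _
    · rw [card_cj, card_map_of_injective P.inj, U12.card_fixed' P.cub hm.tc (act_sq P.inj hm m2) h1]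
    · rintro _ ⟨_, ⟨u, hu, rfl⟩, rfl⟩
      have e : m * P.φ u * m⁻¹ = P.φ u := (hm.φ u).trans (congrArg P.φ hu)
      have e2 : P.φ v * m = (P.φ y)⁻¹ * m * (P.φ y)⁻¹⁻¹ := by
        generalize P.φ v * m = x at hy; rw [← hy]; group
      rw [e2]
      show (P.φ y)⁻¹ * P.φ u * (P.φ y)⁻¹⁻¹ * _ = _ * ((P.φ y)⁻¹ * P.φ u * (P.φ y)⁻¹⁻¹)
      rw [conj_mul, conj_mul, mul_inv_eq_iff_eq_mul.1 e]

variable {S : St E G} {Y : Pin (E × E) G} {p₁ p₂ : FP E G} {A : Subgroup G} (h : WS S Y p₁ p₂ A)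
include h

/-- the two components of an involution of the non-swapping kind -/
theorem comp_sq {m : G} {φ₁ φ₂ : E ≃+* E} (h1 : p₁.Act m φ₁) (h2 : p₂.Act m φ₂) (m2 : m * m = 1)
    {u₁ u₂ : U12 E} (e : p₁.φ u₁ * p₂.φ u₂ * m * (p₁.φ u₁ * p₂.φ u₂ * m) = 1) :
    p₁.φ u₁ * m * (p₁.φ u₁ * m) = 1 ∧ p₂.φ u₂ * m * (p₂.φ u₂ * m) = 1 := by
  have sq : ∀ x, x * m * (x * m) = x * (m * x * m⁻¹) := fun x => by
    rw [inv_eq_of_mul_eq_one_right m2]; group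
  have c : Commute (p₂.φ u₂) (p₁.φ (U12.map h1.tc u₁)) := (h.commL (p₁.φ_mem _) (p₂.φ_mem _)).symm
  rw [sq, ← conj_mul, h1.φ, h2.φ, c.mul_mul_mul_comm, ← one_mul 1] at e
  rw [sq, sq, h1.φ, h2.φ]
  exact h.uniq (mul_mem (p₁.φ_mem _) (p₁.φ_mem _)) (one_mem _) (mul_mem (p₂.φ_mem _) (p₂.φ_mem _)) (one_mem _) e

end PW2
open PW1 PW2

namespace WS
variable {S : St E G} {Y : Pin (E × E) G} {p₁ p₂ : FP E G} {A : Subgroup G} (h : WS S Y p₁ p₂ A)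
include h
theorem noT {g m : G} {u : U12 (E × E)} (hm : m ∈ A) {φ₁ φ₂ : E ≃+* E} (h1 : p₁.Act m φ₁)
    (h2 : p₂.Act m φ₂) : g * S.t * g⁻¹ ≠ Y.φ u * m := by
  intro hg
  have tt : Y.φ u * m * (Y.φ u * m) = 1 := by rw [← hg, conj_mul, S.tt, mul_one, mul_inv_cancel]
  have m2 := h.toTop.invol hm tt
  by_cases c : φ₁ ≠ 1 ∧ φ₂ ≠ 1
  · obtain rfl := H89.G2S.aut_invol (act_sq p₁.inj h1 m2) c.1 (act_sq p₂.inj h2 m2) c.2
    obtain ⟨c0, hc⟩ := exists_free φ₁ (act_sq p₁.inj h1 m2) c.1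
    obtain ⟨y, hy⟩ := Pin.lang h.inj (h.act_of h1 h2) m2 (c := (c0, c0)) (Prod.ext hc hc) tt
    exact h.noF (g := Y.φ y * g) m2 c.1 h1 h2 (by rw [← hy, ← hg]; group)
  have tt' := tt
  rw [h.φ_eq] at tt'
  obtain ⟨s1, s2⟩ := comp_sq h h1 h2 m2 tt'
  obtain ⟨B₁, l₁, q₁, c₁, d₁, k₁⟩ := side p₁ h1 m2 s1
  obtain ⟨B₂, l₂, q₂, c₂, d₂, k₂⟩ := side p₂ h2 m2 s2
  have cB : ∀ b ∈ B₁ ⊔ B₂, Y.φ u * m * b = b * (Y.φ u * m) := fun b hb =>
    (sup_le (fun b hb => mem_centralizer_singleton_iff.2 (by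
      rw [h.φ_eq, h.commL (p₁.φ_mem _) (p₂.φ_mem _), mul_assoc (p₂.φ _), ← mul_assoc b, h.commL (l₁ hb) (p₂.φ_mem _),
        mul_assoc, k₁ b hb, ← mul_assoc])) (fun b hb => mem_centralizer_singleton_iff.2 (by
      rw [h.φ_eq, mul_assoc (p₁.φ _), ← mul_assoc b, ← h.commL (p₁.φ_mem _) (l₂ hb),
        mul_assoc, k₂ b hb, ← mul_assoc])) : B₁ ⊔ B₂ ≤ centralizer {Y.φ u * m}) hb _ rfl
  have le := St.card_two h.db (g := g) (h.isP_sup l₁ l₂ q₁ q₂) fun p hp => hg ▸ (cB p hp).symm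
  rw [h.card_sup l₁ l₂] at le
  have : Nat.card F ^ 16 ≤ Nat.card B₁ * Nat.card B₂ := by
    by_cases e : φ₁ = 1
    · exact (pow_add _ 10 6).le.trans (Nat.mul_le_mul (d₁ e) c₂)
    · exact (pow_add _ 6 10).le.trans (Nat.mul_le_mul c₁ (d₂ (by tauto)))
  exact absurd ((Nat.pow_le_pow_iff_right (two_le_card F)).1 (this.trans le)) (by omega)
end WS

end H89.D4S
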