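import Cfsg.Agent.Lib.D4S.PW1
import Cfsg.Agent.Lib.D4S.P1A

/-! Standard components of type `³D₄(2ⁿ)`, package PW2F: see `blueprint/D4S/README.md`. -/

set_option autoImplicit false
set_option linter.unusedSectionVars false
set_option linter.unusedSimpArgs false
set_option linter.unnecessarySeqFocus false

namespace H89.D4S
open Subgroup H69 U12
open H89.G2S (KK ιK σK)
open scoped commutatorElement

variable {F E G : Type*} [Field F] [Field E] [Cub F E] [CharP F 2] [CharP E 2] [Finite F] [Finite E]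
  [Group G] [Finite G]

namespace PW2F

/-- the fixed ring in the small field -/
def F0 (ρ : E ≃+* E) : Subring F := ((ρ : E →+* E).comp ι).eqLocus ι
/-- the fixed ring in the large field -/
def E0 (ρ : E ≃+* E) : Subring E := (ρ : E →+* E).eqLocus (RingHom.id E)

theorem mem_F0 {ρ : E ≃+* E} {a : F} : a ∈ F0 ρ ↔ ρ (ι a) = ι a := Iff.rfl
theorem mem_E0 {ρ : E ≃+* E} {a : E} : a ∈ E0 ρ ↔ ρ a = a := Iff.rfl
theorem θ_mem {ρ : E ≃+* E} {a : E} (h : ρ a = a) : ρ (θ a) = θ a := by rw [CF.comm, h]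

instance cub (ρ : E ≃+* E) : Cub (F0 ρ) (E0 ρ) where
  ι := ((ι : F →+* E).comp (F0 ρ).subtype).codRestrict (E0 ρ) fun a => a.2
  θ := ((θ : E →+* E).comp (E0 ρ).subtype).codRestrict (E0 ρ) fun a => θ_mem a.2
  T := { toFun x := ⟨T (x : E), mem_F0.2 (by
           rw [ιT, map_add, map_add, mem_E0.1 x.2, θ_mem x.2, θ_mem (θ_mem x.2)])⟩
         map_zero' := Subtype.ext (map_zero _)
         map_add' a b := Subtype.ext (map_add _ _ _) }
  N := { toFun x := ⟨N (x : E), mem_F0.2 (by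
           rw [ιN, map_mul, map_mul, mem_E0.1 x.2, θ_mem x.2, θ_mem (θ_mem x.2)])⟩
         map_one' := Subtype.ext (map_one _)
         map_mul' a b := Subtype.ext (map_mul _ _ _) }
  ι_inj a b e := Subtype.ext (ι_inj (congrArg Subtype.val e))
  θ3 x := Subtype.ext (θ3 _)
  θι x := Subtype.ext (θι _)
  ιT x := Subtype.ext (ιT _)
  ιN x := Subtype.ext (ιN _)
  nd x h := Subtype.ext (by_contra fun k => by
    have := congrArg Subtype.val (h ⟨(x : E)⁻¹, mem_E0.2 (by rw [map_inv₀, mem_E0.1 x.2])⟩)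
    change T ((x : E) * (x : E)⁻¹) = 0 at this
    rw [mul_inv_cancel₀ k, T_one] at this
    exact one_ne_zero this)

/-- the inclusion -/
def inc (ρ : E ≃+* E) : E0 ρ × E0 ρ →+* E × E := RingHom.prodMap (E0 ρ).subtype (E0 ρ).subtype
theorem tc (ρ : E ≃+* E) : Tc (inc ρ) := .of_comm fun _ => rfl
theorem inc_inj (ρ : E ≃+* E) : Function.Injective (inc ρ) :=
  Subtype.val_injective.prodMap Subtype.val_injective

theorem map_inj {K J K' J' : Type*} [CommRing K] [CommRing J] [Cub K J] [CommRing K'] [CommRing J'] [Cub K' J']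
    [CharP K 2] [CharP J 2] [CharP K' 2] [CharP J' 2] {ρ : J →+* J'} (h : Tc ρ) (i : Function.Injective ρ) :
    Function.Injective (U12.map h) := fun u v e => by
  have r : Function.Injective h.res := fun a b e => ι_inj (J := J) (i (by rw [← h.ι_res, ← h.ι_res, e]))
  exact U12.ext (i (congrArg U12.p0 e)) (r (congrArg U12.p5 e)) (i (congrArg U12.p4 e)) (i (congrArg U12.p2 e))
    (r (congrArg U12.p1 e)) (r (congrArg U12.p3 e))

theorem comm1 {K J : Type*} [CommRing K] [CommRing J] [Cub K J] [CharP K 2] [CharP J 2] (u : U12 J) {x : K}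
    (h : x * u.p5 = 0) : u * g1 x = g1 x * u := by
  ext <;> simp [g1, h, add_comm]

theorem cj_inj {k a b : G} : k * a * k⁻¹ = k * b * k⁻¹ ↔ a = b := by rw [mul_left_inj, mul_right_inj]

theorem isP_sup_comm {A B : Subgroup G} (hA : IsPGroup 2 A) (hB : IsPGroup 2 B)
    (c : ∀ a ∈ A, ∀ b ∈ B, a * b = b * a) : IsPGroup 2 (A ⊔ B : Subgroup G) :=
  hA.to_sup_of_normal_right' hB fun a ha => centralizer_le_normalizer _ fun b hb => (c a ha b hb).symm

end PW2F
open PW2F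

namespace WS
variable {S : St E G} {Y : Pin (E × E) G} {p₁ p₂ : FP E G} {A : Subgroup G} (h : WS S Y p₁ p₂ A)
include h
theorem noF {g m : G} (m2 : m * m = 1) {φ₀ : E ≃+* E} (h0 : φ₀ ≠ 1) (h1 : p₁.Act m φ₀)
    (h2 : p₂.Act m φ₀) : g * S.t * g⁻¹ ≠ m := fun hg => by
  have act := h.act_of h1 h2
  have φ2 : ∀ a, φ₀ (φ₀ a) = a := fun a =>
    DFunLike.congr_fun ((h1.mul h1).eq_one_of_mem p₁.inj (m2 ▸ one_mem _)) a
  obtain ⟨c, hc⟩ := exists_free φ₀ φ2 h0
  have cK : Nat.card (F0 φ₀ × F0 φ₀) = Nat.card F := by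
    rw [Nat.card_prod, ← pow_two]; exact card_fixF φ₀ φ2 h0
  have cJ : Nat.card (E0 φ₀ × E0 φ₀) = Nat.card F ^ 3 := by
    rw [Nat.card_prod, ← pow_two]; exact (G2S.card_fix φ₀ φ2 hc).trans S.cub
  let Y₀ := Y.comap (tc φ₀)
  have i₀ : Function.Injective Y₀.φ := h.inj.comp (map_inj _ (inc_inj φ₀))
  have cm : ∀ b ∈ Y₀.U, m * b = b * m := by
    rintro _ ⟨u, rfl⟩
    exact Y₀.comm_φ (fun i _ a => mul_inv_eq_iff_eq_mul.1 ((act.act i (inc φ₀ a)).trans
      (congrArg (Y.X i) (Prod.ext a.1.2 a.2.2)))) u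
  have mU : m ∉ Y₀.U := by
    rintro ⟨u, rfl⟩
    have := act.eq_one_of_mem h.inj (Y.φ_memU _)
    exact h0 (RingEquiv.ext fun a => congrArg Prod.fst (DFunLike.congr_fun this (a, a)))
  obtain ⟨T, hT⟩ := exists_isSylowIn 2 S.N1
  obtain ⟨d, hd, le⟩ := (St.sylT hT).exists_cj_le (R := (zpowers m ⊔ Y₀.U) ^ᶜ g⁻¹)
    ((isP_sup_comm (G2S.isP_zp m2) Y₀.U_isP (by
      rintro _ ⟨i, rfl⟩ b hb; exact (Commute.zpow_left (cm b hb) i).eq)).map _) (by
    rw [cj_le_iff]
    intro x hx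
    have : Commute x m := mem_centralizer_singleton_iff.1 ((sup_le (zpowers_le.2
      (mem_centralizer_singleton_iff.2 rfl)) fun b hb => mem_centralizer_singleton_iff.2 (cm b hb).symm :
        _ ≤ centralizer {m}) hx)
    rw [← hg] at this
    rw [mem_cj]
    exact S.mem_Ct.2 (by simpa [mul_assoc] using (this.conj g⁻¹).eq))
  rw [cj_cj] at le
  have km : d * g⁻¹ * m * (d * g⁻¹)⁻¹ = S.t := by
    rw [← hg]
    calc d * g⁻¹ * (g * S.t * g⁻¹) * (d * g⁻¹)⁻¹ = d * S.t * d⁻¹ := by group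
      _ = S.t := by rw [S.mem_Ct.1 hd, mul_inv_cancel_right]
  generalize d * g⁻¹ = k at le km
  have hJ : Y₀.U ≤ S.J ^ᶜ k⁻¹ := Y₀.U_le.2 fun i hi a => by
    obtain ⟨B, lE, sq, cE, m', -⟩ := Y₀.exists_elem i₀ hi
    rw [mem_cj, inv_inv]
    refine St.elem_le_J hT (A := (zpowers m ⊔ B) ^ᶜ k) ((cj_le_cj_iff.2 (sup_le_sup_left lE _)).trans le) ?_
      (by rw [card_cj, G2S.card_sup_zp m2 (fun c => mU (lE c)) fun b hb => cm b (lE hb), cE, cK, cJ, ← pow_add])
      (cj_mem k (mem_sup_right (m' a)))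
    rintro _ ⟨x, hx, rfl⟩
    show k * x * k⁻¹ * (k * x * k⁻¹) = 1
    rw [conj_mul, conj_eq_one_iff]
    rcases (G2S.mem_sup_zp m2 fun b hb => cm b (lE hb)).1 hx with c | c
    · exact sq x c
    · have := sq _ c
      have e : Commute m x := mul_left_cancel (a := m) (by rw [cm _ (lE c), mul_assoc])
      rwa [e.symm.mul_mul_mul_comm, m2, one_mul] at this
  have : ∀ w, ∃ u, ∃ e, (e = 1 ∨ e = S.t) ∧ k * Y₀.φ w * k⁻¹ = e * S.φ u := fun w => by
    have := hJ (Y₀.φ_memU w)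
    rw [mem_cj, inv_inv] at this
    obtain ⟨u, e | e⟩ := S.mem_J.1 this
    exacts [⟨u, 1, .inl rfl, by rw [e, one_mul]⟩, ⟨u, _, .inr rfl, e⟩]
  choose ϑ e he hθ using this
  have ce : ∀ w u, Commute (e w) (S.φ u) := fun w u =>
    (he w).elim (fun a => a ▸ Commute.one_left _) fun a => a ▸ S.t_comm (S.φ_mem u)
  have cc : ∀ v w, ϑ v * ϑ w = ϑ w * ϑ v ↔ v * w = w * v := fun v w => by
    rw [← i₀.eq_iff, ← cj_inj (k := k), map_mul, map_mul, ← conj_mul, ← conj_mul, hθ, hθ,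
      (ce w _).symm.mul_mul_mul_comm, (ce v _).symm.mul_mul_mul_comm, ← map_mul, ← map_mul, show e v * e w = e w * e v by
        rcases he v with a | a <;> rcases he w with b | b <;> simp [a, b], mul_right_inj, S.inj.eq_iff]
  have iθ : Function.Injective ϑ := fun v w a => by
    have : k * Y₀.φ (v * w⁻¹) * k⁻¹ = e v * (e w)⁻¹ := by
      rw [map_mul, map_inv, ← conj_mul, ← conj_inv, hθ, hθ, a]; group
    by_cases c : e v = e w
    · rwa [c, mul_inv_cancel, conj_eq_one_iff, map_eq_one_iff _ i₀, mul_inv_eq_one] at this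
    · refine absurd ⟨v * w⁻¹, cj_inj.1 (this.trans (Eq.trans ?_ km.symm))⟩ mU
      rcases he v with a | a <;> rcases he w with b | b
      · exact absurd (a.trans b.symm) c
      · rw [a, b, one_mul, S.t_inv]
      · rw [a, b, inv_one, mul_one]
      · exact absurd (a.trans b.symm) c
  let x : F0 φ₀ × F0 φ₀ := (1, 0)
  let y : F0 φ₀ × F0 φ₀ := (0, 1)
  have le := (Nat.card_le_card_of_injective (fun v : Bool × (E0 φ₀ × E0 φ₀) × (E0 φ₀ × E0 φ₀) ×
      (E0 φ₀ × E0 φ₀) × (F0 φ₀ × F0 φ₀) × (F0 φ₀ × F0 φ₀) =>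
    (⟨ϑ ⟨v.2.1, if v.1 then y else 0, v.2.2.1, v.2.2.2.1, v.2.2.2.2.1, v.2.2.2.2.2⟩,
      mem_centralizer_singleton_iff.2 ((cc _ _).2 (comm1 _ (by
        change x * (if v.1 then y else 0) = 0
        split_ifs <;> simp [x, y])))⟩ : centralizer {ϑ (g1 x)})) fun v w a => by
    have := iθ (congrArg Subtype.val a)
    rw [U12.mk.injEq] at this
    refine Prod.ext ?_ (Prod.ext this.1 (Prod.ext this.2.2.1 (Prod.ext this.2.2.2.1
      (Prod.ext this.2.2.2.2.1 this.2.2.2.2.2))))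
    have e := congrArg Prod.snd this.2.1
    cases hv : v.1 <;> cases hw : w.1 <;> rw [hv, hw] at e <;> simp [y] at e ⊢).trans (card_cent S.cub fun c => by
      obtain ⟨a, ea⟩ := mem_Z'.1 c
      have := congrArg U12.p3 ((cc (g1 x) (g5 x)).1 (by rw [ea, g3_comm]))
      simp [g1, g5, x] at this)
  rw [Nat.card_prod] at cK cJ
  simp only [Nat.card_prod, cK, cJ, Nat.card_eq_fintype_card (α := Bool), Fintype.card_bool] at le
  have := pow_pos (Nat.card_pos (α := F)) 11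
  have e : Nat.card F ^ 3 * (Nat.card F ^ 3 * (Nat.card F ^ 3 * (Nat.card F * Nat.card F))) = Nat.card F ^ 11 := by
    ring
  omega
end WS

end H89.D4S
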