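import Cfsg.Agent.Lib.D4S.PW2

/-! Standard components of type `³D₄(2ⁿ)`, package PW3: see `blueprint/D4S/README.md`. -/

set_option autoImplicit false
set_option linter.unusedSectionVars false

namespace H89.D4S
open Subgroup H69 U12
open H89.G2S (KK ιK σK exists_cj_mem)
open scoped commutatorElement

variable {F E G : Type*} [Field F] [Field E] [Cub F E] [CharP F 2] [CharP E 2] [Finite F] [Finite E]
  [Group G] [Finite G]

namespace PW3
variable {S : St E G} {Y : Pin (E × E) G} {p₁ p₂ : FP E G} {A : Subgroup G}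

/-- `m` is an involution that swaps the two factors -/
structure Sw (p₁ p₂ : FP E G) (m : G) (φ₁ φ₂ : E ≃+* E) : Prop where
  m2 : m * m = 1
  s1 : ∀ i a, m * p₂.X i a * m⁻¹ = p₁.X i (φ₁ a)
  s2 : ∀ i a, m * p₁.X i a * m⁻¹ = p₂.X i (φ₂ a)

variable {m : G} {φ₁ φ₂ : E ≃+* E}

theorem Sw.inv (s : Sw p₁ p₂ m φ₁ φ₂) : m⁻¹ = m := inv_eq_of_mul_eq_one_right s.m2

theorem Sw.cc (s : Sw p₁ p₂ m φ₁ φ₂) (x : G) : m * (m * x * m⁻¹) * m⁻¹ = x := by
  calc _ = m * m * x * (m * m)⁻¹ := by group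
    _ = x := by rw [s.m2]; group

theorem Sw.e21 (s : Sw p₁ p₂ m φ₁ φ₂) (a : E) : φ₂ (φ₁ a) = a :=
  Pin.X_inj p₂.inj (i := 2) rfl (by rw [← s.s2, ← s.s1, s.cc])

theorem Sw.mem (s : Sw p₁ p₂ m φ₁ φ₂) {x : G} (hx : x ∈ p₁.L) : m * x * m⁻¹ ∈ p₂.L := by
  have : p₁.L ≤ p₂.L.comap (MulAut.conj m).toMonoidHom := p₁.L_le.2 fun i a => by
    change m * p₁.X i a * m⁻¹ ∈ p₂.L
    rw [s.s2]; exact p₂.X_mem _ _
  exact this hx

/-- the diagonal embedding -/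
theorem diag (h : WS S Y p₁ p₂ A) (s : Sw p₁ p₂ m φ₁ φ₂) : ∃ π : p₁.L →* G,
    Function.Injective π ∧ (∀ x, π x = x * (m * x * m⁻¹)) ∧ ∀ x, π x * m = m * π x := by
  refine ⟨MonoidHom.mk' (fun x => x * (m * x * m⁻¹)) fun x y => ?_, fun x y e => ?_,
    fun _ => rfl, fun x => ?_⟩
  · have := h.commL y.2 (s.mem x.2)
    calc ((x * y : p₁.L) : G) * (m * (x * y : p₁.L) * m⁻¹)
        = x * (y * (m * x * m⁻¹)) * (m * y * m⁻¹) := by rw [coe_mul]; group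
      _ = _ := by rw [this]; group
  · exact Subtype.ext (h.uniq x.2 y.2 (s.mem x.2) (s.mem y.2) e).1
  · change (x : G) * (m * x * m⁻¹) * m = m * (x * (m * x * m⁻¹))
    rw [h.commL x.2 (s.mem x.2)]
    calc _ = m * x * (m⁻¹ * x * m) := by group
      _ = m * (x * (m * x * m⁻¹)) := by rw [s.inv]; group
      _ = _ := by rw [h.commL x.2 (s.mem x.2)]

/-- the conjugating element can be chosen to map `S.X` onto the diagonal of `m` -/
theorem adj (h : WS S Y p₁ p₂ A) {π : p₁.L →* G} (hi : Function.Injective π)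
    (hm : ∀ x, π x * m = m * π x) {g : G} (hg : g * S.t * g⁻¹ = m) :
    ∃ l ∈ S.L, ∃ ψ : E ≃+* E, (∀ x, (g * l)⁻¹ * π x * (g * l) ∈ S.L) ∧
      ∀ i a, g * l * S.X i (ψ a) * (g * l)⁻¹ = π ⟨p₁.X i a, p₁.X_mem i a⟩ := by
  obtain ⟨e, he⟩ := h.emb
  let Θ : S.L →* G := ((MulAut.conj g⁻¹).toMonoidHom.comp π).comp e.toMonoidHom
  have hΘ : ∀ x, Θ x = g⁻¹ * π (e x) * g := fun x => by simp [Θ]
  have inj : Function.Injective Θ := ((MulAut.conj g⁻¹).injective.comp hi).comp e.injective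
  have hC : Θ.range ≤ S.Ct := by
    rintro _ ⟨x, rfl⟩
    rw [S.mem_Ct, hΘ]
    calc _ = g⁻¹ * (π (e x) * (g * S.t * g⁻¹)) * g := by group
      _ = g⁻¹ * (g * S.t * g⁻¹ * π (e x)) * g := by rw [hg, hm]
      _ = _ := by group
  have top : ⁅(⊤ : Subgroup S.L), (⊤ : Subgroup S.L)⁆ = ⊤ := by
    apply map_injective S.L.subtype_injective
    rw [map_commutator, ← MonoidHom.range_eq_map, range_subtype, S.perfL]
  have hp : ⁅Θ.range, Θ.range⁆ = Θ.range := by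
    rw [MonoidHom.range_eq_map, ← map_commutator, top]
  have hL : ∀ x, Θ x ∈ S.L := by
    rintro ⟨x, hx⟩
    induction hx using closure_induction with
    | mem x hx =>
      obtain ⟨i, a, rfl⟩ := hx
      refine S.perf_le h.db hC hp ⟨_, rfl⟩ ?_
      exact (map_mul Θ _ _).symm.trans ((congrArg Θ (Subtype.ext (S.X_sq i a))).trans (map_one Θ))
    | one => exact (map_one Θ).symm ▸ one_mem _
    | mul x y hx hy a b => exact (map_mul Θ ⟨x, hx⟩ ⟨y, hy⟩).symm ▸ mul_mem a b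
    | inv x hx a => exact (map_inv Θ ⟨x, hx⟩).symm ▸ inv_mem a
  have inj' : Function.Injective (Θ.codRestrict S.L hL) := fun x y e' =>
    inj (congrArg Subtype.val e')
  obtain ⟨l, hl, ψ, hψ⟩ := S.aut (MulEquiv.ofBijective (Θ.codRestrict S.L hL)
    ⟨inj', Finite.surjective_of_injective inj'⟩)
  refine ⟨l, hl, ψ, fun x => ?_, fun i a => ?_⟩
  · have := mul_mem (mul_mem (inv_mem hl) (hL (e.symm x))) hl
    rw [hΘ, e.apply_symm_apply] at this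
    convert this using 1
    group
  · have : Θ ⟨S.X i a, S.X_mem i a⟩ = l * S.X i (ψ a) * l⁻¹ := hψ i a
    rw [hΘ, he] at this
    calc _ = g * (l * S.X i (ψ a) * l⁻¹) * g⁻¹ := by group
      _ = _ := by rw [← this]; group

theorem memNo (h : WS S Y p₁ p₂ A) (s : Sw p₁ p₂ m φ₁ φ₂) {π : p₁.L →* G}
    (hπ : ∀ x, π x = x * (m * x * m⁻¹)) {g : G} (hg : g * S.t * g⁻¹ = m) {ψ : E ≃+* E}
    (hL : ∀ x, g⁻¹ * π x * g ∈ S.L)
    (hX : ∀ i a, g * S.X i (ψ a) * g⁻¹ = π ⟨p₁.X i a, p₁.X_mem i a⟩) : g ∈ Y.No := by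
  have hY : ∀ i a, g * S.X i (ψ a) * g⁻¹ = Y.X i (a, φ₂ a) := fun i a => by
    rw [hX, hπ, h.X, ← s.s2]
  have hY' : ∀ i a, S.X i a = g⁻¹ * Y.X i (ψ.symm a, φ₂ (ψ.symm a)) * g := fun i a => by
    rw [← hY, ψ.apply_symm_apply]; group
  have h1 : ∀ i, g * S.X i 1 = S.X i 1 * g := fun i => by
    have := hY i 1
    rw [map_one, map_one, h.X, ← h.SX] at this
    exact mul_inv_eq_iff_eq_mul.1 this
  refine h.toBig.na h1 ?_ fun c => ⟨_, fun i => by rw [← hY, ψ.apply_symm_apply]⟩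
  have d0 : ∀ k, S.D0 (g⁻¹ * Y.X 3 k * g) := fun k => by
    refine ⟨fun x hx => ?_, T (ψ (k.1 + φ₁ k.2)), ?_⟩
    · obtain ⟨u, hu, rfl⟩ := S.mem_Q.1 hx
      refine S.comm_φQ (fun i _ hi a => ?_) hu
      have := Y.X3_comm_P0 k (Y.X_memP (i := i) (le_trans hi (by decide)) (ψ.symm a, φ₂ (ψ.symm a)))
      rw [hY']
      calc _ = g⁻¹ * (Y.X 3 k * Y.X i (ψ.symm a, φ₂ (ψ.symm a))) * g := by group
        _ = _ := by rw [this]; group
    · rw [S.X_T rfl]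
      have e1 : m * Y.X 3 k * m⁻¹ = Y.X 3 (φ₁ k.2, φ₂ k.1) := by
        rw [h.X, h.X, ← s.s1, ← s.s2, h.comm]; group
      have e2 : Y.X 3 (φ₁ k.2, φ₂ k.1) * Y.X 3 k = g * S.X 3 (ψ (k.1 + φ₁ k.2)) * g⁻¹ := by
        rw [hY, ← Y.X_add, map_add, s.e21]
        congr 1
        ext <;> simp [add_comm]
      calc _ = g⁻¹ * (Y.X 3 k * (g * S.t * g⁻¹) * (Y.X 3 k)⁻¹) * g := by group
        _ = g⁻¹ * (m * (m * Y.X 3 k * m⁻¹ * Y.X 3 k)) * g := by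
          rw [hg, Y.X_inv, ← mul_assoc m, s.inv]
          congr 2
          calc _ = m * m * Y.X 3 k * m * Y.X 3 k := by rw [s.m2, one_mul]
            _ = _ := by group
        _ = _ := by rw [e1, e2, ← hg]; group
  have k1 : ∀ k, Y.X 3 k * m ≠ m * Y.X 3 k → g⁻¹ * Y.X 3 k * g ∈ Y.Z := fun k o => by
    refine h.uz _ (d0 k) ?_ fun e => o ?_
    · calc _ = g⁻¹ * (Y.X 3 k * Y.X 3 k) * g := by group
        _ = 1 := by rw [Y.X_sq]; group
    · rw [← hg]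
      calc _ = g * (g⁻¹ * Y.X 3 k * g * S.t) * g⁻¹ := by group
        _ = _ := by rw [e]; group
  have k0 : Y.X 3 (1, 0) * m ≠ m * Y.X 3 (1, 0) := fun e => by
    have := s.s2 3 1
    rw [← h.X1, ← e, mul_inv_cancel_right, h.X1, map_one] at this
    exact p₁.z_ne (h.disj _ (p₁.X_mem 3 1) (this ▸ p₂.X_mem 3 1))
  rw [← inv_mem_iff]
  refine Subgroup.mem_normalizer_fintype fun x hx => ?_
  obtain ⟨k, rfl⟩ := Y.mem_Z.1 hx
  rw [inv_inv]
  by_cases o : Y.X 3 (ι k) * m = m * Y.X 3 (ι k)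
  · have := mul_mem (k1 (ι k + (1, 0)) fun e => k0 (by
      rw [Y.X_add, mul_assoc, ← mul_assoc m, ← o, mul_assoc] at e
      exact mul_left_cancel e)) (k1 _ k0)
    refine Set.mem_of_eq_of_mem ?_ this
    rw [Y.X_add]
    calc _ = g⁻¹ * (Y.X 3 (ι k) * (Y.X 3 (1, 0) * Y.X 3 (1, 0))) * g := by rw [Y.X_sq, mul_one]
      _ = _ := by group
  · exact k1 _ o

end PW3

namespace WS
variable {S : St E G} {Y : Pin (E × E) G} {p₁ p₂ : FP E G} {A : Subgroup G} (h : WS S Y p₁ p₂ A)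
include h
theorem fixW : Fix S Y := by
  intro g hg
  have t2 : ∀ g : G, g * S.t * g⁻¹ * (g * S.t * g⁻¹) = 1 := fun g => by
    calc _ = g * (S.t * S.t) * g⁻¹ := by group
      _ = 1 := by rw [S.tt]; group
  obtain ⟨c, hc, hcS⟩ := exists_cj_mem h.toTop.syl hg (t2 g)
  obtain ⟨u, m, hm, e⟩ := h.toTop.mem_S.1 hcS
  have e' : c * g * S.t * (c * g)⁻¹ = Y.φ u * m := by rw [← e]; group
  have u2 : Y.φ u * m * (Y.φ u * m) = 1 := by rw [← e']; exact t2 _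
  obtain ⟨φ₁, φ₂, ⟨a1, a2, -⟩ | ⟨a1, a2, a3⟩⟩ := h.kinds (h.sylA.le hm)
  · exact absurd e' (h.noT hm a1 a2)
  have s : PW3.Sw p₁ p₂ m φ₁ φ₂ := ⟨h.toTop.invol hm u2, a1, a2⟩
  obtain ⟨y, hy⟩ := Pin.lang h.inj a3 s.m2 (c := (1, 0)) (by ext <;> simp) u2
  have e1 : Y.φ y * (c * g) * S.t * (Y.φ y * (c * g))⁻¹ = m := by rw [← hy, ← e']; group
  obtain ⟨π, p1, p2, p3⟩ := PW3.diag h s
  obtain ⟨l, hl, ψ, b1, b2⟩ := PW3.adj h p1 p3 e1
  have := PW3.memNo h s p2 (by rw [← e1, mul_assoc _ l, ← S.t_comm hl]; group) b1 b2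
  have LM : Y.L ≤ Y.M := le_sup_left
  have m1 : Y.φ y * (c * g) * l ∈ Y.M := (le_sup_right : Y.No ≤ Y.M) this
  rwa [mul_mem_cancel_right (LM (h.toBig.L_le hl)), mul_mem_cancel_left (LM (Y.φ_mem y)),
    mul_mem_cancel_left hc] at m1
end WS

end H89.D4S
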