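import Cfsg.Agent.Lib.D4S.PW3
import Cfsg.Agent.Lib.D4S.PW1E
import Cfsg.Agent.Lib.D4S.PW2
import Cfsg.Agent.Lib.D4S.Inv

/-! Standard components of type `³D₄(2ⁿ)`, package PW4: see `blueprint/D4S/README.md`. -/

set_option autoImplicit false
set_option linter.unusedSectionVars false

namespace H89.D4S
open Subgroup H69 U12
open H89.G2S (KK ιK σK)
open scoped commutatorElement

variable {F E G : Type*} [Field F] [Field E] [Cub F E] [CharP F 2] [CharP E 2] [Finite F] [Finite E]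
  [Group G] [Finite G]

open PW1 PW1E

namespace WS
variable {S : St E G} {Y : Pin (E × E) G} {p₁ p₂ : FP E G} {A : Subgroup G} (h : WS S Y p₁ p₂ A)
include h
theorem cz {a b : F} (hc : IsConj (p₁.X 3 1) (p₁.X 3 (ι a) * p₂.X 3 (ι b))) : a = 0 ∨ b = 0 := by
  obtain ⟨g, hg⟩ := isConj_iff.1 hc
  have cU : ∀ k, Y.X 3 k ∈ 𝐂(Y.U) := fun k => by
    rintro _ ⟨u, rfl⟩; exact (Y.X3_comm_φ k u).symm
  obtain ⟨n, -, hn, e⟩ := H89.G2S.burnW (H := ⊤) (h.toTop.sylG h.fixW) le_sup_left (fun g _ le =>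
    eq_of_le_of_card_ge (by rintro _ ⟨x, hx, rfl⟩; exact h.wcU (fun x hx => le (cj_mem g hx)) x hx)
      (card_cj _ g).ge) (mem_top g) (h.X1 3 1 ▸ cU _) (by rw [hg, ← h.X]; exact cU _)
  obtain ⟨ψ, i, hψ⟩ := exists_ψ h
  have : ∀ w, ∃ w', n * ψ w * n⁻¹ = ψ w' := fun w => by
    obtain ⟨u, v, e⟩ := h.mem_U.1 (conj_mem_of_mem_normalizer hn (h.mem_U.2 ⟨_, _, hψ w⟩))
    exact ⟨(u, v), e.trans (hψ (u, v)).symm⟩
  choose η hη using this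
  have e1 : ((g3 a, g3 b) : U12 E × U12 E) = ⁅η (g5 1, 1), η (g1 1, 1)⁆ := i (by
    rw [map_commutatorElement, ← hη, ← hη, ← conjugate_commutatorElement, hψ, hψ, hψ, p₁.φ3', p₂.φ3',
      ← hg, ← e]
    simp only [map_one, mul_one, p₁.φ5', p₁.φ1', Pin.comm51'])
  have k : ∀ {c : F} {x y : U12 E}, y ∈ Z E → g3 c = ⁅x, y⁆ → c = 0 := fun hy e => by
    obtain ⟨d, rfl⟩ := mem_Z'.1 hy
    rw [commutatorElement_eq_one_iff_mul_comm.2 (g3_comm d _).symm] at e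
    exact congrArg U12.p3 e
  by_cases c1 : (η (g1 1, 1)).1 ∈ Z E
  · exact .inl (k c1 (congrArg Prod.fst e1))
  refine .inr (k (by_contra fun c2 => ?_) (congrArg Prod.snd e1))
  have cm : ∀ v : (E × E × E × F × F) × U12 E,
      η (⟨v.1.1, 0, v.1.2.1, v.1.2.2.1, v.1.2.2.2.1, v.1.2.2.2.2⟩, v.2) * η (g1 1, 1) =
        η (g1 1, 1) * η (⟨v.1.1, 0, v.1.2.1, v.1.2.2.1, v.1.2.2.2.1, v.1.2.2.2.2⟩, v.2) := fun v => i (by
    rw [map_mul, map_mul, ← hη, ← hη, conj_mul, conj_mul, ← map_mul, ← map_mul]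
    congr 3
    exact Prod.ext (by simp only [Prod.fst_mul]; u12) (by simp))
  have le := Nat.card_le_card_of_injective (fun v : (E × E × E × F × F) × U12 E =>
    ((⟨_, mem_centralizer_singleton_iff.2 (congrArg Prod.fst (cm v))⟩,
      ⟨_, mem_centralizer_singleton_iff.2 (congrArg Prod.snd (cm v))⟩) :
      centralizer {(η (g1 1, 1)).1} × centralizer {(η (g1 1, 1)).2})) fun v w e => by
    have := congrArg ψ (Prod.ext (congrArg (·.1.1) e) (congrArg (·.2.1) e) : η _ = η _)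
    rw [← hη, ← hη, cjinj, i.eq_iff, Prod.mk.injEq, U12.mk.injEq] at this
    exact Prod.ext (Prod.ext this.1.1 (Prod.ext this.1.2.2.1 (Prod.ext this.1.2.2.2.1
      (Prod.ext this.1.2.2.2.2.1 this.1.2.2.2.2.2)))) this.2
  simp only [Nat.card_prod, U12.card] at le
  have := le.trans (Nat.mul_le_mul (card_cent p₁.cub c1) (card_cent p₁.cub c2))
  rw [p₁.cub, ← pow_add, show ∀ q : ℕ, q ^ 3 * (q ^ 3 * (q ^ 3 * (q * q))) * ((q ^ 3) ^ 3 * q ^ 3) = q ^ 23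
    from fun q => by ring] at this
  exact absurd ((Nat.pow_le_pow_iff_right (two_le_card F)).1 this) (by omega)
theorem cz' {a b : G} (ha : a ∈ p₁.EA) (hb : b ∈ p₂.EA) (hc : IsConj (p₁.X 3 1) (a * b)) :
    a = 1 ∨ b = 1 := by
  obtain ⟨u, hu, rfl⟩ := ha
  obtain ⟨v, hv, rfl⟩ := hb
  by_contra n
  rw [not_or] at n
  obtain ⟨l, hl, e⟩ := p₁.inv_lng (Lng.of_EA hu) fun c => n.1 (by rw [c, map_one])
  obtain ⟨l', hl', e'⟩ := p₂.inv_lng (Lng.of_EA hv) fun c => n.2 (by rw [c, map_one])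
  have := h.cz (a := 1) (b := 1) (hc.trans (isConj_iff.2 ⟨l * l', by
    rw [cj_mul h hl hl' (p₁.φ_mem u) (p₂.φ_mem v), e, e', map_one]⟩))
  exact this.elim one_ne_zero one_ne_zero
theorem mem_SP {x : G} (hx : x ∈ Y.U ⊔ A) (hc : x * p₁.X 3 1 = p₁.X 3 1 * x) :
    ∃ u, ∃ m ∈ A, ∃ φ₁ φ₂, p₁.Act m φ₁ ∧ p₂.Act m φ₂ ∧ x = Y.φ u * m :=
  PW1E.mem_SP h hx hc
theorem sylP : IsSylowIn 2 ((Y.U ⊔ A) ⊓ centralizer {p₁.X 3 1}) (centralizer {p₁.X 3 1}) := by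
  have s := h.toTop.sylG h.fixW
  obtain ⟨R, hR, le⟩ := exists_isSylowIn_le (s.isP.to_le inf_le_left)
    (inf_le_right : (Y.U ⊔ A) ⊓ centralizer {p₁.X 3 1} ≤ _)
  refine (le.eq_or_lt.resolve_right fun lt => ?_) ▸ hR
  have c1 := idx1 h (B := Y.U ⊔ A) le_rfl
  obtain ⟨d, hd⟩ := card_dvd_of_le le
  have d2 : 2 ≤ d := by
    have := Nat.card_pos (α := R)
    rcases d with _ | _ | d
    · omega
    · exact absurd (eq_of_le_of_card_ge le (by omega)) lt.ne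
    · omega
  obtain ⟨g, -, e⟩ := (s.of_card_le hR.isP le_top (c1.trans (by
    rw [hd, mul_comm]
    exact Nat.mul_le_mul_left _ d2))).conj s
  have m : p₁.X 3 1 ∈ R := le ⟨mem_sup_left (S := Y.U) (h.X1 3 1 ▸ Y.X_memU (by decide) _),
    mem_centralizer_singleton_iff.2 rfl⟩
  obtain ⟨a, ea⟩ := h.toTop.cent_S (e ▸ cj_mem g m) fun x hx => by
    rw [← e] at hx
    obtain ⟨y, hy, rfl⟩ := hx
    exact ((show Commute y _ from mem_centralizer_singleton_iff.1 (hR.le hy)).symm.conj g).eq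
  rw [(h.cz (isConj_iff.2 ⟨g, ea.trans (h.SX 3 (ι a))⟩)).elim id id, map_zero, Pin.X_zero,
    conj_eq_one_iff] at ea
  exact p₁.z_ne ea
theorem extP {y : G} (hy : IsConj (p₁.X 3 1) y) {P : Subgroup G} (hP : IsPGroup 2 P)
    (hc : ∀ p ∈ P, p * y = y * p) : ∃ k, k * y * k⁻¹ = p₁.X 3 1 ∧
      ∀ p ∈ P, k * p * k⁻¹ ∈ Y.U ⊔ A ∧ k * p * k⁻¹ * p₁.X 3 1 = p₁.X 3 1 * (k * p * k⁻¹) := by
  obtain ⟨g, e⟩ := isConj_iff.1 hy.symm
  obtain ⟨k, a, b⟩ := H89.G2S.ext_cent h.sylP e hP hc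
  exact ⟨k, a, fun p hp => ⟨(b p hp).1, mem_centralizer_singleton_iff.1 (b p hp).2⟩⟩
theorem notD {y : G} (hy : IsConj (p₁.X 3 1) y) : y * S.t ≠ S.t * y := fun e => by
  obtain ⟨k, -, b⟩ := h.extP hy (H89.G2S.isP_zp S.tt) fun p hp => by
    obtain ⟨i, rfl⟩ := hp
    exact (Commute.zpow_left e.symm i).eq
  obtain ⟨u, m, hm, φ₁, φ₂, h1, h2, e⟩ := h.mem_SP (b _ (mem_zpowers _)).1 (b _ (mem_zpowers _)).2
  exact h.noT hm h1 h2 e
theorem sz : ¬ IsConj (S.X 2 1) (S.X 3 1) := fun c => by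
  obtain ⟨l, hl, e⟩ := h.toTop.sz0 h.fixW c
  obtain ⟨a, ha, b, hb, rfl⟩ := h.mem_L.1 hl
  obtain ⟨c, d, e⟩ := h.mem_Z.1 e
  refine p₁.nc a ha (p₁.mem_Z.2 ⟨c, (h.uniq (p₁.X_mem 3 _) (mul_mem (mul_mem ha (p₁.X_mem 2 1)) (inv_mem ha))
    (p₂.X_mem 3 (ι d)) (mul_mem (mul_mem hb (p₂.X_mem 2 1)) (inv_mem hb)) ?_).1⟩)
  rw [← e, h.SX, cj_mul h ha hb (p₁.X_mem 2 1) (p₂.X_mem 2 1)]
end WS

end H89.D4S
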