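import Cfsg.Agent.Lib.D4S.PW5A

/-! Standard components of type `³D₄(2ⁿ)`, package PW5: see `blueprint/D4S/README.md`. -/

set_option autoImplicit false
set_option linter.unusedSectionVars false

namespace H89.D4S
open Subgroup H69 U12
open H89.G2S (KK ιK σK)
open scoped commutatorElement

variable {F E G : Type*} [Field F] [Field E] [Cub F E] [CharP F 2] [CharP E 2] [Finite F] [Finite E]
  [Group G] [Finite G]

namespace PW5
open PW5A

theorem s_z (P : FP E G) (a : F) : IsConj (P.X 2 1) (P.X 2 1 * P.X 3 (ι a)) := by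
  refine isConj_iff.2 ⟨P.X 4 (ι a), ?_⟩
  rw [← P.φ2, ← P.φ3', ← P.φ4, ← map_inv, ← map_mul, ← map_mul, ← map_mul]
  congr 1; u12

variable {S : St E G} {Y : Pin (E × E) G} {p₁ p₂ : FP E G} {A : Subgroup G} (h : WS S Y p₁ p₂ A)
include h

theorem zb {a : G} (ha : a ∈ p₁.L) {w : F} (hw : w ≠ 0) :
    IsConj (a * p₂.X 3 (ι w)) (a * p₂.X 3 1) := by
  obtain ⟨l, hl, e⟩ := p₂.conj_long 3 rfl hw
  exact e ▸ cjR h ha (p₂.X_mem _ _) hl

theorem caseA {w : F} (hw : w ≠ 0) : ¬ IsConj (p₁.X 3 1) (p₁.X 2 1 * p₂.X 3 (ι w)) := fun hc =>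
  h.s1z2 (hc.trans (zb h (p₁.X_mem _ _) hw))

theorem mixed {x y : G} (hx : x ∈ p₁.L) (hy : y ∈ p₂.L) (hc : IsConj (p₁.X 3 1) (x * y)) :
    x = 1 ∨ y = 1 := by
  have h2 := sq_of hc (p₁.X_sq 3 1)
  have e : x * x * (y * y) = 1 * 1 := by
    rw [mul_one, ← h2, mul_assoc, ← mul_assoc x y y, h.commL hx hy, mul_assoc, ← h.commL hx hy,
      mul_assoc]
  obtain ⟨x2, y2⟩ := h.uniq (mul_mem hx hx) (one_mem _) (mul_mem hy hy) (one_mem _) e
  rcases p₁.inv_L hx x2 with f | ⟨l, hl, f⟩ | ⟨l, hl, f⟩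
  · exact Or.inl f
  all_goals
    rcases p₂.inv_L hy y2 with g | ⟨l', hl', g⟩ | ⟨l', hl', g⟩
    · exact Or.inr g
    all_goals
      have := hc.trans (cj2 h hx hy hl hl')
      rw [f, g] at this
      exfalso
  · exact h.notD this (by rw [← h.SX]; exact (S.tX _ _).symm)
  · exact h.s1z2 (this.trans (swap h _ _ _ _))
  · exact h.s1z2 this
  · exact h.notD this (by rw [← h.SX]; exact (S.tX _ _).symm)

theorem caseB : ¬ IsConj (p₁.X 3 1) (p₁.X 2 1) := fun hc => by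
  obtain ⟨k, e, hk⟩ := h.extP hc (P_isP h) (P_comm' h)
  have w2 := (h.wcR fun x hx => (hk x hx).1).1
  rcases h.zz w2 with f | f
  · obtain ⟨a, ha⟩ := f 1
    rw [map_one] at ha
    have e' : p₁.X 2 1 = p₂.X 3 (ι a) := mul_left_cancel (mul_right_cancel (e.trans ha.symm))
    exact X_ne1 p₁ 2 (h.disj _ (p₁.X_mem _ _) (e' ▸ p₂.X_mem _ _))
  obtain ⟨a, hb⟩ := f 1
  rw [map_one] at hb
  have a0 : a ≠ 0 := by
    rintro rfl
    exact X_ne1 p₂ 3 (by rw [← hb]; simp)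
  obtain ⟨u₁, u₂, hu⟩ := h.mem_U.1 (w2 _ (p₂.X_memU (i := 2) (by decide) 1))
  have c2 := hc.trans (cX h 2 1)
  have h1 : p₁.φ u₁ = 1 := by
    refine by_contra fun n => ?_
    have a1 := (mixed h (p₁.φ_mem u₁) (p₂.φ_mem u₂) (hu ▸ c2.trans (cj _ k))).resolve_left n
    have a2 := (mixed h (p₁.φ_mem u₁) (mul_mem (p₂.φ_mem u₂) (p₂.X_mem 3 1)) (by
      rw [← mul_assoc, ← hu, ← hb, conj_mul]
      exact (c2.trans (s_z p₂ a)).trans (cj _ k))).resolve_left n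
    rw [a1, one_mul] at a2
    exact X_ne1 p₂ 3 a2
  rw [h1, one_mul] at hu
  have c3 : IsConj (S.X 2 1) (p₁.X 3 1 * p₂.φ u₂) := by
    rw [h.SX, ← e, ← hu, conj_mul]; exact cj _ k
  refine h.sz (c3.trans ?_)
  rw [h.SX]
  rcases p₂.inv_L (p₂.φ_mem u₂) (sq_of (hu ▸ cj _ k) (p₂.X_sq 2 1)) with g | ⟨l, hl, g⟩ | ⟨l, hl, g⟩
  · rw [g] at hu
    exact absurd (by simpa using hu) (X_ne1 p₂ 2)
  · exact g ▸ cjR h (p₁.X_mem _ _) (p₂.φ_mem u₂) hl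
  · refine (g ▸ cjR h (p₁.X_mem _ _) (p₂.φ_mem u₂) hl).trans ((swap h 3 2 1 1).trans
      ((zb h (p₁.X_mem _ _) a0).symm.trans ((cj _ k).trans ?_)))
    rw [← conj_mul, e, hb]

end PW5

open PW5A PW5

namespace WS
variable {S : St E G} {Y : Pin (E × E) G} {p₁ p₂ : FP E G} {A : Subgroup G} (h : WS S Y p₁ p₂ A)
include h
theorem inner {u₁ u₂ : U12 E} (hc : IsConj (p₁.X 3 1) (p₁.φ u₁ * p₂.φ u₂)) :
    (Lng u₁ ∧ u₂ = 1) ∨ (u₁ = 1 ∧ Lng u₂) := by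
  have h2 := sq_of hc (p₁.X_sq 3 1)
  rcases mixed h (p₁.φ_mem u₁) (p₂.φ_mem u₂) hc with f | f
  · rw [f, one_mul] at hc h2
    refine Or.inr ⟨p₁.inj (f.trans (map_one _).symm), by_contra fun n => ?_⟩
    obtain ⟨l, -, e⟩ := p₂.inv_short (p₂.inj (by rw [map_mul, h2, map_one])) n
    exact caseB h ((hc.trans (e ▸ cj _ l)).trans (cX h 2 1).symm)
  · rw [f, mul_one] at hc h2
    refine Or.inl ⟨by_contra fun n => ?_, p₂.inj (f.trans (map_one _).symm)⟩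
    obtain ⟨l, -, e⟩ := p₁.inv_short (p₁.inj (by rw [map_mul, h2, map_one])) n
    exact caseB h (hc.trans (e ▸ cj _ l))
theorem s1z : ¬ IsConj (p₁.X 2 1) (S.X 3 1) := by
  intro hc
  obtain ⟨g, hg⟩ := isConj_iff.1 hc
  obtain ⟨k, e, hk⟩ := H89.G2S.ext_cent (h.toTop.sylC h.fixW) hg (P_isP h) (P_comm' h)
  have key : ∀ (a : F) x, x ≠ 1 → k * p₂.X 3 (ι a) * k⁻¹ = x → ¬ IsConj (p₁.X 3 1) (S.X 3 1 * x) :=
    fun a x x1 ha c => caseA h (w := a) (fun a0 => x1 (by rw [← ha, a0]; simp))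
      (c.trans (by rw [← e, ← ha, conj_mul]; exact (cj _ k).symm))
  rcases h.zz (h.wcR hk).1 with f | f
  · obtain ⟨a, ha⟩ := f 1
    rw [map_one] at ha
    refine key a _ (X_ne1 p₁ 3) ha ?_
    rw [h.SX, h.comm, mul_assoc, p₁.X_sq, mul_one]
    exact cX h 3 1
  · obtain ⟨a, ha⟩ := f 1
    rw [map_one] at ha
    refine key a _ (X_ne1 p₂ 3) ha ?_
    rw [h.SX, mul_assoc, p₂.X_sq, mul_one]
end WS

end H89.D4S
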