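import Cfsg.Agent.Lib.D4S.PW4
import Cfsg.Agent.Lib.D4S.Inv

/-! Standard components of type `³D₄(2ⁿ)`, package PW5A: see `blueprint/D4S/README.md`. -/

set_option autoImplicit false
set_option linter.unusedSectionVars false

namespace H89.D4S
open Subgroup H69 U12
open H89.G2S (KK ιK σK)
open scoped commutatorElement

variable {F E G : Type*} [Field F] [Field E] [Cub F E] [CharP F 2] [CharP E 2] [Finite F] [Finite E]
  [Group G] [Finite G]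

namespace PW5A

theorem cj (x k : G) : IsConj x (k * x * k⁻¹) := isConj_iff.2 ⟨k, rfl⟩

theorem sq_of {x y : G} (h : IsConj x y) (hx : x * x = 1) : y * y = 1 := by
  obtain ⟨k, rfl⟩ := isConj_iff.1 h
  rw [conj_mul, hx]; simp

theorem X_ne (P : FP E G) (i : Fin 12) {a : F} (ha : a ≠ 0) : P.X i (ι a) ≠ 1 := fun e =>
  ha (Pin.X_injι P.inj i (e.trans (by rw [map_zero, P.X_zero])))

theorem X_ne1 (P : FP E G) (i : Fin 12) : P.X i 1 ≠ 1 := by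
  simpa using X_ne P i (one_ne_zero (α := F))

theorem cj_comm (k x y : G) : k * ⁅x, y⁆ * k⁻¹ = ⁅k * x * k⁻¹, k * y * k⁻¹⁆ :=
  conjugate_commutatorElement x y k

theorem EA_long (P : FP E G) {x : G} (hx : x ∈ P.EA) (h1 : x ≠ 1) :
    ∃ l ∈ P.L, l * x * l⁻¹ = P.X 3 1 := by
  obtain ⟨u, hu, rfl⟩ := hx
  exact P.inv_lng (Lng.of_EA hu) fun e => h1 (by rw [e, map_one])

theorem EA_le_L (P : FP E G) : P.EA ≤ P.L :=
  P.EA_le_E2.trans (P.E2_le_Q.trans (P.Q_le_U.trans P.U_le_L))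

variable {S : St E G} {Y : Pin (E × E) G} {p₁ p₂ : FP E G} {A : Subgroup G} (h : WS S Y p₁ p₂ A)
include h

theorem cj2 {a b l l' : G} (ha : a ∈ p₁.L) (hb : b ∈ p₂.L) (hl : l ∈ p₁.L) (hl' : l' ∈ p₂.L) :
    IsConj (a * b) (l * a * l⁻¹ * (l' * b * l'⁻¹)) := by
  refine isConj_iff.2 ⟨l * l', ?_⟩
  have e1 : l' * a * l'⁻¹ = a := by rw [← h.commL ha hl', mul_inv_cancel_right]
  have e2 : l * (l' * b * l'⁻¹) * l⁻¹ = l' * b * l'⁻¹ := by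
    rw [h.commL hl (mul_mem (mul_mem hl' hb) (inv_mem hl')), mul_inv_cancel_right]
  calc l * l' * (a * b) * (l * l')⁻¹
      = l * (l' * a * l'⁻¹) * l⁻¹ * (l * (l' * b * l'⁻¹) * l⁻¹) := by group
    _ = _ := by rw [e1, e2]

theorem cjL {a b l : G} (ha : a ∈ p₁.L) (hb : b ∈ p₂.L) (hl : l ∈ p₁.L) :
    IsConj (a * b) (l * a * l⁻¹ * b) := by simpa using cj2 h ha hb hl (one_mem _)

theorem cjR {a b l : G} (ha : a ∈ p₁.L) (hb : b ∈ p₂.L) (hl : l ∈ p₂.L) :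
    IsConj (a * b) (a * (l * b * l⁻¹)) := by simpa using cj2 h ha hb (one_mem _) hl

theorem cX (i : Fin 12) (a : E) : IsConj (p₁.X i a) (p₂.X i a) := h.tX1 i a ▸ cj _ _

theorem EA1 {x : G} (hx : x ∈ p₁.EA) (h1 : x ≠ 1) : IsConj (p₁.X 3 1) x := by
  obtain ⟨l, -, e⟩ := EA_long p₁ hx h1
  exact (e ▸ cj _ l).symm

theorem EA2 {x : G} (hx : x ∈ p₂.EA) (h1 : x ≠ 1) : IsConj (p₁.X 3 1) x := by
  obtain ⟨l, -, e⟩ := EA_long p₂ hx h1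
  exact (cX h 3 1).trans (e ▸ cj _ l).symm

theorem long2 (i : Fin 12) (hi : i.val % 2 = 1) {a : F} (ha : a ≠ 0) :
    IsConj (p₁.X 3 1) (p₂.X i (ι a)) := by
  obtain ⟨l, -, e⟩ := p₂.conj_long i hi ha
  exact (cX h 3 1).trans (e ▸ cj _ l).symm

theorem swap (i j : Fin 12) (a b : E) :
    IsConj (p₁.X i a * p₂.X j b) (p₁.X j b * p₂.X i a) := by
  refine isConj_iff.2 ⟨S.t, ?_⟩
  rw [← conj_mul, h.tX1, h.tX2, h.comm]

theorem U1_le : p₁.U ≤ Y.U := by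
  rintro _ ⟨u, rfl⟩; exact h.mem_U.2 ⟨u, 1, by simp⟩

theorem U2_le : p₂.U ≤ Y.U := by
  rintro _ ⟨u, rfl⟩; exact h.mem_U.2 ⟨1, u, by simp⟩

theorem P_isP : IsPGroup 2 (p₁.R ⊔ p₂.U : Subgroup G) :=
  Y.U_isP.to_le (sup_le (p₁.R_le_U.trans (U1_le h)) (U2_le h))

theorem P_comm (w : E) : ∀ p ∈ p₁.R ⊔ p₂.U, p * (p₁.X 2 1 * p₂.X 3 w) = p₁.X 2 1 * p₂.X 3 w * p := by
  have : p₁.R ⊔ p₂.U ≤ centralizer {p₁.X 2 1 * p₂.X 3 w} := sup_le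
    (fun p hp => mem_centralizer_singleton_iff.2 (Commute.mul_right (p₁.R_comm hp) (h.commL
      (p₁.U_le_L (p₁.R_le_U hp)) (p₂.X_mem _ _))).eq)
    (by
      rintro _ ⟨u, rfl⟩
      exact mem_centralizer_singleton_iff.2 (Commute.mul_right
        (h.commL (p₁.X_mem _ _) (p₂.φ_mem u)).symm (p₂.X3_comm_φ w u).symm).eq)
  exact fun p hp => mem_centralizer_singleton_iff.1 (this hp)

theorem P_comm' : ∀ p ∈ p₁.R ⊔ p₂.U, p * p₁.X 2 1 = p₁.X 2 1 * p := by simpa using P_comm h 0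

/-- a fourfold commutator is transported into the first factor -/
theorem tr4 {k y a b c d : G} (e : k * y * k⁻¹ = p₁.X 3 1) (ha : k * a * k⁻¹ ∈ Y.U)
    (hb : k * b * k⁻¹ ∈ Y.U) (hc : k * c * k⁻¹ ∈ Y.U) (hd : k * d * k⁻¹ ∈ Y.U)
    (c1 : IsConj (p₁.X 3 1) ⁅⁅⁅a, b⁆, c⁆, d⁆) (c2 : IsConj (p₁.X 3 1) (y * ⁅⁅⁅a, b⁆, c⁆, d⁆)) :
    k * ⁅⁅⁅a, b⁆, c⁆, d⁆ * k⁻¹ ∈ p₁.EA := by
  have hx : k * ⁅⁅⁅a, b⁆, c⁆, d⁆ * k⁻¹ ∈ Y.EA := by
    obtain ⟨v1, e1⟩ := ha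
    obtain ⟨v2, e2⟩ := hb
    obtain ⟨v3, e3⟩ := hc
    obtain ⟨v4, e4⟩ := hd
    simp only [cj_comm, ← e1, ← e2, ← e3, ← e4]
    simp only [← map_commutatorElement]
    have := gamma4 v1 v2 v3 v4
    generalize ⁅⁅⁅v1, v2⁆, v3⁆, v4⁆ = w at this ⊢
    exact ⟨w, this, rfl⟩
  obtain ⟨u, hu, v, hv, e1⟩ := h.mem_EA.1 hx
  have k1 := h.cz' hu hv (e1 ▸ c1.trans (cj _ k))
  have k2 := h.cz' (mul_mem (p₁.Z_le_EA (p₁.X3_mem 1)) hu) hv (by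
    rw [mul_assoc, ← e1, ← e, conj_mul, e]
    exact c2.trans (cj _ k))
  have v1 : v = 1 := by
    refine by_contra fun n => p₁.z_ne ?_
    simpa [k1.resolve_right n] using k2.resolve_right n
  rw [e1, v1, mul_one]
  exact hu

end PW5A

open PW5A

namespace WS
variable {S : St E G} {Y : Pin (E × E) G} {p₁ p₂ : FP E G} {A : Subgroup G} (h : WS S Y p₁ p₂ A)
include h
theorem s1z2 : ¬ IsConj (p₁.X 3 1) (p₁.X 2 1 * p₂.X 3 1) := by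
  intro hc
  obtain ⟨k, e, hk⟩ := h.extP hc (P_isP h) (P_comm h 1)
  obtain ⟨w2, w5, -, w0⟩ := h.wcR fun x hx => (hk x hx).1
  obtain ⟨k0, k1, k2⟩ := exists_tr0 p₁.cub
  obtain ⟨c, d, hcd⟩ := exists_cd p₁.cub
  obtain ⟨f, hf⟩ := gamma4' c d
  rw [hcd] at hf
  have e1 : ⁅⁅⁅p₁.X 5 (ι (1 : F)), p₁.X 0 k0⁆, p₁.X 0 (θ k0)⁆, p₁.X 5 (ι (1 : F))⁆ =
      p₁.X 3 (ι (N k0)) := by
    rw [← p₁.φ5', ← p₁.φ0, ← p₁.φ0, ← p₁.φ3', ← gamma4R k2]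
    simp only [map_commutatorElement]
  have e2 : ⁅⁅⁅p₂.φ (g5 1), p₂.φ (g0 1)⁆, p₂.φ (g0 c)⁆, p₂.φ (g0 d)⁆ = p₂.φ (g1 1 * g3 f) := by
    rw [← hf]
    simp only [map_commutatorElement]
  have m1 : p₁.X 3 (ι (N k0)) ∈ p₁.EA := p₁.Z_le_EA (p₁.X3_mem _)
  have m2 : p₂.φ (g1 1 * g3 f) ∈ p₂.EA := ⟨_, mem_EA'.2 ⟨_, _, rfl⟩, rfl⟩
  have n1 : p₁.X 3 (ι (N k0)) ≠ 1 := X_ne p₁ 3 fun e => k1 (N_eq_zero.1 e)
  have n2 : p₂.φ (g1 1 * g3 f) ≠ 1 := fun e => by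
    simpa [g1, g3] using congrArg U12.p1 (p₂.inj (e.trans (map_one _).symm))
  have n3 : p₂.X 3 1 * p₂.φ (g1 1 * g3 f) ≠ 1 := fun e => by
    rw [← p₂.φ3, ← map_mul] at e
    simpa [g1, g3] using congrArg U12.p1 (p₂.inj (e.trans (map_one _).symm))
  have t1 := tr4 h e (w5 _) (w0 _ k2) (w0 _ ((T_θ k0).trans k2)) (w5 _) (e1 ▸ EA1 h m1 n1) (by
    rw [e1, mul_assoc, ← h.comm, ← mul_assoc]
    refine hc.trans ((cjL h (p₁.X_mem _ _) (p₂.X_mem _ _) (p₁.X_mem 4 (ι (N k0)))).trans ?_)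
    have := p₁.comm42 (ι (N k0)) 1
    rw [mul_one, commutatorElement_def, mul_inv_eq_iff_eq_mul] at this
    rw [this, ← p₁.φ2, p₁.X3_comm_φ])
  have t2 := tr4 h e (w2 _ (p₂.φ_memU _)) (w2 _ (p₂.φ_memU _)) (w2 _ (p₂.φ_memU _))
    (w2 _ (p₂.φ_memU _)) (e2 ▸ EA2 h m2 n2) (by
      rw [e2, mul_assoc]
      have m3 := mul_mem (p₂.Z_le_EA (p₂.X3_mem 1)) m2
      obtain ⟨l, hl, e3⟩ := EA_long p₂ m3 n3
      exact hc.trans (e3 ▸ cjR h (p₁.X_mem _ _) (EA_le_L p₂ m3) hl).symm)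
  rw [e1] at t1
  rw [e2] at t2
  have t3 := mul_mem t1 t2
  rw [conj_mul] at t3
  have n4 : p₁.X 3 (ι (N k0)) * p₂.φ (g1 1 * g3 f) ≠ 1 := fun e => n1
    (h.uniq (p₁.X_mem _ _) (one_mem _) (p₂.φ_mem _) (one_mem _) (e.trans (mul_one 1).symm)).1
  exact (h.cz' m1 m2 ((EA1 h t3 fun e => n4 (by simpa using e)).trans (cj _ k).symm)).elim n1 n2
theorem zz {k : G} (hk : ∀ x ∈ p₂.U, k * x * k⁻¹ ∈ Y.U) :
    (∀ b : F, ∃ a : F, k * p₂.X 3 (ι a) * k⁻¹ = p₁.X 3 (ι b)) ∨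
      ∀ b : F, ∃ a : F, k * p₂.X 3 (ι a) * k⁻¹ = p₂.X 3 (ι b) := by
  have hU : ∀ u, ∃ v, Y.φ v = k * p₂.φ u * k⁻¹ := fun u => hk _ (p₂.φ_memU u)
  obtain ⟨c, d, hcd⟩ := exists_cd p₁.cub
  have hb : ∀ a : F, ∃ b b' : F, k * p₂.X 3 (ι a) * k⁻¹ = p₁.X 3 (ι b) * p₂.X 3 (ι b') := fun a => by
    refine h.mem_Z.1 ?_
    have e := gamma5' c d a
    rw [hcd, one_mul] at e
    rw [← p₂.φ3', ← e]
    obtain ⟨v1, e1⟩ := hU (g5 1)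
    obtain ⟨v2, e2⟩ := hU (g0 1)
    obtain ⟨v3, e3⟩ := hU (g0 c)
    obtain ⟨v4, e4⟩ := hU (g0 d)
    obtain ⟨v5, e5⟩ := hU (g5 a)
    simp only [map_commutatorElement, cj_comm, ← e1, ← e2, ← e3, ← e4, ← e5]
    simp only [← map_commutatorElement]
    have := gamma5 v1 v2 v3 v4 v5
    generalize ⁅⁅⁅⁅v1, v2⁆, v3⁆, v4⁆, v5⁆ = w at this ⊢
    exact ⟨w, this, rfl⟩
  choose b b' hb using hb
  have hadd : ∀ a a', b (a + a') = b a + b a' ∧ b' (a + a') = b' a + b' a' := fun a a' => by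
    have e : p₁.X 3 (ι (b (a + a'))) * p₂.X 3 (ι (b' (a + a'))) =
        p₁.X 3 (ι (b a + b a')) * p₂.X 3 (ι (b' a + b' a')) := by
      rw [← hb, p₂.X_addι, ← conj_mul, hb, hb, p₁.X_addι, p₂.X_addι, mul_assoc, mul_assoc,
        ← mul_assoc (p₂.X 3 (ι (b' a))), ← h.comm, mul_assoc]
    have := h.uniq (p₁.X_mem _ _) (p₁.X_mem _ _) (p₂.X_mem _ _) (p₂.X_mem _ _) e
    exact ⟨Pin.X_injι p₁.inj 3 this.1, Pin.X_injι p₂.inj 3 this.2⟩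
  have hz : ∀ a, b a = 0 ∨ b' a = 0 := fun a => by
    by_cases a0 : a = 0
    · have := (hadd a a).1
      rw [a0, add_zero] at this
      exact Or.inl (a0 ▸ left_eq_add.1 this)
    · exact h.cz (hb a ▸ (long2 h 3 rfl a0).trans (cj _ k))
  have hinj : ∀ a a', b a = b a' → b' a = b' a' → a = a' := fun a a' e e' =>
    Pin.X_injι p₂.inj 3 (mul_left_cancel (mul_right_cancel
      (show k * p₂.X 3 (ι a) * k⁻¹ = k * p₂.X 3 (ι a') * k⁻¹ by rw [hb, hb, e, e'])))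
  by_cases h1 : ∀ a, b' a = 0
  · refine Or.inl fun d => ?_
    obtain ⟨a, rfl⟩ := Finite.surjective_of_injective (f := b)
      (fun a a' e => hinj a a' e (by rw [h1, h1])) d
    exact ⟨a, by rw [hb, h1]; simp⟩
  · push Not at h1
    obtain ⟨a₀, h0⟩ := h1
    have h2 : ∀ a, b a = 0 := fun a => by
      by_contra e
      have e1 := (hz a).resolve_left e
      have e2 := (hz a₀).resolve_right h0
      have := hz (a + a₀)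
      rw [(hadd a a₀).1, (hadd a a₀).2, e1, e2, add_zero, zero_add] at this
      exact this.elim e h0
    refine Or.inr fun d => ?_
    obtain ⟨a, rfl⟩ := Finite.surjective_of_injective (f := b')
      (fun a a' e => hinj a a' (by rw [h2, h2]) e) d
    exact ⟨a, by rw [hb, h2]; simp⟩
end WS

end H89.D4S
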