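import Cfsg.Agent.Lib.D4S.PW6A
import Cfsg.Agent.Lib.D4S.Inv

/-! Standard components of type `³D₄(2ⁿ)`, package PW6: see `blueprint/D4S/README.md`. -/

set_option autoImplicit false
set_option linter.unusedSectionVars false

namespace H89.D4S
open Subgroup H69 U12
open H89.G2S (KK ιK σK aut_invol isP_zp)
open scoped commutatorElement

variable {F E G : Type*} [Field F] [Field E] [Cub F E] [CharP F 2] [CharP E 2] [Finite F] [Finite E]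
  [Group G] [Finite G]

namespace PW6

theorem cj (x k : G) : IsConj x (k * x * k⁻¹) := isConj_iff.2 ⟨k, rfl⟩

theorem sq_of {x y : G} (h : IsConj x y) (hx : x * x = 1) : y * y = 1 := by
  obtain ⟨k, rfl⟩ := isConj_iff.1 h
  rw [conj_mul, hx]; simp

theorem X_ne (P : FP E G) (i : Fin 12) : P.X i 1 ≠ 1 := fun e =>
  one_ne_zero (Pin.X_injι P.inj i (a := 1) (b := 0) (by rw [map_one, map_zero, e, P.X_zero]))

theorem g3_ne : (g3 1 : U12 E) ≠ 1 := fun e => one_ne_zero (congrArg U12.p3 e)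

theorem φz (P : Pin E G) : P.φ (g3 1) = P.X 3 1 := by rw [P.φ3', map_one]

theorem lng_g3 {u : U12 E} (h : Lng (g3 1 * u)) : Lng u := by simpa [Lng, g3] using h

theorem sq_act (P : FP E G) {m : G} {ρ : E ≃+* E} (h : P.Act m ρ) (m2 : m * m = 1) (a : E) :
    ρ (ρ a) = a := by
  have h1 := h.mul h
  rw [m2] at h1
  have h2 : P.Act 1 (RingEquiv.refl E) := ⟨Tc.refl, fun i a => by simp⟩
  exact congrArg (fun f : E ≃+* E => f a) (Pin.Act.uniq P.inj h1 h2)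

theorem cjL1 (P : FP E G) {u : U12 E} (h : Lng u) (h1 : u ≠ 1) : IsConj (P.X 3 1) (P.φ u) := by
  obtain ⟨l, -, e⟩ := P.inv_lng h h1
  exact (e ▸ cj _ l).symm

variable {S : St E G} {Y : Pin (E × E) G} {p₁ p₂ : FP E G} {A : Subgroup G} (h : WS S Y p₁ p₂ A)
include h

theorem cjR {a b l : G} (ha : a ∈ p₁.L) (hl : l ∈ p₂.L) :
    IsConj (a * b) (a * (l * b * l⁻¹)) :=
  isConj_iff.2 ⟨l, by rw [← mul_assoc, ← h.commL ha hl]; group⟩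

theorem cX (i : Fin 12) (a : E) : IsConj (p₁.X i a) (p₂.X i a) := h.tX1 i a ▸ cj _ _

theorem mm {a a' b b' : G} (ha' : a' ∈ p₁.L) (hb : b ∈ p₂.L) :
    a * b * (a' * b') = a * a' * (b * b') :=
  Commute.mul_mul_mul_comm (h.commL ha' hb).symm a b'

theorem caseB : ¬ IsConj (p₁.X 3 1) (p₁.X 2 1) := fun hc => by
  rcases h.inner (u₁ := g2 1) (u₂ := 1) (by rwa [map_one, mul_one, p₁.φ2]) with ⟨r, -⟩ | ⟨r, -⟩
  · simpa [g2, sh] using r.2.2.1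
  · exact one_ne_zero (congrArg U12.p2 r)

/-- a field automorphism on the first factor only -/
theorem one_side {u : U12 (E × E)} {m : G} (hm : m ∈ A) (m2 : m * m = 1) {φ₁ : E ≃+* E}
    (h0 : φ₁ ≠ 1) (h1 : p₁.Act m φ₁) (h2 : p₂.Cn m) : ¬ IsConj (p₁.X 3 1) (Y.φ u * m) := by
  intro hc
  have y2 := PW6.sq_of hc (p₁.X_sq 3 1)
  rw [h.φ_eq] at hc y2
  generalize U12.map Tc.fst u = u₁ at hc y2
  generalize U12.map Tc.snd u = u₂ at hc y2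
  have c2 : ∀ l ∈ p₂.L, Commute (p₁.φ u₁ * m) l := fun l hl =>
    Commute.mul_left (h.commL (p₁.φ_mem u₁) hl) (h2.comm hl)
  have e : p₁.φ u₁ * p₂.φ u₂ * m = p₁.φ u₁ * m * p₂.φ u₂ := by
    rw [mul_assoc, ← h2.comm (p₂.φ_mem u₂), mul_assoc]
  rw [e] at hc y2
  have m1 : p₁.φ u₁ * m * (p₁.φ u₁ * m) ∈ p₁.L := by
    have := mul_mem (p₁.φ_mem u₁) (p₁.φ_mem (U12.map h1.tc u₁))
    rwa [← h1.φ, inv_eq_of_mul_eq_one_right m2, ← mul_assoc, ← mul_assoc, mul_assoc _ _ m] at this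
  have e2 : p₁.φ u₁ * m * (p₁.φ u₁ * m) * (p₂.φ u₂ * p₂.φ u₂) = 1 * 1 := by
    rw [one_mul, ← y2, ← sq, ← sq, ← sq, (c2 _ (p₂.φ_mem u₂)).mul_pow]
  obtain ⟨a1, a2⟩ := h.uniq m1 (one_mem _) (mul_mem (p₂.φ_mem u₂) (p₂.φ_mem u₂)) (one_mem _) e2
  obtain ⟨c, hc0⟩ := exists_free φ₁ (PW6.sq_act p₁ h1 m2) h0
  obtain ⟨w, hw⟩ := Pin.lang p₁.inj h1 m2 hc0 a1
  have c3 : IsConj (p₁.X 3 1) (m * p₂.φ u₂) := by
    refine hc.trans (isConj_iff.2 ⟨p₁.φ w, ?_⟩)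
    have := (Commute.inv_left (h.commL (p₁.φ_mem w) (p₂.φ_mem u₂))).eq
    calc _ = p₁.φ w * (p₁.φ u₁ * m) * (p₂.φ u₂ * (p₁.φ w)⁻¹) := by group
      _ = _ := by rw [← this, ← mul_assoc, hw]
  have key : ∀ l ∈ p₂.L, IsConj (p₁.X 3 1) (m * (l * p₂.φ u₂ * l⁻¹)) := fun l hl => by
    refine c3.trans (isConj_iff.2 ⟨l, ?_⟩)
    rw [← mul_assoc, ← h2.comm hl]; group
  rcases p₂.inv_L (p₂.φ_mem u₂) a2 with r | ⟨l, hl, r⟩ | ⟨l, hl, r⟩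
  · exact h.outer0 hm m2 h0 h1 h2 (Or.inl r) c3
  · exact h.outer0 hm m2 h0 h1 h2 (Or.inr (Or.inl r)) (key l hl)
  · exact h.outer0 hm m2 h0 h1 h2 (Or.inr (Or.inr r)) (key l hl)

theorem act1 {m : G} {φ : E ≃+* E} (h2 : p₂.Act m φ) : p₁.Act (S.t * m * S.t⁻¹) φ := ⟨h2.tc, fun i a => by
  rw [← h.tX2 i (φ a), ← h2.act, ← h.tX1 i a, S.t_inv]
  calc _ = S.t * m * (S.t * p₁.X i a * S.t) * m⁻¹ * S.t⁻¹ := by
        rw [mul_inv_rev, mul_inv_rev, S.t_inv]; group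
    _ = _ := by rw [S.t_inv]; group⟩

theorem act2 {m : G} {φ : E ≃+* E} (h1 : p₁.Act m φ) : p₂.Act (S.t * m * S.t⁻¹) φ := ⟨h1.tc, fun i a => by
  rw [← h.tX1 i (φ a), ← h1.act, ← h.tX2 i a, S.t_inv]
  calc _ = S.t * m * (S.t * p₂.X i a * S.t) * m⁻¹ * S.t⁻¹ := by
        rw [mul_inv_rev, mul_inv_rev, S.t_inv]; group
    _ = _ := by rw [S.t_inv]; group⟩

end PW6

namespace WS
variable {S : St E G} {Y : Pin (E × E) G} {p₁ p₂ : FP E G} {A : Subgroup G} (h : WS S Y p₁ p₂ A)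
include h
theorem outer1 {u : U12 (E × E)} {m : G} (hm : m ∈ A) {φ₁ φ₂ : E ≃+* E} (h1 : p₁.Act m φ₁)
    (h2 : p₂.Act m φ₂) (hc : IsConj (p₁.X 3 1) (Y.φ u * m)) : m = 1 := by
  have y2 := PW6.sq_of hc (p₁.X_sq 3 1)
  have m2 := h.toTop.invol hm y2
  have hm' : S.t * m * S.t⁻¹ ∈ A := mul_mem (mul_mem h.tA hm) (inv_mem h.tA)
  by_cases e1 : φ₁ = 1 <;> by_cases e2 : φ₂ = 1
  · subst e1 e2
    exact h.cn_of hm (Pin.cn_iff_act'.2 h1) (Pin.cn_iff_act'.2 h2)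
  · exfalso
    refine PW6.one_side h (u := U12.map h.ct.tc u) hm' ?_ e2
      (PW6.act1 h h2) (Pin.cn_iff_act'.2 (by subst e1; exact PW6.act2 h h1)) (hc.trans (isConj_iff.2 ⟨S.t, ?_⟩))
    · calc _ = S.t * (m * m) * S.t⁻¹ := by group
        _ = 1 := by rw [m2]; group
    · rw [← h.ct.φ]; group
  · exact absurd hc (PW6.one_side h hm m2 e1 h1 (Pin.cn_iff_act'.2 (by subst e2; exact h2)))
  · exfalso
    obtain rfl := aut_invol (PW6.sq_act p₁ h1 m2) e1 (PW6.sq_act p₂ h2 m2) e2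
    obtain ⟨c, hc0⟩ := exists_free φ₁ (PW6.sq_act p₁ h1 m2) e1
    obtain ⟨y, hy⟩ := Pin.lang h.inj (h.act_of h1 h2) m2 (c := (c, c)) (Prod.ext hc0 hc0) y2
    have := h.toTop.faith hm' hm (h.act_of (PW6.act1 h h2) (PW6.act2 h h1)) (h.act_of h1 h2)
    exact h.notD (hc.trans (isConj_iff.2 ⟨_, hy⟩)) (mul_inv_eq_iff_eq_mul.1 this).symm

theorem cS {y : G} (hc : IsConj (p₁.X 3 1) y) (hy : y ∈ Y.U ⊔ A) : y ∈ Y.U := by
  obtain ⟨u, m, hm, rfl⟩ := h.toTop.mem_S.1 hy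
  obtain ⟨φ₁, φ₂, ⟨a1, a2, -⟩ | ⟨-, -, a3⟩⟩ := h.kinds (h.sylA.le hm)
  · rw [h.outer1 hm a1 a2 hc, mul_one]; exact Y.φ_memU u
  exfalso
  have y2 := PW6.sq_of hc (p₁.X_sq 3 1)
  have m2 := h.toTop.invol hm y2
  obtain ⟨w, hw⟩ := Pin.lang h.inj a3 m2 (c := (1, 0)) (by ext <;> simp) y2
  have cm : IsConj (p₁.X 3 1) m := hc.trans (isConj_iff.2 ⟨_, hw⟩)
  have es : S.X 2 1 = Y.X 2 1 := by rw [← h.ext, map_one]
  have ms : m * S.X 2 1 = S.X 2 1 * m := by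
    have := a3.act 2 1
    rw [map_one, ← es] at this
    exact mul_inv_eq_iff_eq_mul.1 this
  have cs : IsConj (p₁.X 3 1) (m * S.X 2 1) := by
    refine cm.trans (isConj_iff.2 ⟨Y.X 2 (1, 0), ?_⟩)
    have e : S.X 2 1 = Y.X 2 (1, 0) * (m * Y.X 2 (1, 0) * m⁻¹) := by
      rw [a3.act, ← Y.X_add, es]
      congr 1
      ext <;> simp
    rw [ms, e, Y.X_inv]; group
  obtain ⟨k, hk, hP⟩ := h.extP cm (isP_zp (S.X_sq 2 1)) fun p hp => by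
    obtain ⟨n, rfl⟩ := mem_zpowers_iff.1 hp
    exact (Commute.zpow_left ms.symm n).eq
  obtain ⟨s1, s2⟩ := hP _ (mem_zpowers _)
  obtain ⟨u', m', hm', ψ₁, ψ₂, b1, b2, e⟩ := h.mem_SP s1 s2
  have c1 : IsConj (p₁.X 3 1) (p₁.X 3 1 * (k * S.X 2 1 * k⁻¹)) :=
    cs.trans (isConj_iff.2 ⟨k, by rw [← hk]; group⟩)
  have e' : m' = 1 := h.outer1 (u := g3 (1, 0) * u') hm' b1 b2 (by
    rwa [map_mul, Y.φ3', ι_prod, map_one, map_zero, h.X1, mul_assoc, ← e])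
  rw [e', mul_one, h.φ_eq] at e
  generalize U12.map Tc.fst u' = v₁ at e
  generalize U12.map Tc.snd u' = v₂ at e
  have nD : ¬ IsConj (p₁.X 3 1) (k * S.X 2 1 * k⁻¹) := fun r =>
    h.notD (r.trans (PW6.cj _ k).symm) (S.t_comm (S.X_mem 2 1)).symm
  have c2 : IsConj (p₁.X 3 1) (p₁.φ (g3 1 * v₁) * p₂.φ v₂) := by
    rwa [map_mul, PW6.φz, mul_assoc, ← e]
  rcases h.inner c2 with ⟨r1, r2⟩ | ⟨r1, r2⟩
  · rw [r2, map_one, mul_one] at e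
    refine nD (e ▸ PW6.cjL1 p₁ (PW6.lng_g3 r1) fun r => ?_)
    rw [r, map_one, mul_inv_eq_one, mul_eq_left] at e
    exact PW6.X_ne S.toFP 2 e
  · have e1 : p₁.φ v₁ = p₁.X 3 1 := by
      rw [eq_inv_of_mul_eq_one_right r1, map_inv, PW6.φz, p₁.X_inv]
    rw [e1] at e
    by_cases r : v₂ = 1
    · rw [r, map_one, mul_one] at e
      exact nD (e ▸ IsConj.refl _)
    · obtain ⟨l, hl, el⟩ := p₂.inv_lng r2 r
      have := PW6.cjR h (b := p₂.φ v₂) (p₁.X_mem 3 1) hl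
      rw [el, ← h.SX, ← e] at this
      exact h.sz ((PW6.cj _ k).trans this)
end WS

end H89.D4S
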