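import Cfsg.Agent.Lib.D4S.PW5

/-! Standard components of type `³D₄(2ⁿ)`, package PW6A: see `blueprint/D4S/README.md`. -/

set_option autoImplicit false
set_option linter.unusedSectionVars false

namespace H89.D4S
open Subgroup H69 U12
open H89.G2S (KK ιK σK)
open scoped commutatorElement

variable {F E G : Type*} [Field F] [Field E] [Cub F E] [CharP F 2] [CharP E 2] [Finite F] [Finite E]
  [Group G] [Finite G]

namespace PW6A
open PW5A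

theorem g3_ne : (g3 1 : U12 E) ≠ 1 := fun e => one_ne_zero (congrArg U12.p3 e)

theorem lng_one : Lng (1 : U12 E) := by simp [Lng]

theorem lng_g3 {u : U12 E} (h : Lng (g3 1 * u)) : Lng u := by simpa [Lng, g3] using h

theorem z_eq (P : FP E G) : P.φ (g3 1) = P.X 3 1 := by rw [P.φ3', map_one]

theorem sq_act (P : FP E G) {m : G} {ρ : E ≃+* E} (h : P.Act m ρ) (m2 : m * m = 1) (a : E) :
    ρ (ρ a) = a := by
  have h1 := h.mul h
  rw [m2] at h1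
  have h2 : P.Act 1 1 := Pin.cn_iff_act'.1 fun i a => by simp
  exact congrArg (fun f : E ≃+* E => f a) (Pin.Act.uniq P.inj h1 h2)

/-- `x m` is conjugate to `X i 1 * x m` if `m` acts as a field automorphism of order two -/
theorem twist (P : FP E G) {m x : G} {ρ : E ≃+* E} (h : P.Act m ρ) (m2 : m * m = 1) (h1 : ρ ≠ 1)
    (i : Fin 12) (hx : ∀ a, x * P.X i a = P.X i a * x) : IsConj (x * m) (P.X i 1 * (x * m)) := by
  obtain ⟨c, hc⟩ := exists_free ρ (sq_act P h m2) h1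
  refine isConj_iff.2 ⟨P.X i (ι c), ?_⟩
  rw [P.X_inv, ← hc, P.X_add, mul_assoc, mul_assoc, mul_assoc, ← mul_assoc (P.X i (ρ (ι c))), ← hx,
    mul_assoc, ← h.act i (ι c), inv_mul_cancel_right]

theorem cjL1 (P : FP E G) {u : U12 E} (h : Lng u) (h1 : u ≠ 1) : IsConj (P.X 3 1) (P.φ u) := by
  obtain ⟨l, -, e⟩ := P.inv_lng h h1
  exact (e ▸ cj _ l).symm

theorem cn_comm (P : FP E G) {m m' : G} {ρ ρ' : E ≃+* E} (h : P.Act m ρ) (h' : P.Act m' ρ') :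
    P.Cn (m * m' * m⁻¹ * m'⁻¹) := by
  have := ((h.mul h').mul h.inv).mul h'.inv
  rw [G2S.aut_comm ρ ρ', mul_inv_cancel_right, mul_inv_cancel] at this
  exact Pin.cn_iff_act'.2 this

theorem comm24 {w : U12 E} (hw : w ∈ E2 E) (y : E) : ⁅w, g4 y⁆ = g3 (T (w.p2 * y)) := by
  obtain ⟨w0, w5, w4⟩ := hw
  simp only [commutatorElement_def]
  u12w [w0, w5, w4]

theorem snd_map {φ₁ φ₂ : E ≃+* E}
    (h : Tc ((RingEquiv.prodCongr φ₁ φ₂ : E × E ≃+* E × E) : E × E →+* E × E))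
    (h2 : Tc (φ₂ : E →+* E)) (W : U12 (E × E)) :
    U12.map Tc.snd (U12.map h W) = U12.map h2 (U12.map Tc.snd W) := by
  have k : ∀ a : F × F, (Tc.snd (J := E) (J' := E)).res (h.res a) =
      h2.res ((Tc.snd (J := E) (J' := E)).res a) := fun a => by
    show T (ι (T (φ₂ (ι a.2))) : E) = T (φ₂ (ι (T (ι a.2 : E))))
    rw [T_ι, T_ι]
  exact U12.ext rfl (k _) rfl rfl (k _) (k _)

variable {S : St E G} {Y : Pin (E × E) G} {p₁ p₂ : FP E G} {A : Subgroup G} (h : WS S Y p₁ p₂ A)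
include h

theorem caseB : ¬ IsConj (p₁.X 3 1) (p₁.X 2 1) := fun hc => by
  rcases h.inner (u₁ := g2 1) (u₂ := 1) (by rwa [map_one, mul_one, p₁.φ2]) with ⟨f, -⟩ | ⟨f, -⟩
  · simpa [g2] using f.2.2.1
  · simpa [g2] using congrArg U12.p2 f

theorem commU {x x' : G} (hx : x ∈ Y.U ⊔ A) (hc : x * p₁.X 3 1 = p₁.X 3 1 * x) (hx' : x' ∈ Y.U ⊔ A)
    (hc' : x' * p₁.X 3 1 = p₁.X 3 1 * x') : ⁅x, x'⁆ ∈ Y.U := by
  obtain ⟨u, m, hm, φ₁, φ₂, h1, h2, rfl⟩ := h.mem_SP hx hc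
  obtain ⟨u', m', hm', ψ₁, ψ₂, h1', h2', rfl⟩ := h.mem_SP hx' hc'
  have e := h.cn_of (mul_mem (mul_mem (mul_mem hm hm') (inv_mem hm)) (inv_mem hm'))
    (cn_comm p₁ h1 h1') (cn_comm p₂ h2 h2')
  have e1 : ⁅Y.φ u * m, Y.φ u' * m'⁆ = Y.φ u * (m * Y.φ u' * m⁻¹) * (m * m' * m⁻¹ * m'⁻¹) *
      (m' * Y.φ u⁻¹ * m'⁻¹) * Y.φ u'⁻¹ := by
    simp only [commutatorElement_def, map_inv]; group
  rw [e1, e, mul_one, (h.act_of h1 h2).φ, (h.act_of h1' h2').φ, ← map_mul, ← map_mul, ← map_mul]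
  exact Y.φ_memU _

theorem caseT {k y₀ x : G} (e : k * y₀ * k⁻¹ = p₁.X 3 1) (hU : k * x * k⁻¹ ∈ Y.U)
    (c1 : IsConj (p₁.X 3 1) x) (c2 : IsConj (p₁.X 3 1) (y₀ * x)) :
    ∃ v, Lng v ∧ k * x * k⁻¹ = p₁.φ v := by
  obtain ⟨u₁, u₂, hu⟩ := h.mem_U.1 hU
  rcases h.inner (hu ▸ c1.trans (cj _ k)) with ⟨f, rfl⟩ | ⟨rfl, -⟩
  · exact ⟨u₁, f, by simpa using hu⟩
  · have c3 : IsConj (p₁.X 3 1) (p₁.φ (g3 1) * p₂.φ u₂) := by
      have := c2.trans (cj _ k)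
      rw [← conj_mul, e, hu, map_one, one_mul] at this
      rwa [z_eq]
    rcases h.inner c3 with ⟨-, rfl⟩ | ⟨f, -⟩
    · exact ⟨1, lng_one, by simpa using hu⟩
    · exact absurd f g3_ne

/-- `z₁ x` is not in the class of `z₁` for `1 ≠ x ∈ p₂.U` -/
theorem not_both {k : G} {v v' w : U12 E} (hv : Lng v) (hv' : Lng v') (w1 : w ≠ 1)
    (e : k * p₁.X 3 1 * k⁻¹ = p₁.φ v) (e' : k * p₂.φ w * k⁻¹ = p₁.φ v') : False := by
  have hc : v * v' = v' * v := p₁.inj (by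
    rw [map_mul, map_mul, ← e, ← e', conj_mul, conj_mul, h.commL (p₁.X_mem _ _) (p₂.φ_mem w)])
  have e2 : k * (p₁.φ (g3 1) * p₂.φ w) * k⁻¹ = p₁.φ (v * v') := by
    rw [map_mul, ← e, ← e', conj_mul, z_eq]
  have h1 : v * v' ≠ 1 := fun f => by
    rw [f, map_one, conj_eq_one_iff] at e2
    have := (h.uniq (p₁.φ_mem _) (one_mem _) (p₂.φ_mem w) (one_mem _) (e2.trans (mul_one 1).symm)).2
    exact w1 (p₂.inj (this.trans (map_one _).symm))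
  rcases h.inner ((cjL1 p₁ (hv.mul hv' hc) h1).trans (e2 ▸ cj _ k).symm) with ⟨-, f⟩ | ⟨f, -⟩
  · exact w1 f
  · exact g3_ne f

/-- the last case: the image of `s₁` acts as a field automorphism on the second factor -/
theorem last {k m' : G} {v : U12 E} {u : U12 (E × E)} (hv : Lng v) (ev : k * p₁.X 3 1 * k⁻¹ = p₁.φ v)
    {φ₁ φ₂ : E ≃+* E} (a1 : p₁.Act m' φ₁) (a2 : p₂.Act m' φ₂) (m2 : m' * m' = 1) (f2 : φ₂ ≠ 1)
    (es : k * p₁.X 2 1 * k⁻¹ = Y.φ u * m')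
    (cU : ∀ x x', k * ⁅p₂.φ x, p₂.φ x'⁆ * k⁻¹ ∈ Y.U) : False := by
  have cC : ∀ w : U12 E, w.p0 = 0 → w.p5 = 0 → k * p₂.φ w * k⁻¹ ∈ Y.U := fun w w0 w5 => by
    have : commutator (U12 E) ≤ (Y.U.comap (MulAut.conj k).toMonoidHom).comap p₂.φ :=
      commutator_le.2 fun x _ x' _ => by
        have := cU x x'
        rwa [← map_commutatorElement] at this
    exact this (mem_comm p₁.cub w0 w5)
  have n1 : ∀ w ∈ EA E, ∀ w₁, k * p₂.φ w * k⁻¹ = p₁.φ w₁ → w = 1 := fun w hw w₁ e => by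
    by_contra w1
    have c1 : IsConj (p₁.X 3 1) (p₂.φ w) := (cX h 3 1).trans (cjL1 p₂ (Lng.of_EA hw) w1)
    rcases h.inner (u₁ := w₁) (u₂ := 1) (by
      rw [map_one, mul_one, ← e]; exact c1.trans (cj _ k)) with ⟨f, -⟩ | ⟨f, -⟩
    · exact not_both h hv f w1 ev e
    · exact not_both h hv (f ▸ lng_one) w1 ev e
  have n2 : ∀ w ∈ E2 E, ∀ w₁, k * p₂.φ w * k⁻¹ = p₁.φ w₁ → w = 1 := fun w hw w₁ e => by
    by_cases w2 : w.p2 = 0
    · exact n1 w ⟨hw.1, hw.2.1, hw.2.2, w2⟩ w₁ e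
    obtain ⟨y, hy⟩ := exists_T w2 (1 : F)
    obtain ⟨a, b, e'⟩ := h.mem_U.1 (cC (g4 y) rfl rfl)
    have e2 := comm24 hw y
    rw [hy] at e2
    refine absurd (n1 (g3 1) ⟨rfl, rfl, rfl, rfl⟩ ⁅w₁, a⁆ ?_) g3_ne
    have c : p₂.φ b * (p₁.φ w₁)⁻¹ * (p₂.φ b)⁻¹ = (p₁.φ w₁)⁻¹ := by
      rw [← h.commL (inv_mem (p₁.φ_mem w₁)) (p₂.φ_mem b), mul_inv_cancel_right]
    rw [← e2, map_commutatorElement, cj_comm, e, e', map_commutatorElement, commutatorElement_def,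
      commutatorElement_def]
    conv_rhs => rw [← c]
    group
  let B := ((p₂.E2 ^ᶜ k).comap Y.φ).map (U12.map Tc.snd)
  have hB : ∀ w' ∈ B, ∃ W, ∃ w ∈ E2 E, Y.φ W = k * p₂.φ w * k⁻¹ ∧ U12.map Tc.snd W = w' := by
    rintro w' ⟨W, ⟨_, ⟨w, hw, rfl⟩, e⟩, rfl⟩
    exact ⟨W, w, hw, e.symm, rfl⟩
  have b1 := card_elem p₁.cub φ₂ (sq_act p₂ a2 m2) f2 B (fun w' hw' => by
    obtain ⟨W, w, hw, ew, rfl⟩ := hB w' hw'
    have : W * W = 1 := h.inj (by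
      rw [map_mul, ew, conj_mul, p₂.E2_sq ⟨w, hw, rfl⟩]; simp)
    rw [← map_mul, this, map_one]) fun w' hw' => by
      obtain ⟨W, w, -, ew, rfl⟩ := hB w' hw'
      refine lead_fix a2.tc (u := U12.map Tc.snd u) ?_
      have c1 : u * U12.map (h.act_of a1 a2).tc W * u⁻¹ = W := h.inj (by
        rw [map_mul, map_mul, map_inv, ← (h.act_of a1 a2).φ]
        have : Y.φ u * m' * Y.φ W * (Y.φ u * m')⁻¹ = Y.φ W := by
          rw [← es, ew, mul_inv_eq_iff_eq_mul, conj_mul, conj_mul,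
            h.commL (p₁.X_mem _ _) (p₂.φ_mem w)]
        conv_rhs => rw [← this]
        group)
      rw [← snd_map (h.act_of a1 a2).tc, ← map_inv, ← map_mul, ← map_mul, c1]
  have key : ∀ x : p₂.E2, ∃ W, Y.φ W = k * x * k⁻¹ := by
    rintro ⟨_, w, hw, rfl⟩
    exact cC w hw.1 hw.2.1
  choose β hβ using key
  have b2 : Nat.card p₂.E2 ≤ Nat.card B := Nat.card_le_card_of_injective
    (fun x => ⟨U12.map Tc.snd (β x), β x, show Y.φ (β x) ∈ p₂.E2 ^ᶜ k from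
      (hβ x).symm ▸ cj_mem k x.2, rfl⟩) fun x x' e => by
      have e1 : U12.map Tc.snd (β x) = U12.map Tc.snd (β x') := congrArg Subtype.val e
      obtain ⟨w, hw, ew⟩ := (x * x'⁻¹).2
      have e2 : k * p₂.φ w * k⁻¹ = p₁.φ (U12.map Tc.fst (β x * (β x')⁻¹)) := by
        have := h.φ_eq (β x * (β x')⁻¹)
        have e3 : U12.map Tc.snd (β x * (β x')⁻¹) = 1 := by
          rw [map_mul, map_inv, e1, mul_inv_cancel]
        rw [e3, map_one, mul_one, map_mul, map_inv, hβ, hβ] at this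
        rw [← this, ew]
        simp [mul_assoc]
      rw [n2 w hw _ e2, map_one] at ew
      exact mul_inv_eq_one.1 (Subtype.ext ew.symm)
  rw [p₂.cardE2] at b2
  have b3 := (Nat.pow_le_pow_left b2 2).trans b1
  rw [← pow_mul] at b3
  exact absurd ((Nat.pow_le_pow_iff_right (two_le_card F)).1 b3) (by norm_num)

end PW6A

open PW5A PW6A

namespace WS
variable {S : St E G} {Y : Pin (E × E) G} {p₁ p₂ : FP E G} {A : Subgroup G} (h : WS S Y p₁ p₂ A)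
include h
theorem outer0 {m y : G} (hm : m ∈ A) (m2 : m * m = 1) {φ₀ : E ≃+* E} (h0 : φ₀ ≠ 1)
    (h1 : p₁.Act m φ₀) (h2 : p₂.Cn m) (hy : y = 1 ∨ y = p₂.X 3 1 ∨ y = p₂.X 2 1) :
    ¬ IsConj (p₁.X 3 1) (m * y) := by
  intro hc
  have yL : y ∈ p₂.L := by
    rcases hy with rfl | rfl | rfl
    exacts [one_mem _, p₂.X_mem _ _, p₂.X_mem _ _]
  obtain ⟨k, e, hk⟩ := h.extP hc (P := Y.U ⊓ centralizer {m * y}) Y.U_isP.to_inf_left
    fun p hp => mem_centralizer_singleton_iff.1 hp.2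
  have P1 : ∀ i ≤ 5, p₁.X i 1 ∈ Y.U ⊓ centralizer {m * y} := fun i hi =>
    ⟨U1_le h (p₁.X_memU hi 1), mem_centralizer_singleton_iff.2 (Commute.mul_right
      (by have := h1.act i 1; rw [map_one, mul_inv_eq_iff_eq_mul] at this; exact this.symm)
      (h.commL (p₁.X_mem _ _) yL)).eq⟩
  have P2 : ∀ x ∈ p₂.U, x * y = y * x → x ∈ Y.U ⊓ centralizer {m * y} := fun x hx c =>
    ⟨U2_le h hx, mem_centralizer_singleton_iff.2
      (Commute.mul_right (h2.comm (p₂.U_le_L hx)).symm c).eq⟩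
  have cU : ∀ x ∈ Y.U ⊓ centralizer {m * y}, ∀ x' ∈ Y.U ⊓ centralizer {m * y},
      k * ⁅x, x'⁆ * k⁻¹ ∈ Y.U := fun x hx x' hx' => by
    rw [cj_comm]
    exact commU h (hk x hx).1 (hk x hx).2 (hk x' hx').1 (hk x' hx').2
  have my : m * y = y * m := h2.comm yL
  have tw : ∀ i ≤ 5, IsConj (p₁.X 3 1) (m * y * p₁.X i 1) := fun i hi => by
    rw [← mem_centralizer_singleton_iff.1 (P1 i hi).2, my]
    exact (my ▸ hc).trans (twist p₁ h1 m2 h0 i fun a => (h.commL (p₁.X_mem _ _) yL).symm)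
  obtain ⟨v, hv, ev⟩ := caseT h e (x := p₁.X 3 1) (by
    have := cU _ (P1 5 (by decide)) _ (P1 1 (by decide))
    rwa [p₁.comm51'] at this) (IsConj.refl _) (tw 3 (by decide))
  have case1 : ∀ a : F, a ≠ 0 → (∀ x ∈ p₂.R, x * y = y * x) →
      (∃ l ∈ p₂.L, l * y * l⁻¹ = y * p₂.X 3 (ι a)) → False := by
    rintro a a0 hR ⟨l, hl, el⟩
    have R5 : ∀ i : Fin 12, i ≤ 5 → i = 1 ∨ i = 2 ∨ i = 3 ∨ i = 5 → ∀ a,
        p₂.X i a ∈ Y.U ⊓ centralizer {m * y} :=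
      fun i hi i0 a => P2 _ (p₂.X_memU hi a) (hR _ (p₂.X_memR i0 a))
    obtain ⟨v', hv', ev'⟩ := caseT h e (x := p₂.X 3 (ι a)) (by
      have := cU _ (R5 5 (by decide) (by decide) 1) _ (R5 1 (by decide) (by decide) (ι a))
      rwa [p₂.comm51'] at this) (long2 h 3 rfl a0) (hc.trans (isConj_iff.2 ⟨l, by
        rw [← mul_assoc, ← h2.comm hl, mul_assoc, mul_assoc, ← mul_assoc l, el, mul_assoc]⟩))
    exact not_both h hv hv' (w := g3 a) (fun f => a0 (congrArg U12.p3 f)) ev (by rwa [p₂.φ3'])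
  rcases hy with rfl | rfl | rfl
  rotate_left
  · obtain ⟨a, a0, a1, -⟩ := exists_ne (four_of_invol φ₀ (sq_act p₁ h1 m2) h0) 0 1 1
    obtain ⟨l, hl, el⟩ := p₂.conj_long 3 rfl (a := 1 + a) fun f => a1 (by grind)
    rw [p₂.X_addι, map_one] at el
    refine case1 a a0 ?_ ⟨l⁻¹, inv_mem hl, by
      conv_lhs => rw [← el]
      group⟩
    rintro _ ⟨u, -, rfl⟩
    exact (p₂.X3_comm_φ 1 u).symm
  · refine case1 1 one_ne_zero (fun x hx => p₂.R_comm hx) ⟨p₂.X 4 1, p₂.X_mem _ _, ?_⟩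
    have := p₂.comm42 1 1
    rw [mul_one, commutatorElement_def, mul_inv_eq_iff_eq_mul] at this
    rw [this, map_one, ← p₂.φ2, p₂.X3_comm_φ]
  obtain ⟨u, m', hm', φ₁, φ₂, a1, a2, es⟩ :=
    h.mem_SP (hk _ (P1 2 (by decide))).1 (hk _ (P1 2 (by decide))).2
  have cs : IsConj (p₁.X 2 1) (Y.φ u * m') := es ▸ cj _ k
  have cz : IsConj (p₁.X 3 1) (p₁.X 3 1 * (Y.φ u * m')) := by
    have := (tw 2 (by decide)).trans (cj _ k)
    rwa [← conj_mul, e, es] at this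
  have m2' : m' * m' = 1 := h.toTop.invol hm' (sq_of cs (p₁.X_sq 2 1))
  by_cases f2 : φ₂ = 1
  swap
  · exact last h hv ev a1 a2 m2' f2 es fun x x' =>
      cU _ (P2 _ (p₂.φ_memU x) (by simp)) _ (P2 _ (p₂.φ_memU x') (by simp))
  rw [h.φ_eq] at cs cz
  generalize U12.map Tc.fst u = u₁ at cs cz
  generalize U12.map Tc.snd u = u₂ at cs cz
  by_cases f1 : φ₁ = 1
  swap
  · exact caseB h ((cz.trans (twist p₁ a1 m2' f1 3 fun a => (Commute.mul_left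
      (p₁.X3_comm_φ a u₁).symm (h.commL (p₁.X_mem _ _) (p₂.φ_mem u₂)).symm).eq).symm).trans cs.symm)
  have : m' = 1 := h.cn_of hm' (Pin.cn_iff_act'.2 (f1 ▸ a1)) (Pin.cn_iff_act'.2 (f2 ▸ a2))
  rw [this, mul_one] at cs cz
  rw [← mul_assoc, ← z_eq, ← map_mul, z_eq] at cz
  rcases h.inner cz with ⟨f, rfl⟩ | ⟨f, g⟩
  · rw [map_one, mul_one] at cs
    refine caseB h ((cjL1 p₁ (lng_g3 f) ?_).trans cs.symm)
    rintro rfl
    rw [map_one, isConj_one_left] at cs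
    exact X_ne1 p₁ 2 cs
  · have : p₁.φ u₁ = p₁.X 3 1 := by
      rw [eq_inv_of_mul_eq_one_right f, map_inv, z_eq, p₁.X_inv]
    rw [this] at cs
    by_cases u1 : u₂ = 1
    · rw [u1, map_one, mul_one] at cs
      exact caseB h cs.symm
    · obtain ⟨l, hl, el⟩ := p₂.inv_lng g u1
      refine h.s1z (cs.trans ?_)
      rw [h.SX, ← el]
      exact cjR h (p₁.X_mem _ _) (p₂.φ_mem _) hl
end WS

end H89.D4S
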