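import Cfsg.Agent.Lib.D4S.PH
import Cfsg.Agent.Lib.G2S.Cg

/-! Standard components of type `³D₄(2ⁿ)`, package QG1: see `blueprint/D4S/README.md`. -/

set_option autoImplicit false
set_option linter.unusedSectionVars false
set_option linter.unusedSimpArgs false
set_option linter.unnecessarySeqFocus false

namespace H89.D4S
open Subgroup H69 U12
open H89.G2S (KK ιK σK)
open scoped commutatorElement

variable {F E G : Type*} [Field F] [Field E] [Cub F E] [CharP F 2] [CharP E 2] [Finite F] [Finite E]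
  [Group G] [Finite G]

namespace QG1
open H89.G2S.Cg (cg cg_def cg_mul mul_cg cg_one cg_fix comm_of_cg inv_cg cg_cg cg_cg' cg_comm cg_invol
  cg_cg_self)

section ring
variable {K J : Type*} [CommRing K] [CommRing J] [Cub K J] [CharP K 2] [CharP J 2]

theorem m0 {v w : U12 J} (h : v.p0 = 0) (h' : w.p0 = 0) : (v * w).p0 = 0 := by simp [h, h']
theorem a0 {v : U12 J} (h : v.p0 = 0) (k : J) : (g0 k * v * g0 k).p0 = 0 := by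
  simp [g0, h, CharTwo.add_self_eq_zero]
theorem a0' (v : U12 J) (k : J) : (g0 k * v * g0 k).p0 = v.p0 := by
  simp only [g0, mul_p0]; grind
theorem u0 (v : U12 J) : (v * g0 v.p0).p0 = 0 := by simp [g0, CharTwo.add_self_eq_zero]
theorem g0_zero : (g0 0 : U12 J) = 1 := rfl
theorem g4_zero : (g4 0 : U12 J) = 1 := rfl
theorem g0_add (k l : J) : g0 (k + l) = g0 k * g0 l := by u12
theorem g4_add (k l : J) : g4 (k + l) = g4 k * g4 l := by u12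
theorem g0_sq (k : J) : g0 k * g0 k = 1 := by u12
theorem g4_sq (k : J) : g4 k * g4 k = 1 := by u12
theorem g5_sq (k : K) : (g5 k * g5 k : U12 J) = 1 := by u12
theorem g0_inv (k : J) : (g0 k)⁻¹ = g0 k := by u12
theorem g4_inv (k : J) : (g4 k)⁻¹ = g4 k := by u12
theorem g0_comm (k l : J) : g0 k * g0 l = g0 l * g0 k := by u12
theorem four {v : U12 J} (h : v.p0 = 0) : v * v * (v * v) = 1 := by rw [sq_Q h]; u12
theorem c41 (k : J) (l : K) : g4 k * g1 l = g1 l * g4 k := by u12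
theorem c42 (k l : J) : g4 k * g2 l * (g4 k)⁻¹ = g2 l * g3 (T (k * l)) := by u12
theorem c04 (l k : J) : g0 l * g4 k * g0 l * g4 k = g2 (cr l k) * (g1 (T (sh l * k)) * g3 (T (l * sh k))) := by
  u12
theorem c04' (l k : J) :
    g4 l * (g2 (cr l k) * (g1 (T (l * sh k)) * g3 (T (sh l * k)))) = g0 k * g4 l * g0 k := by u12
theorem c13 (a b : K) : (g1 a * g3 b : U12 J) = g3 b * g1 a := by u12
theorem a13 (a b a' b' : K) :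
    (g1 (a + a') * g3 (b + b') : U12 J) = g1 a * g3 b * (g1 a' * g3 b') := by u12
theorem s13 (a b : K) : (g1 a * g3 b * (g1 a * g3 b) : U12 J) = 1 := by u12
theorem i13 (a b : K) : (g1 a * g3 b : U12 J)⁻¹ = g1 a * g3 b := by u12
theorem i1 {v : U12 J} (h0 : v.p0 = 0) (h5 : v.p5 = 0) :
    v = g4 v.p4 * g2 v.p2 * g1 v.p1 * g3 v.p3 := by u12w [h0, h5]
theorem i2 {v : U12 J} (h0 : v.p0 = 0) (h5 : v.p5 = 0) (k : J) (a b : K) :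
    g0 k * g4 v.p4 * g0 k * (g1 a * g3 b) * (g2 v.p2 * g1 (T (k * v.p2))) * g1 v.p1 * g3 v.p3 =
      g0 k * v * g0 k * (g1 a * g3 b) := by u12w [h0, h5]
theorem z13 : (g1 0 * g3 0 : U12 J) = 1 := by u12
theorem tor4 (l : J) (m : K) (k : J) : tor l m (g4 k) = g4 (l * ι m * k) := by
  ext <;> simp [g4]
end ring

theorem σ_add {α : F} (k : KK α) : σK α k + k = ιK α k.im := by
  ext <;> simp <;> grind

theorem re_eq {α : F} {k : KK α} (h : k.im = 0) : ιK α k.re = k := by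
  ext <;> simp [h]

theorem nd' {α : F} {x : JJ E α} (h : ∀ c : E, T (x * ιJ α c) = 0) : x = 0 :=
  QuadraticAlgebra.ext (nd _ fun c => by simpa using congrArg QuadraticAlgebra.re (h c))
    (nd _ fun c => by simpa using congrArg QuadraticAlgebra.im (h c))

variable {S : St E G} {Z : Z2 S} (q : Q1 Z)

theorem n5t (S : St E G) : S.n5 * S.t = S.t * S.n5 := (S.t_comm S.n5_mem).symm
theorem cg_n5_t (S : St E G) : cg S.n5 S.t = S.t := cg_fix (n5t S)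
theorem cg_n5_X (S : St E G) (i : Fin 12) (a : E) : cg S.n5 (S.X i a) = S.X (4 - i) a := S.c5 i a

theorem ψ1 : q.ψ 1 = 1 := by
  have := q.mul 1 1 rfl rfl
  rw [one_mul] at this; exact left_eq_mul.1 this

theorem ψ_inv {u : U12 (JJ E q.α)} (hu : u.p0 = 0) : q.ψ u⁻¹ = (q.ψ u)⁻¹ := by
  rw [eq_inv_iff_mul_eq_one, ← q.mul u⁻¹ u hu hu, inv_mul_cancel, ψ1]

theorem ψ_inj {u v : U12 (JJ E q.α)} (hu : u.p0 = 0) (hv : v.p0 = 0) (e : q.ψ u = q.ψ v) : u = v := by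
  rw [← mul_inv_eq_one]
  refine q.inj _ (m0 hu hv) ?_
  rw [q.mul u v⁻¹ hu hv, ψ_inv q hv, e, mul_inv_cancel]

theorem ψ_comm {u v : U12 (JJ E q.α)} (hu : u.p0 = 0) (hv : v.p0 = 0) (e : u * v = v * u) :
    q.ψ u * q.ψ v = q.ψ v * q.ψ u := by
  rw [← q.mul _ _ hu hv, e, q.mul _ _ hv hu]

theorem cg_ψ {u v : U12 (JJ E q.α)} (hu : u.p0 = 0) (hv : v.p0 = 0) :
    cg (q.ψ u) (q.ψ v) = q.ψ (u * v * u⁻¹) := by
  rw [q.mul _ u⁻¹ (m0 hu hv) hu, q.mul _ _ hu hv, ψ_inv q hu]; rfl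

theorem X1_eq (a : F) : S.X 1 (ι a) = q.ψ (g1 (ιK q.α a)) := by
  rw [← S.φ1', ← q.ext _ rfl, map_g1, tcJ_res]
theorem X3_eq (a : F) : S.X 3 (ι a) = q.ψ (g3 (ιK q.α a)) := by
  rw [← S.φ3', ← q.ext _ rfl, map_g3, tcJ_res]
theorem X5_eq (a : F) : S.X 5 (ι a) = q.ψ (g5 (ιK q.α a)) := by
  rw [← S.φ5', ← q.ext _ rfl, map_g5, tcJ_res]
theorem X2_eq (a : E) : S.X 2 a = q.ψ (g2 (ιJ q.α a)) := by
  rw [← S.φ2, ← q.ext _ rfl, map_g2]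
theorem X4_eq (a : E) : S.X 4 a = q.ψ (g4 (ιJ q.α a)) := by
  rw [← S.φ4, ← q.ext _ rfl, map_g4]
theorem W_eq (y : F) : Z.W y = q.ψ (g3 ⟨0, y⟩) := by rw [q.p3, Z.Y3_W]

theorem ξ_def (k : JJ E q.α) : q.ξ k = cg S.n5 (q.ψ (g4 k)) := rfl
theorem n5_g3 (k : KK q.α) : cg S.n5 (q.ψ (g3 k)) = q.ψ (g1 k) := (q.p1 k).symm
theorem n5_g1 (k : KK q.α) : cg S.n5 (q.ψ (g1 k)) = q.ψ (g3 k) := by
  rw [← n5_g3, cg_cg_self S.n5_sq]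

theorem ψ4_sq (k : JJ E q.α) : q.ψ (g4 k) * q.ψ (g4 k) = 1 := by
  rw [← q.mul _ _ rfl rfl, g4_sq, ψ1]

theorem ψt {u : U12 (JJ E q.α)} (hu : u.p0 = 0) :
    cg (q.ψ u) S.t = S.t * q.ψ (U12.map (tcσ q.α) u * u⁻¹) := by
  rw [q.mul _ u⁻¹ (by simp [hu]) hu, ← q.ct u hu, ψ_inv q hu, S.t_inv, cg_def, ← mul_assoc,
    ← mul_assoc, ← mul_assoc, S.tt, one_mul]

theorem g4_t (k : JJ E q.α) : cg (q.ψ (g4 k)) S.t = S.t * S.X 4 k.im := by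
  rw [ψt q rfl, X4_eq q, map_g4, g4_inv, ← g4_add]
  exact congrArg (fun x => S.t * q.ψ (g4 x)) (σ_add k)

theorem g13_t (a b : KK q.α) :
    cg (q.ψ (g1 a * g3 b)) S.t = S.t * q.ψ (g1 (ιK q.α a.im) * g3 (ιK q.α b.im)) := by
  rw [ψt q (m0 rfl rfl), ← σ_add, ← σ_add, map_mul, map_g1, map_g3, tcσ_res, tcσ_res, i13, a13]

theorem ξ_add (k l : JJ E q.α) : q.ξ (k + l) = q.ξ k * q.ξ l := by
  rw [ξ_def, ξ_def, ξ_def, ← cg_mul, ← q.mul _ _ rfl rfl, g4_add]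

theorem ξ_sq (k : JJ E q.α) : q.ξ k * q.ξ k = 1 := by rw [ξ_def, ← cg_mul, ψ4_sq, cg_one]

theorem ξ_zero : q.ξ 0 = 1 := by rw [ξ_def, g4_zero, ψ1, cg_one]

theorem ξ_ι (a : E) : q.ξ (ιJ q.α a) = S.X 0 a := by rw [ξ_def, ← X4_eq, cg_n5_X]; rfl

theorem ξ_comm (k l : JJ E q.α) : q.ξ k * q.ξ l = q.ξ l * q.ξ k := by rw [← ξ_add, ← ξ_add, add_comm]

theorem ξ_t (k : JJ E q.α) : cg (q.ξ k) S.t = S.t * S.X 0 k.im := by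
  rw [ξ_def, cg_cg, inv_cg (cg_n5_t S), g4_t, cg_mul, cg_n5_t, cg_n5_X]; rfl

theorem ξ_g1 (k : JJ E q.α) (l : KK q.α) : q.ξ k * q.ψ (g1 l) = q.ψ (g1 l) * q.ξ k := by
  rw [ξ_def, ← n5_g3]; exact cg_comm _ (ψ_comm q rfl rfl (g3_comm _ _).symm)

theorem ξ_g3 (k : JJ E q.α) (l : KK q.α) : q.ξ k * q.ψ (g3 l) = q.ψ (g3 l) * q.ξ k := by
  rw [ξ_def, ← n5_g1]; exact cg_comm _ (ψ_comm q rfl rfl (c41 _ _))

variable {q}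

theorem ξ_g2 (h : q.Q2) (k l : JJ E q.α) : cg (q.ξ k) (q.ψ (g2 l)) = q.ψ (g2 l * g1 (T (k * l))) := by
  have e : cg S.n5 (q.ψ (g2 l)) = q.ψ (g2 l) := h.c52 l
  rw [ξ_def, ← e, cg_cg', cg_ψ q rfl rfl, c42, q.mul _ _ rfl rfl, cg_mul, e, n5_g3, q.mul _ _ rfl rfl]

theorem ξ_X4 (h : q.Q2) (k : JJ E q.α) (l : E) :
    cg (q.ξ k) (S.X 4 l) = q.ψ (g0 k * g4 (ιJ q.α l) * g0 k) := by
  have e : cg S.n5 (S.X 0 l) = S.X 4 l := cg_n5_X S 0 l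
  have e2 : ∀ c, cg S.n5 (q.ψ (g2 c)) = q.ψ (g2 c) := h.c52
  have e3 : cg (q.ψ (g4 k)) (S.X 0 l) =
      S.X 0 l * q.ψ (g0 (ιJ q.α l) * g4 k * g0 (ιJ q.α l) * g4 k) := by
    rw [q.mul _ _ (a0 rfl _) rfl, ← h.cx' _ rfl, cg_invol (ψ4_sq q k), ← mul_assoc, ← mul_assoc,
      ← mul_assoc, S.X_sq, one_mul]
  rw [ξ_def, ← e, cg_cg', e3, cg_mul, e, c04, q.mul _ _ rfl (m0 rfl rfl), q.mul _ _ rfl rfl, cg_mul, cg_mul,
    e2, n5_g1, n5_g3, ← q.mul _ _ rfl rfl, ← c13, ← q.mul _ _ rfl (m0 rfl rfl), X4_eq q,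
    ← q.mul _ _ rfl (m0 rfl (m0 rfl rfl)), c04']

/-- the action of `ξ k` on the elements with `p0 = p5 = 0` -/
theorem ξ_gen (h : q.Q2) {v : U12 (JJ E q.α)} (h0 : v.p0 = 0) (h5 : v.p5 = 0) {k : JJ E q.α} {a b : KK q.α}
    (e : q.ξ k * q.ψ (g4 v.p4) * q.ξ k = q.ψ (g0 k * g4 v.p4 * g0 k * (g1 a * g3 b))) :
    q.ξ k * q.ψ v * q.ξ k = q.ψ (g0 k * v * g0 k * (g1 a * g3 b)) := by
  have hz : (g0 k * g4 v.p4 * g0 k * (g1 a * g3 b)).p0 = 0 := m0 (a0 rfl _) (m0 rfl rfl)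
  rw [← cg_invol (ξ_sq q k)] at e ⊢
  rw [← i2 h0 h5]
  conv_lhs => rw [i1 h0 h5]
  rw [q.mul _ _ (m0 (m0 rfl rfl) rfl) rfl, q.mul _ _ (m0 rfl rfl) rfl, q.mul _ _ rfl rfl,
    cg_mul, cg_mul, cg_mul, e, ξ_g2 h, cg_fix (ξ_g1 q k _), cg_fix (ξ_g3 q k _),
    q.mul _ _ (m0 (m0 hz (m0 rfl rfl)) rfl) rfl, q.mul _ _ (m0 hz (m0 rfl rfl)) rfl,
    q.mul _ _ hz (m0 rfl rfl)]

/-- the doubled group `X₁ X₃` -/
def InA (q : Q1 Z) (y : G) : Prop := ∃ a b, y = q.ψ (g1 a * g3 b)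

theorem inA (a b : KK q.α) : InA q (q.ψ (g1 a * g3 b)) := ⟨a, b, rfl⟩

theorem InA.mul {y y' : G} (h : InA q y) (h' : InA q y') : InA q (y * y') := by
  obtain ⟨a, b, rfl⟩ := h
  obtain ⟨a', b', rfl⟩ := h'
  exact ⟨a + a', b + b', by rw [← q.mul _ _ (m0 rfl rfl) (m0 rfl rfl), a13]⟩

theorem InA.X {y : G} (h : InA q y) : ∀ i ≤ 4, ∀ a, y * S.X i a = S.X i a * y := by
  obtain ⟨a, b, rfl⟩ := h
  intro i hi c
  rw [q.mul _ _ rfl rfl]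
  refine Commute.mul_left ?_ ?_
  · have e : cg S.n5 (S.X (4 - i) c) = S.X i c := by rw [cg_n5_X, sub_sub_cancel]
    rw [← e, ← n5_g3, q.p3]
    exact cg_comm _ (Z.Y3_P0 _ (S.X_memP ((by decide : ∀ i : Fin 12, i ≤ 4 → 4 - i ≤ 6) i hi) c))
  · rw [q.p3]
    exact Z.Y3_P0 _ (S.X_memP (hi.trans (by decide)) c)

theorem ψ_W (q : Q1 Z) {u : U12 (JJ E q.α)} (hu : u.p0 = 0) (y : F) : q.ψ u * Z.W y = Z.W y * q.ψ u := by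
  rw [W_eq q]; exact ψ_comm q hu rfl (g3_comm _ _).symm

theorem tr2 (hD : S.Db) (q : Q1 Z) {g : G} (hc : ∀ i ≤ 4, ∀ a, g * S.X i a = S.X i a * g)
    (hW : ∀ y, g * Z.W y = Z.W y * g) {a b : KK q.α} (ht : cg g S.t = S.t * q.ψ (g1 a * g3 b)) :
    ∃ a o, InA q a ∧ S.Od o ∧ g = a * o := by
  have h2 : U12.map (tcσ q.α) (g1 a * g3 b : U12 (JJ E q.α)) * (g1 a * g3 b) = 1 := by
    refine q.inj _ (by simp [g1, g3]) ?_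
    rw [q.mul _ _ (by simp [g1, g3]) (m0 rfl rfl), ← q.ct _ (m0 rfl rfl), S.t_inv,
      mul_assoc, ← ht, ← cg_mul, S.tt, cg_one]
  rw [map_mul, map_g1, map_g3, tcσ_res, tcσ_res, ← a13, σ_add, σ_add] at h2
  have ha : ιK q.α a.re = a := re_eq (by simpa [g1, g3] using congrArg (fun u => u.p1.re) h2)
  have hb : ιK q.α b.re = b := re_eq (by simpa [g1, g3] using congrArg (fun u => u.p3.re) h2)
  have h3 := g13_t q ⟨0, a.re⟩ ⟨0, b.re⟩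
  rw [ha, hb, ← ht] at h3
  have hA := inA (q := q) ⟨0, a.re⟩ ⟨0, b.re⟩
  have hAW := ψ_W q (u := g1 ⟨0, a.re⟩ * g3 ⟨0, b.re⟩) (m0 rfl rfl) 1
  generalize q.ψ (g1 ⟨0, a.re⟩ * g3 ⟨0, b.re⟩) = A at h3 hA hAW
  have h4 : cg (A⁻¹ * g) S.t = S.t := by rw [mul_cg, ← h3, inv_cg rfl]
  obtain ⟨b', e, o, ho, h5 | h5⟩ := S.tr2 hD (comm_of_cg h4) (fun i hi c =>
    Commute.mul_left (Commute.inv_left (hA.X i hi c)) (hc i hi c))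
  · refine ⟨A * (S.X 1 (ι b') * S.X 3 (ι e)), o, hA.mul ⟨ιK q.α b', ιK q.α e, ?_⟩, ho, ?_⟩
    · rw [X1_eq q, X3_eq q, q.mul _ _ rfl rfl]
    · rw [mul_assoc, ← h5]; group
  · exfalso
    have c1 : Commute (A⁻¹ * g) (Z.W 1) := Commute.mul_left (Commute.inv_left hAW) (hW 1)
    have c2 : Commute (S.X 1 (ι b') * S.X 3 (ι e)) (Z.W 1) :=
      Commute.mul_left (Z.cP 1 _ (by decide) _).symm (Z.cP 1 _ (by decide) _).symm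
    have c3 : Commute o (Z.W 1) := (Z.cO 1 o ho).symm
    have e1 : S.t = (S.X 1 (ι b') * S.X 3 (ι e))⁻¹ * (A⁻¹ * g) * o⁻¹ := by rw [h5]; group
    have c4 : Commute S.t (Z.W 1) := by
      rw [e1]; exact (c2.inv_left.mul_left c1).mul_left c3.inv_left
    have e3 := Z.ct 1
    rw [← c4.eq, mul_inv_cancel_right, left_eq_mul, map_one] at e3
    exact S.z_ne e3

end QG1

namespace Q1
open QG1 H89.G2S.Cg
variable {S : St E G} {Z : Z2 S} {q : Q1 Z}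
theorem ψ_one (q : Q1 Z) : q.ψ 1 = 1 := ψ1 q
theorem ψ_inv (q : Q1 Z) {u : U12 (JJ E q.α)} (hu : u.p0 = 0) : (q.ψ u)⁻¹ = q.ψ u⁻¹ :=
  (QG1.ψ_inv q hu).symm
theorem ψ_inj (q : Q1 Z) {u v : U12 (JJ E q.α)} (hu : u.p0 = 0) (hv : v.p0 = 0) (h : q.ψ u = q.ψ v) :
    u = v := QG1.ψ_inj q hu hv h
theorem ψ_W (q : Q1 Z) {u : U12 (JJ E q.α)} (hu : u.p0 = 0) (y : F) : q.ψ u * Z.W y = Z.W y * q.ψ u :=
  QG1.ψ_W q hu y
theorem ψ_four (q : Q1 Z) {u : U12 (JJ E q.α)} (hu : u.p0 = 0) :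
    q.ψ u * q.ψ u * (q.ψ u * q.ψ u) = 1 := by
  rw [← q.mul _ _ hu hu, ← q.mul _ _ (m0 hu hu) (m0 hu hu), four hu, ψ1]
theorem ξ_add (q : Q1 Z) (k l : JJ E q.α) : q.ξ (k + l) = q.ξ k * q.ξ l := QG1.ξ_add q k l
theorem ξ_sq (q : Q1 Z) (k : JJ E q.α) : q.ξ k * q.ξ k = 1 := QG1.ξ_sq q k
theorem ξ_ι (q : Q1 Z) (a : E) : q.ξ (ιJ q.α a) = S.X 0 a := QG1.ξ_ι q a
theorem ξ_CO (q : Q1 Z) (k : JJ E q.α) : S.CO (q.ξ k) := (q.cO _ rfl).conj (QG1.n5t S)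
theorem ξ_W (q : Q1 Z) (k : JJ E q.α) (y : F) : q.ξ k * Z.W y = Z.W y * q.ξ k := by
  rw [W_eq q]; exact QG1.ξ_g3 q k _
theorem ξ_t (q : Q1 Z) (k : JJ E q.α) : q.ξ k * S.t * q.ξ k = S.t * S.X 0 k.im := by
  rw [← cg_invol (q.ξ_sq k), QG1.ξ_t]
theorem ψ_t (q : Q1 Z) {u : U12 (JJ E q.α)} (hu : u.p0 = 0) :
    q.ψ u * S.t * (q.ψ u)⁻¹ = S.t * q.ψ (U12.map (tcσ q.α) u * u⁻¹) := ψt q hu
theorem h_ξ (q : Q1 Z) (l : Eˣ) (m : Fˣ) (k : JJ E q.α) :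
    S.h l m * q.ξ k * (S.h l m)⁻¹ = q.ξ (ιJ q.α (l : E) * k) := by
  have e0 : l * ιu m * ιu m⁻¹ = l := Units.ext (by simp [mul_assoc, ← map_mul])
  have e : S.h l m = cg S.n5 (S.h (l * ιu m) m⁻¹) := by
    rw [cg_def, S.n5_h, e0, inv_inv]
  have e2 : ιJ q.α ((l * ιu m : Eˣ) : E) * ι (ιK q.α ((m⁻¹ : Fˣ) : F)) = ιJ q.α (l : E) := by
    rw [ι_ιK, ← map_mul, ← ιu_val, ← Units.val_mul, e0]
  rw [← cg_def, e, ξ_def, ξ_def, cg_cg', cg_def (S.h _ _), q.ch _ rfl, tor4, e2]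
theorem n5_g1 (q : Q1 Z) (k : KK q.α) : S.n5 * q.ψ (g1 k) * S.n5⁻¹ = q.ψ (g3 k) := QG1.n5_g1 q k
theorem ξ_g1 (q : Q1 Z) (k : JJ E q.α) (l : KK q.α) : q.ξ k * q.ψ (g1 l) = q.ψ (g1 l) * q.ξ k :=
  QG1.ξ_g1 q k l
theorem ξ_g3 (q : Q1 Z) (k : JJ E q.α) (l : KK q.α) : q.ξ k * q.ψ (g3 l) = q.ψ (g3 l) * q.ξ k :=
  QG1.ξ_g3 q k l
theorem Q2.ξ_g2 (h : q.Q2) (k l : JJ E q.α) :
    q.ξ k * q.ψ (g2 l) * q.ξ k = q.ψ (g2 l * g1 (T (k * l))) := by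
  rw [← cg_invol (q.ξ_sq k), QG1.ξ_g2 h]
theorem Q2.ξ_X4 (h : q.Q2) (k : JJ E q.α) (l : E) :
    q.ξ k * S.X 4 l * q.ξ k = q.ψ (g0 k * g4 (ιJ q.α l) * g0 k) := by
  rw [← cg_invol (q.ξ_sq k), QG1.ξ_X4 h]
/-- `Φ u = ψ(u g0(p0)) ξ(p0)` -/
def Φ (q : Q1 Z) (u : U12 (JJ E q.α)) : G := q.ψ (u * g0 u.p0) * q.ξ u.p0
theorem Φ_ψ (q : Q1 Z) {u : U12 (JJ E q.α)} (hu : u.p0 = 0) : q.Φ u = q.ψ u := by
  rw [Φ, hu, g0_zero, ξ_zero, mul_one, mul_one]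
theorem Φ_g0 (q : Q1 Z) (k : JJ E q.α) : q.Φ (g0 k) = q.ξ k := by
  change q.ψ (g0 k * g0 k) * q.ξ k = _
  rw [g0_sq, ψ1, one_mul]
theorem Q2.Φ_ι (h : q.Q2) (x : U12 E) : q.Φ (U12.map (tcJ q.α) x) = S.φ x := by
  have _ := h
  rw [Φ, map_p0, q.ξ_ι, ← map_g0 (tcJ q.α), ← map_mul, q.ext _ (u0 x), ← S.φ0, ← map_mul, mul_assoc, g0_sq,
    mul_one]
/-- the multiplicativity of `Φ` from the action of `ξ` -/
theorem Φ_mul_of (q : Q1 Z) {u v : U12 (JJ E q.α)}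
    (e : q.ξ u.p0 * q.ψ (v * g0 v.p0) * q.ξ u.p0 = q.ψ (g0 u.p0 * (v * g0 v.p0) * g0 u.p0)) :
    q.Φ (u * v) = q.Φ u * q.Φ v := by
  have e1 : u * v * g0 (u * v).p0 = u * g0 u.p0 * (g0 u.p0 * (v * g0 v.p0) * g0 u.p0) := by
    rw [mul_p0, add_comm, g0_add]
    simp only [← mul_assoc]
    rw [mul_assoc u (g0 _) (g0 _), g0_sq, mul_one]
  rw [Φ, Φ, Φ, e1, q.mul _ _ (u0 u) (a0 (u0 v) _), ← e, mul_p0, q.ξ_add]
  simp only [mul_assoc]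
  rw [← mul_assoc (q.ξ u.p0) (q.ξ u.p0), q.ξ_sq, one_mul]
theorem Q2.Φ_mul (h : q.Q2) {u : U12 (JJ E q.α)} (hu : u.p0.im = 0) (v : U12 (JJ E q.α)) :
    q.Φ (u * v) = q.Φ u * q.Φ v := by
  refine q.Φ_mul_of ?_
  rw [← re_eq hu]
  exact q.ξ_ι _ ▸ h.cx' _ (u0 v) _
/-- the action of `ξ` on `Φ` from its action on `ψ` -/
theorem ξ_Φ_of (q : Q1 Z) {k : JJ E q.α} {u : U12 (JJ E q.α)}
    (e : q.ξ k * q.ψ (u * g0 u.p0) * q.ξ k = q.ψ (g0 k * (u * g0 u.p0) * g0 k)) :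
    q.ξ k * q.Φ u * q.ξ k = q.Φ (g0 k * u * g0 k) := by
  have e1 : g0 k * u * g0 k * g0 u.p0 = g0 k * (u * g0 u.p0) * g0 k := by
    simp only [mul_assoc, g0_comm k]
  rw [Φ, Φ, a0', e1, ← e]
  simp only [mul_assoc]
  rw [ξ_comm q u.p0]
theorem Q2.ξ_Φ (h : q.Q2) (k : JJ E q.α) {u : U12 (JJ E q.α)} (h5 : u.p5 = 0) (h4 : u.p4.im = 0) :
    q.ξ k * q.Φ u * q.ξ k = q.Φ (g0 k * u * g0 k) := by
  refine q.ξ_Φ_of ?_
  have e4 : (u * g0 u.p0).p4 = ιJ q.α u.p4.re := by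
    rw [show ιJ q.α u.p4.re = u.p4 from re_eq h4]; simp [g0]
  have := ξ_gen h (u0 u) (by simp [g0, h5]) (k := k) (a := 0) (b := 0) (by
    rw [e4, ← X4_eq, h.ξ_X4, z13, mul_one])
  rwa [z13, mul_one] at this
theorem Φ_inj (q : Q1 Z) {u v : U12 (JJ E q.α)} (h0 : u.p0 = v.p0) (e : q.Φ u = q.Φ v) : u = v := by
  rw [Φ, Φ, h0, mul_left_inj] at e
  exact mul_right_cancel (q.ψ_inj (h0 ▸ u0 u) (u0 v) e)
theorem Q2.tr2 (hD : S.Db) (h : q.Q2) {g : G} (hc : ∀ i ≤ 4, ∀ a, g * S.X i a = S.X i a * g)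
    (hW : ∀ y, g * Z.W y = Z.W y * g) {u : U12 (JJ E q.α)} (hu : u.p0.im = 0)
    (ht : g * S.t * g⁻¹ = S.t * q.Φ u) : ∃ a b o, S.Od o ∧ g = q.ψ (g1 a * g3 b) * o := by
  have h1 : ∀ i ≤ 4, ∀ c (x : U12 E), S.φ x = S.X i c →
      u * U12.map (tcJ q.α) x = U12.map (tcJ q.α) x * u := by
    intro i hi c x hx
    have c1 : Commute (cg g S.t) (S.X i c) := by
      rw [← cg_fix (hc i hi c)]; exact cg_comm _ (S.tX i c)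
    have c2 : Commute S.t (S.X i c) := S.tX i c
    have : q.Φ u = S.t⁻¹ * cg g S.t := by rw [cg_def, ht]; group
    refine q.Φ_inj (by simp [add_comm]) ?_
    rw [h.Φ_mul hu, h.Φ_mul (by simp), h.Φ_ι, hx, this]
    exact c2.inv_left.mul_left c1
  have e0 := h1 0 (by decide) 1 _ (S.φ0 1)
  have e2 := fun c => h1 2 (by decide) c _ (S.φ2 c)
  have e4 := fun c => h1 4 (by decide) c _ (S.φ4 c)
  simp only [map_g0, map_g2, map_g4] at e0 e2 e4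
  have x0 : u.p0 = 0 := nd' fun c => by simpa [g2] using congrArg U12.p1 (e2 c)
  have x5 : u.p5 = 0 := by simpa [g0] using congrArg U12.p4 e0
  have x4 : u.p4 = 0 := nd' fun c => by simpa [g2, x0, x5, mul_comm] using congrArg U12.p3 (e2 c)
  have x2 : u.p2 = 0 := nd' fun c => by simpa [g4, x0, x5] using congrArg U12.p3 (e4 c)
  obtain ⟨a, b, rfl⟩ := mem_EA'.1 (mem_EA.2 ⟨x0, x5, x4, x2⟩)
  rw [q.Φ_ψ x0] at ht
  obtain ⟨_, o, ⟨a', b', rfl⟩, ho, e⟩ := QG1.tr2 hD q hc hW ht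
  exact ⟨a', b', o, ho, e⟩
end Q1

end H89.D4S
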