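import Cfsg.Agent.Lib.D4S.PH
import Cfsg.Agent.Lib.D4S.QG1
import Cfsg.Agent.Lib.D4S.Cg

/-! Standard components of type `³D₄(2ⁿ)`, package QF: see `blueprint/D4S/README.md`. -/

set_option autoImplicit false
set_option linter.unusedSectionVars false
set_option linter.unusedSimpArgs false
set_option linter.unnecessarySeqFocus false

namespace H89.D4S
open Subgroup H69 U12
open H89.G2S (KK ιK σK)
open scoped commutatorElement

variable {F E G : Type*} [Field F] [Field E] [Cub F E] [CharP F 2] [CharP E 2] [Finite F] [Finite E]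
  [Group G] [Finite G]

namespace QF
open Cg

section ring
variable {K J : Type*} [CommRing K] [CommRing J] [Cub K J] [CharP K 2] [CharP J 2]

theorem al0 (k : J) {u : U12 J} (hu : u.p0 = 0) : (g0 k * u * g0 k).p0 = 0 := by
  simp [g0, hu, CharTwo.add_self_eq_zero]
theorem al3 (k : J) (e : K) {u : U12 J} (hu : u.p0 = 0) : (g0 k * u * g0 k * g3 e).p0 = 0 := by
  simp [g0, g3, hu, CharTwo.add_self_eq_zero]
theorem m0 {u v : U12 J} (hu : u.p0 = 0) (hv : v.p0 = 0) : (u * v).p0 = 0 := by simp [hu, hv]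
theorem i0 (k : J) : (g0 k * g0 k : U12 J) = 1 := by u12
theorem i14 (e e' : K) : (g3 e * g3 e' : U12 J) = g3 (e + e') := by u12
theorem i1 (k : J) (e e' : K) (u v : U12 J) :
    g0 k * u * g0 k * g3 e * (g0 k * v * g0 k * g3 e') = g0 k * (u * v) * g0 k * g3 (e + e') := by
  rw [mul_assoc _ (g3 e), g3_comm]
  calc _ = g0 k * u * (g0 k * g0 k) * v * g0 k * (g3 e' * g3 e) := by simp only [mul_assoc]
    _ = _ := by rw [i0, i14, add_comm, mul_one, mul_assoc (g0 k) u v]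
theorem i2 {u : U12 J} (h0 : u.p0 = 0) (h5 : u.p5 = 0) :
    u = g4 u.p4 * (g2 u.p2 * (g1 u.p1 * g3 u.p3)) := by ext <;> simp [g1, g2, g3, g4, h0, h5]
theorem i2' {u : U12 J} (h0 : u.p0 = 0) (h5 : u.p5 = 0) (h4 : u.p4 = 0) :
    u = g2 u.p2 * (g1 u.p1 * g3 u.p3) := by ext <;> simp [g1, g2, g3, h0, h5, h4]
theorem i3 (k l : J) : g2 l * g1 (T (k * l)) = g0 k * g2 l * g0 k * g3 0 := by u12
theorem i4 (k : J) (l : K) : g1 l = g0 k * g1 l * g0 k * g3 0 := by u12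
theorem i5 (k : J) (l : K) : g3 l = g0 k * g3 l * g0 k * g3 0 := by u12
theorem i6 (l : K) : (g5 l * g5 l : U12 J) = 1 := by u12
theorem i6' (l : J) : (g4 l * g4 l : U12 J) = 1 := by u12
theorem i10 (k l : J) : g0 (k + l) = g0 k * g0 l := by u12
theorem i11 (k k' : J) (u : U12 J) (e e' : K) :
    g0 k * (g0 k' * u * g0 k' * g3 e') * g0 k * g3 e =
    g0 (k + k') * u * g0 (k + k') * g3 (e + e') := by
  rw [add_comm e, ← i14]
  nth_rw 2 [add_comm k]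
  rw [i10, i10, mul_assoc (g0 k), mul_assoc _ (g3 e'), g3_comm]
  simp only [mul_assoc]
theorem i12 (c k : J) (u : U12 J) (e : K) : tor c 1 (g0 k * u * g0 k * g3 e) =
    g0 (c * k) * tor c 1 u * g0 (c * k) * g3 (N c * e) := by
  rw [map_mul, map_mul, map_mul]; congr <;> ext <;> simp [g0, g3]
theorem i13 (c : J) (l : K) : tor c 1 (g5 l) = g5 l := by ext <;> simp [g5]
theorem i13' (c l : J) : tor c 1 (g4 l) = g4 (c * l) := by ext <;> simp [g4]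
theorem i15 (e e' : K) (u : U12 J) : u * g3 e * g3 e' = u * g3 (e + e') := by rw [mul_assoc, i14]
theorem i16 (c k : J) (b e : K) (hc : N c = 1) :
    tor c 1 (g2 k * g1 b * g3 e) * (g2 k * g1 b * g3 e) = g2 (sh c * k + k) := by
  ext <;> simp [g1, g2, g3, hc, CharTwo.add_self_eq_zero]
end ring

variable {S : St E G} {Z : Z2 S} (q : Q1 Z)

theorem N_ιJ (α : F) (x : E) : N (ιJ α x) = ιK α (N x) := by
  rw [← (tcJ (E := E) α).res_N, tcJ_res]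
theorem sh_ιJ (α : F) (x : E) : sh (ιJ α x) = ιJ α (sh x) := ((tcJ (E := E) α).sh x).symm

theorem ψ_comm {u v : U12 (JJ E q.α)} (hu : u.p0 = 0) (hv : v.p0 = 0) (e : u * v = v * u) :
    q.ψ u * q.ψ v = q.ψ v * q.ψ u := by
  rw [← q.mul _ _ hu hv, e, q.mul _ _ hv hu]

theorem cg_ψ {u v : U12 (JJ E q.α)} (hu : u.p0 = 0) (hv : v.p0 = 0) :
    cg (q.ψ u) (q.ψ v) = q.ψ (u * v * u⁻¹) := by
  rw [q.mul _ u⁻¹ (by simp [hu, hv]) hu, q.mul _ _ hu hv, ← q.ψ_inv hu]; rfl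

theorem X1_eq (a : F) : S.X 1 (ι a) = q.ψ (g1 (ιK q.α a)) := by
  rw [← S.φ1', ← q.ext _ rfl, map_g1, tcJ_res]
theorem X2_eq (a : E) : S.X 2 a = q.ψ (g2 (ιJ q.α a)) := by
  rw [← S.φ2, ← q.ext _ rfl, map_g2]
theorem X3_eq (a : F) : S.X 3 (ι a) = q.ψ (g3 (ιK q.α a)) := by
  rw [← S.φ3', ← q.ext _ rfl, map_g3, tcJ_res]
theorem X4_eq (a : E) : S.X 4 a = q.ψ (g4 (ιJ q.α a)) := by
  rw [← S.φ4, ← q.ext _ rfl, map_g4]
theorem X5_eq (a : F) : S.X 5 (ι a) = q.ψ (g5 (ιK q.α a)) := by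
  rw [← S.φ5', ← q.ext _ rfl, map_g5, tcJ_res]
theorem W_eq (y : F) : Z.W y = q.ψ (g3 ⟨0, y⟩) := by rw [q.p3, Z.Y3_W]
theorem n5_g3 (k : KK q.α) : cg S.n5 (q.ψ (g3 k)) = q.ψ (g1 k) := (q.p1 k).symm
theorem n5_g1 (k : KK q.α) : cg S.n5 (q.ψ (g1 k)) = q.ψ (g3 k) := q.n5_g1 k

theorem g2_t (k : JJ E q.α) : cg (q.ψ (g2 k)) S.t = S.t * S.X 2 k.im := by
  have e : ιJ q.α k.im = σJ q.α k + k := by ext <;> simp <;> grind
  rw [cg_def, q.ψ_t rfl, X2_eq q, e, map_g2]; congr 2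
  change g2 (σJ q.α k) * _ = _
  generalize σJ q.α k = k'
  u12

theorem ch1 (c : Eˣ) {v : U12 (JJ E q.α)} (hv : v.p0 = 0) :
    cg (S.h c 1) (q.ψ v) = q.ψ (tor (ιJ q.α (c : E)) 1 v) := by
  rw [cg_def, q.ch v hv, Units.val_one, map_one]

theorem form (hD : S.Db) (k : JJ E q.α) : ∃ (a : E) (b e : F), cg S.n5 (q.ψ (g2 k)) =
    S.X 2 a * S.X 1 (ι b) * S.X 3 (ι e) * q.ψ (g2 k) := by
  have x2 : ∀ a, Commute (q.ψ (g2 k)) (S.X 2 a) := fun a => by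
    rw [X2_eq q]; exact ψ_comm q rfl rfl (by u12)
  have x1 : ∀ l, Commute (q.ψ (g2 k)) (q.ψ (g1 l)) := fun l => ψ_comm q rfl rfl (by u12)
  have x3 : ∀ l, Commute (q.ψ (g2 k)) (q.ψ (g3 l)) := fun l => ψ_comm q rfl rfl (by u12)
  have y2 : ∀ a, Commute (cg S.n5 (q.ψ (g2 k))) (S.X 2 a) := fun a => by
    have e : cg S.n5 (S.X 2 a) = S.X 2 a := cg_n5_X S 2 a
    rw [← e]; exact cg_comm _ (x2 a)
  have y1 : ∀ l, Commute (cg S.n5 (q.ψ (g2 k))) (q.ψ (g1 l)) := fun l => by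
    rw [← n5_g3]; exact cg_comm _ (x3 l)
  have y3 : ∀ l, Commute (cg S.n5 (q.ψ (g2 k))) (q.ψ (g3 l)) := fun l => by
    rw [← n5_g1]; exact cg_comm _ (x1 l)
  have xt := g2_t q k
  have yt : cg (cg S.n5 (q.ψ (g2 k))) S.t = S.t * S.X 2 k.im := by
    rw [cg_cg, cg_n5i_t, xt, cg_mul, cg_n5_t, cg_n5_X]; rfl
  have xs : q.ψ (g2 k) * q.ψ (g2 k) = 1 := by
    rw [← q.mul _ _ rfl rfl, ← q.ψ_one]; congr 1; u12
  have ys : cg S.n5 (q.ψ (g2 k)) * cg S.n5 (q.ψ (g2 k)) = 1 := by rw [← cg_mul, xs, cg_one]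
  have xo : S.CO (q.ψ (g2 k)) := q.cO _ rfl
  generalize cg S.n5 (q.ψ (g2 k)) = y at *
  generalize q.ψ (g2 k) = x at *
  have ht : cg (y * x) S.t = S.t := by
    rw [mul_cg, xt, cg_mul, yt, cg_fix (y2 _), mul_assoc, S.X_sq, mul_one]
  obtain ⟨a, b, e, c, hc, hg⟩ := S.cE (comm_of_cg ht)
    (fun a => by rw [← S.φ1, S.φ1', X1_eq q]; exact (y1 _).mul_left (x1 _)) (fun a => (y2 _).mul_left (x2 _))
    (fun a => by rw [← S.φ3, S.φ3', X3_eq q]; exact (y3 _).mul_left (x3 _))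
  have hL : S.X 2 a * S.X 1 (ι b) * S.X 3 (ι e) ∈ S.L :=
    mul_mem (mul_mem (S.X_mem _ _) (S.X_mem _ _)) (S.X_mem _ _)
  have ws : S.X 2 a * S.X 1 (ι b) * S.X 3 (ι e) * (S.X 2 a * S.X 1 (ι b) * S.X 3 (ι e)) = 1 := by
    rw [← S.φ1', ← S.φ2, ← S.φ3', ← map_mul, ← map_mul, ← map_mul, ← map_one S.φ]; congr 1; u12
  have xw : Commute x (S.X 2 a * S.X 1 (ι b) * S.X 3 (ι e)) :=
    ((x2 _).mul_right (by rw [X1_eq q]; exact x1 _)).mul_right (by rw [X3_eq q]; exact x3 _)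
  have wW : Commute (S.X 2 a * S.X 1 (ι b) * S.X 3 (ι e)) (Z.W 1) :=
    (Commute.mul_left (Z.cP 1 _ (by decide) _).symm (Z.cP 1 _ (by decide) _).symm).mul_left
      (Z.cP 1 _ (by decide) _).symm
  refine ⟨a, b, e, ?_⟩
  generalize S.X 2 a * S.X 1 (ι b) * S.X 3 (ι e) = w at *
  obtain ⟨o, ho, rfl | rfl⟩ := hD.cases hc
  · have e1 : y = w * x * c := by
      rw [mul_assoc, xo c ho, ← mul_assoc, ← hg, mul_assoc, xs, mul_one]
    have c1 : Commute (w * x) c := ((S.co_L hL).mul xo) c ho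
    have h1 : c = 1 := by
      refine ho.eq_one_sq ?_
      rw [e1, ← sq, c1.mul_pow, xw.symm.mul_pow, sq, sq, sq, ws, xs, one_mul, one_mul] at ys
      exact ys
    rw [e1, h1, mul_one]
  · exfalso
    have c1 : Commute (y * x) (Z.W 1) := by rw [W_eq q]; exact (y3 _).mul_left (x3 _)
    have c3 : Commute o (Z.W 1) := (Z.cO 1 o ho).symm
    have e1 : S.t = w⁻¹ * (y * x) * o⁻¹ := by rw [hg]; group
    have c4 : Commute S.t (Z.W 1) := by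
      rw [e1]; exact (wW.inv_left.mul_left c1).mul_left c3.inv_left
    have e3 := Z.ct 1
    rw [← c4.eq, mul_inv_cancel_right, left_eq_mul, map_one] at e3
    exact S.z_ne e3

theorem into (hD : S.Db) (k : JJ E q.α) : ∃ k', cg S.n5 (q.ψ (g2 k)) = q.ψ (g2 k') := by
  obtain ⟨l, l1, -, l3⟩ := exists_N1 S.cub
  have n : sh (l : E) + 1 ≠ 0 := fun e => l3 (by grind)
  obtain ⟨k, rfl⟩ : ∃ k', k = sh (ιJ q.α (l : E)) * k' + k' := ⟨ιJ q.α (sh (l : E) + 1)⁻¹ * k, by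
    rw [sh_ιJ, ← add_one_mul, ← map_one (ιJ q.α), ← map_add, ← mul_assoc, ← map_mul,
      mul_inv_cancel₀ n, map_one, one_mul]⟩
  obtain ⟨a, b, e, h⟩ := form q hD k
  have h0 : cg S.n5 (S.h l 1) = S.h l 1 := by
    rw [cg_def, S.n5_h, inv_one, ιu, map_one, mul_one]
  rw [X2_eq q, X1_eq q, X3_eq q, ← q.mul _ _ rfl rfl, ← q.mul _ _ (m0 rfl rfl) rfl,
    ← q.mul _ _ (m0 (m0 rfl rfl) rfl) rfl, show g2 (ιJ q.α a) * g1 (ιK q.α b) * g3 (ιK q.α e) * g2 k =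
      g2 (ιJ q.α a + k) * g1 (ιK q.α b) * g3 (ιK q.α e) by u12] at h
  have h1 := congrArg (cg (S.h l 1)) h
  rw [ch1 q l (m0 (m0 rfl rfl) rfl)] at h1
  nth_rw 1 [← h0] at h1
  rw [cg_cg', ch1 q l rfl] at h1
  refine ⟨_, (?_ : _ = _).trans (congrArg q.ψ (i16 (ιJ q.α (l : E)) (ιJ q.α a + k) (ιK q.α b)
    (ιK q.α e) (by rw [N_ιJ, l1, map_one])))⟩
  rw [q.mul _ _ (by simp [g1, g2, g3]) (m0 (m0 rfl rfl) rfl), ← h1, ← h, ← cg_mul,
    ← q.mul _ _ (by simp [g2]) rfl]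
  congr 2
  generalize ιJ q.α (l : E) = c
  apply U12.ext' <;> simp [g2]

theorem c52 (hD : S.Db) (k : JJ E q.α) : cg S.n5 (q.ψ (g2 k)) = q.ψ (g2 k) := by
  obtain ⟨k', h⟩ := into q hD k
  have f5 : ∀ l, cg (S.X 5 1) (q.ψ (g2 l)) = q.ψ (g2 l) := fun l => by
    rw [show S.X 5 1 = _ from map_one (ι : F →+* E) ▸ X5_eq q 1]; exact cg_fix (ψ_comm q rfl rfl (by u12))
  conv_lhs => rw [S.n5_eq]
  rw [mul_cg, mul_cg, mul_cg, mul_cg, f5, h, f5, ← h, cg_n5_n5, f5]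

/-- the defect of the action of `X 0 k` -/
def D (k : E) (u : U12 (JJ E q.α)) (e : KK q.α) : Prop :=
  cg (S.X 0 k) (q.ψ u) = q.ψ (g0 (ιJ q.α k) * u * g0 (ιJ q.α k) * g3 e)

theorem auto_QF : True := by have := @D.eq_1.{0, 0, 0}; trivial

variable {q} {k k' : E} {u v : U12 (JJ E q.α)} {e e' : KK q.α}

theorem D.mul (h : D q k u e) (h' : D q k v e') (hu : u.p0 = 0) (hv : v.p0 = 0) :
    D q k (u * v) (e + e') := by
  rw [D, q.mul _ _ hu hv, cg_mul, h, h', ← q.mul _ _ (al3 _ _ hu) (al3 _ _ hv), i1]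

theorem D.uniq (h : D q k u e) (h' : D q k u e') (hu : u.p0 = 0) : e = e' :=
  congrArg U12.p3 (mul_left_cancel (q.ψ_inj (al3 _ _ hu) (al3 _ _ hu) (h.symm.trans h')))

theorem D3 (l : KK q.α) : D q k (g3 l) 0 := by
  rw [D, ← i5, q.p3]
  exact cg_fix' (Z.Y3_P0 _ (S.X_memP (by decide) _))

theorem D1 (l : KK q.α) : D q k (g1 l) 0 := by
  rw [D, ← i4, ← q.ξ_ι]
  exact cg_fix (q.ξ_g1 _ _)

theorem D2 (hD : S.Db) (l : JJ E q.α) : D q k (g2 l) 0 := by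
  have e : cg S.n5 (S.X 4 k) = S.X 0 k := cg_n5_X S 4 k
  rw [D, ← i3, ← e, ← c52 q hD, cg_cg', X4_eq q, cg_ψ q rfl rfl,
    show g4 (ιJ q.α k) * g2 l * (g4 (ιJ q.α k))⁻¹ = g2 l * g3 (T (ιJ q.α k * l)) by
      generalize ιJ q.α k = c; u12,
    q.mul _ _ rfl rfl, cg_mul, c52 q hD, n5_g3, q.mul _ _ rfl rfl]

theorem Dx (k : E) (hu : u.p0 = 0) : ∃ e, D q k u e := by
  obtain ⟨e, h⟩ := q.cx u hu k
  exact ⟨e, by rw [D, cg_invol (S.X_sq _ _), h]⟩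

theorem DE (hD : S.Db) (h0 : u.p0 = 0) (h5 : u.p5 = 0) (h4 : u.p4 = 0) : D q k u 0 := by
  have := (D2 (k := k) hD u.p2).mul ((D1 u.p1).mul (D3 u.p3) rfl rfl) rfl (m0 rfl rfl)
  rwa [← i2' h0 h5 h4, add_zero, add_zero] at this

theorem D.add (h' : D q k' u e')
    (h : D q k (g0 (ιJ q.α k') * u * g0 (ιJ q.α k') * g3 e') e) : D q (k + k') u (e + e') := by
  rw [D, S.X_add, mul_cg, h', h, i11, map_add]

theorem D.tor (h : D q k u e) (hu : u.p0 = 0) (c : Eˣ) :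
    D q (c * k) (tor (ιJ q.α (c : E)) 1 u) (ιK q.α (N (c : E)) * e) := by
  have e2 : cg (S.h c 1) (S.X 0 k) = S.X 0 (c * k) := by rw [cg_def, S.hX, wt0]
  rw [D, ← e2, ← ch1 q c hu, cg_cg', h, ch1 q c (al3 _ _ hu), i12, N_ιJ, map_mul]

theorem D4 (hD : S.Db) (k : E) (l : JJ E q.α) : D q k (g4 l) 0 := by
  choose f hf using fun (k : E) (l : JJ E q.α) => Dx (q := q) k (u := g4 l) rfl
  rw [← cubic_kill S.cub (RingHom.id E) (ιJ q.α) (ιK q.α) (f := f) (fun k k' l => ?_)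
    (fun k l l' => ?_) (fun c k l => ?_) k l]
  · exact hf k l
  · refine (hf _ _).uniq ((hf k' l).add ?_) rfl
    have w0 := al3 (ιJ q.α k') (f k' l) (u := g4 l) rfl
    have := (hf k l).mul (DE hD (m0 (u := g4 l) rfl w0) (by simp [g0, g3, g4])
      (by simp [g0, g3, g4, CharTwo.add_self_eq_zero])) rfl (m0 rfl w0)
    rwa [← mul_assoc, i6', one_mul, add_zero] at this
  · refine (hf _ _).uniq ?_ rfl
    rw [show g4 (l + l') = g4 l * g4 l' by u12]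
    exact (hf k l).mul (hf k l') rfl rfl
  · refine (hf _ _).uniq ?_ rfl
    rw [← i13']
    exact (hf k l).tor rfl c

theorem D0 (hD : S.Db) (h0 : u.p0 = 0) (h5 : u.p5 = 0) : D q k u 0 := by
  have := (D4 hD k u.p4).mul ((D2 hD u.p2).mul ((D1 u.p1).mul (D3 u.p3) rfl rfl) rfl (m0 rfl rfl)) rfl
    (m0 rfl (m0 rfl rfl))
  rwa [← i2 h0 h5, add_zero, add_zero, add_zero] at this

theorem D.ext (hD : S.Db) {l : KK q.α} (hc : D q k (g5 l) e) (h0 : u.p0 = 0) (h5 : u.p5 = l) :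
    D q k u e := by
  have := hc.mul (D0 hD (u := g5 l * u) (m0 rfl h0) (by simp [g5, h5, CharTwo.add_self_eq_zero])) rfl
    (m0 rfl h0)
  rwa [← mul_assoc, i6, one_mul, add_zero] at this

theorem D5 (hD : S.Db) (k : E) (l : KK q.α) : D q k (g5 l) 0 := by
  choose f hf using fun k : E => Dx (q := q) k (u := g5 l) rfl
  rw [← norm_kill S.cub (RingHom.id E) (ιK q.α) (f := f) (fun k k' => ?_) (fun c k => ?_) k]
  · exact hf k
  · exact (hf _).uniq ((hf k').add ((hf k).ext hD (al3 _ _ rfl) (by simp [g0, g3, g5]))) rfl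
  · refine (hf _).uniq ?_ rfl
    rw [← i13 (ιJ q.α (c : E))]
    exact (hf k).tor rfl c

end QF

theorem Q1.q2 {S : St E G} (h : S.Db) {Z : Z2 S} (q : Q1 Z) : q.Q2 :=
  ⟨QF.c52 q h, fun u hu k => by
    rw [← Cg.cg_invol (S.X_sq _ _), (QF.D5 h k u.p5).ext h hu rfl]
    exact congrArg _ (mul_one _)⟩

end H89.D4S
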