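import Cfsg.Agent.Lib.D4S.QG1

/-! Standard components of type `³D₄(2ⁿ)`, package QG2: see `blueprint/D4S/README.md`. -/

set_option autoImplicit false
set_option linter.unusedSectionVars false
set_option linter.unusedSimpArgs false
set_option linter.unnecessarySeqFocus false

namespace H89.D4S
open Subgroup H69 U12
open H89.G2S (KK ιK σK)
open scoped commutatorElement

variable {F E G : Type*} [Field F] [Field E] [Cub F E] [CharP F 2] [CharP E 2] [Finite F] [Finite E]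
  [Group G] [Finite G]

namespace QG2
open QG1
open H89.G2S.Cg (cg cg_def cg_mul mul_cg cg_invol)

section ring
variable {K J : Type*} [CommRing K] [CommRing J] [Cub K J] [CharP K 2] [CharP J 2]

theorem j1 {v u : U12 J} (h0 : v.p0 = 0) (h5 : v.p5 = 0) (u5 : u.p5 = 0) :
    (v * u * v⁻¹).p0 = u.p0 ∧ (v * u * v⁻¹).p5 = 0 ∧ (v * u * v⁻¹).p4 = u.p4 := by
  refine ⟨?_, ?_, ?_⟩ <;> simp [h0, h5, u5] <;> grind
theorem j2 {u : U12 J} (u5 : u.p5 = 0) (k : J) :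
    (g0 k * u * g0 k).p5 = 0 ∧ (g0 k * u * g0 k).p4 = u.p4 := by
  refine ⟨?_, ?_⟩ <;> simp [g0, u5]
theorem j3 (k l : J) (a b : K) : (g0 k * g4 l * g0 k * g4 l * (g1 a * g3 b)).p0 = 0 ∧
    (g0 k * g4 l * g0 k * g4 l * (g1 a * g3 b)).p5 = 0 ∧ (g0 k * g4 l * g0 k * g4 l * (g1 a * g3 b)).p4 = 0 := by
  refine ⟨?_, ?_, ?_⟩ <;> simp [g0, g4, g1, g3, CharTwo.add_self_eq_zero]
theorem j4 (k l : J) (a b : K) :
    g0 k * g4 l * g0 k * g4 l * (g1 a * g3 b) * g4 l = g0 k * g4 l * g0 k * (g1 a * g3 b) := by u12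
theorem j5 (k k' l : J) (a b a' b' : K) :
    g0 k' * (g0 k * g4 l * g0 k * (g1 a * g3 b)) * g0 k' * (g1 a' * g3 b') =
      g0 (k + k') * g4 l * g0 (k + k') * (g1 (a + a') * g3 (b + b')) := by u12
theorem j6 (k l l' : J) (a b a' b' : K) :
    g0 k * g4 l * g0 k * (g1 a * g3 b) * (g0 k * g4 l' * g0 k * (g1 a' * g3 b')) =
      g0 k * g4 (l + l') * g0 k * (g1 (a + a') * g3 (b + b')) := by u12
theorem j7 (m k l : J) (a b : K) : tor m 1 (g0 k * g4 l * g0 k * (g1 a * g3 b)) =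
    g0 (m * k) * g4 (m * l) * g0 (m * k) * (g1 (N m * a) * g3 (N m * b)) := by
  simp only [map_mul]
  congr 1
  · congr 1
    · congr 1 <;> ext <;> simp [g0, g4]
    · ext <;> simp [g0]
  · congr 1 <;> ext <;> simp [g1, g3]
theorem j8 {w : U12 J} {a b a' b' : K} (e : w * (g1 a * g3 b) = w * (g1 a' * g3 b')) : a = a' ∧ b = b' := by
  have := mul_left_cancel e
  exact ⟨by simpa [g1, g3] using congrArg U12.p1 this, by simpa [g1, g3] using congrArg U12.p3 this⟩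
theorem j9 (k l : J) (a b : K) : (g0 k * g4 l * g0 k * (g1 a * g3 b)).p0 = 0 ∧
    (g0 k * g4 l * g0 k * (g1 a * g3 b)).p5 = 0 ∧ (g0 k * g4 l * g0 k * (g1 a * g3 b)).p4 = l := by
  refine ⟨?_, ?_, ?_⟩ <;> simp [g0, g4, g1, g3, CharTwo.add_self_eq_zero]
end ring

theorem cm {a r x : G} (h : cg r x = cg a x) : a⁻¹ * r * x = x * (a⁻¹ * r) := by
  calc _ = a⁻¹ * cg r x * r := by rw [cg_def]; group
    _ = _ := by rw [h, cg_def]; group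

variable {S : St E G} {Z : Z2 S} {q : Q1 Z}

theorem N_ιJ {α : F} (l : E) : N (ιJ α l) = ιK α (N l) := by rw [← (tcJ α).res_N, tcJ_res]

theorem cg_ψ_Φ (h : q.Q2) {v u : U12 (JJ E q.α)} (h0 : v.p0 = 0) (hu : u.p0.im = 0) :
    cg (q.ψ v) (q.Φ u) = q.Φ (v * u * v⁻¹) := by
  rw [h.Φ_mul (by simp [h0, hu]), h.Φ_mul (by simp [h0]), q.Φ_ψ h0, q.Φ_ψ (u := v⁻¹) h0, ← q.ψ_inv h0, cg_def]

/-- every `X i c`, `i ≤ 4`, is a value of `Φ` -/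
theorem X_Φ (h : q.Q2) {i : Fin 12} (hi : i ≤ 4) (c : E) :
    ∃ u : U12 (JJ E q.α), u.p0.im = 0 ∧ u.p5 = 0 ∧ u.p4.im = 0 ∧ S.X i c = q.Φ u := by
  have : ∃ v : U12 E, v.p5 = 0 ∧ S.φ v = S.X i c := by
    have : i = 0 ∨ i = 1 ∨ i = 2 ∨ i = 3 ∨ i = 4 := by revert i; decide
    rcases this with rfl | rfl | rfl | rfl | rfl
    exacts [⟨_, rfl, S.φ0 c⟩, ⟨_, rfl, S.φ1 c⟩, ⟨_, rfl, S.φ2 c⟩, ⟨_, rfl, S.φ3 c⟩, ⟨_, rfl, S.φ4 c⟩]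
  obtain ⟨v, hv, e⟩ := this
  exact ⟨U12.map (tcJ q.α) v, by simp, by simp [hv], by simp, by rw [h.Φ_ι, e]⟩

/-- the subgroup on which the action of `ξ` is known -/
def D (u : U12 (JJ E q.α)) : Prop := u.p0.im = 0 ∧ u.p5 = 0 ∧ u.p4.im = 0

theorem D.ψ {u v : U12 (JJ E q.α)} (hu : D u) (h0 : v.p0 = 0) (h5 : v.p5 = 0) : D (v * u * v⁻¹) := by
  obtain ⟨a, b, c⟩ := j1 h0 h5 hu.2.1
  exact ⟨a ▸ hu.1, b, c ▸ hu.2.2⟩

theorem D.ξ {u : U12 (JJ E q.α)} (hu : D u) (k : JJ E q.α) : D (g0 k * u * g0 k) :=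
  ⟨(a0' u k).symm ▸ hu.1, (j2 hu.2.1 k).1, (j2 hu.2.1 k).2.symm ▸ hu.2.2⟩

theorem D.mul {u v : U12 (JJ E q.α)} (hu : D u) (hv : D v) : D (u * v) :=
  ⟨by simp [hu.1, hv.1], by simp [hu.2.1, hv.2.1], by simp [hu.2.2, hv.2.2, hv.2.1]⟩

/-- the coset of `t` -/
def Pt (q : Q1 Z) (x : G) : Prop := ∃ u, D u ∧ x = S.t * q.Φ u

theorem pt_t (q : Q1 Z) : Pt q S.t := ⟨1, ⟨rfl, rfl, rfl⟩, by rw [q.Φ_ψ rfl, q.ψ_one, mul_one]⟩

theorem Pt.ψ (h : q.Q2) {x : G} (hx : Pt q x) {v : U12 (JJ E q.α)} (h0 : v.p0 = 0) (h5 : v.p5 = 0) :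
    Pt q (cg (q.ψ v) x) := by
  obtain ⟨u, hu, rfl⟩ := hx
  have e0 : (U12.map (tcσ q.α) v * v⁻¹).p0 = 0 := by simp [h0]
  refine ⟨U12.map (tcσ q.α) v * v⁻¹ * (v * u * v⁻¹), D.mul ⟨by rw [e0]; rfl, by simp [h5], ?_⟩ (hu.ψ h0 h5), ?_⟩
  · simp [h0, h5, CharTwo.add_self_eq_zero]
  · rw [cg_mul, ψt q h0, cg_ψ_Φ h h0 hu.1, h.Φ_mul (u := _ * v⁻¹) (by rw [e0]; rfl), q.Φ_ψ e0, mul_assoc]

theorem Pt.ξ (h : q.Q2) {x : G} (hx : Pt q x) (k : JJ E q.α) : Pt q (cg (q.ξ k) x) := by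
  obtain ⟨u, hu, rfl⟩ := hx
  refine ⟨g0 (ιJ q.α k.im) * (g0 k * u * g0 k), D.mul ⟨by simp [g0], rfl, rfl⟩ (hu.ξ k), ?_⟩
  rw [cg_mul, ξ_t, cg_invol (q.ξ_sq k), h.ξ_Φ k hu.2.1 hu.2.2, h.Φ_mul (u := g0 _) (by simp [g0]), q.Φ_g0,
    q.ξ_ι, mul_assoc]

theorem key (hD : S.Db) (h : q.Q2) (k l : JJ E q.α) : ∃ a b,
    q.ξ k * q.ψ (g4 l) * q.ξ k = q.ψ (g0 k * g4 l * g0 k * (g1 a * g3 b)) := by
  have kk := q.ξ_sq k
  have ll := ψ4_sq q l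
  have w0 : (g0 k * g4 l * g0 k * g4 l).p0 = 0 := m0 (a0 rfl k) rfl
  have w5 : (g0 k * g4 l * g0 k * g4 l).p5 = 0 := by simp [g0, g4]
  have A : ∀ u, D u → cg (q.ξ k * q.ψ (g4 l) * q.ξ k * q.ψ (g4 l)) (q.Φ u) =
      cg (q.ψ (g0 k * g4 l * g0 k * g4 l)) (q.Φ u) := fun u hu => by
    have d1 := hu.ψ (v := g4 l) rfl rfl
    have d2 := d1.ξ k
    have d3 := d2.ψ (v := g4 l) rfl rfl
    rw [mul_cg, mul_cg, mul_cg, cg_ψ_Φ h rfl hu.1, cg_invol kk (q.Φ _), h.ξ_Φ k d1.2.1 d1.2.2,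
      cg_ψ_Φ h rfl d2.1, cg_invol kk, h.ξ_Φ k d3.2.1 d3.2.2, cg_ψ_Φ h w0 hu.1]
    simp only [mul_inv_rev, g0_inv, mul_assoc]
  obtain ⟨u, hu, ht⟩ := (((((pt_t q).ψ h
    (v := g4 l) rfl rfl).ξ h k).ψ h (v := g4 l) rfl rfl).ξ h k).ψ h
      (v := (g0 k * g4 l * g0 k * g4 l)⁻¹) w0 w5
  rw [← mul_cg, ← mul_cg, ← mul_cg, ← mul_cg, ← q.ψ_inv w0, mul_assoc, mul_assoc, mul_assoc,
    ← mul_assoc (q.ξ k), ← mul_assoc (q.ξ k * _)] at ht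
  obtain ⟨a, b, o, ho, e⟩ := h.tr2 hD (fun i hi c => by
      obtain ⟨u, h0, h5, h4, e⟩ := X_Φ h hi c
      rw [e]; exact cm (A u ⟨h0, h5, h4⟩))
    (fun y => by
      rw [W_eq q, ← q.Φ_ψ (u := g3 _) rfl]; exact cm (A _ ⟨rfl, rfl, rfl⟩)) hu.1 ht
  rw [inv_mul_eq_iff_eq_mul, ← mul_assoc, ← q.mul _ _ w0 (m0 rfl rfl)] at e
  obtain ⟨x0, x5, x4⟩ := j3 k l a b
  refine ⟨a, b, ?_⟩
  rw [← j4, q.mul _ _ x0 rfl]
  generalize g0 k * g4 l * g0 k * g4 l * (g1 a * g3 b) = w at e x0 x5 x4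
  have e5 := h.ξ_Φ k x5 (by rw [x4]; rfl)
  rw [q.Φ_ψ x0, q.Φ_ψ (a0 x0 k)] at e5
  have z1 := m0 (a0 x0 k) x0
  have e6 : q.ξ k * q.ψ w * q.ξ k * q.ψ w * (o * o) = 1 := by
    have c : Commute o (q.ξ k * q.ψ w) := (((q.ξ_CO k).mul (q.cO w x0)) o ho).symm
    have e7 : q.ξ k * q.ψ w * o = q.ψ (g4 l) * q.ξ k * q.ψ (g4 l) := by
      rw [mul_assoc, ← e]; simp only [← mul_assoc, kk, one_mul]
    rw [mul_assoc (q.ξ k * q.ψ w), ← c.mul_mul_mul_comm, e7, ← cg_invol ll, ← cg_mul, kk, cg_invol ll,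
      mul_one, ll]
  rw [e5, ← q.mul _ _ (a0 x0 k) x0] at e6
  have e8 := eq_inv_of_mul_eq_one_right e6
  have o1 : o = 1 := ho.eq_one (k := 3) (by
    rw [show o ^ 2 ^ 3 = o * o * (o * o) * (o * o * (o * o)) by
      rw [show 2 ^ 3 = 1 + 1 + (1 + 1) + (1 + 1 + (1 + 1)) from rfl]; simp only [pow_add, pow_one],
      e8, ← mul_inv_rev, ← mul_inv_rev, q.ψ_four z1, inv_one])
  rw [o1, mul_one] at e
  rw [← e, mul_assoc _ _ (q.ψ (g4 l)), ll, mul_one]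

end QG2

open QG1 QG2 in
theorem Q1.Q2.q3 {S : St E G} (hD : S.Db) {Z : Z2 S} {q : Q1 Z} (h : q.Q2) : q.Q3 := by
  choose a b e using key hD h
  have h1 : ∀ k k' l, a (k + k') l = a k l + a k' l ∧ b (k + k') l = b k l + b k' l := fun k k' l => by
    obtain ⟨x0, x5, x4⟩ := j9 k l (a k l) (b k l)
    have e1 := ξ_gen h x0 x5 (k := k') (a := a k' l) (b := b k' l) (by rw [x4]; exact e k' l)
    rw [← e, j5] at e1
    refine j8 (q.ψ_inj (j9 ..).1 (j9 ..).1 ((e _ l).symm.trans (.trans ?_ e1)))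
    rw [q.ξ_add, ← mul_assoc, ← mul_assoc, ← mul_assoc, ξ_comm q k']
  have h2 : ∀ k l l', a k (l + l') = a k l + a k l' ∧ b k (l + l') = b k l + b k l' := fun k l l' => by
    refine j8 (q.ψ_inj (j9 ..).1 (j9 ..).1 ((e k _).symm.trans ?_))
    rw [← j6, q.mul _ _ (j9 ..).1 (j9 ..).1, ← e, ← e, g4_add, q.mul _ _ rfl rfl]
    simp only [mul_assoc]
    rw [← mul_assoc (q.ξ k) (q.ξ k), q.ξ_sq, one_mul]
  have h3 : ∀ (m : Eˣ) k l, a (ιJ q.α (m : E) * k) (ιJ q.α (m : E) * l) = ιK q.α (N (m : E)) * a k l ∧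
      b (ιJ q.α (m : E) * k) (ιJ q.α (m : E) * l) = ιK q.α (N (m : E)) * b k l := fun m k l => by
    refine j8 (q.ψ_inj (j9 ..).1 (j9 ..).1 ((e _ _).symm.trans ?_))
    have c1 := q.ch _ (j9 k l (a k l) (b k l)).1 m 1
    have c2 := q.ch (g4 l) rfl m 1
    rw [Units.val_one, map_one] at c1 c2
    rw [tor4, map_one, mul_one] at c2
    rw [← N_ιJ, ← j7, ← c1, ← e, ← c2, ← q.h_ξ m 1]; group
  have ha := cubic_kill S.cub (ιJ q.α) (ιJ q.α) (ιK q.α) (f := a) (fun x x' y => (h1 x x' y).1)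
    (fun x y y' => (h2 x y y').1) fun m x y => (h3 m x y).1
  have hb := cubic_kill S.cub (ιJ q.α) (ιJ q.α) (ιK q.α) (f := b) (fun x x' y => (h1 x x' y).2)
    (fun x y y' => (h2 x y y').2) fun m x y => (h3 m x y).2
  exact ⟨h, fun k l => by rw [e, ha, hb, z13, mul_one]⟩

end H89.D4S
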