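import Cfsg.Agent.Lib.D4S.QG2

/-! Standard components of type `³D₄(2ⁿ)`, package QG3: see `blueprint/D4S/README.md`. -/

set_option autoImplicit false
set_option linter.unusedSectionVars false
set_option linter.unusedSimpArgs false
set_option linter.unnecessarySeqFocus false

namespace H89.D4S
open Subgroup H69 U12
open H89.G2S (KK ιK σK)
open scoped commutatorElement

variable {F E G : Type*} [Field F] [Field E] [Cub F E] [CharP F 2] [CharP E 2] [Finite F] [Finite E]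
  [Group G] [Finite G]

namespace QG3
open QG1 QG2
open H89.G2S.Cg (cg cg_def cg_mul mul_cg cg_invol cg_fix)

section ring
variable {K J : Type*} [CommRing K] [CommRing J] [Cub K J] [CharP K 2] [CharP J 2]

theorem g5_inv (u : K) : (g5 u : U12 J)⁻¹ = g5 u := by u12
theorem k1 {v : U12 J} (h5 : v.p5 = 0) (u : K) :
    (g5 u * v * (g5 u)⁻¹).p0 = v.p0 ∧ (g5 u * v * (g5 u)⁻¹).p5 = 0 := by
  refine ⟨?_, ?_⟩ <;> simp [g5, h5, CharTwo.add_self_eq_zero]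
theorem k2 (k : J) (u : K) : (g5 u * g0 k * g5 u * g0 k).p0 = 0 ∧ (g5 u * g0 k * g5 u * g0 k).p5 = 0 := by
  refine ⟨?_, ?_⟩ <;> simp [g0, g5, CharTwo.add_self_eq_zero]
theorem k3 (k : J) (u a b : K) : g0 k * (g5 u * g0 k * g5 u * g0 k * (g0 k * (g1 a * g3 b))) * g5 u =
    g0 k * g5 u * g0 k * (g1 a * g3 (b + a * u)) := by u12
theorem k4 (k : J) (u a b : K) : g5 u * g0 k * g5 u * g0 k * (g0 k * (g1 a * g3 b)) *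
    (g5 u * g0 k * g5 u * g0 k * (g0 k * (g1 a * g3 b))) = 1 := by u12
theorem k5 (k : J) (u a b : K) :
    g0 k * g5 u * g0 k * (g1 a * g3 b) * (g0 k * g5 u * g0 k * (g1 a * g3 b)) = g3 (u * a) := by u12
theorem k6 (k : J) (u a b : K) : (g0 k * g5 u * g0 k * (g1 a * g3 b)).p0 = 0 := m0 (a0 rfl _) (m0 rfl rfl)
theorem k7 (k : J) (u e : K) : (g5 u * (g0 k * g5 u * g0 k * (g1 0 * g3 e))).p0 = 0 ∧
    (g5 u * (g0 k * g5 u * g0 k * (g1 0 * g3 e))).p5 = 0 := by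
  refine ⟨?_, ?_⟩ <;> simp [g0, g5, g1, g3, CharTwo.add_self_eq_zero]
theorem k8 (k k' : J) (u e e' : K) : g0 k' * g5 u * g0 k' * (g1 0 * g3 e') *
    (g0 k' * (g5 u * (g0 k * g5 u * g0 k * (g1 0 * g3 e))) * g0 k') =
      g0 (k + k') * g5 u * g0 (k + k') * (g1 0 * g3 (e + e')) := by u12
theorem k9 (m k : J) (u e : K) : tor m 1 (g0 k * g5 u * g0 k * (g1 0 * g3 e)) =
    g0 (m * k) * g5 u * g0 (m * k) * (g1 0 * g3 (N m * e)) := by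
  simp only [map_mul]
  congr 1
  · congr 1
    · congr 1 <;> ext <;> simp [g0, g5]
    · ext <;> simp [g0]
  · congr 1 <;> ext <;> simp [g1, g3]
theorem k10 (k : J) (u a b : K) : (g5 u * g0 k * g5 u * g0 k * (g0 k * (g1 a * g3 b))).p5 = 0 ∧
    (g0 k * (g5 u * g0 k * g5 u * g0 k * (g0 k * (g1 a * g3 b)))).p0 = 0 := by
  refine ⟨?_, ?_⟩ <;> simp [g0, g5, g1, g3, CharTwo.add_self_eq_zero]
theorem k11 (k : J) : g0 k * g5 0 * g0 k * (g1 0 * g3 0) = 1 := by u12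
end ring

variable {S : St E G} {Z : Z2 S} {q : Q1 Z}

theorem ξ_ψ (h : q.Q3) (k : JJ E q.α) {v : U12 (JJ E q.α)} (h0 : v.p0 = 0) (h5 : v.p5 = 0) :
    q.ξ k * q.ψ v * q.ξ k = q.ψ (g0 k * v * g0 k) := by
  have := ξ_gen h.toQ2 h0 h5 (k := k) (a := 0) (b := 0) (by rw [h.r04, z13, mul_one])
  rwa [z13, mul_one] at this

theorem Φ_mul5 (h : q.Q3) (u : U12 (JJ E q.α)) {v : U12 (JJ E q.α)} (hv : v.p5 = 0) :
    q.Φ (u * v) = q.Φ u * q.Φ v := q.Φ_mul_of (ξ_ψ h _ (u0 v) (by simp [g0, hv]))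

theorem ξ_Φ (h : q.Q3) (k : JJ E q.α) {u : U12 (JJ E q.α)} (h5 : u.p5 = 0) :
    cg (q.ξ k) (q.Φ u) = q.Φ (g0 k * u * g0 k) := by
  rw [cg_invol (q.ξ_sq k)]; exact q.ξ_Φ_of (ξ_ψ h _ (u0 u) (by simp [g0, h5]))

/-- the subgroup on which the actions are known -/
def D (u : U12 (JJ E q.α)) : Prop := u.p0.im = 0 ∧ u.p5 = 0

theorem D.ψ {u v : U12 (JJ E q.α)} (hu : D u) (h0 : v.p0 = 0) (h5 : v.p5 = 0) : D (v * u * v⁻¹) := by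
  obtain ⟨a, b, -⟩ := j1 h0 h5 hu.2
  exact ⟨a ▸ hu.1, b⟩

theorem D.x5 {u : U12 (JJ E q.α)} (hu : D u) (c : KK q.α) : D (g5 c * u * (g5 c)⁻¹) :=
  ⟨(k1 hu.2 c).1.symm ▸ hu.1, (k1 hu.2 c).2⟩

theorem D.ξ {u : U12 (JJ E q.α)} (hu : D u) (k : JJ E q.α) : D (g0 k * u * g0 k) :=
  ⟨(a0' u k).symm ▸ hu.1, (j2 hu.2 k).1⟩

theorem D.mul {u v : U12 (JJ E q.α)} (hu : D u) (hv : D v) : D (u * v) :=
  ⟨by simp [hu.1, hv.1], by simp [hu.2, hv.2]⟩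

/-- the coset of `t` -/
def Pt (q : Q1 Z) (x : G) : Prop := ∃ u, D u ∧ x = S.t * q.Φ u

theorem pt_t (q : Q1 Z) : Pt q S.t := ⟨1, ⟨rfl, rfl⟩, by rw [q.Φ_ψ rfl, q.ψ_one, mul_one]⟩

theorem Pt.ψ (h : q.Q2) {x : G} (hx : Pt q x) {v : U12 (JJ E q.α)} (h0 : v.p0 = 0) (h5 : v.p5 = 0) :
    Pt q (cg (q.ψ v) x) := by
  obtain ⟨u, hu, rfl⟩ := hx
  have e0 : (U12.map (tcσ q.α) v * v⁻¹).p0 = 0 := by simp [h0]
  refine ⟨U12.map (tcσ q.α) v * v⁻¹ * (v * u * v⁻¹), D.mul ⟨by rw [e0]; rfl, by simp [h5]⟩ (hu.ψ h0 h5), ?_⟩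
  rw [cg_mul, ψt q h0, cg_ψ_Φ h h0 hu.1, h.Φ_mul (u := _ * v⁻¹) (by rw [e0]; rfl), q.Φ_ψ e0, mul_assoc]

theorem Pt.ξ (h : q.Q3) {x : G} (hx : Pt q x) (k : JJ E q.α) : Pt q (cg (q.ξ k) x) := by
  obtain ⟨u, hu, rfl⟩ := hx
  refine ⟨g0 (ιJ q.α k.im) * (g0 k * u * g0 k), D.mul ⟨by simp [g0], rfl⟩ (hu.ξ k), ?_⟩
  rw [cg_mul, ξ_t, ξ_Φ h k hu.2, h.toQ2.Φ_mul (u := g0 _) (by simp [g0]), q.Φ_g0, q.ξ_ι, mul_assoc]

theorem Pt.x5 (h : q.Q2) {x : G} (hx : Pt q x) (c : F) : Pt q (cg (S.X 5 (ι c)) x) := by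
  obtain ⟨u, hu, rfl⟩ := hx
  refine ⟨_, hu.x5 (ιK q.α c), ?_⟩
  rw [cg_mul, cg_fix (S.tX 5 _).symm, X5_eq q, cg_ψ_Φ h rfl hu.1]

theorem key (hD : S.Db) (h : q.Q3) (k : JJ E q.α) (u : F) : ∃ a b,
    q.ξ k * S.X 5 (ι u) * q.ξ k = q.ψ (g0 k * g5 (ιK q.α u) * g0 k * (g1 a * g3 b)) := by
  have kk := q.ξ_sq k
  have uu := S.X_sq 5 (ι u)
  have h2 := h.toQ2
  obtain ⟨w0, w5⟩ := k2 k (ιK q.α u)
  have A : ∀ v, D v → cg (S.X 5 (ι u) * q.ξ k * S.X 5 (ι u)) (q.Φ v) =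
      cg (q.ψ (g5 (ιK q.α u) * g0 k * g5 (ιK q.α u) * g0 k) * q.ξ k) (q.Φ v) := fun v hv => by
    have d1 := hv.x5 (ιK q.α u)
    rw [mul_cg, mul_cg, mul_cg, X5_eq q, cg_ψ_Φ h2 rfl hv.1, ξ_Φ h k d1.2, cg_ψ_Φ h2 rfl (d1.ξ k).1,
      ξ_Φ h k hv.2, cg_ψ_Φ h2 w0 (hv.ξ k).1]
    simp only [mul_inv_rev, g0_inv, g5_inv, mul_assoc]
    simp only [← mul_assoc (g0 k) (g0 k), g0_sq, one_mul]
  obtain ⟨v, hv, ht⟩ := (((((pt_t q).x5 h2 u).ξ h k).x5 h2 u).ψ h2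
    (v := (g5 (ιK q.α u) * g0 k * g5 (ιK q.α u) * g0 k)⁻¹) w0 w5).ξ h k
  rw [← mul_cg, ← mul_cg, ← mul_cg, ← mul_cg, ← q.ψ_inv w0, mul_assoc, mul_assoc, ← mul_assoc (S.X 5 _),
    ← congrArg (· * _ * _) (inv_eq_of_mul_eq_one_right kk), ← mul_inv_rev] at ht
  obtain ⟨a, b, o, ho, e⟩ := h2.tr2 hD (fun i hi c => by
      obtain ⟨v, h0, h5, -, e⟩ := X_Φ h2 hi c
      rw [e]; exact cm (A v ⟨h0, h5⟩))
    (fun y => by rw [W_eq q, ← q.Φ_ψ (u := g3 _) rfl]; exact cm (A _ ⟨rfl, rfl⟩)) hv.1 ht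
  rw [inv_mul_eq_iff_eq_mul, ← mul_assoc, ← q.Φ_ψ w0, ← q.Φ_ψ (m0 rfl rfl), ← q.Φ_g0, mul_assoc (q.Φ _),
    ← Φ_mul5 h _ (by simp [g1, g3]), ← Φ_mul5 h _ (by simp [g0, g1, g3]), q.Φ_g0] at e
  have s1 := k4 k (ιK q.α u) a b
  obtain ⟨x5, x0⟩ := k10 k (ιK q.α u) a b
  refine ⟨a, b + a * ιK q.α u, ?_⟩
  rw [← k3, q.mul _ _ x0 rfl, ← q.Φ_ψ x0, Φ_mul5 h _ x5, q.Φ_g0, ← X5_eq]
  generalize g5 (ιK q.α u) * g0 k * g5 (ιK q.α u) * g0 k * (g0 k * (g1 a * g3 b)) = w at e s1 x5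
  have c : Commute o (q.Φ w) := (((q.cO _ (u0 w)).mul (q.ξ_CO _)) o ho).symm
  have o1 : o = 1 := ho.eq_one_sq (by
    have : q.Φ w * o * (q.Φ w * o) = 1 := by rw [← e, ← cg_invol uu, ← cg_mul, kk, cg_invol uu, mul_one, uu]
    rwa [c.mul_mul_mul_comm, ← Φ_mul5 h _ x5, s1, q.Φ_ψ rfl, q.ψ_one, one_mul] at this)
  rw [o1, mul_one] at e
  rw [← e]
  simp only [mul_assoc, uu, mul_one]

theorem key' (hD : S.Db) (h : q.Q3) (u : F) (k : JJ E q.α) : ∃ e,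
    q.ξ k * S.X 5 (ι u) * q.ξ k = q.ψ (g0 k * g5 (ιK q.α u) * g0 k * (g1 0 * g3 e)) := by
  by_cases hu : u = 0
  · exact ⟨0, by rw [hu, map_zero, map_zero, k11, S.X_zero, mul_one, q.ξ_sq, q.ψ_one]⟩
  obtain ⟨a, b, e⟩ := key hD h k u
  have e1 : q.ψ (g3 (ιK q.α u * a)) = 1 := by
    rw [← k5, q.mul _ _ (k6 ..) (k6 ..), ← e, ← cg_invol (q.ξ_sq k), ← cg_mul, S.X_sq, cg_def, mul_one,
      mul_inv_cancel]
  have e2 : ιK q.α u * a = 0 := congrArg U12.p3 (q.inj _ rfl e1)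
  obtain rfl : a = 0 := (((Ne.isUnit hu).map (ιK q.α)).mul_right_eq_zero).1 e2
  exact ⟨b, e⟩

end QG3

theorem Q1.Q3.Φ_mul5 {S : St E G} {Z : Z2 S} {q : Q1 Z} (h : q.Q3) (u : U12 (JJ E q.α))
    {v : U12 (JJ E q.α)} (hv : v.p5 = 0) : q.Φ (u * v) = q.Φ u * q.Φ v := QG3.Φ_mul5 h u hv
open QG1 QG2 QG3 in
theorem Q1.Q3.q4 {S : St E G} (hD : S.Db) {Z : Z2 S} {q : Q1 Z} (h : q.Q3) : q.Q4 := by
  refine ⟨h, fun k u => ?_⟩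
  choose b e using key' hD h u
  have h1 : ∀ k k', b (k + k') = b k + b k' := fun k k' => by
    obtain ⟨x0, x5⟩ := k7 k (ιK q.α u) (b k)
    refine (j8 (a' := 0) (q.ψ_inj (k6 ..) (k6 ..) ((e _).symm.trans ?_))).2
    rw [← k8, q.mul _ _ (k6 ..) (a0 x0 _), ← ξ_ψ h k' x0 x5, q.mul _ _ rfl (k6 ..), ← e, ← e, ← X5_eq,
      q.ξ_add]
    simp only [mul_assoc]
    rw [← mul_assoc (q.ξ k') (q.ξ k'), q.ξ_sq, one_mul, ← mul_assoc (S.X 5 _) (S.X 5 _), S.X_sq, one_mul,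
      ← mul_assoc, ξ_comm q k, mul_assoc]
  have h3 : ∀ (m : Eˣ) k, b (ιJ q.α (m : E) * k) = ιK q.α (N (m : E)) * b k := fun m k => by
    refine (j8 (a' := 0) (q.ψ_inj (k6 ..) (k6 ..) ((e _).symm.trans ?_))).2
    have c1 := q.ch _ (k6 k (ιK q.α u) 0 (b k)) m 1
    have c2 := S.hX m 1 5 (ι u)
    rw [Units.val_one, map_one] at c1
    rw [wt5, Units.val_one, map_one, one_mul] at c2
    rw [← N_ιJ, ← k9, ← c1, ← e, ← q.h_ξ m 1]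
    conv_lhs => rw [← c2]
    group
  rw [e, norm_kill S.cub (ιJ q.α) (ιK q.α) h1 h3, z13, mul_one]

end H89.D4S
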