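import Cfsg.Agent.Lib.D4S.QG1
import Cfsg.Agent.Lib.D4S.QF

/-! Standard components of type `³D₄(2ⁿ)`, package QH: see `blueprint/D4S/README.md`. -/

set_option autoImplicit false
set_option linter.unusedSectionVars false

namespace H89.D4S
open Subgroup H69 U12
open H89.G2S (KK ιK σK)
open scoped commutatorElement

variable {F E G : Type*} [Field F] [Field E] [Cub F E] [CharP F 2] [CharP E 2] [Finite F] [Finite E]
  [Group G] [Finite G]

namespace QH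
open QF

section ring
variable {K J : Type*} [CommRing K] [CommRing J] [Cub K J] [CharP K 2] [CharP J 2]

theorem i7 (k : J) (l e : K) : g0 k * g5 l * g0 k * g3 e * (g0 k * g5 l * g0 k * g3 e) = 1 := by
  rw [i1, i6, mul_one, i0, one_mul, CharTwo.add_self_eq_zero]; rfl
theorem i9 (k : J) (l e : K) {x : U12 J} (hx : x.p0 = 0) :
    Bf (g5 l) (g0 k * x * g0 k * g3 e) = Bf (g0 k * g5 l * g0 k * g3 0) x := by
  u12s; cubK J
end ring

theorem nd2 {α : F} {x : JJ E α} (h : ∀ y : E, T (x * ιJ α y) = 0) : x = 0 :=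
  QuadraticAlgebra.ext (nd _ fun y => by simpa using congrArg QuadraticAlgebra.re (h y))
    (nd _ fun y => by simpa using congrArg QuadraticAlgebra.im (h y))

variable {S : St E G} {Z : Z2 S} {q : Q1 Z}

/-- the action of `ξ k` on `ψ u` -/
def C (q : Q1 Z) (k : JJ E q.α) (u : U12 (JJ E q.α)) (e : KK q.α) : Prop :=
  q.ξ k * q.ψ u * q.ξ k = q.ψ (g0 k * u * g0 k * g3 e)

theorem auto_QH : True := by have := @C.eq_1.{0, 0, 0}; trivial

theorem xx (k : JJ E q.α) (r : G) : q.ξ k * (q.ξ k * r) = r := by rw [← mul_assoc, q.ξ_sq, one_mul]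

theorem g3i {e : KK q.α} (h : q.ψ (g3 e) = 1) : e = 0 := congrArg U12.p3 (q.inj _ rfl h)

theorem c3 (e : KK q.α) {u : U12 (JJ E q.α)} (hu : u.p0 = 0) : q.ψ (g3 e) * q.ψ u = q.ψ u * q.ψ (g3 e) := by
  rw [← q.mul _ _ rfl hu, g3_comm, q.mul _ _ hu rfl]

theorem s3 (e : KK q.α) : q.ψ (g3 e) * q.ψ (g3 e) = 1 := by rw [q.p3, Z.Y3_sq]

variable {k k' : JJ E q.α} {l e e' : KK q.α} {u v : U12 (JJ E q.α)}

theorem C.mul (h : C q k u e) (h' : C q k v e') (hu : u.p0 = 0) (hv : v.p0 = 0) :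
    C q k (u * v) (e + e') := by
  rw [C, ← i1, q.mul _ _ (al3 _ _ hu) (al3 _ _ hv), ← h, ← h', q.mul _ _ hu hv]
  simp only [mul_assoc, xx]

theorem C.uniq (h : C q k u e) (h' : C q k u e') (hu : u.p0 = 0) : e = e' := by
  have := h.symm.trans h'
  rw [q.mul _ _ (al0 _ hu) rfl, q.mul _ _ (al0 _ hu) rfl, mul_left_cancel_iff] at this
  have := g3i (e := e + e') (by rw [← i14, q.mul _ _ rfl rfl, this, s3])
  rwa [← CharTwo.sub_eq_add, sub_eq_zero] at this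

theorem c0 (h : q.Q3) (h0 : u.p0 = 0) (h5 : u.p5 = 0) : C q k u 0 := by
  have a4 : C q k (g4 u.p4) 0 := (h.r04 ..).trans (congrArg _ (mul_one _).symm)
  have a2 : C q k (g2 u.p2) 0 := (h.ξ_g2 ..).trans (congrArg _ (i3 ..))
  have a1 : C q k (g1 u.p1) 0 := by rw [C, ← i4, q.ξ_g1, mul_assoc, q.ξ_sq, mul_one]
  have a3 : C q k (g3 u.p3) 0 := by rw [C, ← i5, q.ξ_g3, mul_assoc, q.ξ_sq, mul_one]
  have := a4.mul (a2.mul (a1.mul a3 rfl rfl) rfl (m0 rfl rfl)) rfl (m0 rfl (m0 rfl rfl))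
  rwa [← i2 h0 h5, add_zero, add_zero, add_zero] at this

theorem C.ext (h : q.Q3) (hc : C q k (g5 l) e) (h0 : u.p0 = 0) (h5 : u.p5 = l) : C q k u e := by
  have := hc.mul (c0 h (u := g5 l * u) (m0 rfl h0) (by simp [g5, h5, CharTwo.add_self_eq_zero])) rfl
    (m0 rfl h0)
  rwa [← mul_assoc, i6, one_mul, add_zero] at this

theorem c5 (h : q.Q4) (k : JJ E q.α) (a : F) : C q k (g5 (ιK q.α a)) 0 := by
  rw [C, ← X5_eq, h.r05']
  exact congrArg _ (mul_one _).symm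

theorem pt (hu : u.p0 = 0) : q.ψ u * S.t = S.t * q.ψ (U12.map (tcσ q.α) u) := by
  rw [← q.ct u hu, ← mul_assoc, ← mul_assoc, S.tt, one_mul, S.t_inv]

theorem ex5 (hD : S.Db) (h : q.Q4) (k : JJ E q.α) (l : KK q.α) : ∃ e, C q k (g5 l) e := by
  set w := g0 k * g5 l * g0 k * g3 0 with hw
  have w0 : w.p0 = 0 := al3 _ _ rfl
  have ww : q.ψ w * q.ψ w = 1 := by rw [← q.mul _ _ w0 w0, i7, q.ψ_one]
  have ll : q.ψ (g5 l) * q.ψ (g5 l) = 1 := by rw [← q.mul _ _ rfl rfl, i6, q.ψ_one]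
  set v := q.ξ k * q.ψ (g5 l) * q.ξ k with hv
  have vv : v * v = 1 := by
    simp only [hv, mul_assoc, xx]; rw [← mul_assoc (q.ψ _), ll, one_mul, q.ξ_sq]
  have v3 : ∀ e, v * q.ψ (g3 e) = q.ψ (g3 e) * v := fun e => by
    rw [hv, mul_assoc, q.ξ_g3, ← mul_assoc, mul_assoc (q.ξ k), ← c3 e rfl, ← mul_assoc, q.ξ_g3]
    simp only [mul_assoc]
  have cQ : ∀ x ∈ S.Q, q.ψ w * v * x = x * (q.ψ w * v) := fun x hx => by
    obtain ⟨x, x0, rfl⟩ := S.mem_Q.1 hx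
    rw [← q.ext x x0]
    set x' := U12.map (tcJ q.α) x
    have x0' : x'.p0 = 0 := by simp [x', x0]
    obtain ⟨e, d⟩ : ∃ e, C q k (g5 (ιK q.α x.p5)) e := ⟨_, c5 h k x.p5⟩
    have d' : q.ξ k * q.ψ x' * q.ξ k = _ := d.ext h.toQ3 x0' (by simp [x'])
    have A : v * q.ψ x' = q.ψ x' * v * q.ψ (g3 (Bf w x')) := by
      have B := congrArg q.ψ (comm_Q (u := g5 l) rfl (al3 k e x0'))
      rw [q.mul _ _ rfl (al3 k e x0'), q.mul _ _ (m0 (al3 k e x0') rfl) rfl,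
        q.mul _ _ (al3 k e x0') rfl, i9 _ _ _ x0', ← d', ← hw] at B
      have := congrArg (fun g => q.ξ k * g * q.ξ k) B
      simp only [mul_assoc, xx, q.ξ_sq, mul_one, ← q.ξ_g3] at this
      simpa only [hv, mul_assoc] using this
    have B := congrArg q.ψ (comm_Q w0 x0')
    rw [q.mul _ _ w0 x0', q.mul _ _ (m0 x0' w0) rfl, q.mul _ _ x0' w0] at B
    rw [mul_assoc, A, ← mul_assoc, ← mul_assoc, B, mul_assoc, mul_assoc, v3, ← mul_assoc (q.ψ (g3 _)),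
      s3, one_mul, mul_assoc]
  have cW : ∀ y, q.ψ w * v * Z.W y = Z.W y * (q.ψ w * v) := fun y => by
    rw [← Z.Y3_W (α := q.α), ← q.p3, mul_assoc, v3, ← mul_assoc, ← c3 _ w0, mul_assoc]
  obtain ⟨u, u0, hu⟩ : ∃ u, u.p0 = 0 ∧ q.ψ w * v * S.t * (q.ψ w * v)⁻¹ = S.t * q.ψ u := by
    set m : U12 (JJ E q.α) := U12.map (tcσ q.α) (g5 l)
    have p0 : m.p0 = 0 := by simp [m, g5]
    set u1 := g0 (ιJ q.α k.im) * m * g0 (ιJ q.α k.im) * g5 l
    have p1 : u1.p0 = 0 := m0 (al0 _ p0) rfl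
    obtain ⟨e, d⟩ : ∃ e, C q k (g5 (ιK q.α l.im)) e := ⟨_, c5 h k l.im⟩
    have d' : q.ξ k * q.ψ u1 * q.ξ k = _ := d.ext h.toQ3 p1 (by
      ext <;> simp [u1, m, g0, g5, CharTwo.add_self_eq_zero, add_right_comm])
    have A : q.ψ (g5 l) * (S.t * S.X 0 k.im) * q.ψ (g5 l) = S.t * S.X 0 k.im * q.ψ u1 := by
      rw [q.mul _ _ (al0 _ p0) rfl, ← h.cx' _ p0, ← mul_assoc, pt rfl]
      simp only [mul_assoc]
      rw [← mul_assoc (S.X 0 k.im) (S.X 0 k.im), S.X_sq, one_mul]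
    have B : v * S.t * v = S.t * q.ψ (g0 k * u1 * g0 k * g3 e) := by
      rw [← d']
      rw [← q.ξ_t] at A
      have := congrArg (fun g => q.ξ k * g * q.ξ k) A
      simpa only [hv, mul_assoc, xx] using this
    have p2 : (U12.map (tcσ q.α) w).p0 = 0 := by simp [w0]
    refine ⟨U12.map (tcσ q.α) w * (g0 k * u1 * g0 k * g3 e) * w,
      m0 (m0 p2 (al3 _ _ p1)) w0, ?_⟩
    rw [q.mul _ _ (m0 p2 (al3 _ _ p1)) w0, q.mul _ _ p2 (al3 _ _ p1), mul_inv_rev,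
      inv_eq_of_mul_eq_one_right vv, inv_eq_of_mul_eq_one_right ww, ← mul_assoc S.t,
      ← mul_assoc S.t, ← pt w0, mul_assoc (q.ψ w) S.t, ← B]
    simp only [mul_assoc]
  have bf : ∀ x : U12 E, x.p0 = 0 → Bf u (U12.map (tcJ q.α) x) = 0 := fun x x0 => by
    have x0' : (U12.map (tcJ q.α) x).p0 = 0 := by simp [x0]
    have c1 : Commute (q.ψ w * v) (S.φ x) := cQ _ (S.φ_memQ x0)
    have c2 : Commute S.t (S.φ x) := S.t_comm (S.φ_mem x)
    have c4 := (c2.inv_left.mul_left (hu ▸ (c1.mul_left c2).mul_left c1.inv_left)).eq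
    rw [inv_mul_cancel_left, ← q.ext x x0, ← q.mul _ _ u0 x0', comm_Q u0 x0',
      q.mul _ _ (m0 x0' u0) rfl, q.mul _ _ x0' u0] at c4
    exact g3i (mul_eq_left.1 c4)
  have hu3 : u = g3 u.p3 := by
    have b1 := bf (g1 1) rfl
    have b2 := nd2 (x := u.p4) fun y => by simpa [Bf, g2] using bf (g2 y) rfl
    have b4 := nd2 (x := u.p2) fun y => by simpa [Bf, g4] using bf (g4 y) rfl
    have b5 := bf (g5 1) rfl
    simp [Bf, g1, g5] at b1 b5
    ext1 <;> simp [g3, *]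
  obtain ⟨e, o, ho, d⟩ := Z.tr (α := q.α) hD (Z.d0_of cQ (x := g3 u.p3.re) rfl (y := u.p3.im) (by
    rw [hu, S.φ3', mul_assoc, hu3, q.p3]; rfl)) cW
  have d2 : v = q.ψ (w * g3 e) * o := by
    rw [q.mul _ _ w0 rfl, q.p3, mul_assoc, ← d, ← mul_assoc, ww, one_mul]
  rw [hw, i15] at d2
  have p3 := al3 k (0 + e) (u := g5 l) rfl
  have co := q.cO _ p3 o ho
  rw [d2, mul_assoc, ← mul_assoc o, ← co, ← mul_assoc, ← mul_assoc, ← q.mul _ _ p3 p3, i7, q.ψ_one,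
    one_mul] at vv
  exact ⟨_, by rw [C, ← hv, d2, ho.eq_one_sq vv, mul_one]⟩

theorem C.add (h : q.Q3) (h1 : C q k (g5 l) e) (h2 : C q k' (g5 l) e') :
    C q (k + k') (g5 l) (e + e') := by
  have := h1.ext h (al3 k' e' (u := g5 l) rfl) (by simp [g0, g3, g5])
  rw [C, i11, ← h2] at this
  rw [C, ← this]
  nth_rw 2 [add_comm k]
  simp only [q.ξ_add, mul_assoc]

theorem C.tor (h1 : C q k (g5 l) e) (c : Eˣ) :
    C q (ιJ q.α (c : E) * k) (g5 l) (ιK q.α (N (c : E)) * e) := by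
  have A := q.ch _ (al3 k e (u := g5 l) rfl) c 1
  have B := q.ch (g5 l) rfl c 1
  rw [Units.val_one, map_one] at A B
  rw [i12, i13, N_ιJ, ← h1] at A
  rw [i13] at B
  rw [C, ← A, ← q.h_ξ c 1]
  nth_rw 1 [← B]
  simp only [mul_assoc, inv_mul_cancel_left]

end QH
open QH

theorem Q1.Q4.q5 {S : St E G} (hD : S.Db) {Z : Z2 S} {q : Q1 Z} (h : q.Q4) : q.Q5 := by
  refine ⟨h, fun k l => ?_⟩
  choose f hf using fun k => ex5 hD h k l
  have d := hf k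
  rw [norm_kill S.cub (ιJ q.α) (ιK q.α) (f := f)
    (fun k k' => (hf _).uniq ((hf k).add h.toQ3 (hf k')) rfl)
    (fun c k => (hf _).uniq ((hf k).tor c) rfl) k] at d
  exact d.trans (congrArg _ (mul_one _))

end H89.D4S
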