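import Cfsg.Agent.Lib.D4S.QG1

/-! Standard components of type `³D₄(2ⁿ)`, package QI: see `blueprint/D4S/README.md`. -/

set_option autoImplicit false
set_option linter.unusedSectionVars false
set_option linter.unusedSimpArgs false
set_option linter.unnecessarySeqFocus false

namespace H89.D4S
open Subgroup H69 U12
open H89.G2S (KK ιK σK)
open scoped commutatorElement

variable {F E G : Type*} [Field F] [Field E] [Cub F E] [CharP F 2] [CharP E 2] [Finite F] [Finite E]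
  [Group G] [Finite G]

namespace QI

variable {S : St E G} {Z : Z2 S} {q : Q1 Z}

/-- the longest element of the Weyl group -/
def w0 (S : St E G) : G := S.n0 * S.n5 * S.n0 * S.n5 * S.n0 * S.n5

theorem w0_mem : w0 S ∈ S.L := by
  have a := S.n0_mem
  have b := S.n5_mem
  exact mul_mem (mul_mem (mul_mem (mul_mem (mul_mem a b) a) b) a) b

theorem w0_sq : w0 S * w0 S = 1 := by
  rw [← S.braid, w0]
  simp only [pow_succ, pow_zero, one_mul, mul_assoc]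

theorem w0_eq : w0 S = S.n5 * S.n0 * S.n5 * S.n0 * S.n5 * S.n0 := by
  rw [← inv_eq_of_mul_eq_one_right (w0_sq (S := S)), w0]
  simp only [mul_inv_rev, S.n0_inv, S.n5_inv, mul_assoc]

theorem w0_n0 : S.n0 * w0 S = w0 S * S.n0 := by
  conv_lhs => rw [w0_eq]
  rw [w0]
  simp only [mul_assoc]

theorem w0_n5 : S.n5 * w0 S = w0 S * S.n5 := by
  conv_rhs => rw [w0_eq]
  rw [w0]
  simp only [mul_assoc]

theorem cj6 (a b c d e f x : G) : a * b * c * d * e * f * x * (a * b * c * d * e * f)⁻¹ =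
    a * (b * (c * (d * (e * (f * x * f⁻¹) * e⁻¹) * d⁻¹) * c⁻¹) * b⁻¹) * a⁻¹ := by group

theorem w0_X (i : Fin 12) (a : E) : w0 S * S.X i a * (w0 S)⁻¹ = S.X (i + 6) a := by
  rw [w0, cj6, S.c5, S.c0, S.c5, S.c0, S.c5, S.c0,
    (by decide : ∀ i : Fin 12, 6 - (4 - (6 - (4 - (6 - (4 - i))))) = i + 6)]

theorem w0_h (l : Eˣ) (m : Fˣ) : S.h l m * w0 S = w0 S * S.h l⁻¹ m⁻¹ := by
  have : (w0 S)⁻¹ * S.h l m * w0 S = S.h l⁻¹ m⁻¹ := by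
    refine S.eq_of_act (mul_mem (mul_mem (inv_mem w0_mem) (S.hL l m)) w0_mem) (S.hL _ _) fun i a => ?_
    rw [S.hX, ← wt_add6]
    calc _ = (w0 S)⁻¹ * (S.h l m * (w0 S * S.X i a * (w0 S)⁻¹) * (S.h l m)⁻¹) * w0 S := by group
      _ = _ := by rw [w0_X, S.hX, ← w0_X]; group
  rw [← this]; group

theorem swap {a w x : G} (b : G) (h : a * w = w * b) :
    a * (w * x * w⁻¹) * a⁻¹ = w * (b * x * b⁻¹) * w⁻¹ := by
  rw [eq_mul_inv_of_mul_eq h]; group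

/-- the root elements over the extension -/
def YX (q : Q1 Z) (i : Fin 12) (k : JJ E q.α) : G :=
  ![q.ξ k, q.ψ (g1 (T k)), q.ψ (g2 k), q.ψ (g3 (T k)), q.ψ (g4 k), q.ψ (g5 (T k)),
    w0 S * q.ξ k * (w0 S)⁻¹, w0 S * q.ψ (g1 (T k)) * (w0 S)⁻¹, w0 S * q.ψ (g2 k) * (w0 S)⁻¹,
    w0 S * q.ψ (g3 (T k)) * (w0 S)⁻¹, w0 S * q.ψ (g4 k) * (w0 S)⁻¹, w0 S * q.ψ (g5 (T k)) * (w0 S)⁻¹] i

theorem eqns : True := by
  have := @w0.eq_1.{0, 0, 0}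
  have := @YX.eq_1.{0, 0, 0}
  trivial

theorem YX_add6 (i : Fin 12) (k : JJ E q.α) : YX q (i + 6) k = w0 S * YX q i k * (w0 S)⁻¹ := by
  have e : ∀ x : G, x = w0 S * (w0 S * x * (w0 S)⁻¹) * (w0 S)⁻¹ := fun x => by
    calc x = w0 S * w0 S * x * (w0 S * w0 S)⁻¹ := by rw [w0_sq]; group
      _ = _ := by group
  fin_cases i
  exacts [rfl, rfl, rfl, rfl, rfl, rfl, e _, e _, e _, e _, e _, e _]

theorem ind {P : Fin 12 → Prop} (h0 : P 0) (h1 : P 1) (h2 : P 2) (h3 : P 3) (h4 : P 4) (h5 : P 5)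
    (h : ∀ i, P i → P (i + 6)) (i : Fin 12) : P i := by
  fin_cases i
  exacts [h0, h1, h2, h3, h4, h5, h _ h0, h _ h1, h _ h2, h _ h3, h _ h4, h _ h5]

theorem YX_ι (i : Fin 12) (a : E) : YX q i (ιJ q.α a) = S.X i a := by
  refine ind (P := fun i => YX q i (ιJ q.α a) = S.X i a) (q.ξ_ι a) ?_ ?_ ?_ ?_ ?_ (fun i h => ?_) i
  · rw [← S.φ1, ← q.ext _ rfl, map_g1, Tc.res_T]; rfl
  · rw [← S.φ2, ← q.ext _ rfl, map_g2]; rfl
  · rw [← S.φ3, ← q.ext _ rfl, map_g3, Tc.res_T]; rfl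
  · rw [← S.φ4, ← q.ext _ rfl, map_g4]; rfl
  · rw [← S.φ5, ← q.ext _ rfl, map_g5, Tc.res_T]; rfl
  · rw [YX_add6, h, w0_X]

theorem n0_g1 (k : KK q.α) : S.n0 * q.ψ (g1 k) * S.n0⁻¹ = q.ψ (g5 k) := by
  rw [q.cn _ rfl]; exact congrArg q.ψ (by ext1 <;> simp [g1, g5, na])
theorem n0_g2 (k : JJ E q.α) : S.n0 * q.ψ (g2 k) * S.n0⁻¹ = q.ψ (g4 k) := by
  rw [q.cn _ rfl]; exact congrArg q.ψ (by ext1 <;> simp [g2, g4, na])
theorem n0_g3 (k : KK q.α) : S.n0 * q.ψ (g3 k) * S.n0⁻¹ = q.ψ (g3 k) := by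
  rw [q.cn _ rfl]; exact congrArg q.ψ (by ext1 <;> simp [g3, na])
theorem n0_g4 (k : JJ E q.α) : S.n0 * q.ψ (g4 k) * S.n0⁻¹ = q.ψ (g2 k) := by
  rw [q.cn _ rfl]; exact congrArg q.ψ (by ext1 <;> simp [g2, g4, na])
theorem n0_g5 (k : KK q.α) : S.n0 * q.ψ (g5 k) * S.n0⁻¹ = q.ψ (g1 k) := by
  rw [q.cn _ rfl]; exact congrArg q.ψ (by ext1 <;> simp [g1, g5, na])
theorem n5_ξ (k : JJ E q.α) : S.n5 * q.ξ k * S.n5⁻¹ = q.ψ (g4 k) := by
  calc _ = S.n5 * S.n5 * q.ψ (g4 k) * (S.n5 * S.n5)⁻¹ := by rw [Q1.ξ]; group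
    _ = _ := by rw [S.n5_sq]; group

theorem c0 (h : q.Q2) (i : Fin 12) (k : JJ E q.α) : S.n0 * YX q i k * S.n0⁻¹ = YX q (6 - i) k := by
  refine ind (P := fun i => S.n0 * YX q i k * S.n0⁻¹ = YX q (6 - i) k) ?_ (n0_g1 _) (n0_g2 k) (n0_g3 _)
    (n0_g4 k) (n0_g5 _) (fun i e => ?_) i
  · change S.n0 * q.ξ k * S.n0⁻¹ = w0 S * q.ξ k * (w0 S)⁻¹
    rw [w0, cj6, n5_ξ, n0_g4, h.c52, n0_g2]; rfl
  · rw [YX_add6, swap _ w0_n0, e, ← YX_add6, (by decide : ∀ i : Fin 12, 6 - i + 6 = 6 - (i + 6))]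

theorem c5 (h : q.Q2) (i : Fin 12) (k : JJ E q.α) : S.n5 * YX q i k * S.n5⁻¹ = YX q (4 - i) k := by
  refine ind (P := fun i => S.n5 * YX q i k * S.n5⁻¹ = YX q (4 - i) k) (n5_ξ k) (q.n5_g1 _) (h.c52 k)
    (q.p1 _).symm rfl ?_ (fun i e => ?_) i
  · change S.n5 * q.ψ (g5 (T k)) * S.n5⁻¹ = w0 S * q.ψ (g5 (T k)) * (w0 S)⁻¹
    rw [w0_eq, cj6, n0_g5, q.n5_g1, n0_g3, ← q.p1, n0_g1]
  · rw [YX_add6, swap _ w0_n5, e, ← YX_add6, (by decide : ∀ i : Fin 12, 4 - i + 6 = 4 - (i + 6))]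

theorem ct (i : Fin 12) (k : JJ E q.α) : S.t * YX q i k * S.t⁻¹ = YX q i (σJ q.α k) := by
  have h4 : S.t * q.ψ (g4 k) * S.t⁻¹ = q.ψ (g4 (σJ q.α k)) := by
    rw [q.ct _ rfl, map_g4]; rfl
  refine ind (P := fun i => S.t * YX q i k * S.t⁻¹ = YX q i (σJ q.α k)) ?_ ?_ ?_ ?_ h4 ?_ (fun i e => ?_) i
  · change S.t * (S.n5 * _ * S.n5⁻¹) * S.t⁻¹ = S.n5 * _ * S.n5⁻¹
    rw [swap _ (S.t_comm S.n5_mem), h4]
  · exact (q.ct _ rfl).trans (by rw [map_g1, Tc.res_T]; rfl)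
  · exact (q.ct _ rfl).trans (by rw [map_g2]; rfl)
  · exact (q.ct _ rfl).trans (by rw [map_g3, Tc.res_T]; rfl)
  · exact (q.ct _ rfl).trans (by rw [map_g5, Tc.res_T]; rfl)
  · rw [YX_add6, swap _ (S.t_comm w0_mem), e, YX_add6]

section ring
variable {K J : Type*} [CommRing K] [CommRing J] [Cub K J] [CharP K 2] [CharP J 2] (l : J) (m : K)
theorem tor1 (c : K) : tor l m (g1 c : U12 J) = g1 (N l * m * c) := by ext <;> simp [g1]
theorem tor2 (b : J) : tor l m (g2 b : U12 J) = g2 (sh l * ι m * b) := by ext <;> simp [g2]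
theorem tor3 (c : K) : tor l m (g3 c : U12 J) = g3 (N l * m ^ 2 * c) := by ext <;> simp [g3]
theorem tor4 (b : J) : tor l m (g4 b : U12 J) = g4 (l * ι m * b) := by ext <;> simp [g4]
theorem tor5 (c : K) : tor l m (g5 c : U12 J) = g5 (m * c) := by ext <;> simp [g5]
end ring

theorem N_ιJ (α : F) (l : E) : N (ιJ α l) = ιK α (N l) := by rw [← (tcJ α).res_N, tcJ_res]

theorem ch (i : Fin 12) : ∀ (l : Eˣ) (m : Fˣ) (k : JJ E q.α),
    S.h l m * YX q i k * (S.h l m)⁻¹ = YX q i (ιJ q.α (wt l m i) * k) := by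
  refine ind (P := fun i => ∀ (l : Eˣ) (m : Fˣ) (k : JJ E q.α),
    S.h l m * YX q i k * (S.h l m)⁻¹ = YX q i (ιJ q.α (wt l m i) * k)) ?_ ?_ ?_ ?_ ?_ ?_ (fun i e => ?_) i <;>
    intro l m k
  · rw [wt0]; exact q.h_ξ l m k
  · refine (q.ch _ rfl l m).trans (congrArg q.ψ ?_)
    rw [tor1, wt1, ← ι_ιK, T_ι_mul, map_mul, N_ιJ]
  · refine (q.ch _ rfl l m).trans (congrArg q.ψ ?_)
    rw [tor2, wt2, map_mul, ← ι_ιK, (tcJ q.α).sh]
  · refine (q.ch _ rfl l m).trans (congrArg q.ψ ?_)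
    rw [tor3, wt3, ← ι_ιK, T_ι_mul, map_mul, map_pow, N_ιJ]
  · refine (q.ch _ rfl l m).trans (congrArg q.ψ ?_)
    rw [tor4, wt4, map_mul, ← ι_ιK]
  · refine (q.ch _ rfl l m).trans (congrArg q.ψ ?_)
    rw [tor5, wt5, ← ι_ιK, T_ι_mul]
  · rw [YX_add6, swap _ (w0_h l m), e, YX_add6, wt_add6]

theorem cO (i : Fin 12) (k : JJ E q.α) : S.CO (YX q i k) := by
  refine ind (P := fun i => S.CO (YX q i k)) (q.ξ_CO k) (q.cO _ rfl) (q.cO _ rfl) (q.cO _ rfl) (q.cO _ rfl)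
    (q.cO _ rfl) (fun i e => ?_) i
  rw [YX_add6]
  exact e.conj (S.t_comm w0_mem).symm

theorem conj (h : q.Q5) (k : JJ E q.α) (u : U12 (JJ E q.α)) (hu : u.p0 = 0) :
    q.ξ k * q.ψ u * q.ξ k = q.ψ (g0 k * u * g0 k) := by
  have e : ∀ u : U12 (JJ E q.α), u.p0 = 0 → (g0 k * u * g0 k).p0 = 0 := fun u hu => by
    simp [g0, hu, CharTwo.add_self_eq_zero]
  have g2' : g0 k * g0 k = 1 := by ext1 <;> simp [g0, CharTwo.add_self_eq_zero]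
  refine Q_ext (f := fun u => q.ξ k * q.ψ u * q.ξ k) (g := fun u => q.ψ (g0 k * u * g0 k))
    (fun u v hu hv => ?_) (fun u v hu hv => ?_) (h.r05 k) (h.r04 k) (fun a => ?_) (fun a => ?_) (fun a => ?_) hu
  · calc _ = q.ξ k * q.ψ u * (q.ξ k * q.ξ k) * q.ψ v * q.ξ k := by rw [q.ξ_sq, q.mul u v hu hv]; group
      _ = _ := by group
  · rw [← q.mul _ _ (e u hu) (e v hv)]
    refine congrArg q.ψ ?_
    calc _ = g0 k * u * (g0 k * g0 k) * v * g0 k := by rw [g2']; group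
      _ = _ := by group
  · exact (h.ξ_g2 k a).trans (congrArg q.ψ (al2 k a).symm)
  · rw [q.ξ_g1, mul_assoc, q.ξ_sq, mul_one]
    exact congrArg q.ψ (by ext1 <;> simp [g0, g1, CharTwo.add_self_eq_zero])
  · rw [q.ξ_g3, mul_assoc, q.ξ_sq, mul_one]
    exact congrArg q.ψ (by ext1 <;> simp [g0, g3, CharTwo.add_self_eq_zero])

end QI

open QI in
theorem Q1.Q5.big {S : St E G} (hD : S.Db) {Z : Z2 S} {q : Q1 Z} (h : q.Q5) :
    ∃ Y : Pin (JJ E q.α) G, Big S Y (ιJ q.α) (σJ q.α) := by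
  obtain ⟨φ, h1, h0⟩ := exists_hom q.mul q.ξ_add (QI.conj h)
  have e : ∀ i, YX q i 1 = S.X i 1 := fun i => by rw [← YX_ι (q := q), map_one]
  refine ⟨⟨YX q, φ, h0, fun a => h1 _ rfl, fun a => h1 _ rfl, fun a => h1 _ rfl, fun a => h1 _ rfl,
    fun a => h1 _ rfl, fun i a => ?_, fun i a => ?_⟩, hD, tcJ _, ?_, YX_ι, ⟨tcσ _, QI.ct⟩, fun k => ?_, fun k => ?_,
    ⟨⟨0, 1⟩, ?_⟩, ?_, ?_, fun l m i k => QI.ch i l m k, fun o ho i k => (QI.cO i k o ho).symm, fun g hg l m => ?_⟩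
  · rw [e, e]; exact QI.c0 h.toQ2 i a
  · rw [e, e]; exact QI.c5 h.toQ2 i a
  · refine (injective_iff_map_eq_one φ).2 fun u hu => ?_
    have h4 : u.p0 = 0 := nd _ fun y => by
      have h2 : (u * g2 y * u⁻¹ * (g2 y)⁻¹).p0 = 0 := by simp [g2, CharTwo.add_self_eq_zero]
      have h3 := q.inj _ h2 (by rw [← h1 _ h2]; simp [hu])
      rw [mul_inv_eq_one, mul_inv_eq_iff_eq_mul] at h3
      simpa [g2] using congrArg U12.p1 h3
    exact q.inj u h4 (by rw [← h1 u h4, hu])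
  · ext <;> simp [add_assoc, CharTwo.add_self_eq_zero]
  · refine ⟨fun e => ⟨k.re, ?_⟩, ?_⟩
    · have := congrArg QuadraticAlgebra.re e
      rw [G2S.σK_re, add_eq_left] at this
      ext <;> simp [this]
    · rintro ⟨a, rfl⟩
      ext <;> simp
  · ext <;> simp [CharTwo.add_self_eq_zero, QuadraticAlgebra.re_one, QuadraticAlgebra.im_one]
  · rw [Nat.card_congr (QuadraticAlgebra.equivProd _ _), Nat.card_prod, sq]
  · rw [Nat.card_congr (QuadraticAlgebra.equivProd _ _), Nat.card_prod, sq]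
  · obtain ⟨k, e⟩ := (Z.inZ_iff q.α).1 (Z.uz hD hg l m)
    rw [e, ← q.p3]
    exact ⟨g3 k, mem_Z'.2 ⟨k, rfl⟩, h1 _ rfl⟩

end H89.D4S
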