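import Cfsg.Agent.Lib.D4S.TOR

/-! Standard components of type `³D₄(2ⁿ)`, package RG1: see `blueprint/D4S/README.md`. -/

set_option autoImplicit false
set_option linter.unusedSectionVars false

namespace H89.D4S
open Subgroup H69 U12
open H89.G2S (KK ιK σK)
open scoped commutatorElement

variable {F E G : Type*} [Field F] [Field E] [Cub F E] [CharP F 2] [CharP E 2] [Finite F] [Finite E]
  [Group G]

namespace RG1
open H63.St
variable (P : Pin E G)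

/-- the root subgroups -/
def XR (i : Fin 12) : Subgroup G where
  carrier := Set.range (P.X i)
  one_mem' := ⟨0, P.X_zero i⟩
  mul_mem' := by rintro _ _ ⟨a, rfl⟩ ⟨b, rfl⟩; exact ⟨a + b, P.X_add i a b⟩
  inv_mem' := by rintro _ ⟨a, rfl⟩; exact ⟨a, (P.X_inv i a).symm⟩

theorem mem_XR (i : Fin 12) (a : E) : P.X i a ∈ XR P i := ⟨a, rfl⟩

theorem comm_lt {r s : Fin 12} (h : r < s) (hs : s ≤ 5) (a b : E) :
    ⁅P.X r a, P.X s b⁆ ∈ ⨆ k ∈ rts.Itv r s, XR P k := by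
  have key : ∀ k c, (r < k ∧ k < s) ∨ c = 0 → P.X k c ∈ ⨆ k ∈ rts.Itv r s, XR P k := by
    rintro k c (e | rfl)
    · refine mem_XS (X := XR P) (Or.inl ?_) (mem_XR P k c)
      revert r s k; decide +kernel
    · rw [P.X_zero]; exact one_mem _
  have k2 : ∀ u : U12 E, ((r < 5 ∧ 5 < s) ∨ u.p5 = 0) → ((r < 4 ∧ 4 < s) ∨ u.p4 = 0) →
      ((r < 2 ∧ 2 < s) ∨ u.p2 = 0) → ((r < 1 ∧ 1 < s) ∨ u.p1 = 0) → ((r < 3 ∧ 3 < s) ∨ u.p3 = 0) →
      u.p0 = 0 → P.φ u ∈ ⨆ k ∈ rts.Itv r s, XR P k := fun u a b c d e f => by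
    rw [P.φ_eq]
    exact mul_mem (mul_mem (mul_mem (mul_mem (mul_mem (key _ _ (a.imp_right ι_eq_zero.2)) (key _ _ b))
      (key _ _ c)) (key _ _ (d.imp_right ι_eq_zero.2))) (key _ _ (e.imp_right ι_eq_zero.2)))
      (key _ _ (.inr f))
  have : ∀ r s : Fin 12, r < s → s ≤ 5 → (r = 0 ∨ r = 1 ∨ r = 2 ∨ r = 3 ∨ r = 4) ∧
    (s = 1 ∨ s = 2 ∨ s = 3 ∨ s = 4 ∨ s = 5) := by decide
  obtain ⟨h1, h2⟩ := this r s h hs
  rcases h1 with rfl | rfl | rfl | rfl | rfl <;> rcases h2 with rfl | rfl | rfl | rfl | rfl <;>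
    first
    | exact absurd h (by decide)
    | (simp only [← P.φ0, ← P.φ1, ← P.φ2, ← P.φ3, ← P.φ4, ← P.φ5, ← map_commutatorElement]
       refine k2 _ ?_ ?_ ?_ ?_ ?_ ?_ <;> first
        | exact .inl (by decide)
        | ((try right); simp [commutatorElement_def, g0, g1, g2, g3, g4, g5, CharTwo.add_self_eq_zero]))

theorem acts {g : G} {w : Equiv.Perm (Fin 12)} (h : ∀ i a, g * P.X i a * g⁻¹ = P.X (w i) a) :
    Acts (XR P) g w := fun r x => ⟨by rintro ⟨a, rfl⟩; exact ⟨a, (h r a).symm⟩,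
  fun ⟨a, e⟩ => ⟨a, by rw [← h] at e; simpa using e⟩⟩

theorem acts0 : Acts (XR P) P.n0 (rts.σ 0) := acts P fun i a => by rw [rts_σ0, P.c0]
theorem acts1 : Acts (XR P) P.n5 (rts.σ 1) := acts P fun i a => by rw [rts_σ1, P.c5]

theorem acts_tor {g : G} {l : Eˣ} {m : Fˣ} (h : P.Tor g l m) : Acts (XR P) g 1 :=
  acts_of_conj (by rintro r _ ⟨a, rfl⟩; exact ⟨_, (h r a).symm⟩) (by
    rintro r _ ⟨a, rfl⟩; exact ⟨_, by simpa using (h.inv r a).symm⟩)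

theorem X_eq_one {G' : Type*} [Group G'] {π : G →* G'} (hP : Function.Injective (P.map π).φ)
    {i : Fin 12} {a : E} (h : π (P.X i a) = 1) : P.X i a = 1 := by
  obtain ⟨w, -, e⟩ := P.exists_w i
  have k : ∀ u, π (w * P.φ u * w⁻¹) = 1 → w * P.φ u * w⁻¹ = 1 := fun u h => by
    have : (P.map π).φ u = (P.map π).φ 1 := by
      rw [map_one]; change π (P.φ u) = 1; simpa using h
    rw [hP this]; simp
  rw [← e] at h ⊢
  split_ifs at h ⊢
  · rw [← P.φ4] at h ⊢; exact k _ h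
  · rw [← P.φ3] at h ⊢; exact k _ h

end RG1

open RG1 H63.St

namespace Pin
variable (P : Pin E G)
theorem exists_rgd (hP : Function.Injective P.φ) : ∃ R : H63.St.RGD rts G,
    (∀ i x, x ∈ R.X i ↔ ∃ a, x = P.X i a) ∧ R.n 0 = P.n0 ∧ R.n 1 = P.n5 ∧ R.U = P.U ∧ R.V = P.V ∧
      R.Gp = P.L := by
  have n1 : ∀ i, P.X i 1 ≠ 1 := fun i e => one_ne_zero (X_injι hP i (a := 1) (b := 0) (by simpa using e))
  refine ⟨{ X := XR P, n := ![P.n0, P.n5], comm := ?_, n_acts := ?_, n_mem := ?_, rgd2 := ?_ },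
    fun i x => exists_congr fun _ => eq_comm, rfl, rfl, ?_, ?_, ?_⟩
  · rintro r s hr hs h _ ⟨a, rfl⟩ _ ⟨b, rfl⟩
    rcases lt_or_gt_of_ne h with h | h
    · exact comm_lt P h hs a b
    · rw [← commutatorElement_inv, Roots.itv_comm]; exact inv_mem (comm_lt P h hr b a)
  · exact Fin.forall_fin_two.2 ⟨acts0 P, acts1 P⟩
  · exact Fin.forall_fin_two.2 ⟨⟨acts0 P, _, mem_XR P 0 1, n1 _, _, mem_XR P 6 1, _, mem_XR P 6 1, P.n0_eq'⟩,
      ⟨acts1 P, _, mem_XR P 5 1, n1 _, _, mem_XR P 11 1, _, mem_XR P 11 1, P.n5_eq'⟩⟩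
  · refine Fin.forall_fin_two.2 ⟨?_, ?_⟩
    · rintro _ ⟨k, rfl⟩ h
      have hk : k ≠ 0 := by rintro rfl; exact h (P.X_zero _)
      have := (acts_tor P (P.tor0 (Units.mk0 k hk))).mul (acts0 P)
      rw [mul_assoc, P.n0_sq, mul_one, one_mul] at this
      exact ⟨_, mem_XR P 6 _, _, mem_XR P 6 _, this⟩
    · rintro _ ⟨k, rfl⟩ h
      change P.X 5 k ≠ 1 at h
      have hk : T k ≠ 0 := fun e => h (by rw [← P.X_T rfl, e, map_zero, P.X_zero])
      have := (acts_tor P (P.tor5 (Units.mk0 _ hk))).mul (acts1 P)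
      rw [mul_assoc, P.n5_sq, mul_one, one_mul, Units.val_mk0, P.X_T rfl] at this
      exact ⟨_, mem_XR P 11 _, _, mem_XR P 11 _, this⟩
  · exact le_antisymm (XS_le.2 (by rintro r hr _ ⟨a, rfl⟩; exact P.X_memU hr a))
      (P.U_le.2 fun i hi a => mem_XS (X := XR P) hi (mem_XR P i a))
  · have : ∀ i : Fin 12, ¬ i ≤ 5 ↔ 6 ≤ i := by decide
    exact le_antisymm (XS_le.2 (by rintro r hr _ ⟨a, rfl⟩; exact subset_closure ⟨r, a, (this r).1 hr, rfl⟩))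
      ((closure_le _).2 (by rintro _ ⟨i, a, hi, rfl⟩; exact mem_XS (X := XR P) ((this i).2 hi) (mem_XR P i a)))
  · exact le_antisymm (XS_le.2 (by rintro r - _ ⟨a, rfl⟩; exact P.X_mem r a))
      (P.L_le.2 fun i a => mem_XS (X := XR P) (Set.mem_univ i) (mem_XR P i a))
theorem central {G' : Type*} [Group G'] (π : G →* G') (hP : Function.Injective (P.map π).φ)
    (hF : (P.map π).Faith) {g : G} (hg : g ∈ P.L) (h1 : π g = 1) : P.Cn g := by
  obtain ⟨R, a1, -, -, -, -, a6⟩ := P.exists_rgd fun u v e => hP (congrArg π e)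
  obtain ⟨R', b1, -, -, b4, b5, -⟩ := (P.map π).exists_rgd hP
  refine fun i a => (RGD.comm_of_map_eq_one (E := R) (E' := R') (π := π)
    (fun x hx hx' => hF x (b4 ▸ hx) (b5 ▸ hx')) (fun r => ?_) (fun r x hx e => ?_) (a6 ▸ hg) h1
    (a6 ▸ P.X_mem i a)).symm
  · ext y
    simp only [mem_map, a1, b1]
    exact ⟨by rintro ⟨_, ⟨c, rfl⟩, rfl⟩; exact ⟨c, rfl⟩, by rintro ⟨c, rfl⟩; exact ⟨_, ⟨c, rfl⟩, rfl⟩⟩
  · obtain ⟨c, rfl⟩ := (a1 r x).1 hx
    exact X_eq_one P hP e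
end Pin

end H89.D4S
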