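import Cfsg.Agent.Lib.D4S.RG1

/-! Standard components of type `³D₄(2ⁿ)`, package RG2: see `blueprint/D4S/README.md`. -/

set_option autoImplicit false
set_option linter.unusedSectionVars false

namespace H89.D4S
open Subgroup H69 U12
open H89.G2S (KK ιK σK)
open scoped commutatorElement

variable {F E G : Type*} [Field F] [Field E] [Cub F E] [CharP F 2] [CharP E 2] [Finite F] [Finite E]
  [Group G]

namespace RG2
open H63.St RG1
variable {P : Pin E G}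

/-- the torus -/
def TT (P : Pin E G) : Subgroup G where
  carrier := {g | g ∈ P.L ∧ ∃ l m, P.Tor g l m}
  one_mem' := ⟨one_mem _, _, _, Pin.Tor.one P⟩
  mul_mem' := fun ⟨a, _, _, b⟩ ⟨c, _, _, d⟩ => ⟨mul_mem a c, _, _, b.mul d⟩
  inv_mem' := fun ⟨a, _, _, b⟩ => ⟨inv_mem a, _, _, b.inv⟩

theorem wp (L : List (Fin 2)) : ∃ c : Fin 12, (∀ i, rts.wp L i = c + c + i) ∨ ∀ i, rts.wp L i = c + c - i := by
  induction L with
  | nil => exact ⟨0, .inl fun i => by simp⟩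
  | cons a L ih =>
    obtain ⟨c, h⟩ := ih
    have k : ∀ (a : Fin 2) (c : Fin 12), ∃ d : Fin 12, ∀ i, rts.σ a (c + c + i) = d + d - i ∧
      rts.σ a (c + c - i) = d + d + i := by
      simp only [Fin.forall_fin_two, rts_σ0, rts_σ1]; decide +kernel
    obtain ⟨d, k⟩ := k a c
    exact ⟨d, h.symm.imp (fun h i => by simp [h, (k i).2]) fun h i => by simp [h, (k i).1]⟩

theorem bruhat (hP : Function.Injective P.φ) (hF : P.Faith) {g : G} (hg : g ∈ P.L) :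
    ∃ u u', ∃ τ ∈ TT P, ∃ n, ∃ w : Equiv.Perm (Fin 12), g = P.φ u * τ * n * P.φ u' ∧
      (∀ i a, n * P.X i a * n⁻¹ = P.X (w i) a) ∧ (∀ i, (w i).val % 2 = i.val % 2) ∧
      (w 3 = 3 → n ∈ TT P ∨ P.n0 * n ∈ TT P) := by
  obtain ⟨R, a1, a2, a3, a4, a5, a6⟩ := P.exists_rgd hP
  have hX : R.X = XR P := funext fun i => SetLike.ext fun x => (a1 i x).trans (exists_congr fun _ => eq_comm)
  have hF' : R.Faith := fun x hx hx' => hF x (a4 ▸ hx) (a5 ▸ hx')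
  have m0 : ∀ m ∈ R.M 0, m * P.n0 ∈ TT P := by
    rintro _ ⟨h1, x, hx, h, u, hu, u', hu', rfl⟩
    obtain ⟨k, rfl⟩ := (a1 0 x).1 hx
    have hk : k ≠ 0 := by rintro rfl; exact h (P.X_zero _)
    have t := P.tor0 (Units.mk0 k hk)
    have := (acts_tor P t).mul (acts0 P)
    rw [mul_assoc, P.n0_sq, mul_one, one_mul, ← hX] at this
    rw [RGD.M_unique hF' hu hu' ((a1 6 _).2 ⟨_, rfl⟩) ((a1 6 _).2 ⟨_, rfl⟩) h1 this]
    exact ⟨mul_mem (mul_mem (mul_mem (P.X_mem _ _) (P.X_mem _ _)) (P.X_mem _ _)) P.n0_mem, _, _, t⟩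
  have m1 : ∀ m ∈ R.M 1, m * P.n5 ∈ TT P := by
    rintro _ ⟨h1, x, hx, h, u, hu, u', hu', rfl⟩
    obtain ⟨k, rfl⟩ := (a1 5 x).1 hx
    have hk : T k ≠ 0 := fun e => h (by rw [← P.X_T rfl, e, map_zero, P.X_zero])
    have t := P.tor5 (Units.mk0 _ hk)
    rw [Units.val_mk0, P.X_T rfl] at t
    have := (acts_tor P t).mul (acts1 P)
    rw [mul_assoc, P.n5_sq, mul_one, one_mul, ← hX] at this
    rw [RGD.M_unique hF' hu hu' ((a1 11 _).2 ⟨_, rfl⟩) ((a1 11 _).2 ⟨_, rfl⟩) h1 this]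
    exact ⟨mul_mem (mul_mem (mul_mem (P.X_mem _ _) (P.X_mem _ _)) (P.X_mem _ _)) P.n5_mem, _, _, t⟩
  have hH : R.H0 ≤ TT P := iSup_le (Fin.forall_fin_two.2 ⟨(closure_le _).2 ?_, (closure_le _).2 ?_⟩)
  rotate_left
  · rintro _ ⟨m, hm, m', hm', rfl⟩
    obtain ⟨a, _, _, b⟩ := m0 m' hm'
    have := mul_mem (m0 m hm) (⟨mul_mem (mul_mem P.n0_mem a) (inv_mem P.n0_mem), _, _, b.n0⟩ : _ ∈ TT P)
    rwa [show m * P.n0 * (P.n0 * (m' * P.n0) * P.n0⁻¹) = m * (P.n0 * P.n0) * m' by group, P.n0_sq,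
      mul_one] at this
  · rintro _ ⟨m, hm, m', hm', rfl⟩
    obtain ⟨a, _, _, b⟩ := m1 m' hm'
    have := mul_mem (m1 m hm) (⟨mul_mem (mul_mem P.n5_mem a) (inv_mem P.n5_mem), _, _, b.n5⟩ : _ ∈ TT P)
    rwa [show m * P.n5 * (P.n5 * (m' * P.n5) * P.n5⁻¹) = m * (P.n5 * P.n5) * m' by group, P.n5_sq,
      mul_one] at this
  obtain ⟨u, hu, τ, hτ, L, u', hu', rfl⟩ := R.bruhat (a6 ▸ hg)
  obtain ⟨u, rfl⟩ := P.mem_U.1 (a4 ▸ hu)
  obtain ⟨u', rfl⟩ := P.mem_U.1 (a4 ▸ hu')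
  obtain ⟨c, hc⟩ := wp L
  refine ⟨u, u', τ, hH hτ, _, rts.wp L, rfl, ?_, fun i => ?_, fun e => ?_⟩
  · clear hc hg
    induction L with
    | nil => simp [Pre.nw]
    | cons a L ih =>
      intro i x
      have k : ∀ a j, R.n a * P.X j x * (R.n a)⁻¹ = P.X (rts.σ a j) x :=
        Fin.forall_fin_two.2 ⟨fun j => by rw [a2, rts_σ0, P.c0], fun j => by rw [a3, rts_σ1, P.c5]⟩
      have : R.nw (a :: L) = R.n a * R.nw L := rfl
      rw [this, Roots.wp_cons, Equiv.Perm.mul_apply, ← k, ← ih]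
      group
  · rcases hc with h | h <;> rw [h] <;> clear h <;> revert c i <;> decide +kernel
  · rcases hc with h | h <;> rw [h] at e
    · refine .inl (hH (R.nw_mem_H0 fun i => ?_))
      rw [h]; clear h; revert c i; change ∀ c : Fin 12, _ → ∀ i : Fin 2, c + c + ![0, 5] i ≤ 5; decide +kernel
    · refine .inr (a2 ▸ hH (R.nw_mem_H0 (L := 0 :: L) fun i => ?_))
      rw [Roots.wp_cons, Equiv.Perm.mul_apply, h, rts_σ0]; clear h; revert c i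
      change ∀ c : Fin 12, _ → ∀ i : Fin 2, 6 - (c + c - ![0, 5] i) ≤ 5; decide +kernel

theorem conj_Z {τ x : G} (hτ : τ ∈ TT P) (u : U12 E) (h : P.φ u * τ * x * (P.φ u * τ)⁻¹ ∈ P.Z) :
    x ∈ P.Z := by
  obtain ⟨a, e⟩ := P.mem_Z.1 h
  obtain ⟨-, l, m, t⟩ := inv_mem hτ
  have : x = τ⁻¹ * ((P.φ u)⁻¹ * (P.X 3 (ι a) * P.φ u)) * τ⁻¹⁻¹ := by rw [e]; group
  rw [this, P.X3_comm_φ, inv_mul_cancel_left, t]; exact P.X3_mem _

theorem neg (hF : P.Faith) {j : Fin 12} (hj : ¬ j ≤ 5) {a : E} (h : P.X j a ∈ P.U) : P.X j a = 1 :=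
  hF _ h (subset_closure ⟨j, a, (by decide : ∀ j : Fin 12, ¬ j ≤ 5 → 6 ≤ j) j hj, rfl⟩)

theorem pz (hP : Function.Injective P.φ) (hF : P.Faith) {g : G} (hg : g ∈ P.L) {a : F} (ha : a ≠ 0)
    (h : g * P.X 3 (ι a) * g⁻¹ ∈ P.Z) :
    ∃ u, ∃ τ ∈ TT P, g = P.φ u * τ ∨ ∃ k, g = P.φ u * τ * P.n0 * P.X 0 k := by
  obtain ⟨u, u', τ, hτ, n, w, rfl, h1, h2, h3⟩ := bruhat hP hF hg
  have e : P.X (w 3) (ι a) ∈ P.Z := conj_Z hτ u (by
    rw [← h1]; convert h using 1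
    rw [mul_assoc _ (P.φ u'), ← P.X3_comm_φ]; group)
  have k : ∀ σ ∈ TT P, ∀ v, ∃ v', σ * P.φ v = P.φ v' * σ := fun σ ⟨_, _, _, t⟩ v =>
    ⟨_, by rw [← t.φ, inv_mul_cancel_right]⟩
  have w3 : w 3 = 3 := by
    by_cases hj : w 3 ≤ 5
    · obtain ⟨b, e⟩ := P.mem_Z.1 e
      have : ∀ j : Fin 12, j ≤ 5 → j.val % 2 = (3 : Fin 12).val % 2 → j = 1 ∨ j = 3 ∨ j = 5 := by decide
      rcases this _ hj (h2 3) with c | c | c <;> rw [c] at e
      · rw [← P.φ3', ← P.φ1'] at e; exact absurd (congrArg U12.p1 (hP e)).symm ha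
      · exact c
      · rw [← P.φ3', ← P.φ5'] at e; exact absurd (congrArg U12.p5 (hP e)).symm ha
    · exact absurd (Pin.X_injι hP _ (b := 0) (by
        rw [neg hF hj (P.Q_le_U (P.Z_le_Q e)), map_zero, P.X_zero])) ha
  rcases h3 w3 with c | c
  · obtain ⟨v, e⟩ := k _ (mul_mem hτ c) u'
    exact ⟨u * v, _, mul_mem hτ c, .inl (by rw [map_mul, mul_assoc _ τ, mul_assoc, e, mul_assoc])⟩
  · obtain ⟨c0, l, m, t⟩ := c
    have c' : τ * (P.n0 * (P.n0 * n) * P.n0⁻¹) ∈ TT P :=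
      mul_mem hτ ⟨mul_mem (mul_mem P.n0_mem c0) (inv_mem P.n0_mem), _, _, t.n0⟩
    obtain ⟨v, e⟩ := k _ c' (na (u' * g0 u'.p0))
    refine ⟨u * v, _, c', .inr ⟨u'.p0, ?_⟩⟩
    rw [map_mul, mul_assoc _ (P.φ v), ← e, ← P.n0_φ (by simp [g0, CharTwo.add_self_eq_zero]), map_mul,
      P.φ0, ← mul_assoc P.n0 P.n0, P.n0_sq]
    simp only [mul_assoc, one_mul, inv_mul_cancel_left, P.X_sq, mul_one]

theorem nc (hP : Function.Injective P.φ) (hF : P.Faith) {g : G} (hg : g ∈ P.L) :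
    g * P.X 2 1 * g⁻¹ ∉ P.Z := fun h => by
  obtain ⟨u, u', τ, hτ, n, w, rfl, h1, h2, -⟩ := bruhat hP hF hg
  have e : n * P.φ (u' * g2 1 * u'⁻¹) * n⁻¹ ∈ P.Z := conj_Z hτ u (by
    rw [map_mul, map_mul, map_inv, P.φ2]; convert h using 1; group)
  obtain ⟨b, e⟩ := P.mem_Z.1 e
  rw [← w.apply_symm_apply 3, ← h1, mul_left_inj, mul_right_inj] at e
  have p : (u' * g2 1 * u'⁻¹ : U12 E).p2 = 1 := by u12s; cub
  by_cases hj : w.symm 3 ≤ 5
  · have : ∀ j : Fin 12, j ≤ 5 → (3 : Fin 12).val % 2 = j.val % 2 → j = 1 ∨ j = 3 ∨ j = 5 := by decide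
    rcases this _ hj (by rw [← h2 (w.symm 3), w.apply_symm_apply]) with c | c | c <;> rw [c] at e
    · rw [← P.φ1'] at e; exact zero_ne_one ((congrArg U12.p2 (hP e)).trans p)
    · rw [← P.φ3'] at e; exact zero_ne_one ((congrArg U12.p2 (hP e)).trans p)
    · rw [← P.φ5'] at e; exact zero_ne_one ((congrArg U12.p2 (hP e)).trans p)
  · rw [neg hF hj (e ▸ P.φ_memU _), ← map_one P.φ] at e
    exact zero_ne_one ((congrArg U12.p2 (hP e)).trans p)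

end RG2

theorem Pin.exists_fp (P : Pin E G) (hc : Nat.card E = Nat.card F ^ 3) (hP : Function.Injective P.φ)
    (hF : P.Faith) (hz : ∀ g ∈ P.L, P.Cn g → g = 1) (hA : P.Aut) : ∃ P' : FP E G, P'.toPin = P := by
  choose h h1 h2 using P.exists_tor
  refine ⟨⟨P, hc, hP, h, h1, h2, hz, fun g hg a ha e => ?_, fun g hg => RG2.nc hP hF hg, hA⟩, rfl⟩
  obtain ⟨u, τ, ⟨t1, l, m, t2⟩, e⟩ := RG2.pz hP hF hg ha e
  have : τ * (h l m)⁻¹ = 1 := hz _ (mul_mem t1 (inv_mem (h1 l m))) fun i a => by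
    have := t2.mul (h2 l m).inv i a
    rw [mul_inv_cancel, mul_inv_cancel, mul_inv_eq_iff_eq_mul] at this
    have k := Pin.Tor.one P i a
    rw [one_mul, inv_one, mul_one] at k
    rw [this, ← k]
  exact ⟨u, l, m, mul_inv_eq_one.1 this ▸ e⟩

end H89.D4S
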