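import Cfsg.Agent.Lib.D4S.BD
import Cfsg.Agent.Lib.D4S.Bas2

/-! Standard components of type `³D₄(2ⁿ)`, package TOR: see `blueprint/D4S/README.md`. -/

set_option autoImplicit false
set_option linter.unusedSectionVars false
set_option linter.unusedSimpArgs false
set_option linter.unnecessarySeqFocus false

namespace H89.D4S
open Subgroup H69 U12
open H89.G2S (KK ιK σK)
open scoped commutatorElement

namespace TOR
section ring
variable {K J : Type*} [CommRing K] [CommRing J] [Cub K J] [CharP K 2] [CharP J 2]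
/-- the action of the rank one torus element of the short simple root -/
def a0 (k k' : J) (u : U12 J) : U12 J := na (g0 k' * na (g0 k * na (g0 k' * u * g0 k') * g0 k) * g0 k')
/-- the action of the rank one torus element of the long simple root -/
def a5 (k k' : K) (u : U12 J) : U12 J := nb (g5 k' * nb (g5 k * nb (g5 k' * u * g5 k') * g5 k) * g5 k')
section
variable {k k' : J} (h : k * k' = 1)
include h
theorem s5 (a : K) : a0 k k' (g5 a) = g5 (N k' * a) := by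
  have h1 := congrArg θ h
  have h2 := congrArg θ h1
  simp only [map_mul, map_one] at h1 h2
  rw [a0]; u12
theorem s4 (b : J) : a0 k k' (g4 b) = g4 (k * sh k' * b) := by
  have h1 := congrArg θ h
  have h2 := congrArg θ h1
  simp only [map_mul, map_one] at h1 h2
  rw [a0]; u12
theorem s2 (b : J) : a0 k k' (g2 b) = g2 (sh k * k' * b) := by
  have h1 := congrArg θ h
  have h2 := congrArg θ h1
  simp only [map_mul, map_one] at h1 h2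
  rw [a0]; u12
theorem s1 (a : K) : a0 k k' (g1 a) = g1 (N k * a) := by
  have h1 := congrArg θ h
  have h2 := congrArg θ h1
  simp only [map_mul, map_one] at h1 h2
  rw [a0]; u12
omit h in
theorem s3 (a : K) : a0 k k' (g3 a) = g3 a := by
  rw [a0]; u12
end
section
variable {k k' : K} (h : k * k' = 1)
include h
theorem r0 (b : J) : a5 k k' (g0 b) = g0 (ι k' * b) := by
  have h1 := congrArg (ι : K → J) h
  simp only [map_mul, map_one] at h1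
  rw [a5]; u12
theorem r4 (b : J) : a5 k k' (g4 b) = g4 (ι k * b) := by
  have h1 := congrArg (ι : K → J) h
  simp only [map_mul, map_one] at h1
  rw [a5]; u12
omit h in
theorem r2 (b : J) : a5 k k' (g2 b) = g2 b := by
  rw [a5]; u12
theorem r1 (a : K) : a5 k k' (g1 a : U12 J) = g1 (k' * a) := by
  have h1 := congrArg (ι : K → J) h
  simp only [map_mul, map_one] at h1
  rw [a5]; u12
theorem r3 (a : K) : a5 k k' (g3 a : U12 J) = g3 (k * a) := by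
  have h1 := congrArg (ι : K → J) h
  simp only [map_mul, map_one] at h1
  rw [a5]; u12
end
variable {G : Type*} [Group G] (P : Pin J G)
theorem act0 (k k' : J) {u : U12 J} (hu : u.p0 = 0) :
    P.X 6 k' * P.X 0 k * P.X 6 k' * P.n0 * P.φ u * (P.X 6 k' * P.X 0 k * P.X 6 k' * P.n0)⁻¹ =
      P.φ (a0 k k' u) := by
  have e : ∀ c, P.X 6 c = P.n0 * P.X 0 c * P.n0⁻¹ := fun c => (P.c0 0 c).symm
  have a : ∀ (c : J) (v : U12 J), v.p0 = 0 →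
      P.φ (na (g0 c * v * g0 c)) = P.n0 * (P.X 0 c * P.φ v * (P.X 0 c)⁻¹) * P.n0⁻¹ := fun c v hv => by
    rw [P.X_inv, ← P.φ0, ← map_mul, ← map_mul, P.n0_φ (by simp [g0, hv, CharTwo.add_self_eq_zero])]
  rw [a0, a _ _ rfl, a _ _ rfl, a _ _ hu, e]
  conv_lhs => rw [mul_assoc _ _ P.n0, mul_assoc _ _ P.n0, inv_mul_cancel, mul_one, P.n0_inv]
  group
theorem act5 (k k' : K) {u : U12 J} (hu : u.p5 = 0) :
    P.X 11 (ι k') * P.X 5 (ι k) * P.X 11 (ι k') * P.n5 * P.φ u *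
      (P.X 11 (ι k') * P.X 5 (ι k) * P.X 11 (ι k') * P.n5)⁻¹ = P.φ (a5 k k' u) := by
  have e : ∀ c, P.X 11 c = P.n5 * P.X 5 c * P.n5⁻¹ := fun c => (P.c5 5 c).symm
  have a : ∀ (c : K) (v : U12 J), v.p5 = 0 → P.φ (nb (g5 c * v * g5 c)) =
      P.n5 * (P.X 5 (ι c) * P.φ v * (P.X 5 (ι c))⁻¹) * P.n5⁻¹ := fun c v hv => by
    rw [P.X_inv, ← P.φ5', ← map_mul, ← map_mul, P.n5_φ (by simp [g5, hv, CharTwo.add_self_eq_zero])]
  rw [a5, a _ _ rfl, a _ _ rfl, a _ _ hu, e]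
  conv_lhs => rw [mul_assoc _ _ P.n5, mul_assoc _ _ P.n5, inv_mul_cancel, mul_one, P.n5_inv]
  group
theorem rel0 (a : K) (c : J) : P.X 11 (ι a) * P.X 4 c * P.X 11 (ι a) * P.X 4 c =
    P.X 0 (ι a * c) * (P.X 2 (ι a * sh c) * P.X 3 (ι (a * N c)) * P.X 1 (ι (a ^ 2 * N c))) := by
  have e : (g5 a * g0 c * g5 a * g0 c : U12 J) =
      g4 (ι a * c) * (g2 (ι a * sh c) * g1 (a * N c) * g3 (a ^ 2 * N c)) := by u12
  have := congrArg (fun u => P.n5 * P.φ u * P.n5⁻¹) e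
  simp only [map_mul P.φ, ← conj_mul, P.φ0, P.φ1', P.φ2, P.φ3', P.φ4, P.φ5', P.c5] at this
  exact this
theorem rel5 (a b : J) : ⁅P.X 6 a, P.X 4 b⁆ = P.X 5 (a * b) := by
  have := congrArg (fun g => P.n0 * g * P.n0⁻¹) (P.comm02 a b)
  simp only [conjugate_commutatorElement, P.c0] at this
  exact this
end ring
end TOR
open TOR

variable {F E G : Type*} [Field F] [Field E] [Cub F E] [CharP F 2] [CharP E 2] [Finite F] [Finite E]
  [Group G]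

theorem TOR.wt_one (i : Fin 12) : wt (1 : Eˣ) (1 : Fˣ) i = 1 := by
  fin_cases i <;> simp [wt]

theorem TOR.inv_at {P : Pin E G} {g : G} {l : Eˣ} {m : Fˣ} {i : Fin 12}
    (h : ∀ a, g * P.X i a * g⁻¹ = P.X i (wt l m i * a)) (a : E) :
    g⁻¹ * P.X i a * g⁻¹⁻¹ = P.X i (wt l⁻¹ m⁻¹ i * a) := by
  have := h (wt l⁻¹ m⁻¹ i * a)
  rw [← mul_assoc (wt l m i), ← wt_mul, mul_inv_cancel, mul_inv_cancel, wt_one, one_mul] at this
  rw [← this]; group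

namespace Pin
variable {P : Pin E G} {g g' : G} {l l' : Eˣ} {m m' : Fˣ}
theorem Tor.one (P : Pin E G) : P.Tor 1 1 1 := by
  intro i a; rw [wt_one]; simp
theorem Tor.mul (h : P.Tor g l m) (h' : P.Tor g' l' m') : P.Tor (g * g') (l * l') (m * m') := by
  intro i a
  rw [wt_mul, mul_assoc (wt l m i), ← h, ← h']; group
theorem Tor.inv (h : P.Tor g l m) : P.Tor g⁻¹ l⁻¹ m⁻¹ := by
  exact fun i => inv_at (h i)
theorem Tor.φ (h : P.Tor g l m) (u : U12 E) : g * P.φ u * g⁻¹ = P.φ (tor (l : E) (m : F) u) := by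
  rw [P.φ_eq, P.φ_eq]; simp only [← conj_mul, h _]; simp
theorem Tor.n0 (h : P.Tor g l m) : P.Tor (P.n0 * g * P.n0⁻¹) l⁻¹ (Nu l * m) := by
  intro i a
  obtain ⟨j, rfl⟩ : ∃ j, i = 6 - j := ⟨6 - i, (sub_sub_cancel _ _).symm⟩
  rw [wt_n0, ← P.c0, ← P.c0, ← h]; group
theorem Tor.n5 (h : P.Tor g l m) : P.Tor (P.n5 * g * P.n5⁻¹) (l * ιu m) m⁻¹ := by
  intro i a
  obtain ⟨j, rfl⟩ : ∃ j, i = 4 - j := ⟨4 - i, (sub_sub_cancel _ _).symm⟩
  rw [wt_n5, ← P.c5, ← P.c5, ← h]; group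
variable (P)
theorem n0_eq' : P.n0 = P.X 6 1 * P.X 0 1 * P.X 6 1 := by
  have h : P.n0 * P.X 0 1 * P.n0⁻¹ = P.X 6 1 := P.c0 0 1
  have e : P.n0 * P.X 0 1 = P.X 0 1 * P.X 6 1 := by rw [Pin.n0, mul_assoc, P.X_sq, mul_one]
  rw [e, mul_inv_eq_iff_eq_mul] at h
  rw [mul_assoc, h, ← mul_assoc, P.X_sq, one_mul]
theorem n5_eq' : P.n5 = P.X 11 1 * P.X 5 1 * P.X 11 1 := by
  have h : P.n5 * P.X 5 1 * P.n5⁻¹ = P.X 11 1 := P.c5 5 1
  have e : P.n5 * P.X 5 1 = P.X 5 1 * P.X 11 1 := by rw [Pin.n5, mul_assoc, P.X_sq, mul_one]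
  rw [e, mul_inv_eq_iff_eq_mul] at h
  rw [mul_assoc, h, ← mul_assoc, P.X_sq, one_mul]
theorem w0_X (i : Fin 12) (a : E) :
    (P.n0 * P.n5) ^ 3 * P.X i a * ((P.n0 * P.n5) ^ 3)⁻¹ = P.X (i + 6) a := by
  have k : ∀ i a, P.n0 * P.n5 * P.X i a * (P.n0 * P.n5)⁻¹ = P.X (i + 2) a := fun i a => by
    rw [(by decide : ∀ i : Fin 12, i + 2 = 6 - (4 - i)) _, ← P.c0, ← P.c5]; group
  rw [(by decide : ∀ i : Fin 12, i + 6 = i + 2 + 2 + 2) i, ← k, ← k, ← k]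
  generalize P.n0 * P.n5 = r
  simp only [pow_succ, pow_zero, one_mul, mul_inv_rev, mul_assoc]
end Pin

namespace TOR
variable {P : Pin E G} {g : G} {l : Eˣ} {m : Fˣ}
theorem neg_at (hw : (P.n0 * P.n5) ^ 3 * g⁻¹ * ((P.n0 * P.n5) ^ 3)⁻¹ = g) {i : Fin 12}
    (h : ∀ a, g * P.X i a * g⁻¹ = P.X i (wt l m i * a)) (a : E) :
    g * P.X (i + 6) a * g⁻¹ = P.X (i + 6) (wt l m (i + 6) * a) := by
  rw [wt_add6, ← P.w0_X, ← P.w0_X, ← inv_at h]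
  conv_lhs => rw [← hw]
  group
theorem at0 (h11 : ∀ a, g * P.X 11 a * g⁻¹ = P.X 11 (wt l m 11 * a))
    (h : ∀ i, 1 ≤ i → i ≤ 5 → ∀ a, g * P.X i a * g⁻¹ = P.X i (wt l m i * a)) (c : E) :
    g * P.X 0 c * g⁻¹ = P.X 0 (wt l m 0 * c) := by
  have a := congrArg (fun x => g * x * g⁻¹) (rel0 P 1 c)
  have b := rel0 P (m : F)⁻¹ (wt l m 4 * c)
  have hm : (ι (m : F) : E) ≠ 0 := by simp
  simp only [← conj_mul, h11, h 4 (by decide) (by decide), h 2 (by decide) (by decide),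
    h 3 (by decide) (by decide), h 1 (by decide) (by decide), map_one, one_mul, mul_one, one_pow] at a
  rw [show wt l m 11 = ι (m : F)⁻¹ from (map_inv₀ _ _).symm, b] at a
  have e0 : ι (m : F)⁻¹ * (wt l m 4 * c) = wt l m 0 * c := by simp; field_simp
  have e2 : ι (m : F)⁻¹ * sh (wt l m 4 * c) = wt l m 2 * sh c := by simp [sh_mul]; field_simp
  have e3 : ι ((m : F)⁻¹ * N (wt l m 4 * c)) = wt l m 3 * ι (N c) := by simp; field_simp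
  have e1 : ι ((m : F)⁻¹ ^ 2 * N (wt l m 4 * c)) = wt l m 1 * ι (N c) := by simp; field_simp
  rw [e0, e1, e2, e3] at a
  exact (mul_right_cancel a).symm
theorem at5 (h6 : ∀ a, g * P.X 6 a * g⁻¹ = P.X 6 (wt l m 6 * a))
    (h4 : ∀ a, g * P.X 4 a * g⁻¹ = P.X 4 (wt l m 4 * a)) (a : E) :
    g * P.X 5 a * g⁻¹ = P.X 5 (wt l m 5 * a) := by
  have e : wt l m 6 * 1 * (wt l m 4 * a) = wt l m 5 * a := by
    rw [show wt l m 6 = (l : E)⁻¹ from rfl]; simp; field_simp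
  conv_lhs => rw [← one_mul a, ← rel5, conjugate_commutatorElement, h6, h4, rel5, e]
theorem of_pos (hw : (P.n0 * P.n5) ^ 3 * g⁻¹ * ((P.n0 * P.n5) ^ 3)⁻¹ = g)
    (h : ∀ i ≤ 5, ∀ a, g * P.X i a * g⁻¹ = P.X i (wt l m i * a)) : P.Tor g l m := fun i => by
  rcases (by decide : ∀ i : Fin 12, i ≤ 5 ∨ ∃ j ≤ 5, i = j + 6) i with hi | ⟨j, hj, rfl⟩
  exacts [h i hi, neg_at hw (h j hj)]
end TOR

namespace Pin
variable (P : Pin E G)
theorem tor0 (k : Eˣ) :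
    P.Tor (P.X 6 (k : E)⁻¹ * P.X 0 k * P.X 6 (k : E)⁻¹ * P.n0) (k ^ 2) (Nu k)⁻¹ := by
  have hk : (k : E) * (k : E)⁻¹ = 1 := mul_inv_cancel₀ k.ne_zero
  have h0 : (k : E) ≠ 0 := k.ne_zero
  have h1 : θ (k : E) ≠ 0 := by simp
  have h2 : θ (θ (k : E)) ≠ 0 := by simp
  have hw : (P.n0 * P.n5) ^ 3 * (P.X 6 (k : E)⁻¹ * P.X 0 k * P.X 6 (k : E)⁻¹ * P.n0)⁻¹ *
      ((P.n0 * P.n5) ^ 3)⁻¹ = P.X 6 (k : E)⁻¹ * P.X 0 k * P.X 6 (k : E)⁻¹ * P.n0 := by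
    have e6 : ∀ c, P.n0 * P.X 6 c = P.X 0 c * P.n0 := fun c => mul_inv_eq_iff_eq_mul.1 (P.c0 6 c)
    have e0 : ∀ c, P.n0 * P.X 0 c = P.X 6 c * P.n0 := fun c => mul_inv_eq_iff_eq_mul.1 (P.c0 0 c)
    have e : (P.X 6 (k : E)⁻¹ * P.X 0 k * P.X 6 (k : E)⁻¹ * P.n0)⁻¹ =
        P.X 0 (k : E)⁻¹ * P.X 6 k * P.X 0 (k : E)⁻¹ * (P.X 0 1 * P.X 6 1 * P.X 0 1) := by
      simp only [mul_inv_rev, P.X_inv, P.n0_inv]
      rw [← mul_assoc, e6, mul_assoc, ← mul_assoc P.n0, e0, mul_assoc, e6]; simp only [Pin.n0, mul_assoc]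
    rw [e]; simp only [← conj_mul, P.w0_X]
    rw [P.n0_eq']; rfl
  have h : ∀ i, 1 ≤ i → i ≤ 5 → ∀ a, P.X 6 (k : E)⁻¹ * P.X 0 k * P.X 6 (k : E)⁻¹ * P.n0 * P.X i a *
      (P.X 6 (k : E)⁻¹ * P.X 0 k * P.X 6 (k : E)⁻¹ * P.n0)⁻¹ =
      P.X i (wt (k ^ 2) (Nu k)⁻¹ i * a) := fun i i1 i5 a => by
    rcases (by decide : ∀ i : Fin 12, 1 ≤ i → i ≤ 5 → i = 1 ∨ i = 2 ∨ i = 3 ∨ i = 4 ∨ i = 5) i i1 i5
      with rfl | rfl | rfl | rfl | rfl
    · rw [← P.φ1, act0 P _ _ rfl, s1 hk, ← P.φ1, wt1, T_ι_mul]; congr 3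
      have : N (k : E) ≠ 0 := (Nu k).ne_zero
      simp; field_simp
    · rw [← P.φ2, act0 P _ _ rfl, s2 hk, ← P.φ2]; congr 3
      simp [ιN, sh]; field_simp
    · rw [← P.φ3, act0 P _ _ rfl, s3, ← P.φ3, wt3, T_ι_mul]; congr 2
      have : N (k : E) ≠ 0 := (Nu k).ne_zero
      simp; field_simp
    · rw [← P.φ4, act0 P _ _ rfl, s4 hk, ← P.φ4]; congr 3
      simp [ιN, sh]; field_simp
    · rw [← P.φ5, act0 P _ _ rfl, s5 hk, ← P.φ5, wt5, T_ι_mul]; congr 3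
      simp [N_inv]
  refine of_pos hw fun i hi => ?_
  by_cases e : i = 0
  · rw [e]; exact at0 (neg_at hw (h 5 (by decide) (by decide))) h
  · exact h i (by omega) hi
theorem tor5 (k : Fˣ) :
    P.Tor (P.X 11 (ι (k : F)⁻¹) * P.X 5 (ι (k : F)) * P.X 11 (ι (k : F)⁻¹) * P.n5) (ιu k)⁻¹ (k ^ 2) := by
  have hk : (k : F) * (k : F)⁻¹ = 1 := mul_inv_cancel₀ k.ne_zero
  have h0 : (k : F) ≠ 0 := k.ne_zero
  have h1 : (ι (k : F) : E) ≠ 0 := by simp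
  have hw : (P.n0 * P.n5) ^ 3 * (P.X 11 (ι (k : F)⁻¹) * P.X 5 (ι (k : F)) * P.X 11 (ι (k : F)⁻¹) * P.n5)⁻¹ *
      ((P.n0 * P.n5) ^ 3)⁻¹ = P.X 11 (ι (k : F)⁻¹) * P.X 5 (ι (k : F)) * P.X 11 (ι (k : F)⁻¹) * P.n5 := by
    have e6 : ∀ c, P.n5 * P.X 11 c = P.X 5 c * P.n5 := fun c => mul_inv_eq_iff_eq_mul.1 (P.c5 11 c)
    have e0 : ∀ c, P.n5 * P.X 5 c = P.X 11 c * P.n5 := fun c => mul_inv_eq_iff_eq_mul.1 (P.c5 5 c)
    have e : (P.X 11 (ι (k : F)⁻¹) * P.X 5 (ι (k : F)) * P.X 11 (ι (k : F)⁻¹) * P.n5)⁻¹ =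
        P.X 5 (ι (k : F)⁻¹) * P.X 11 (ι (k : F)) * P.X 5 (ι (k : F)⁻¹) * (P.X 5 1 * P.X 11 1 * P.X 5 1) := by
      simp only [mul_inv_rev, P.X_inv, P.n5_inv]
      rw [← mul_assoc, e6, mul_assoc, ← mul_assoc P.n5, e0, mul_assoc, e6]; simp only [Pin.n5, mul_assoc]
    rw [e]; simp only [← conj_mul, P.w0_X]
    rw [P.n5_eq']; rfl
  have h : ∀ i ≤ 4, ∀ a, P.X 11 (ι (k : F)⁻¹) * P.X 5 (ι (k : F)) * P.X 11 (ι (k : F)⁻¹) * P.n5 * P.X i a *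
      (P.X 11 (ι (k : F)⁻¹) * P.X 5 (ι (k : F)) * P.X 11 (ι (k : F)⁻¹) * P.n5)⁻¹ =
      P.X i (wt (ιu k)⁻¹ (k ^ 2) i * a) := fun i i4 a => by
    rcases (by decide : ∀ i : Fin 12, i ≤ 4 → i = 0 ∨ i = 1 ∨ i = 2 ∨ i = 3 ∨ i = 4) i i4
      with rfl | rfl | rfl | rfl | rfl
    · rw [← P.φ0, act5 P _ _ rfl, r0 hk, ← P.φ0]; congr 3
      simp
    · rw [← P.φ1, act5 P _ _ rfl, r1 hk, ← P.φ1, wt1, T_ι_mul]; congr 3
      simp [N_inv]; field_simp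
    · rw [← P.φ2, act5 P _ _ rfl, r2, ← P.φ2]; congr 2
      simp [sh_inv]
    · rw [← P.φ3, act5 P _ _ rfl, r3 hk, ← P.φ3, wt3, T_ι_mul]; congr 3
      simp [N_inv]; field_simp
    · rw [← P.φ4, act5 P _ _ rfl, r4 hk, ← P.φ4]; congr 3
      simp; field_simp
  refine of_pos hw fun i hi => ?_
  by_cases e : i = 5
  · rw [e]; exact at5 (neg_at hw (h 0 (by decide))) (h 4 (by decide))
  · exact h i (by omega)
theorem exists_tor (l : Eˣ) (m : Fˣ) : ∃ g ∈ P.L, P.Tor g l m := by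
  obtain ⟨c0, hc⟩ := surjective_frobenius E 2 ((l * ιu (m ^ 2 * Nu l) : Eˣ) : E)
  have hc' : c0 ^ 2 = (l * ιu (m ^ 2 * Nu l) : Eˣ) := hc
  obtain ⟨c, e⟩ : ∃ c : Eˣ, c ^ 2 = l * ιu (m ^ 2 * Nu l) :=
    ⟨Units.mk0 c0 fun e => (l * ιu (m ^ 2 * Nu l)).ne_zero (by rw [← hc', e]; simp), Units.ext hc'⟩
  have hm : Nu c = m ^ 3 * Nu l ^ 2 := by
    have := congrArg (fun x : Eˣ => N (x : E)) e
    rw [← Units.val_inj, ← CharTwo.sq_inj]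
    simp only [Units.val_mul, Units.val_pow_eq_pow_val, map_mul, map_pow, ιu_val, N_ι, Nu_val] at this ⊢
    rw [this]; ring
  have h := (P.tor0 c).mul (P.tor5 (m ^ 2 * Nu l))
  rw [e, mul_inv_cancel_right, hm, show (m ^ 3 * Nu l ^ 2)⁻¹ * (m ^ 2 * Nu l) ^ 2 = m by
    rw [inv_mul_eq_iff_eq_mul, mul_pow, mul_right_comm, ← pow_mul, ← pow_succ]] at h
  exact ⟨_, mul_mem (mul_mem (mul_mem (mul_mem (P.X_mem _ _) (P.X_mem _ _)) (P.X_mem _ _)) P.n0_mem)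
    (mul_mem (mul_mem (mul_mem (P.X_mem _ _) (P.X_mem _ _)) (P.X_mem _ _)) P.n5_mem), h⟩
theorem perf (hc : Nat.card E = Nat.card F ^ 3) : ⁅P.L, P.L⁆ = P.L := by
  refine le_antisymm (commutator_le.2 fun a ha b hb =>
    mul_mem (mul_mem (mul_mem ha hb) (inv_mem ha)) (inv_mem hb)) (P.L_le.2 fun i a => ?_)
  obtain ⟨w, hw, h⟩ := P.exists_w i
  have hw' : w ∈ P.L := (closure_le P.L).2 (by
    rintro _ (rfl | rfl); exacts [P.n0_mem, P.n5_mem]) hw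
  suffices ∃ x ∈ P.L, ∃ y ∈ P.L, P.X (if i.val % 2 = 0 then 4 else 3) a = ⁅x, y⁆ by
    obtain ⟨x, hx, y, hy, e⟩ := this
    rw [← h, e, conjugate_commutatorElement]
    exact commutator_mem_commutator (mul_mem (mul_mem hw' hx) (inv_mem hw'))
      (mul_mem (mul_mem hw' hy) (inv_mem hw'))
  split_ifs
  · obtain ⟨l, -, h1, -⟩ := exists_N1 hc
    obtain ⟨g, hg, ht⟩ := P.exists_tor l 1
    have h2 : (l : E) + 1 ≠ 0 := fun e => h1 (CharTwo.add_eq_zero.1 e)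
    refine ⟨g, hg, _, P.X_mem 4 (((l : E) + 1)⁻¹ * a), ?_⟩
    rw [commutatorElement_def, ht, P.X_inv, ← P.X_add]; congr 1
    simp only [wt4, Units.val_one, map_one, mul_one]; field_simp
  · exact ⟨_, P.X_mem _ _, _, P.X_mem _ _, (P.comm51' a).symm⟩
end Pin

theorem TOR.auto_TOR : True := by
  have := @TOR.a0.eq_1.{0, 0}
  have := @TOR.a5.eq_1.{0, 0}
  have := @Pin.Tor.eq_1.{0, 0, 0}
  trivial

end H89.D4S
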