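import Cfsg.Agent.Lib.D4S.P2A
import Cfsg.Agent.Lib.D4S.Cg

/-! Standard components of type `³D₄(2ⁿ)`, package TWA: see `blueprint/D4S/README.md`. -/

set_option autoImplicit false
set_option linter.unusedSectionVars false
set_option linter.unusedSimpArgs false

namespace H89.D4S
open Subgroup H69 U12
open H89.G2S (KK ιK σK)
open scoped commutatorElement

variable {F E G : Type*} [Field F] [Field E] [Cub F E] [CharP F 2] [CharP E 2] [Finite F] [Finite E]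
  [Group G] [Finite G]

namespace TWA
open Cg

/-- the relations between `t`, `w`, `a = w^{n₅}`, `x = X₁(1)`, `y = X₅(1)`, `z = X₃(1)` -/
structure Rl (t w a x y z : G) : Prop where
  tt : t * t = 1
  ww : w * w = 1
  aa : a * a = 1
  xx : x * x = 1
  yy : y * y = 1
  zz : z * z = 1
  yx : y * x = x * y * z
  tx : t * x = x * t
  ty : t * y = y * t
  wx : w * x = x * w
  wy : w * y = y * w
  wt : w * t = t * w * z
  zx : z * x = x * z
  zy : z * y = y * z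
  zt : z * t = t * z
  zw : z * w = w * z
  xa : x * a = a * x
  za : z * a = a * z
  ta : t * a = a * x * t

theorem l {a b c : G} (h : a * b = c) (g : G) : a * (b * g) = c * g := by rw [← mul_assoc, h]

/-- normal form of words -/
macro "twnf " h:term loc:(Lean.Parser.Tactic.location)? : tactic =>
  `(tactic| simp only [mul_assoc, mul_one, one_mul, ($h).tt, ($h).ww, ($h).aa, ($h).xx, ($h).yy, ($h).zz, ($h).yx,
    ($h).tx, ($h).ty, ($h).wx, ($h).wy, ($h).wt, ($h).zx, ($h).zy, ($h).zt, ($h).zw, ($h).xa, ($h).za, ($h).ta,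
    l ($h).tt, l ($h).ww, l ($h).aa, l ($h).xx, l ($h).yy, l ($h).zz, l ($h).yx, l ($h).tx, l ($h).ty, l ($h).wx,
    l ($h).wy, l ($h).wt, l ($h).zx, l ($h).zy, l ($h).zt, l ($h).zw, l ($h).xa, l ($h).za, l ($h).ta] $[$loc]?)

variable {S : St E G} {w : G}

theorem pr_c (wP : ∀ p ∈ S.P0, w * p = p * w) : ∀ i ≤ 4, ∀ a, cg S.n5 w * S.X i a = S.X i a * cg S.n5 w := by
  intro i hi a
  have e : cg S.n5 (S.X (4 - i) a) = S.X i a := by rw [cg_n5_X, sub_sub_cancel]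
  rw [← e]
  exact cg_comm _ (wP _ (S.X_memP ((by decide : ∀ i : Fin 12, i ≤ 4 → 4 - i ≤ 6) i hi) a))

theorem y1x : cg (S.X 5 1) (S.X 1 1) = S.X 1 1 * S.X 3 1 := by simpa using cg_X5_X1 S 1 1

theorem rl (ww : w * w = 1) (wt : w * S.t * w⁻¹ = S.t * S.X 3 1) (wP : ∀ p ∈ S.P0, w * p = p * w) :
    Rl S.t w (cg S.n5 w) (S.X 1 1) (S.X 5 1) (S.X 3 1) := by
  have aa : cg S.n5 w * cg S.n5 w = 1 := by rw [← cg_mul, ww, cg_one]
  have z : ∀ i ≤ 6, S.X 3 1 * S.X i 1 = S.X i 1 * S.X 3 1 := fun i hi => S.X3_comm_P0 _ (S.X_memP hi _)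
  have wX : ∀ i ≤ 6, w * S.X i 1 = S.X i 1 * w := fun i hi => wP _ (S.X_memP hi _)
  refine ⟨S.tt, ww, aa, S.X_sq _ _, S.X_sq _ _, S.X_sq _ _, ?_, S.tX _ _, S.tX _ _, wX 1 (by decide), wX 5 (by decide),
    ?_, z 1 (by decide), z 5 (by decide), (S.tX _ _).symm, (wX 3 (by decide)).symm, (pr_c wP 1 (by decide) 1).symm,
    (pr_c wP 3 (by decide) 1).symm, ?_⟩
  · rw [mul_eq_cg, y1x, mul_assoc, z 5 (by decide), mul_assoc]
  · rw [mul_eq_cg, cg_def, wt, mul_assoc, ← wX 3 (by decide), mul_assoc]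
  · have : cg (cg S.n5 w) S.t = S.X 1 1 * S.t := by
      rw [cg_cg, cg_n5i_t, cg_def w, wt, cg_mul, cg_n5_t, cg_n5_X]; exact S.tX _ _
    rw [mul_assoc, ← this, cg_invol aa, ← mul_assoc, ← mul_assoc, aa, one_mul]

theorem X01 (h2 : ∀ a : F, a = 0 ∨ a = 1) (i : Fin 12) (a : F) :
    a = 0 ∧ S.X i (ι a) = 1 ∨ a = 1 ∧ S.X i (ι a) = S.X i 1 :=
  (h2 a).imp (fun e => ⟨e, e ▸ X_ι0 S i⟩) fun e => ⟨e, by rw [e, map_one]⟩

theorem fin {p : G} (hp : p ∈ S.P0) (e1 : cg p (S.X 2 1) = S.X 2 1 * (S.X 5 1 * S.X 3 1))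
    (e0 : ∀ c, T c = 0 → cg p (S.X 2 c) = S.X 2 c) : False := by
  obtain ⟨u, l, m, rfl | ⟨k, rfl⟩⟩ := S.pz p (S.P0_le_L hp) 1 one_ne_zero (by
    rw [← S.X3_comm_P0 _ hp, mul_inv_cancel_right]; exact S.X3_mem _)
  · rw [← S.φ2, ← S.φ5, ← S.φ3, ← map_mul, ← map_mul, cg_def, FPA.cj_φ] at e1
    have := congrArg U12.p5 (S.inj e1)
    simp [g2, g5, g3, CharTwo.add_self_eq_zero] at this
  · obtain ⟨c, c0, hc⟩ := exists_tr0 S.cub
    have e := e0 c hc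
    rw [← S.φ2, cg_def, FPA.cj_φ' _ _ _ _ _ _ rfl, show (g0 k)⁻¹ = g0 k by u12, al2] at e
    have e' := mul_inv_eq_iff_eq_mul.1 (S.inj e)
    have h5 := congrArg U12.p5 e'
    have h4 := congrArg U12.p4 e'
    simp [g2, g1, na] at h5 h4
    simp [h5, c0] at h4

end TWA
open TWA Cg

/-- the homocyclic configuration does not occur -/
theorem St.Db.exotic {S : St E G} (h : S.Db) (h2 : ∀ a : F, a = 0 ∨ a = 1) {w : G} (ww : w * w = 1)
    (wt : w * S.t * w⁻¹ = S.t * S.X 3 1) (wP : ∀ p ∈ S.P0, w * p = p * w)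
    (k : S.n5 * w * S.n5⁻¹ * w * (S.n5 * w * S.n5⁻¹) = S.X 1 1 * S.X 3 1 * w) {p e : F}
    (y : S.X 5 1 * (S.n5 * w * S.n5⁻¹) * S.X 5 1 =
      S.n5 * w * S.n5⁻¹ * w * S.X 1 (ι p) * S.X 3 (ι e) * S.t) : False := by
  have R := rl ww wt wP
  rw [← cg_def] at k y
  have aX := pr_c wP
  generalize ha : cg S.n5 w = a at R k y aX
  have yw : cg (S.X 5 1) w = w := cg_fix' R.wy
  have yt : cg (S.X 5 1) S.t = S.t := cg_fix' R.ty
  have hz : ∀ g, g * S.X 3 1 = S.X 3 1 * g → cg g (S.X 3 (ι e)) = S.X 3 (ι e) := fun g c => by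
    rcases X01 (S := S) h2 3 e with ⟨-, f⟩ | ⟨-, f⟩ <;> rw [f]
    exacts [cg_one g, cg_fix c]
  rw [← cg_invol R.yy] at y
  rcases X01 (S := S) h2 1 p with ⟨-, f⟩ | ⟨-, f⟩ <;> rw [f] at y
  · have := congrArg (cg (S.X 5 1)) y
    rw [cg_cg_self R.yy, mul_one, cg_mul, cg_mul, cg_mul, y, yw, yt, hz _ R.zy.symm] at this
    rcases X01 (S := S) h2 3 e with ⟨-, f⟩ | ⟨-, f⟩ <;> rw [f] at this <;> twnf R at this <;>
      exact S.z_ne (left_eq_mul.1 this)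
  have ay : cg a (S.X 5 1) = w * S.X 1 1 * S.X 3 (ι e) * S.t * S.X 5 1 := by
    have : a * S.X 5 1 * a = a * cg (S.X 5 1) a * S.X 5 1 := by rw [cg_invol R.yy]; twnf R
    rw [cg_invol R.aa, this, y]; twnf R
  have at' : cg a S.t = S.X 1 1 * S.t := by rw [cg_invol R.aa]; twnf R
  have aw : cg a w = S.X 1 1 * S.X 3 1 * w := by rw [cg_invol R.aa, k]
  have ax : cg a (S.X 1 1) = S.X 1 1 := cg_fix' R.xa
  have az : cg a (S.X 3 1) = S.X 3 1 := cg_fix' R.za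
  have n0w : cg S.n0 w = w := cg_fix' (wP _ S.n0_memP)
  have n0t' : cg S.n0 S.t = S.t := cg_fix (n0t S)
  have n1 : cg S.n0 (S.X 1 1) = S.X 5 1 := cg_n0_X S 1 1
  have n5 : cg S.n0 (S.X 5 1) = S.X 1 1 := cg_n0_X S 5 1
  have n3 : ∀ c, cg S.n0 (S.X 3 c) = S.X 3 c := cg_n0_X S 3
  have n2 : ∀ c, cg S.n0 (S.X 4 c) = S.X 2 c := cg_n0_X S 4
  have bx : cg (cg S.n0 a) (S.X 1 1) = w * S.X 5 1 * S.X 3 (ι e) * S.t * S.X 1 1 := by
    rw [← n5, cg_cg', ay]; simp only [cg_mul, n0w, n0t', n1, n5, n3]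
  have bt : cg (cg S.n0 a) S.t = S.X 5 1 * S.t := by
    rw [← n0t', cg_cg', at', cg_mul, n1]
  have bz : cg (cg S.n0 a) (S.X 3 1) = S.X 3 1 := by rw [← n3, cg_cg', az]
  have b2 : ∀ c, cg (cg S.n0 a) (S.X 2 c) = S.X 2 c := fun c => by
    rw [← n2, cg_cg', cg_fix (aX 4 (by decide) c)]
  have bb : cg S.n0 a * cg S.n0 a = 1 := by rw [← cg_mul, R.aa, cg_one]
  generalize cg S.n0 a = b at bx bt bz b2 bb
  have gg : a * b * a * (a * b * a) = 1 := by simp only [mul_assoc, l R.aa, l bb, one_mul, R.aa]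
  have gt : cg (a * b * a) S.t = w * S.X 3 (ι e) := by
    simp only [mul_cg, cg_mul, at', bx, bt, ay, aw, ax, az, hz _ R.za.symm]
    rcases X01 (S := S) h2 3 e with ⟨-, f⟩ | ⟨-, f⟩ <;> rw [f] <;> twnf R
  have gx : cg (a * b * a) (S.X 1 1) = S.X 5 1 * S.X 3 1 := by
    simp only [mul_cg, cg_mul, at', bx, bt, ay, aw, ax, az, hz _ R.za.symm]
    rcases X01 (S := S) h2 3 e with ⟨-, f⟩ | ⟨-, f⟩ <;> rw [f] <;> twnf R
  have gz : cg (a * b * a) (S.X 3 1) = S.X 3 1 := by rw [mul_cg, mul_cg, az, bz, az]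
  have g2' : ∀ c, cg (a * b * a) (S.X 2 c) = S.X 2 c := fun c => by
    rw [mul_cg, mul_cg, cg_fix (aX 2 (by decide) c), b2, cg_fix (aX 2 (by decide) c)]
  generalize a * b * a = g at gg gt gx gz g2'
  have hn : g ∈ 𝐍(S.P0) := h.nvP' (fun q hq => by
      rw [← cg_cg_self gg S.t, gt]
      exact cg_comm g (Commute.mul_right (wP q hq).symm (S.X3_comm_P0 _ hq).symm))
    fun q hq => by rw [← gz]; exact cg_comm g (S.X3_comm_P0 _ hq).symm
  have c02 : ∀ c, cg (cg g (S.X 0 1)) (S.X 2 c) = S.X 2 c * cg g (S.X 1 (ι (T c))) := fun c => by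
    rw [← g2' c, cg_cg', ← cg_mul, cg_invol (S.X_sq _ _), ← S.φ0, ← S.φ2, ← S.φ1', ← map_mul, ← map_mul, ← map_mul,
      al2, one_mul]
  exact fin ((mem_normalizer_iff.1 hn _).1 (S.X_memP (i := 0) (by decide) 1))
    (by rw [← cg_def, c02, T_one, map_one, gx]) fun c hc => by rw [← cg_def, c02, hc, X_ι0, cg_one, mul_one]

end H89.D4S
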