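import Cfsg.Agent.Lib.D4S.TWA
import Cfsg.Agent.Lib.D4S.P2C

/-! Standard components of type `³D₄(2ⁿ)`, package TWB: see `blueprint/D4S/README.md`. -/

set_option autoImplicit false
set_option linter.unusedSectionVars false
set_option linter.unusedSimpArgs false

namespace H89.D4S
open Subgroup H69 U12
open H89.G2S (KK ιK σK)
open scoped commutatorElement

variable {F E G : Type*} [Field F] [Field E] [Cub F E] [CharP F 2] [CharP E 2] [Finite F] [Finite E]
  [Group G] [Finite G]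

namespace TWB
open TWA Cg
variable {S : St E G} {w : G}

theorem ex (h : S.Db) (h2 : ∀ a : F, a = 0 ∨ a = 1) : ∃ w, w * w = 1 ∧ w * S.t * w⁻¹ = S.t * S.X 3 1 ∧
    (∀ p ∈ S.P0, w * p = p * w) ∧ S.CO w := by
  obtain ⟨d, hd, e⟩ := h.dd_onto 1
  rw [map_one] at e
  have dP : ∀ p ∈ S.P0, d * p = p * d := fun p hp => h.dP hd.1 hp
  obtain ⟨a, f | f⟩ := S.mem_V.1 hd.2.2
  · rcases X01 (S := S) h2 3 a with ⟨-, g⟩ | ⟨-, g⟩ <;> rw [g] at f
    · exact ⟨d, f, e, dP, hd.2.1⟩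
    · refine ⟨d * S.t, ?_, by rw [← e]; group,
        fun p hp => Commute.mul_left (dP p hp) (S.t_comm (S.P0_le_L hp)), hd.2.1.mul S.co_t⟩
      rw [show d * S.t * (d * S.t) = d * S.t * d⁻¹ * (d * d) * S.t by group, e, f, mul_assoc S.t, S.X_sq, mul_one, S.tt]
  · have : cg d (d * d) = d * d := cg_fix (mul_assoc _ _ _).symm
    rw [f, cg_mul, cg_def d S.t, e, cg_fix (dP _ (S.X_memP (by decide) _)), mul_left_inj, mul_eq_left] at this
    exact absurd this S.z_ne

theorem main (h : S.Db) (h2 : ∀ a : F, a = 0 ∨ a = 1) (ww : w * w = 1) (wt : w * S.t * w⁻¹ = S.t * S.X 3 1)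
    (wP : ∀ p ∈ S.P0, w * p = p * w) (wO : S.CO w) :
    cg S.n5 w * w = w * cg S.n5 w ∧ S.X 5 1 * cg S.n5 w * S.X 5 1 = cg S.n5 w * w := by
  have R := rl ww wt wP
  have aX := pr_c wP
  have aO : S.CO (cg S.n5 w) := wO.conj (n5t S)
  have wX : ∀ i ≤ 4, ∀ c, w * S.X i c = S.X i c * w := fun i hi c => wP _ (S.X_memP (hi.trans (by decide)) c)
  have na : cg S.n5 (cg S.n5 w) = w := cg_n5_n5 S w
  have ex := @St.Db.exotic F E G _ _ _ _ _ _ _ _ _ S h h2 w ww wt wP
  rw [← cg_def] at ex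
  generalize ha : cg S.n5 w = a at R aX aO na ex
  have od : ∀ {o}, S.Od o → o * S.X 1 1 = S.X 1 1 * o ∧ o * S.X 3 1 = S.X 3 1 * o ∧ o * S.t = S.t * o ∧
      o * w = w * o ∧ o * a = a * o := fun ho => ⟨ho.1.2 _ _, ho.1.2 _ _, ho.1.1, (wO _ ho).symm, (aO _ ho).symm⟩
  have a1 : cg a S.t = S.X 1 1 * S.t := by rw [cg_invol R.aa]; twnf R
  have a2 : cg a (S.X 1 1) = S.X 1 1 := cg_fix' R.xa
  have a3 : cg a (S.X 3 1) = S.X 3 1 := cg_fix' R.za
  have w1 : cg w S.t = S.t * S.X 3 1 := wt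
  have w2 : cg w (S.X 1 1) = S.X 1 1 := cg_fix R.wx
  have w3 : cg w (S.X 3 1) = S.X 3 1 := cg_fix' R.zw
  have hκ : a * w * a * w = 1 ∨ a * w * a * w = S.X 1 1 * S.X 3 1 := by
    obtain ⟨b, e, o, ho, hg⟩ := S.tr2 (g := a * w * a * w) h (comm_of_cg (by
      simp only [mul_cg, cg_mul, a1, a2, a3, w1, w2, w3]; twnf R)) fun i hi c =>
      (Commute.mul_left (Commute.mul_left (Commute.mul_left (aX i hi c) (wX i hi c)) (aX i hi c)) (wX i hi c)).eq
    obtain ⟨o1, o3, ot, ow, -⟩ := od ho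
    have k : w * (a * w * a * w) * w * (a * w * a * w) = 1 := by twnf R
    have k' : a * w * a * w = S.X 1 (ι b) * S.X 3 (ι e) := by
      rcases hg with hg | hg <;> rw [hg] at k
      · have : o * o = 1 := by
          rcases X01 (S := S) h2 1 b with ⟨-, f⟩ | ⟨-, f⟩ <;> rcases X01 (S := S) h2 3 e with ⟨-, f'⟩ | ⟨-, f'⟩ <;>
            simp only [f, f', mul_assoc, one_mul, l o1, l o3, l ot, l ow] at k <;> twnf R at k <;> exact k
        rw [hg, ho.eq_one_sq this, mul_one]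
      · have : S.X 3 1 * (o * o) = 1 := by
          rcases X01 (S := S) h2 1 b with ⟨-, f⟩ | ⟨-, f⟩ <;> rcases X01 (S := S) h2 3 e with ⟨-, f'⟩ | ⟨-, f'⟩ <;>
            simp only [f, f', mul_assoc, one_mul, l o1, l o3, l ot, l ow] at k <;> twnf R at k <;> exact k
        have e2 : o * o = S.X 3 1 := by rw [← S.X_inv]; exact (inv_eq_of_mul_eq_one_right this).symm
        rw [ho.eq_one_four (by rw [e2, R.zz]), mul_one] at e2
        exact absurd e2.symm S.z_ne
    have k2 : cg S.n5 (a * w * a * w) = a * w * a * w := by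
      have : a * w * a * w * (a * w * a * w) = 1 := by
        rw [k']
        rcases X01 (S := S) h2 1 b with ⟨-, f⟩ | ⟨-, f⟩ <;> rcases X01 (S := S) h2 3 e with ⟨-, f'⟩ | ⟨-, f'⟩ <;>
          rw [f, f'] <;> twnf R
      rw [cg_mul, cg_mul, cg_mul, na, ha, eq_inv_of_mul_eq_one_left this, eq_inv_iff_mul_eq_one]
      twnf R
    rw [k', cg_mul, cg_n5_X, cg_n5_X] at k2
    have := (inj13 S ((X13 S _ _).trans k2)).1
    rw [k', this]
    rcases h2 b with rfl | rfl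
    · left; rw [X_ι0, X_ι0, mul_one]
    · right; rw [map_one]
  have yX := cg_X5_cent S aX 1
  rw [cg_invol R.yy] at yX
  obtain ⟨p, e, o, ho, hg⟩ := S.tr2 (g := w * a * (S.X 5 1 * a * S.X 5 1)) h (comm_of_cg (by
    simp only [mul_cg, cg_mul, a1, a2, a3, w1, w2, w3, y1x, cg_X_t]; twnf R)) fun i hi c =>
    (Commute.mul_left (Commute.mul_left (wX i hi c) (aX i hi c)) (yX i hi c)).eq
  obtain ⟨o1, o3, ot, ow, oa⟩ := od ho
  have yy : S.X 5 1 * a * S.X 5 1 * (S.X 5 1 * a * S.X 5 1) = 1 := by twnf R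
  have mv : ∀ {g}, w * a * (S.X 5 1 * a * S.X 5 1) = g → S.X 5 1 * a * S.X 5 1 = a * w * g := fun e => by
    rw [← e]; twnf R
  have κ2 : a * w * a * w * (a * w * a * w) = 1 := by rcases hκ with f | f <;> rw [f] <;> twnf R
  rcases hg with hg | hg <;> replace hg := mv hg <;> rw [hg] at yy
  · have e1 : a * w * a * w * (o * o) = 1 := by
      rcases X01 (S := S) h2 1 p with ⟨-, f⟩ | ⟨-, f⟩ <;> rcases X01 (S := S) h2 3 e with ⟨-, f'⟩ | ⟨-, f'⟩ <;>
        simp only [f, f', mul_assoc, l o1, l o3, l ot, l ow, l oa, l R.wx.symm, l R.zw, l R.xa, l R.za, l R.zx, l R.xx,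
          l R.zz, one_mul] at yy ⊢ <;> exact yy
    have e2 : o * o = a * w * a * w := mul_left_cancel (e1.trans κ2.symm)
    obtain rfl : o = 1 := ho.eq_one_four (by rw [e2, κ2])
    have c : a * w = w * a := by
      rw [← one_mul (w * a), ← one_mul (1 : G), e2]; twnf R
    refine ⟨c, ?_⟩
    rw [← cg_invol R.yy, mul_one] at hg
    have yw : cg (S.X 5 1) w = w := cg_fix' R.wy
    have yz : cg (S.X 5 1) (S.X 3 (ι e)) = S.X 3 (ι e) := cg_X_X3 S (by decide) _ _
    rcases X01 (S := S) h2 1 p with ⟨-, f⟩ | ⟨-, f⟩ <;> rw [f] at hg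
    · rcases X01 (S := S) h2 3 e with ⟨-, f'⟩ | ⟨-, f'⟩ <;> rw [f'] at hg
      · rw [← cg_invol R.yy, hg, mul_one, mul_one]
      · have e3 : cg (S.X 11 1) w = w * a * S.X 1 1 := by
          have := congrArg (cg S.n5) hg
          rw [one_mul, ← cg_cg', cg_mul, cg_mul, na, ha, cg_n5_X, cg_n5_X] at this
          exact this
        have e4 : a = cg (S.X 5 1) (cg (S.X 11 1) (cg (S.X 5 1) w)) := by rw [← mul_cg, ← mul_cg, ← ha]; rfl
        rw [yw, e3, cg_mul, cg_mul, yw, hg, y1x] at e4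
        simp only [mul_assoc, l c.symm] at e4
        twnf R at e4
        have := cg_n5_X S 1 1
        rw [left_eq_mul.1 e4, cg_one] at this
        exact absurd this.symm S.z_ne
    · have := congrArg (cg (S.X 5 1)) hg
      rw [cg_cg_self R.yy, cg_mul, cg_mul, cg_mul, hg, yw, yz, y1x] at this
      rcases X01 (S := S) h2 3 e with ⟨-, f⟩ | ⟨-, f⟩ <;> rw [f] at this <;> twnf R at this <;>
        exact absurd (left_eq_mul.1 this) S.z_ne
  · have e1 : a * w * a * w * (S.X 1 1 * S.X 3 1) * (o * o) = 1 := by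
      rcases X01 (S := S) h2 1 p with ⟨-, f⟩ | ⟨-, f⟩ <;> rcases X01 (S := S) h2 3 e with ⟨-, f'⟩ | ⟨-, f'⟩ <;>
        simp only [f, f', mul_assoc, one_mul, l o1, l o3, l ot, l ow, l oa] at yy <;> twnf R at yy ⊢ <;> exact yy
    have κ3 : a * w * a * w * (S.X 1 1 * S.X 3 1) * (a * w * a * w * (S.X 1 1 * S.X 3 1)) = 1 := by
      rcases hκ with f | f <;> rw [f] <;> twnf R
    have e2 := mul_left_cancel (e1.trans κ3.symm)
    obtain rfl : o = 1 := ho.eq_one_four (by rw [e2, κ3])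
    refine (ex ?_ (p := p) (e := e) (by rw [hg]; simp only [mul_assoc, mul_one])).elim
    rw [← one_mul (S.X 1 1 * S.X 3 1 * w), ← e1]
    twnf R

end TWB
open Cg

theorem St.Db.z2two {S : St E G} (h : S.Db) (h2 : ∀ a : F, a = 0 ∨ a = 1) : Nonempty (Z2 S) := by
  classical
  obtain ⟨w, ww, wt, wP, wO⟩ := TWB.ex h h2
  obtain ⟨c1, c2⟩ := TWB.main h h2 ww wt wP wO
  rw [cg_def] at c1 c2
  have o : ∀ {a : F}, a ≠ 0 → a = 1 := fun {a} => (h2 a).resolve_left
  refine ⟨⟨fun a => if a = 0 then 1 else w, fun a b => ?_, fun y => ?_, fun y i hi a => ?_, fun y => ?_,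
    fun l m y => ?_, fun y y' => ?_, fun u y => ?_⟩⟩
  · rcases h2 a with rfl | rfl <;> rcases h2 b with rfl | rfl <;> simp [CharTwo.add_self_eq_zero, ww]
  · rcases h2 y with rfl | rfl <;> simp [wt]
  · split_ifs
    exacts [by simp, wP _ (S.X_memP hi a)]
  · split_ifs
    exacts [S.co_L (one_mem _), wO]
  · have e : N (l : E) * (m : F) ^ 2 = 1 := o (mul_ne_zero (mt N_eq_zero.1 l.ne_zero) (pow_ne_zero 2 m.ne_zero))
    rw [e, one_mul]
    split_ifs
    exacts [by simp, by rw [← wP _ (S.h_memP e), mul_inv_cancel_right]]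
  · split_ifs <;> simp [c1]
  · rcases h2 u with rfl | rfl <;> rcases h2 y with rfl | rfl <;> simp [c2, S.X_sq]

end H89.D4S
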