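import Cfsg.Agent.Lib.D4S.Cub

/-! # The Sylow 2-subgroup of `³D₄` over a cubic extension of characteristic 2, in coordinates

Roots are indexed by `i : Fin 12` (angle `30° i`): `0 = a`, `1 = 3a+b`, `2 = 2a+b`, `3 = 3a+2b`,
`4 = a+b`, `5 = b`; even indices are short roots.  The element `u : U12 J` stands for
`x₅(p5) x₄(p4) x₂(p2) x₁(p1) x₃(p3) x₀(p0)`. -/

set_option autoImplicit false
set_option linter.unusedSectionVars false
set_option linter.unusedVariables false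
set_option linter.unusedSimpArgs false
set_option linter.unnecessarySeqFocus false

namespace H89.D4S

@[ext] structure U12 {K : Type*} (J : Type*) [CommRing K] [CommRing J] [Cub K J] where
  p0 : J
  p5 : K
  p4 : J
  p2 : J
  p1 : K
  p3 : K

namespace U12
variable {K J K' J' : Type*} [CommRing K] [CommRing J] [Cub K J] [CommRing K'] [CommRing J'] [Cub K' J']

theorem ext' {u v : U12 J} (h0 : u.p0 = v.p0) (h5 : (ι u.p5 : J) = ι v.p5) (h4 : u.p4 = v.p4)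
    (h2 : u.p2 = v.p2) (h1 : (ι u.p1 : J) = ι v.p1) (h3 : (ι u.p3 : J) = ι v.p3) : u = v :=
  U12.ext h0 (ι_inj h5) h4 h2 (ι_inj h1) (ι_inj h3)

instance : Mul (U12 J) := ⟨fun g h =>
  ⟨g.p0 + h.p0, g.p5 + h.p5, g.p4 + h.p4 + ι h.p5 * g.p0,
    g.p2 + h.p2 + cr g.p0 h.p4 + ι h.p5 * sh g.p0,
    g.p1 + h.p1 + T (g.p0 * h.p2) + T (sh g.p0 * h.p4) + h.p5 * N g.p0,
    g.p3 + h.p3 + h.p5 ^ 2 * N g.p0 + T (g.p0 * sh h.p4) + h.p5 * T (sh g.p0 * h.p4) + g.p1 * h.p5 +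
      T (g.p2 * (h.p4 + ι h.p5 * g.p0))⟩⟩
instance : One (U12 J) := ⟨⟨0, 0, 0, 0, 0, 0⟩⟩
instance : Inv (U12 J) := ⟨fun g =>
  ⟨g.p0, g.p5, g.p4 + ι g.p5 * g.p0, g.p2 + cr g.p0 g.p4 + ι g.p5 * sh g.p0,
    g.p1 + T (g.p0 * g.p2) + T (sh g.p0 * g.p4) + g.p5 * N g.p0,
    g.p3 + g.p5 * g.p1 + T (g.p4 * g.p2) + g.p5 ^ 2 * N g.p0 + T (g.p0 * sh g.p4) +
      g.p5 * T (sh g.p0 * g.p4)⟩⟩

@[simp] theorem mul_p0 (g h : U12 J) : (g * h).p0 = g.p0 + h.p0 := rfl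
@[simp] theorem mul_p5 (g h : U12 J) : (g * h).p5 = g.p5 + h.p5 := rfl
@[simp] theorem mul_p4 (g h : U12 J) : (g * h).p4 = g.p4 + h.p4 + ι h.p5 * g.p0 := rfl
@[simp] theorem mul_p2 (g h : U12 J) :
    (g * h).p2 = g.p2 + h.p2 + cr g.p0 h.p4 + ι h.p5 * sh g.p0 := rfl
@[simp] theorem mul_p1 (g h : U12 J) :
    (g * h).p1 = g.p1 + h.p1 + T (g.p0 * h.p2) + T (sh g.p0 * h.p4) + h.p5 * N g.p0 := rfl
@[simp] theorem mul_p3 (g h : U12 J) : (g * h).p3 =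
    g.p3 + h.p3 + h.p5 ^ 2 * N g.p0 + T (g.p0 * sh h.p4) + h.p5 * T (sh g.p0 * h.p4) + g.p1 * h.p5 +
      T (g.p2 * (h.p4 + ι h.p5 * g.p0)) := rfl
@[simp] theorem one_p0 : (1 : U12 J).p0 = 0 := rfl
@[simp] theorem one_p5 : (1 : U12 J).p5 = 0 := rfl
@[simp] theorem one_p4 : (1 : U12 J).p4 = 0 := rfl
@[simp] theorem one_p2 : (1 : U12 J).p2 = 0 := rfl
@[simp] theorem one_p1 : (1 : U12 J).p1 = 0 := rfl
@[simp] theorem one_p3 : (1 : U12 J).p3 = 0 := rfl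
@[simp] theorem inv_p0 (g : U12 J) : g⁻¹.p0 = g.p0 := rfl
@[simp] theorem inv_p5 (g : U12 J) : g⁻¹.p5 = g.p5 := rfl
@[simp] theorem inv_p4 (g : U12 J) : g⁻¹.p4 = g.p4 + ι g.p5 * g.p0 := rfl
@[simp] theorem inv_p2 (g : U12 J) : g⁻¹.p2 = g.p2 + cr g.p0 g.p4 + ι g.p5 * sh g.p0 := rfl
@[simp] theorem inv_p1 (g : U12 J) :
    g⁻¹.p1 = g.p1 + T (g.p0 * g.p2) + T (sh g.p0 * g.p4) + g.p5 * N g.p0 := rfl
@[simp] theorem inv_p3 (g : U12 J) : g⁻¹.p3 =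
    g.p3 + g.p5 * g.p1 + T (g.p4 * g.p2) + g.p5 ^ 2 * N g.p0 + T (g.p0 * sh g.p4) +
      g.p5 * T (sh g.p0 * g.p4) := rfl

def g0 (a : J) : U12 J := ⟨a, 0, 0, 0, 0, 0⟩
def g5 (a : K) : U12 J := ⟨0, a, 0, 0, 0, 0⟩
def g4 (a : J) : U12 J := ⟨0, 0, a, 0, 0, 0⟩
def g2 (a : J) : U12 J := ⟨0, 0, 0, a, 0, 0⟩
def g1 (a : K) : U12 J := ⟨0, 0, 0, 0, a, 0⟩
def g3 (a : K) : U12 J := ⟨0, 0, 0, 0, 0, a⟩

/-- the action of `n₀` on the elements with `p0 = 0` -/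
def na (u : U12 J) : U12 J := ⟨0, u.p1, u.p2, u.p4, u.p5, u.p3 + u.p5 * u.p1 + T (u.p4 * u.p2)⟩

/-- the action of `n₅` on the elements with `p5 = 0` -/
def nb (u : U12 J) : U12 J :=
  ⟨u.p4, 0, u.p0, u.p2 + cr u.p4 u.p0, u.p3 + T (u.p4 * u.p2) + T (sh u.p4 * u.p0),
    u.p1 + T (u.p0 * u.p2) + T (u.p4 * sh u.p0)⟩

/-- the form on `Q/Z` given by commutation -/
def Bf (u v : U12 J) : K := u.p5 * v.p1 + u.p1 * v.p5 + T (u.p4 * v.p2) + T (u.p2 * v.p4)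

/-- `u` is `1` or a long root element -/
def Lng (u : U12 J) : Prop :=
  u.p0 = 0 ∧ ι u.p5 * u.p2 = sh u.p4 ∧ ι u.p1 * u.p4 = sh u.p2 ∧ ι (u.p5 * u.p1) = u.p4 * u.p2

/-- the leading coordinates of `u` lie in `S` -/
def Lead (S : Set J) (u : U12 J) : Prop :=
  u.p0 ∈ S ∧ ι u.p5 ∈ S ∧ (u.p0 = 0 → u.p5 = 0 → u.p4 ∈ S ∧ (u.p4 = 0 → u.p2 ∈ S ∧
    (u.p2 = 0 → ι u.p1 ∈ S ∧ (u.p1 = 0 → ι u.p3 ∈ S))))

def equiv6 : U12 J ≃ J × K × J × J × K × K where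
  toFun u := (u.p0, u.p5, u.p4, u.p2, u.p1, u.p3)
  invFun v := ⟨v.1, v.2.1, v.2.2.1, v.2.2.2.1, v.2.2.2.2.1, v.2.2.2.2.2⟩
  left_inv _ := rfl
  right_inv _ := rfl

instance [Finite K] [Finite J] : Finite (U12 J) := Finite.of_equiv _ equiv6.symm

theorem card : Nat.card (U12 J) = Nat.card J ^ 3 * Nat.card K ^ 3 := by
  rw [Nat.card_congr equiv6]; simp only [Nat.card_prod]; ring

variable [CharP K 2] [CharP J 2] [CharP K' 2] [CharP J' 2]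

/-- expands the coordinates -/
macro "u12s" : tactic =>
  `(tactic| simp only [U12.g0, U12.g1, U12.g2, U12.g3, U12.g4, U12.g5, U12.na, U12.nb, U12.Bf,
    U12.mul_p0, U12.mul_p1, U12.mul_p2, U12.mul_p3, U12.mul_p4, U12.mul_p5, U12.inv_p0, U12.inv_p1,
    U12.inv_p2, U12.inv_p3, U12.inv_p4, U12.inv_p5, U12.one_p0, U12.one_p1, U12.one_p2, U12.one_p3,
    U12.one_p4, U12.one_p5, map_zero, mul_zero, zero_mul, add_zero, zero_add, N_zero, sh_zero,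
    cr_zero, zero_cr])

instance : Group (U12 J) := Group.ofLeftAxioms
  (fun a b c => by apply ext' <;> u12s <;> cub)
  (fun a => by ext <;> simp)
  (fun a => by apply ext' <;> u12s <;> cub)

/-- closes coordinate identities -/
macro "u12" : tactic => `(tactic| (apply U12.ext' <;> (try u12s) <;> cub))
/-- `u12w [h₁, …]` rewrites the coordinates with the `hᵢ` first -/
macro "u12w " "[" ts:term,* "]" : tactic =>
  `(tactic| (apply U12.ext' <;> (try u12s) <;> (try simp only [$[$ts:term],*]) <;> cub))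

/-- the map induced by a compatible ring homomorphism -/
def map {ρ : J →+* J'} (h : Tc ρ) : U12 J →* U12 J' := MonoidHom.mk'
  (fun u => ⟨ρ u.p0, h.res u.p5, ρ u.p4, ρ u.p2, h.res u.p1, h.res u.p3⟩)
  (fun a b => by ext <;> simp [-T_ι_mul, -T_mul_ι, h.sh, h.cr])

section map
variable {ρ : J →+* J'} (h : Tc ρ) (u : U12 J)
@[simp] theorem map_p0 : (map h u).p0 = ρ u.p0 := rfl
@[simp] theorem map_p5 : (map h u).p5 = h.res u.p5 := rfl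
@[simp] theorem map_p4 : (map h u).p4 = ρ u.p4 := rfl
@[simp] theorem map_p2 : (map h u).p2 = ρ u.p2 := rfl
@[simp] theorem map_p1 : (map h u).p1 = h.res u.p1 := rfl
@[simp] theorem map_p3 : (map h u).p3 = h.res u.p3 := rfl
theorem map_g0 (a : J) : map h (g0 a) = g0 (ρ a) := by ext <;> simp [g0]
theorem map_g4 (a : J) : map h (g4 a) = g4 (ρ a) := by ext <;> simp [g4]
theorem map_g2 (a : J) : map h (g2 a) = g2 (ρ a) := by ext <;> simp [g2]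
theorem map_g5 (a : K) : map h (g5 a) = g5 (h.res a) := by ext <;> simp [g5]
theorem map_g1 (a : K) : map h (g1 a) = g1 (h.res a) := by ext <;> simp [g1]
theorem map_g3 (a : K) : map h (g3 a) = g3 (h.res a) := by ext <;> simp [g3]
theorem Bf_map (v : U12 J) : Bf (map h u) (map h v) = h.res (Bf u v) := by simp [Bf]
end map

/-- the torus element with weight `l` on the root `a` and `m` on the root `b` -/
def tor (l : J) (m : K) : U12 J →* U12 J := MonoidHom.mk'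
  (fun u => ⟨l * u.p0, m * u.p5, l * ι m * u.p4, sh l * ι m * u.p2, N l * m * u.p1,
    N l * m ^ 2 * u.p3⟩) (fun a b => by u12)

section tor
variable (l : J) (m : K) (u : U12 J)
@[simp] theorem tor_p0 : (tor l m u).p0 = l * u.p0 := rfl
@[simp] theorem tor_p5 : (tor l m u).p5 = m * u.p5 := rfl
@[simp] theorem tor_p4 : (tor l m u).p4 = l * ι m * u.p4 := rfl
@[simp] theorem tor_p2 : (tor l m u).p2 = sh l * ι m * u.p2 := rfl
@[simp] theorem tor_p1 : (tor l m u).p1 = N l * m * u.p1 := rfl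
@[simp] theorem tor_p3 : (tor l m u).p3 = N l * m ^ 2 * u.p3 := rfl
end tor

theorem eq_prod (u : U12 J) : u = g5 u.p5 * g4 u.p4 * g2 u.p2 * g1 u.p1 * g3 u.p3 * g0 u.p0 := by u12
theorem pow8 (u : U12 J) : u ^ 2 ^ 3 = 1 := by
  have h : u ^ 2 ^ 3 = u * u * (u * u) * (u * u * (u * u)) := by
    rw [show 2 ^ 3 = 1 + 1 + (1 + 1) + (1 + 1 + (1 + 1)) from rfl]; simp only [pow_add, pow_one]
  have h1 : ∀ v : U12 J, (v * v).p0 = 0 ∧ (v * v).p5 = 0 := fun v => by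
    constructor <;> simp [CharTwo.add_self_eq_zero]
  have h2 : ∀ v : U12 J, v.p0 = 0 → v.p5 = 0 → v * v * (v * v) = 1 := fun v a b => by
    u12w [a, b]
  have := h2 _ (h1 u).1 (h1 u).2
  rw [h, this]
theorem isP : IsPGroup 2 (U12 J) := fun u => ⟨3, pow8 u⟩
theorem g3_comm (a : K) (u : U12 J) : g3 a * u = u * g3 a := by u12
theorem comm_Q {u v : U12 J} (hu : u.p0 = 0) (hv : v.p0 = 0) : u * v = v * u * g3 (Bf u v) := by
  u12w [hu, hv]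
theorem sq_Q {u : U12 J} (hu : u.p0 = 0) : u * u = g3 (u.p5 * u.p1 + T (u.p4 * u.p2)) := by
  u12w [hu]
theorem na_mul {u v : U12 J} (hu : u.p0 = 0) (hv : v.p0 = 0) : na (u * v) = na u * na v := by
  u12w [hu, hv]
theorem na_na {u : U12 J} (hu : u.p0 = 0) : na (na u) = u := by
  u12w [hu]
theorem nb_mul {u v : U12 J} (hu : u.p5 = 0) (hv : v.p5 = 0) : nb (u * v) = nb u * nb v := by
  u12w [hu, hv]
theorem nb_nb {u : U12 J} (hu : u.p5 = 0) : nb (nb u) = u := by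
  u12w [hu]
theorem al5 (k : J) (l : K) : g0 k * g5 l * g0 k =
    (⟨0, l, ι l * k, ι l * sh k, l * N k, l ^ 2 * N k⟩ : U12 J) := by u12
theorem al4 (k l : J) : g0 k * g4 l * g0 k =
    (⟨0, 0, l, cr k l, T (sh k * l), T (k * sh l)⟩ : U12 J) := by u12
theorem al2 (k l : J) : g0 k * g2 l * g0 k = g2 l * g1 (T (k * l)) := by u12

variable (J)
/-- `O₂` of the long root parabolic -/
def Q : Subgroup (U12 J) where
  carrier := {u | u.p0 = 0}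
  mul_mem' ha hb := by simp_all
  one_mem' := rfl
  inv_mem' ha := ha
/-- the highest root subgroup -/
def Z : Subgroup (U12 J) where
  carrier := {u | u.p0 = 0 ∧ u.p5 = 0 ∧ u.p4 = 0 ∧ u.p2 = 0 ∧ u.p1 = 0}
  mul_mem' ha hb := by simp_all
  one_mem' := ⟨rfl, rfl, rfl, rfl, rfl⟩
  inv_mem' ha := by simp_all
/-- the root subgroups `1` and `3` -/
def EA : Subgroup (U12 J) where
  carrier := {u | u.p0 = 0 ∧ u.p5 = 0 ∧ u.p4 = 0 ∧ u.p2 = 0}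
  mul_mem' ha hb := by simp_all
  one_mem' := ⟨rfl, rfl, rfl, rfl⟩
  inv_mem' ha := by simp_all
/-- the root subgroups `2`, `1` and `3` -/
def E2 : Subgroup (U12 J) where
  carrier := {u | u.p0 = 0 ∧ u.p5 = 0 ∧ u.p4 = 0}
  mul_mem' ha hb := by simp_all
  one_mem' := ⟨rfl, rfl, rfl⟩
  inv_mem' ha := by simp_all
/-- the centraliser of `x₂(1)` -/
def R : Subgroup (U12 J) where
  carrier := {u | T u.p0 = 0 ∧ T u.p4 = 0}
  mul_mem' ha hb := by simp_all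
  one_mem' := ⟨map_zero _, map_zero _⟩
  inv_mem' ha := by simp_all
variable {J}
theorem mem_Q {u : U12 J} : u ∈ Q J ↔ u.p0 = 0 := Iff.rfl
theorem mem_Z {u : U12 J} : u ∈ Z J ↔ u.p0 = 0 ∧ u.p5 = 0 ∧ u.p4 = 0 ∧ u.p2 = 0 ∧ u.p1 = 0 := Iff.rfl
theorem mem_Z' {u : U12 J} : u ∈ Z J ↔ ∃ c, u = g3 c :=
  ⟨fun h => ⟨u.p3, by obtain ⟨a, b, c, d, e⟩ := h; ext <;> simp [g3, *]⟩,
    fun ⟨_, h⟩ => h ▸ ⟨rfl, rfl, rfl, rfl, rfl⟩⟩
theorem mem_EA {u : U12 J} : u ∈ EA J ↔ u.p0 = 0 ∧ u.p5 = 0 ∧ u.p4 = 0 ∧ u.p2 = 0 := Iff.rfl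
theorem mem_EA' {u : U12 J} : u ∈ EA J ↔ ∃ a c, u = g1 a * g3 c :=
  ⟨fun h => ⟨u.p1, u.p3, by obtain ⟨a, b, c, d⟩ := h; ext <;> simp [g1, g3, *]⟩,
    fun ⟨_, _, h⟩ => h ▸ by simp [mem_EA, g1, g3]⟩
theorem mem_E2 {u : U12 J} : u ∈ E2 J ↔ u.p0 = 0 ∧ u.p5 = 0 ∧ u.p4 = 0 := Iff.rfl
theorem mem_R {u : U12 J} : u ∈ R J ↔ T u.p0 = 0 ∧ T u.p4 = 0 := Iff.rfl
theorem R_comm {u : U12 J} (h : u ∈ R J) : u * g2 1 = g2 1 * u := by
  obtain ⟨a, b⟩ := h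
  ext <;> simp [g2, a, b, add_comm]

end U12
end H89.D4S
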